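import Cfsg.Agent.H9.GBF

/-! Binary coset actions: `Bin H` (the action on `G ⧸ H` is binary), the criterion `Tri` (`Bin.tri`, `Tri.cj`,
`Tri.pull`), the fixity lemma (`Tri.fix`, `Tri.ci`), `bin_of`, the strongly embedded subgroup (`exists_se`). -/

set_option autoImplicit false
set_option linter.unusedSectionVars false
set_option linter.unusedVariables false

namespace H4.Gs
open Subgroup Cfsg H18
open H9 (conj_sq conj_sq' conj_ne conj_ne')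
open H5 (A1 Suz exists_inv_of_even even_of_inv eq_one_of_odd odd_order_of_mem exists_sqrt exists_inv_comm)

universe u
variable {G : Type u} [Group G] {A B D H K L M N Q R U V W X : Subgroup G} {a b c d g k r s t u v w x y z : G}

/-- the action on the cosets of `H` is binary -/
def Bin (H : Subgroup G) : Prop := ∀ (n : ℕ) (I J : Fin n → G ⧸ H), 2 ≤ n →
  (∀ i j : Fin n, i ≠ j → ∃ g : G, g • I i = J i ∧ g • I j = J j) → ∃ g : G, ∀ i, g • I i = J i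

/-- consequence of binarity for the action of `L` on the cosets of `X` -/
def Tri (L X : Subgroup G) : Prop := ∀ (A₁ A₂ C : Set G) (a b : G), A₁ ⊆ L → A₂ ⊆ L → C ⊆ L → a ∈ L → b ∈ L →
  (∀ x ∈ A₁, x⁻¹ * a * x ∈ X) → (∀ x ∈ A₂, x⁻¹ * b * x ∈ X) → (∀ y ∈ C, y⁻¹ * (b⁻¹ * a) * y ∈ X) →
  ∃ g ∈ L, (∀ x ∈ A₁, x⁻¹ * g * x ∈ X) ∧ (∀ x ∈ A₂, x⁻¹ * g * x ∈ X) ∧ ∀ y ∈ C, y⁻¹ * (g⁻¹ * a) * y ∈ X

theorem smul_eq_iff : g • (x : G ⧸ H) = (y : G ⧸ H) ↔ x⁻¹ * (g⁻¹ * y) ∈ H := by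
  rw [H19.smul_mk, QuotientGroup.eq, mul_inv_rev, mul_assoc]

theorem smul_fix_iff : g • (x : G ⧸ H) = (x : G ⧸ H) ↔ x⁻¹ * g * x ∈ H := by
  rw [smul_eq_iff, ← H.inv_mem_iff]; simp [mul_assoc]

theorem Bin.fin (h : Bin H) {ι : Type*} [Finite ι] (I J : ι → G ⧸ H)
    (e : ∀ i j, ∃ g : G, g • I i = J i ∧ g • I j = J j) : ∃ g : G, ∀ i, g • I i = J i := by
  rcases isEmpty_or_nonempty ι with h0 | h0
  · exact ⟨1, fun i => h0.elim i⟩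
  obtain ⟨n, ⟨f⟩⟩ := Finite.exists_equiv_fin (ι × Fin 2)
  have : 2 ≤ n := by
    have := Nat.card_congr f
    rw [Nat.card_prod, Nat.card_eq_fintype_card (α := Fin 2), Nat.card_eq_fintype_card (α := Fin n),
      Fintype.card_fin, Fintype.card_fin] at this
    have := Nat.card_pos (α := ι)
    omega
  obtain ⟨g, hg⟩ := h n (fun i => I (f.symm i).1) (fun i => J (f.symm i).1) this fun i j _ => e _ _
  exact ⟨g, fun i => by simpa using hg (f (i, 0))⟩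

theorem Bin.tri [Finite G] (h : Bin H) : Tri ⊤ H := fun A₁ A₂ C a b _ _ _ _ _ h1 h2 h3 => by
  have e3 : ∀ y : C, b • ((y : G) : G ⧸ H) = (a * y : G) := fun y =>
    smul_eq_iff.2 (by simpa [mul_assoc] using h3 y y.2)
  obtain ⟨g, hg⟩ := h.fin (ι := (A₁ ⊕ A₂) ⊕ C)
    (Sum.elim (Sum.elim (fun x => ((x : G) : G ⧸ H)) fun x => ((x : G) : G ⧸ H)) fun y => ((y : G) : G ⧸ H))
    (Sum.elim (Sum.elim (fun x => ((x : G) : G ⧸ H)) fun x => ((x : G) : G ⧸ H)) fun y => ((a * y : G) : G ⧸ H)) (by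
      rintro ((x | x) | x) ((y | y) | y)
      exacts [⟨1, one_smul _ _, one_smul _ _⟩, ⟨1, one_smul _ _, one_smul _ _⟩, ⟨a, smul_fix_iff.2 (h1 x x.2), rfl⟩,
        ⟨1, one_smul _ _, one_smul _ _⟩, ⟨1, one_smul _ _, one_smul _ _⟩, ⟨b, smul_fix_iff.2 (h2 x x.2), e3 y⟩,
        ⟨a, rfl, smul_fix_iff.2 (h1 y y.2)⟩, ⟨b, e3 x, smul_fix_iff.2 (h2 y y.2)⟩, ⟨a, rfl, rfl⟩])
  exact ⟨g, trivial, fun x hx => smul_fix_iff.1 (hg (.inl (.inl ⟨x, hx⟩))),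
    fun x hx => smul_fix_iff.1 (hg (.inl (.inr ⟨x, hx⟩))),
    fun y hy => by simpa [mul_assoc] using smul_eq_iff.1 (hg (.inr ⟨y, hy⟩))⟩

theorem bin_of (h : ∀ x y z a b : G, x⁻¹ * a * x ∈ H → y⁻¹ * b * y ∈ H → z⁻¹ * (b⁻¹ * a) * z ∈ H →
    z⁻¹ * a * z ∈ H ∨ ∀ g, x⁻¹ * g * x ∈ H ↔ y⁻¹ * g * y ∈ H) : Bin H := fun n I J hn e => by
  have h' : ∀ (α β γ : G ⧸ H) (a b : G), a • α = α → b • β = β → b • γ = a • γ →
      a • γ = γ ∨ ∀ g : G, g • α = α ↔ g • β = β := by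
    rintro ⟨x⟩ ⟨y⟩ ⟨z⟩ a b h1 h2 h3
    exact (h x y z a b (smul_fix_iff.1 h1) (smul_fix_iff.1 h2) (by
      simpa [mul_assoc] using (smul_eq_iff (y := a * z)).1 h3)).imp smul_fix_iff.2
      fun c g => smul_fix_iff.trans ((c g).trans smul_fix_iff.symm)
  by_cases c : ∀ i j, ∀ g : G, g • I i = I i ↔ g • I j = I j
  · obtain ⟨g, hg, -⟩ := e ⟨0, by omega⟩ ⟨1, by omega⟩ (by simp)
    refine ⟨g, fun j => ?_⟩
    by_cases e0 : ⟨0, by omega⟩ = j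
    · exact e0 ▸ hg
    obtain ⟨a, h1, h2⟩ := e _ j e0
    have := (c _ j (g⁻¹ * a)).1 (by rw [mul_smul, h1, ← hg, inv_smul_smul])
    rw [mul_smul, h2, inv_smul_eq_iff] at this
    exact this.symm
  simp only [not_forall] at c
  obtain ⟨i, j, c⟩ := c
  rw [← not_forall] at c
  obtain ⟨g, hi, hj⟩ := e i j fun e => c (by simp [e])
  refine ⟨g, fun l => ?_⟩
  by_cases e0 : i = l
  · exact e0 ▸ hi
  by_cases e1 : j = l
  · exact e1 ▸ hj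
  obtain ⟨a, h1, h2⟩ := e _ l e0
  obtain ⟨b, h3, h4⟩ := e _ l e1
  have := (h' (I i) (I j) (I l) (g⁻¹ * a) (g⁻¹ * b) (by rw [mul_smul, h1, ← hi, inv_smul_smul])
    (by rw [mul_smul, h3, ← hj, inv_smul_smul]) (by rw [mul_smul, mul_smul, h2, h4])).resolve_right c
  rw [mul_smul, h2, inv_smul_eq_iff] at this
  exact this.symm

theorem bin_bot : Bin (⊥ : Subgroup G) := bin_of fun x y z a b h _ _ => .inl (by
  rw [mem_bot, mul_assoc, inv_mul_eq_one, right_eq_mul] at h ⊢; exact h)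

theorem Tri.pull {G' : Type*} [Group G'] {H : Subgroup G'} (h : Tri ⊤ H) (φ : G → G')
    (hm : ∀ x ∈ L, ∀ y ∈ L, φ (x * y) = φ x * φ y) (hs : ∀ g', ∃ g ∈ L, φ g = g')
    (hX : ∀ x ∈ L, x ∈ X ↔ φ x ∈ H) : Tri L X := fun A₁ A₂ C a b s1 s2 s3 ha hb h1 h2 h3 => by
  have h1' : φ 1 = 1 := by simpa using hm 1 (one_mem _) 1 (one_mem _)
  have hi : ∀ x ∈ L, φ x⁻¹ = (φ x)⁻¹ := fun x hx =>
    eq_inv_of_mul_eq_one_left (by rw [← hm _ (inv_mem hx) _ hx, inv_mul_cancel, h1'])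
  have k : ∀ x ∈ L, ∀ g ∈ L, x⁻¹ * g * x ∈ X ↔ (φ x)⁻¹ * φ g * φ x ∈ H := fun x hx g hg => by
    rw [hX _ (mul_mem (mul_mem (inv_mem hx) hg) hx), hm _ (mul_mem (inv_mem hx) hg) _ hx, hm _ (inv_mem hx) _ hg,
      hi _ hx]
  have k2 : ∀ x ∈ L, ∀ g ∈ L, φ (g⁻¹ * x) = (φ g)⁻¹ * φ x := fun x hx g hg => by
    rw [hm _ (inv_mem hg) _ hx, hi _ hg]
  obtain ⟨g', -, e1, e2, e3⟩ := h (φ '' A₁) (φ '' A₂) (φ '' C) (φ a) (φ b) (fun _ _ => trivial) (fun _ _ => trivial)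
    (fun _ _ => trivial) trivial trivial (by rintro _ ⟨x, hx, rfl⟩; exact (k x (s1 hx) a ha).1 (h1 x hx))
    (by rintro _ ⟨x, hx, rfl⟩; exact (k x (s2 hx) b hb).1 (h2 x hx)) (by
      rintro _ ⟨x, hx, rfl⟩; rw [← k2 a ha b hb]; exact (k x (s3 hx) _ (mul_mem (inv_mem hb) ha)).1 (h3 x hx))
  obtain ⟨g, hg, rfl⟩ := hs g'
  exact ⟨g, hg, fun x hx => (k x (s1 hx) g hg).2 (e1 _ ⟨x, hx, rfl⟩), fun x hx => (k x (s2 hx) g hg).2 (e2 _ ⟨x, hx, rfl⟩),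
    fun x hx => (k x (s3 hx) _ (mul_mem (inv_mem hg) ha)).2 (by rw [k2 a ha g hg]; exact e3 _ ⟨x, hx, rfl⟩)⟩

theorem Tri.comap {G' : Type*} [Group G'] {H : Subgroup G'} (h : Tri ⊤ H) (f : G →* G') (hf : Function.Surjective f) :
    Tri ⊤ (H.comap f) :=
  h.pull f (fun x _ y _ => map_mul f x y) (fun g => let ⟨x, e⟩ := hf g; ⟨x, trivial, e⟩) fun _ _ => Iff.rfl

theorem Tri.cj (h : Tri L X) (hg : g ∈ L) : Tri L (cj g X) := fun A₁ A₂ C a b s1 s2 s3 ha hb h1 h2 h3 => by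
  have k : ∀ x c : G, x⁻¹ * c * x ∈ H18.cj g X ↔ (x * g)⁻¹ * c * (x * g) ∈ X := fun x c => by
    rw [mem_cj]; simp only [mul_assoc, mul_inv_rev]
  have s : ∀ {A : Set G}, A ⊆ L → (· * g) '' A ⊆ L := fun s => by rintro _ ⟨x, hx, rfl⟩; exact mul_mem (s hx) hg
  obtain ⟨c, hc, e1, e2, e3⟩ := h _ _ _ a b (s s1) (s s2) (s s3) ha hb
    (by rintro _ ⟨x, hx, rfl⟩; exact (k x _).1 (h1 x hx)) (by rintro _ ⟨x, hx, rfl⟩; exact (k x _).1 (h2 x hx))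
    (by rintro _ ⟨x, hx, rfl⟩; exact (k x _).1 (h3 x hx))
  exact ⟨c, hc, fun x hx => (k x _).2 (e1 _ ⟨x, hx, rfl⟩), fun x hx => (k x _).2 (e2 _ ⟨x, hx, rfl⟩),
    fun x hx => (k x _).2 (e3 _ ⟨x, hx, rfl⟩)⟩

/-- three points -/
theorem Tri.three (h : Tri L X) (hx : x ∈ L) (hy : y ∈ L) (hz : z ∈ L) (ha : a ∈ L) (hb : b ∈ L)
    (h1 : x⁻¹ * a * x ∈ X) (h2 : y⁻¹ * b * y ∈ X) (h3 : z⁻¹ * (b⁻¹ * a) * z ∈ X) :
    ∃ g ∈ L, x⁻¹ * g * x ∈ X ∧ y⁻¹ * g * y ∈ X ∧ z⁻¹ * (g⁻¹ * a) * z ∈ X := by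
  obtain ⟨g, hg, e1, e2, e3⟩ := h {x} {y} {z} a b (by simpa) (by simpa) (by simpa) ha hb (by simpa) (by simpa)
    (by simpa)
  exact ⟨g, hg, e1 x rfl, e2 y rfl, e3 z rfl⟩

/-- the Frobenius configuration -/
theorem Tri.frob (h : Tri L X) (hX : X ≤ L) (ht : t ∈ L) (hd : d ∈ X) (hd' : t⁻¹ * d * t ∈ X) (hy : y ∈ X)
    (c : y * (d * y * d⁻¹) = d * y * d⁻¹ * y) : ∃ g ∈ X, t⁻¹ * g * t ∈ X ∧
      t⁻¹ * ((d * y⁻¹ * d⁻¹)⁻¹ * g * (d * y⁻¹ * d⁻¹)) * t ∈ X ∧ t⁻¹ * (y⁻¹ * (g⁻¹ * (d * d)) * y) * t ∈ X := by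
  have hx : d * y⁻¹ * d⁻¹ ∈ X := mul_mem (mul_mem hd (inv_mem hy)) (inv_mem hd)
  have hb : d * y⁻¹ * d⁻¹ * d * (d * y⁻¹ * d⁻¹)⁻¹ ∈ X := mul_mem (mul_mem hx hd) (inv_mem hx)
  obtain ⟨g, hg, e1, e2, e3⟩ := h {1, t} {1, d * y⁻¹ * d⁻¹ * t} {y * t} (d * d) _
    (by rintro _ (rfl | rfl); exacts [one_mem L, ht]) (by rintro _ (rfl | rfl); exacts [one_mem L, mul_mem (hX hx) ht])
    (by rintro _ rfl; exact mul_mem (hX hy) ht) (hX (mul_mem hd hd)) (hX hb)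
    (by
      rintro _ (rfl | rfl)
      · simpa using mul_mem hd hd
      · simpa [mul_assoc] using mul_mem hd' hd')
    (by
      rintro _ (rfl | rfl)
      · simpa using hb
      · simpa [mul_assoc] using hd')
    (by
      rintro _ rfl
      rw [show (y * t)⁻¹ * ((d * y⁻¹ * d⁻¹ * d * (d * y⁻¹ * d⁻¹)⁻¹)⁻¹ * (d * d)) * (y * t) =
        t⁻¹ * ((d * y * d⁻¹ * y)⁻¹ * y * d * y) * t by group, ← c]
      simpa [mul_assoc] using hd')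
  exact ⟨g, by simpa using e1 1 (.inl rfl), e1 t (.inr rfl), by simpa [mul_assoc] using e2 _ (.inr rfl),
    by simpa [mul_assoc] using e3 _ rfl⟩

variable [Finite G]

/-- the fixed points of `g` on the cosets of `X` in `R` -/
def Fx (R X : Subgroup G) (g : G) : Set G := {x | x ∈ R ∧ x⁻¹ * g * x ∈ X}

theorem ncard_Fx_conj (hg : g ∈ R) : (Fx R X (g * a * g⁻¹)).ncard = (Fx R X a).ncard := by
  rw [← Set.ncard_image_of_injective (Fx R X a) (mul_right_injective g)]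
  congr 1
  ext x
  exact ⟨fun h => ⟨g⁻¹ * x, ⟨mul_mem (inv_mem hg) h.1, by simpa [mul_assoc] using h.2⟩, by simp⟩, by
    rintro ⟨y, hy, rfl⟩; exact ⟨mul_mem hg hy.1, by simpa [mul_assoc] using hy.2⟩⟩

theorem Fx_pow (n : ℕ) : Fx R X a ⊆ Fx R X (a ^ n) := fun x hx =>
  ⟨hx.1, by
    have := pow_mem (show x⁻¹ * a * x⁻¹⁻¹ ∈ X by simpa using hx.2) n
    rwa [conj_pow, inv_inv] at this⟩

/-- the fixity lemma -/
theorem Tri.fix (h : Tri L X) (hR : R ≤ L) (hX : X ≤ R) (ha : a ∈ R) (hb : b ∈ R) {j : ℕ} (a2 : a ^ 2 ^ j = 1)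
    (hC : ∀ y ∈ Fx R X (b⁻¹ * a), a * y ∈ Fx R X (b⁻¹ * a)) {n : ℕ} (h1 : (Fx R X a).ncard = n)
    (h2 : (Fx R X b).ncard = n) (h3 : (Fx R X (b⁻¹ * a)).ncard = n)
    (hm : ∀ g ∈ R, ∀ k, g ^ 2 ^ k = 1 → Fx R X g ≠ R → (Fx R X g).ncard ≤ n) : Fx R X a = Fx R X b := by
  by_cases c : Fx R X (b⁻¹ * a) ⊆ Fx R X a
  · have c' : Fx R X (b⁻¹ * a) ⊆ Fx R X b := fun y hy =>
      ⟨hy.1, by simpa [mul_assoc] using mul_mem (c hy).2 (inv_mem hy.2)⟩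
    rw [← Set.eq_of_subset_of_ncard_le c (by omega), Set.eq_of_subset_of_ncard_le c' (by omega)]
  obtain ⟨y, hy, c⟩ := Set.not_subset.1 c
  obtain ⟨x, hx⟩ : (Fx R X a).Nonempty :=
    (Set.ncard_pos (Set.toFinite _)).1 (by rw [h1, ← h3]; exact (Set.ncard_pos (Set.toFinite _)).2 ⟨y, hy⟩)
  obtain ⟨g, -, e1, e2, e3⟩ := h (Fx R X a) (Fx R X b) (Fx R X (b⁻¹ * a)) a b (fun _ h => hR h.1) (fun _ h => hR h.1)
    (fun _ h => hR h.1) (hR ha) (hR hb) (fun _ h => h.2) (fun _ h => h.2) fun _ h => h.2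
  have hg : g ∈ R := by simpa [mul_assoc] using mul_mem (mul_mem hx.1 (hX (e1 x hx))) (inv_mem hx.1)
  obtain ⟨k, m, hm', e⟩ := Nat.exists_eq_two_pow_mul_odd (orderOf_pos g).ne'
  have key : ∀ i : ℕ, ∀ y ∈ Fx R X (b⁻¹ * a), y⁻¹ * ((g ^ i)⁻¹ * a ^ i) * y ∈ X := fun i => by
    induction i with
    | zero => intro y _; simp
    | succ i ih =>
      intro y hy
      simpa [pow_succ, mul_assoc] using mul_mem (e3 y hy) (ih _ (hC y hy))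
  have am : a ∈ zpowers (a ^ m) := mem_zpowers_pow_iff.2 (Nat.Coprime.coprime_dvd_right (orderOf_dvd_of_pow_eq_one a2)
    (Nat.Coprime.pow_right _ (Nat.coprime_two_right.2 hm')))
  have s : Fx R X a ∪ Fx R X b ⊆ Fx R X (g ^ m) := fun z hz =>
    Fx_pow m (hz.elim (fun h => ⟨h.1, e1 z h⟩) fun h => ⟨h.1, e2 z h⟩)
  have l := hm _ (pow_mem hg m) k (by rw [← pow_mul, mul_comm, ← e, pow_orderOf_eq_one]) fun e => c ⟨hy.1, by
    have h4 : y⁻¹ * a ^ m * y ∈ X := by simpa [mul_assoc] using mul_mem (e.ge hy.1).2 (key m y hy)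
    exact mem_cj.1 (zpowers_le.2 (mem_cj.2 h4) am)⟩
  have l' := (Set.ncard_le_ncard s).trans l
  rw [Set.eq_of_subset_of_ncard_le Set.subset_union_left (l'.trans h1.ge),
    ← Set.eq_of_subset_of_ncard_le Set.subset_union_right (l'.trans h2.ge)]

theorem exists_inv_pow {k : ℕ} (h : g ^ 2 ^ k = 1) (g1 : g ≠ 1) : ∃ n : ℕ, g ^ n * g ^ n = 1 ∧ g ^ n ≠ 1 := by
  induction k with
  | zero => exact absurd (by simpa using h) g1
  | succ k ih =>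
    by_cases e : g ^ 2 ^ k = 1
    · exact ih e
    · exact ⟨_, by rw [← pow_add, ← two_mul, ← pow_succ', h], e⟩

/-- `X` contains the involutions commuting with one of its involutions -/
def CIv (L X : Subgroup G) : Prop := ∀ a ∈ X, ∀ b ∈ L, a * a = 1 → a ≠ 1 → b * b = 1 → a * b = b * a → b ∈ X

theorem Tri.ci (h : Tri L X) (hX : X ≤ L)
    (o : ∀ u ∈ L, u * u = 1 → u ≠ 1 → ∀ v ∈ L, v * v = 1 → v ≠ 1 → ∃ g ∈ L, g * u * g⁻¹ = v) : CIv L X :=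
  fun a ha b hb a2 a1 b2 c => by
  by_cases b1 : b = 1
  · exact b1 ▸ one_mem X
  by_cases ab : b⁻¹ * a = 1
  · exact inv_mul_eq_one.1 ab ▸ ha
  have k : ∀ v ∈ L, v * v = 1 → v ≠ 1 → (Fx L X v).ncard = (Fx L X a).ncard := fun v hv v2 v1 => by
    obtain ⟨g, hg, rfl⟩ := o a (hX ha) a2 a1 v hv v2 v1
    exact ncard_Fx_conj hg
  have bi := H9.inv_eq_of_mul_self b2
  have := h.fix le_rfl hX (hX ha) hb (j := 1) (by simpa [sq] using a2) (fun y hy => ⟨mul_mem (hX ha) hy.1, by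
      rw [bi, show (a * y)⁻¹ * (b * a) * (a * y) = y⁻¹ * (a⁻¹ * (b * a) * a) * y by group, ← c, inv_mul_cancel_left, ← bi]
      exact hy.2⟩) rfl (k b hb b2 b1)
    (k _ (mul_mem (inv_mem hb) (hX ha)) (by rw [bi, mul_assoc, ← mul_assoc a, c, mul_assoc, a2, mul_one, b2]) ab)
    fun g hg j e ne => by
      obtain ⟨n, e2, e1⟩ := exists_inv_pow e (by rintro rfl; exact ne (Set.ext fun x => by simp [Fx]))
      exact (Set.ncard_le_ncard (Fx_pow n)).trans (k _ (pow_mem hg n) e2 e1).le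
  simpa using (this.le ⟨one_mem L, by simpa using ha⟩).2

theorem CIv.cj (h : CIv L X) (hg : g ∈ L) : CIv L (cj g X) := fun a ha b hb a2 a1 b2 c =>
  mem_cj.2 (h _ (mem_cj.1 ha) _ (mul_mem (mul_mem (inv_mem hg) hb) hg) (conj_sq' a2 g) (conj_ne' a1 g) (conj_sq' b2 g)
    (by rw [show g⁻¹ * a * g * (g⁻¹ * b * g) = g⁻¹ * (a * b) * g by group, c]; group))

theorem exists_se [IsSimpleGroup G] (h : CIv ⊤ X) (hX : X ≠ ⊤) (he : Even (Nat.card X))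
    (o : ∀ u v : G, u * u = 1 → u ≠ 1 → v * v = 1 → v ≠ 1 → ∃ g, g * u * g⁻¹ = v) :
    ∃ M : Subgroup G, IsStronglyEmbedded M := by
  obtain ⟨s, hs, s2, s1⟩ := exists_inv_of_even he
  let N : Subgroup G :=
    { carrier := {g | Fx ⊤ X s ⊆ Fx ⊤ X g}
      one_mem' := fun x _ => ⟨trivial, by simp⟩
      mul_mem' := fun ha hb x hx => ⟨trivial, by simpa [mul_assoc] using mul_mem (ha hx).2 (hb hx).2⟩
      inv_mem' := fun ha x hx => ⟨trivial, by simpa [mul_assoc] using inv_mem (ha hx).2⟩ }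
  have sN : s ∈ N := fun _ h => h
  have k1 : ∀ i ∈ N, i * i = 1 → i ≠ 1 → Fx ⊤ X s = Fx ⊤ X i := fun i hi i2 i1 => by
    obtain ⟨g, rfl⟩ := o s i s2 s1 i2 i1
    exact Set.eq_of_subset_of_ncard_le hi (ncard_Fx_conj (mem_top g)).le
  have k2 : ∀ i ∈ N(N), i * i = 1 → i ∈ N := fun i hi i2 x hx => by
    obtain ⟨w, hw, w2, w1, c⟩ := exists_inv_comm i2 hi (even_of_inv sN s2 s1)
    exact ⟨trivial, mem_cj.1 (h.cj (g := x) trivial w (mem_cj.2 (hw hx).2) i trivial w2 w1 i2 c)⟩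
  refine ⟨N(N), sein_top.1 ⟨lt_top_iff_ne_top.2 fun e => ?_, even_of_inv (le_N sN) s2 s1, fun g _ hg x hx e x2 =>
    by_contra fun x1 => hg (inv_mem_iff.1 (mem_N_of_finite fun n hn y hy => ⟨trivial, ?_⟩))⟩⟩
  · obtain ⟨t, t2, ht⟩ := H19.exists_inv_not_mem hX (he.trans_dvd (card_subgroup_dvd_card X))
    exact ht (by simpa using (k2 t (e ▸ trivial) t2 (a := 1) ⟨trivial, by simpa using hs⟩).2)
  · rw [k1 _ (k2 _ e (conj_sq' x2 g)) (conj_sq' x2 g) (conj_ne' x1 g)] at hy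
    have : g * y ∈ Fx ⊤ X s := by
      rw [k1 _ (k2 _ hx x2) x2 x1]; exact ⟨trivial, by simpa [mul_assoc] using hy.2⟩
    simpa [mul_assoc] using (hn this).2

/-- subgroups of self-centralizing abelian subgroups: products of conjugates commute -/
theorem Tri.comm (h : Tri L X) (hA : X ≤ A) (ab : ∀ x ∈ A, ∀ y ∈ A, x * y = y * x)
    (ca : ∀ x ∈ A, ∀ g ∈ L, g * x = x * g → g ∈ A ∨ ∀ g ∈ L, g * x = x * g) (hX : X ≤ L) (hu : u ∈ L) (hv : v ∈ L)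
    (ha : a ∈ L) (h1 : u⁻¹ * a * u ∈ X) (hb : b ∈ X) (h3 : v⁻¹ * (b⁻¹ * a) * v ∈ X) : a * b = b * a := by
  obtain ⟨g, hg, e1, e2, e3⟩ := h.three hu (one_mem L) hv ha (hX hb) h1 (by simpa using hb) h3
  rw [inv_one, one_mul, mul_one] at e2
  have cj : ∀ {v p q : G}, v⁻¹ * p * v * (v⁻¹ * q * v) = v⁻¹ * q * v * (v⁻¹ * p * v) → p * q = q * p :=
    fun {v p q} e => by
    simpa using (show v⁻¹ * (p * q) * v = v⁻¹ * (q * p) * v by simpa only [mul_assoc, mul_inv_cancel_left] using e)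
  rcases ca g (hA e2) a ha (cj (ab _ (hA h1) _ (hA e1))) with e | e
  · exact ab _ e _ (hA hb)
  have := cj (ab _ (hA e3) _ (hA h3))
  have c : Commute (g⁻¹ * a) (b⁻¹ * a) := this
  have c2 : Commute g (b⁻¹ * a) := (e _ (mul_mem (inv_mem (hX hb)) ha)).symm
  simpa using ((Commute.refl a).mul_right (by simpa using (c2.mul_left c).inv_right : Commute a (a⁻¹ * b))).eq
end H4.Gs
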