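import Cfsg.Agent.H4.Bin

/-! Binary actions of groups with a rank one structure: `bin_U`, `pair`, `third`, `le_cent` (the Frobenius step),
the Zassenhaus case `Zs` (`Zs.ev`, `Zs.od`), and `zs_cases`. -/

set_option autoImplicit false
set_option linter.unusedSectionVars false
set_option linter.unusedVariables false

namespace H4.Gs
open Subgroup Cfsg H18
open H9 (conj_sq conj_sq' conj_ne conj_ne' BS)
open H5 (A1 Suz exists_inv_of_even even_of_inv eq_one_of_odd odd_order_of_mem exists_sqrt exists_inv_comm)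

universe u
variable {G : Type u} [Group G] [Finite G] {A B D H K L M N Q R U V W X : Subgroup G}
  {a b c d f g i k r s t u v w x y z : G}

theorem bin_U (h : A1 ⊤ B Q D t) (hU : ∀ x, x ∈ U ↔ x ∈ Q ∧ x * x = 1) : Bin U := bin_of fun x y z a b h1 h2 h3 => by
  have n : ∀ g ∈ B, ∀ x ∈ U, g⁻¹ * x * g ∈ U := fun g hg x hx =>
    (hU _).2 ⟨conj_mem' h.nQ hg ((hU x).1 hx).1, conj_sq' ((hU x).1 hx).2 g⟩
  have a2 : a * a = 1 := by simpa [mul_assoc] using conj_sq ((hU _).1 h1).2 x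
  have b2 : b * b = 1 := by simpa [mul_assoc] using conj_sq ((hU _).1 h2).2 y
  by_cases c : b⁻¹ * a = 1
  · obtain rfl := inv_mul_eq_one.1 c
    by_cases b1 : b = 1
    · exact .inl (by simp [b1])
    have : x⁻¹ * y ∈ B := h.mem_H trivial ((hU _).1 h1).1 (conj_ne' b1 x) (by
      simpa [mul_assoc] using h.leQ ((hU _).1 h2).1)
    exact .inr fun g => ⟨fun e => by simpa [mul_assoc] using n _ this _ e,
      fun e => by simpa [mul_assoc] using n _ (inv_mem this) _ e⟩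
  have c2 : b⁻¹ * a * (b⁻¹ * a) = 1 := by simpa [mul_assoc] using conj_sq ((hU _).1 h3).2 z
  refine .inl ((hU _).2 ⟨h.inv_mem_Q (h.mem_H_of_comm trivial ((hU _).1 h3).1 (conj_ne' c z) ?_) (conj_sq' a2 z),
    conj_sq' a2 z⟩)
  rw [H9.inv_eq_of_mul_self b2] at c2 ⊢
  have : a * (b * a) = b := by rw [← inv_mul_cancel_left b (a * _), ← mul_assoc b, c2, mul_one, H9.inv_eq_of_mul_self b2]
  rw [show z⁻¹ * a * z * (z⁻¹ * (b * a) * z) = z⁻¹ * (a * (b * a)) * z by group, this,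
    show z⁻¹ * (b * a) * z * (z⁻¹ * a * z) = z⁻¹ * (b * (a * a)) * z by group, a2, mul_one]

theorem exists_inv_conj' (s2 : s * s = 1) (v2 : v * v = 1) (o : Odd (orderOf (s * v))) (hs : s ∈ X) (hv : v ∈ X) :
    ∃ u ∈ X, u * u = 1 ∧ u * s * u = v := by
  obtain ⟨n, e⟩ := exists_sqrt o
  have i := H5.inverts_pow (t := s) (x := s * v) (by
    rw [mul_inv_rev, H9.inv_eq_of_mul_self s2, H9.inv_eq_of_mul_self v2, ← mul_assoc, s2, one_mul]) s2 n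
  refine ⟨s * (s * v) ^ n, mul_mem hs (pow_mem (mul_mem hs hv) n), by rw [← mul_assoc, i, inv_mul_cancel], ?_⟩
  rw [mul_assoc, ← mul_assoc s s, s2, one_mul, mul_assoc, e, ← mul_assoc, s2, one_mul]

theorem two_elt {j : ℕ} (h : x ^ 2 ^ j = 1) : PiElt {2} x :=
  (piNat_pow_self Nat.prime_two j).of_dvd (orderOf_dvd_of_pow_eq_one h)

section suz
variable (h : Suz L B Q D K V W U t s)
include h

theorem pair (h1 : U ≤ X) (h2 : cj t U ≤ X) : t ∈ X ∧ K ≤ X := by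
  have key : ∀ k ∈ K, k * t ∈ X := fun k hk => by
    have hs' := conj_mem' h.nQ₀D (h.leK hk) h.sQ₀
    have e0 : t * (k⁻¹ * s * k) * t = t * (k⁻¹ * s * k) * t⁻¹ := by rw [h.ti]
    obtain ⟨u, hu, u2, e⟩ := exists_inv_conj' (X := X ⊓ L) (v := t * (k⁻¹ * s * k) * t) h.ss
      (e0 ▸ conj_sq (h.sq₀ hs') t)
      (h.odd_mul h.sH h.ss h.s_ne (mul_mem (mul_mem h.tL (h.leQL (h.leQ₀ hs'))) h.tL) (e0 ▸ conj_sq (h.sq₀ hs') t)
        fun e => conj_ne' h.s_ne k (h.Qt (h.leQ₀ hs') e)) ⟨h1 h.sQ₀, h.leQL h.sQ⟩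
      ⟨e0 ▸ h2 (conj_mem_cj hs'), mul_mem (mul_mem h.tL (h.leQL (h.leQ₀ hs'))) h.tL⟩
    have ui := H9.inv_eq_of_mul_self u2
    have e2 : (u * t)⁻¹ * s * (u * t) = k⁻¹ * s * k := by
      rw [mul_inv_rev, ui, h.ti, show t * u * s * (u * t) = t * (u * s * u) * t by group, e]
      simp [mul_assoc, h.tt', h.tt]
    have hH : u * t ∈ B := h.mem_H (mul_mem hu.2 h.tL) h.sQ h.s_ne (e2 ▸ h.leQ₀H hs')
    have i : t * (u * t) * t = (u * t)⁻¹ := by simp [mul_assoc, h.tt, ui, h.ti]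
    rw [← h.K_inj h.sH h.ss h.s_ne (h.mem_D.2 ⟨hH, i ▸ inv_mem hH⟩) i (h.leK hk) (h.invK hk) e2, h.tt'']
    exact hu.1
  have ht : t ∈ X := by simpa using key 1 (one_mem K)
  exact ⟨ht, fun k hk => (mul_mem_cancel_right ht).1 (key k hk)⟩

theorem third (h1 : U ≤ X) (h2 : cj t U ≤ X) (hy : y ∈ Q) (h3 : cj (y * t) U ≤ X) (hk : k ∈ K) :
    y * (k * y⁻¹ * k⁻¹) ∈ X := by
  have := (pair h (X := cj y⁻¹ X) (le_cj_iff.2 (by rwa [inv_inv, cj_eq_self (h.nQ₀ (h.leQ hy))]))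
    (le_cj_iff.2 (by rwa [inv_inv, cj_cj]))).2 hk
  simpa [mul_assoc] using mul_mem (mem_cj.1 this) (inv_mem ((pair h h1 h2).2 hk))

theorem exists_le (c : CIv L X) (hX : X ≤ L) (he : Even (Nat.card X)) : ∃ g ∈ L, U ≤ cj g X := by
  obtain ⟨i, hi, i2, i1⟩ := exists_inv_of_even he
  obtain ⟨g, hg, e⟩ := h.conj_inv (hX hi) i2 i1 (h.leQL h.sQ) h.ss h.s_ne
  exact ⟨g, hg, fun u hu => c.cj hg s (e ▸ conj_mem_cj hi) u (h.leQL (h.leQ₀ hu)) h.ss h.s_ne (h.sq₀ hu)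
    (comm_of_cent h.Q₀_cent hu h.sQ).symm⟩

theorem exists_le2 (hX : X ≤ L) (h1 : U ≤ X) (hB : ¬ X ≤ B) : ∃ g ∈ Q, U ≤ cj g X ∧ cj t U ≤ cj g X := by
  obtain ⟨x, hx, xB⟩ := SetLike.not_le_iff_exists.1 hB
  obtain ⟨y, hy, b, hb, rfl⟩ := h.bruhat' (hX hx) xB
  refine ⟨y⁻¹, inv_mem hy, le_cj_iff.2 (by rwa [inv_inv, cj_eq_self (h.nQ₀ (h.leQ hy))]), le_cj_iff.2 ?_⟩
  rw [inv_inv, cj_cj, ← cj_eq_self (h.nQ₀ hb), cj_cj]
  exact cj_le_of_mem h1 hx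

theorem exists_cj_D (h2 : PiGrp {2} Q) {p : ℕ} (hp : p.Prime) (p2 : p ≠ 2) (hx : x ∈ B) (px : PiElt {p} x) :
    ∃ g ∈ B, g * x * g⁻¹ ∈ D := by
  obtain ⟨P, hP⟩ := exists_sylow hp D
  obtain ⟨n, e⟩ := h2.card_eq_pow
  obtain ⟨g, hg, e⟩ := sylow_le_cj hp (hP.of_idx h.leD (by
    rw [h.sd.relIndex', e, piNat_compl_iff hp]
    exact fun c => p2 ((Nat.prime_dvd_prime_iff_eq hp Nat.prime_two).1 (hp.dvd_of_dvd_pow c)))) px.zpowers
    (zpowers_le.2 hx)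
  exact ⟨g, hg, hP.le (e (conj_mem_cj (mem_zpowers x)))⟩

/-- the Frobenius step -/
theorem le_cent (h2 : PiGrp {2} Q) (hV : ∀ d ∈ D, ∀ u ∈ U, u ≠ 1 → d * u = u * d → d ∈ C(U))
    (hT : ∀ d ∈ D, t * d * t ∈ zpowers d) (T : Tri L X) (h1 : U ≤ X) (hB : X ≤ B) : X ≤ C(U) :=
  le_of_pElts fun p hp x hx px => by
  by_cases p2 : p = 2
  · subst p2
    exact cent_symm h.Q₀_cent (h.two_le_Q (zpowers_le.2 (hB hx)) px.zpowers (mem_zpowers x))
  obtain ⟨g, hg, hd⟩ := exists_cj_D h h2 hp p2 (hB hx) px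
  have B' : cj g X ≤ B := cj_le_of_mem hB hg
  suffices g * x * g⁻¹ ∈ C(U) by simpa [mul_assoc] using conj_mem_N' (norm_C h.nQ₀ hg) this
  have dX : g * x * g⁻¹ ∈ cj g X := conj_mem_cj hx
  generalize g * x * g⁻¹ = d at hd dX
  refine mem_C.2 fun y hy => by_contra fun ne => ?_
  have hy' := conj_mem h.nQ₀D hd hy
  obtain ⟨c, hc, e1, e2, e3⟩ := (T.cj (h.leH hg)).frob (B'.trans h.leH) h.tL dX (by rw [h.ti]; exact zpowers_le.2 dX (hT d hd))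
    (cj_mono h1 ((cj_eq_self (h.nQ₀ hg)).ge hy)) (comm_of_cent h.elem₀.abel hy hy')
  rw [h.ti] at e1 e2 e3
  have cD := h.mem_D.2 ⟨B' hc, B' e1⟩
  have hx' := conj_mem h.nQ₀D hd (inv_mem hy)
  have cU := hV c cD _ hx' (conj_ne (by rintro e; exact ne (by simp [inv_eq_one.1 e])) d)
    (h.comm_of_fix cD (h.leQ₀ hx') (B' e2))
  have := h.comm_of_fix (mul_mem (inv_mem cD) (mul_mem hd hd)) (h.leQ₀ hy) (B' e3)
  rw [← mul_assoc y, mem_C.1 (inv_mem cU) y hy, mul_assoc, mul_assoc c⁻¹, mul_right_inj] at this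
  obtain ⟨n, e⟩ := exists_sqrt (h.oddD hd)
  have c : Commute (d * d) y := this
  exact ne (by rw [← e, ← (Commute.refl d).mul_pow]; exact (c.pow_left n).eq.symm)
end suz

/-- the Zassenhaus case: `L₂(2^n)` or `Sz(2^n)` -/
structure Zs (L B Q K U : Subgroup G) (t s r : G) : Prop extends BS L B Q K K ⊥ ⊥ U t s where
  rQ : r ∈ Q
  er : t * s * t = r⁻¹ * t * r
  alt : Q = U ∨ (r * r = s ∧ Nat.card Q = Nat.card U ^ 2)

namespace Zs
variable (h : Zs L B Q K U t s r)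
include h

theorem cen (hg : g ∈ L) (hi : i ∈ Q) (i1 : i ≠ 1) (e : g * i = i * g) (i2 : i * i = 1) : g ∈ Q := by
  obtain ⟨y, hy, k, hk, rfl⟩ := h.sd.mem_iff.1 (h.mem_H_of_comm hg hi i1 e)
  rw [← mul_assoc, h.inv_comm (h.leQ hi) i2 hy, mul_assoc, mul_assoc, mul_right_inj] at e
  rw [h.K_eq_one (h.leQ hi) i2 i1 hk (h.invK hk) e, mul_one]; exact hy

theorem one (hx : x ∈ Q) (o : Odd (orderOf x)) : x = 1 := (h.two.elt hx).eq_one' (H5.piNat_two_compl.2 o)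

theorem rU (e : r * r = s) : r ∉ U := fun c => h.s_ne (e.symm.trans (h.sq₀ c))

theorem le_of (e : r * r = s) (c : Nat.card Q = Nat.card U ^ 2) (h1 : U ≤ X) (hx : x ∈ X) (xQ : x ∈ Q) (xU : x ∉ U)
    (hy : y ∈ Q) (yU : y ∉ U) : ∃ k ∈ K, y ∈ cj k X := by
  obtain ⟨k, hk, e⟩ := h.trans_quo c xQ xU hy yU
  exact ⟨k, hk, (mul_mem_cancel_left (inv_mem (conj_mem_cj hx))).1
    (cj_mono h1 ((cj_eq_self (h.nQ₀D hk)).ge e))⟩

theorem not_five (e : r * r = s) (c : Nat.card Q = Nat.card U ^ 2) (T : Tri L X) (h1 : U ≤ X) (hB : X ≤ Q)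
    (hr : r ∈ X) : False := by
  have rL := h.leQL h.rQ
  have sL := h.leQL h.sQ
  have e1 : r * t * (r * t) = s * t * s⁻¹ := by
    rw [show r * t * (r * t) = r * r * (r⁻¹ * t * r) * t by group, ← h.er, e, h.si, mul_assoc, h.tt'', mul_assoc]
  obtain ⟨g, hg, e2⟩ := h.conj_inv (mul_mem (mul_mem sL h.tL) (inv_mem sL)) (conj_sq h.tt s) (conj_ne h.t_ne s) sL
    h.ss h.s_ne
  have e3 : g * (r * t) * g⁻¹ * (g * (r * t) * g⁻¹) = s := by rw [← e2, ← e1]; group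
  have hz : g * (r * t) * g⁻¹ ∈ Q := h.cen (mul_mem (mul_mem hg (mul_mem rL h.tL)) (inv_mem hg)) h.sQ h.s_ne
    (by rw [← e3]; group) h.ss
  obtain ⟨k, hk, e4⟩ := h.le_of e c h1 hr h.rQ (h.rU e) hz fun c => h.s_ne (e3.symm.trans (h.sq₀ c))
  have hk' := mul_mem (inv_mem hg) (h.leDL hk)
  have e5 : (t * r⁻¹ * t)⁻¹ * s = r * t := by
    rw [show r * t = r * (t * s * t) * t * s by simp [mul_assoc, h.tt', h.ss], h.er]; simp [mul_assoc, h.ti]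
  have e6 : (g⁻¹ * k)⁻¹ * (r * t) * (g⁻¹ * k) ∈ X := by simpa [mul_assoc] using mem_cj.1 e4
  obtain ⟨a, -, a1, a2, a3⟩ := T.three (a := s) (b := t * r⁻¹ * t) (one_mem L) h.tL hk' sL
    (mul_mem (mul_mem h.tL (inv_mem rL)) h.tL) (by simpa using h1 h.sQ₀)
    (by simpa [mul_assoc, h.tt] using hr) (e5 ▸ e6)
  obtain rfl : a = 1 := h.Qt (hB (by simpa using a1)) (h.leQ (hB (by rwa [h.ti] at a2)))
  have := h.mem_H hk' h.sQ h.s_ne (h.leQ (hB (by simpa using a3)))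
  exact h.tH ((mul_mem_cancel_left (h.leQ h.rQ)).1 (by
    simpa [mul_assoc] using mul_mem (mul_mem this (h.leQ (hB e6))) (inv_mem this)))

theorem exists_k : ∃ k ∈ K, k ≠ 1 := exists_mem_ne_one' (h.K_ne_iff.2 h.lt)

theorem ev (T : Tri L X) (hX : X < L) (he : Even (Nat.card X)) : ∃ g ∈ L, X = cj g U := by
  obtain ⟨g, hg, h1⟩ := exists_le h.toSuz (T.ci hX.le fun u hu u2 u1 v hv => h.conj_inv hu u2 u1 hv) hX.le he
  suffices cj g X = U from ⟨g⁻¹, inv_mem hg, by rw [← this, cj_inv_cj]⟩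
  replace T := T.cj hg
  replace hX : cj g X < L := by rwa [← cj_eq_self_of_mem hg, cj_lt_cj]
  generalize cj g X = X at h1 T hX
  by_cases hB : X ≤ B
  · have hQ : X ≤ Q := fun x hx => h.cen (hX.le hx) h.sQ h.s_ne (mem_C.1 (le_cent h.toSuz h.two
      (fun d hd u hu u1 e => by rw [h.K_eq_one (h.leQ₀H hu) (h.sq₀ hu) u1 hd (h.invK hd) e]; exact one_mem _)
      (fun d hd => by rw [h.invK hd]; exact inv_mem (mem_zpowers d)) T h1 hB hx) s h.sQ₀).symm h.ss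
    refine le_antisymm (fun x hx => by_contra fun xU => ?_) h1
    obtain rfl | ⟨e, c⟩ := h.alt
    · exact xU (hQ hx)
    obtain ⟨k, hk, hr⟩ := h.le_of e c h1 hx (hQ hx) xU h.rQ (h.rU e)
    exact h.not_five e c (T.cj (h.leDL hk)) ((cj_eq_self (h.nQ₀D hk)).ge.trans (cj_mono h1))
      (cj_le_of_mem_N hQ (h.nQD hk)) hr
  obtain ⟨y, hy, h2, h3⟩ := exists_le2 h.toSuz hX.le h1 hB
  replace hX : cj y X < L := by rwa [← cj_eq_self_of_mem (h.leQL hy), cj_lt_cj]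
  generalize cj y X = X at h2 h3 hX
  obtain ⟨ht, hK⟩ := pair h.toSuz h2 h3
  refine absurd (h.gen.ge.trans (sup_le (fun x hx => by_contra fun xX => ?_) (zpowers_le.2 ht))) hX.not_ge
  obtain rfl | ⟨e, c⟩ := h.alt
  · exact xX (h2 hx)
  obtain ⟨k, hk, k1⟩ := h.exists_k
  have := third h.toSuz h2 h3 (inv_mem h.rQ) (by
    rw [← cj_eq_self (h.nQ₀ (h.leQ h.rQ)), cj_cj, ← h.er]
    exact cj_le_of_mem h2 (mul_mem (mul_mem ht (h2 h.sQ₀)) ht)) hk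
  rw [inv_inv] at this
  obtain ⟨l, hl, e'⟩ := h.le_of e c h2 this (mul_mem (inv_mem h.rQ) (conj_mem h.nQD hk h.rQ))
    (fun c => h.rU e (h.quo_fix hk k1 h.rQ c)) hx fun c => xX (h2 c)
  exact xX (by rwa [cj_eq_self_of_mem (hK hl)] at e')

section odd
variable (T : Tri L X) (hA : X ≤ A) (AL : A ≤ L) (ab : ∀ x ∈ A, ∀ y ∈ A, x * y = y * x)
  (ca : ∀ x ∈ A, ∀ g ∈ L, g * x = x * g → g ∈ A ∨ ∀ g ∈ L, g * x = x * g) (o : Odd (Nat.card A))
  (hu : u ∈ U) (u1 : u ≠ 1) (hx : u * t ∈ X)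
include T hA AL ab ca o hu u1 hx

theorem sq_cen (hi : i ∈ U) (e : u * t * (u * t) * i = i * (u * t * (u * t))) : i = 1 := by_contra fun i1 => by
  have xA := hA hx
  have := h.one (h.cen (AL (mul_mem xA xA)) (h.leQ₀ hi) i1 e (h.sq₀ hi)) (odd_order_of_mem o (mul_mem xA xA))
  rw [eq_one_of_odd (odd_order_of_mem o xA) this] at hx
  have := eq_one_of_odd (odd_order_of_mem o xA) this
  exact h.tH (by rw [← inv_eq_iff_mul_eq_one.2 this]; exact inv_mem (h.leQ₀H hu))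

theorem mem_N (hz : z ∈ Q) (hg : g ∈ Q) (hf : f ∈ Q) (e : t * z * t = g * t * f) : z ∈ N(A) := by
  have xA := hA hx
  have zL := h.leQL hz
  have c1 : z * u = u * z := mem_C.1 (h.Q₀_cent hu) z hz
  have c2 : f * u = u * f := mem_C.1 (h.Q₀_cent hu) f hf
  have u2 := h.sq₀ hu
  have ca' : ∀ g ∈ L, g * (u * t * (u * t)) = u * t * (u * t) * g → g ∈ A := fun g hg e =>
    (ca _ (mul_mem xA xA) g hg e).resolve_right fun c =>
      u1 (h.sq_cen T hA AL ab ca o hu u1 hx hu (c u (h.leQL (h.leQ₀ hu))).symm)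
  have := T.comm hA ab ca (hA.trans AL) zL (mul_mem h.tL (h.leQL hg)) (a := z * (u * t * (u * t)) * z⁻¹)
    (mul_mem (mul_mem zL (AL (mul_mem xA xA))) (inv_mem zL)) (by simpa [mul_assoc] using mul_mem hx hx)
    (mul_mem hx hx) (by
      have : (u * t * (u * t))⁻¹ * (z * (u * t * (u * t)) * z⁻¹) = t * u * (t * z * t) * u * (t * z * t)⁻¹ * t := by
        simp only [mul_inv_rev, h.ti, H9.inv_eq_of_mul_self u2, mul_assoc, h.tt, mul_one]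
        rw [← mul_assoc z u, c1, mul_assoc, ← mul_assoc u u, u2, one_mul]
      rw [this, e, show (t * g)⁻¹ * (t * u * (g * t * f) * u * (g * t * f)⁻¹ * t) * (t * g) =
        g⁻¹ * (u * g) * t * (f * u) * f⁻¹ * t⁻¹ * g⁻¹ * (t * t) * g by group, c2, ← mem_C.1 (h.Q₀_cent hu) g hg, h.tt, h.ti]
      simpa [mul_assoc] using mul_mem hx hx)
  refine inv_mem_iff.1 (mem_N_of_finite fun a ha => ca' _ (mul_mem (mul_mem (inv_mem zL) (AL ha)) (by simpa using zL)) ?_)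
  rw [show z⁻¹ * a * z⁻¹⁻¹ * (u * t * (u * t)) = z⁻¹ * (a * (z * (u * t * (u * t)) * z⁻¹)) * z by group,
    ab a ha _ (ca' _ (mul_mem (mul_mem zL (AL (mul_mem xA xA))) (inv_mem zL)) this)]
  group

theorem eq_u (hi : i ∈ U) (i1 : i ≠ 1) (hn : i ∈ N(A)) : i = u := by
  have xA := mul_mem (hA hx) (hA hx)
  have i2 := h.sq₀ hi
  have ii := H9.inv_eq_of_mul_self i2
  have ui := H9.inv_eq_of_mul_self (h.sq₀ hu)
  have y := conj_mem_N hn xA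
  have e := h.one (h.cen (AL (mul_mem xA y)) (h.leQ₀ hi) i1 (by
    conv_rhs => rw [ab _ xA _ y]
    simp only [ii, mul_assoc, i2, mul_one, ← mul_assoc i i, one_mul]) i2) (odd_order_of_mem o (mul_mem xA y))
  refine mul_inv_eq_one.1 (h.sq_cen T hA AL ab ca o hu u1 hx (mul_mem hi (inv_mem hu)) ?_)
  rw [ui, show u * t * (u * t) * (i * u) = u * t * (u * t) * (i * (u * t * (u * t)) * i⁻¹) * i * (u * t * (u * t))⁻¹ * u
    by group, e]
  simp [mul_assoc, h.ti, ui, ← mul_assoc u u, h.sq₀ hu]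

theorem eq_s : u = s :=
  (h.eq_u T hA AL ab ca o hu u1 hx h.sQ₀ h.s_ne (h.mem_N T hA AL ab ca o hu u1 hx h.sQ (inv_mem h.rQ) h.rQ h.er)).symm

theorem eq_U : Q = U := h.alt.resolve_right fun ⟨e, c⟩ => by
  obtain rfl := h.eq_s T hA AL ab ca o hu u1 hx
  have key : ∀ v ∈ U, r * v ∈ N(A) := fun v hv => by
    have hz := mul_mem h.rQ (h.leQ₀ hv)
    have z2 : r * v * (r * v) = u := by
      rw [mul_assoc, ← mul_assoc v, ← mem_C.1 (h.Q₀_cent hv) r h.rQ, mul_assoc, h.sq₀ hv, mul_one, e]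
    obtain ⟨g, hg, d, hd, f, hf, e1⟩ := h.exists_ghf hz fun c => u1 (by rw [← z2, c, mul_one])
    obtain ⟨n, e2⟩ := exists_sqrt (h.oddD (inv_mem hd))
    have hc := pow_mem (inv_mem hd) n
    generalize d⁻¹ ^ n = c at e2 hc
    have e3 := h.conj_ghf (c := c) e1
    rw [h.invK hc, inv_inv, show c * d * c = 1 by
      rw [mul_assoc, comm_of_cent h.abelK hd hc, ← mul_assoc, e2, inv_mul_cancel], mul_one] at e3
    have := h.mem_N T hA AL ab ca o hu u1 hx (conj_mem' h.nQD hc hz) (conj_mem h.nQD hc hg) (conj_mem h.nQD hc hf) e3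
    have e4 := h.eq_u T hA AL ab ca o hu u1 hx (conj_mem' h.nQ₀D hc hu) (conj_ne' u1 c) (by
      simpa [← z2, mul_assoc] using mul_mem this this)
    obtain rfl := h.K_eq_one h.sH h.ss h.s_ne hc (h.invK hc) (by rw [← e4, ← mul_assoc, ← mul_assoc]; simp [e4])
    simpa using this
  have : U ≤ zpowers u := fun v hv => by
    by_cases v1 : v = 1
    · exact v1 ▸ one_mem _
    rw [h.eq_u T hA AL ab ca o hu u1 hx hv v1 ((mul_mem_cancel_left (by simpa using key 1 (one_mem U))).1 (key v hv))]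
    exact mem_zpowers u
  have := card_le_of_le this
  rw [card_zpowers', H9.orderOf_eq_two.2 ⟨h.ss, u1⟩] at this
  exact h.lt.not_ge this
end odd

theorem exists_form (hx : x ∈ L) (hi : i ∈ L) (i2 : i * i = 1) (e : i * x * i = x⁻¹) (x2 : x * x ≠ 1) :
    ∃ g ∈ L, ∃ u ∈ U, u ≠ 1 ∧ g * x * g⁻¹ = u * t := by
  obtain ⟨g, hg, u, hu, u2, u1, e⟩ := h.real_form hi i2 (mul_mem hi hx) (by rw [← mul_assoc, e, inv_mul_cancel])
    (by rwa [← mul_assoc i i, i2, one_mul])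
  exact ⟨g, hg, u, h.memQ₀.2 ⟨hu, u2⟩, u1, by rwa [← mul_assoc i i, i2, one_mul] at e⟩

/-- subgroups of odd order -/
theorem od (T : Tri L X) (hA : X ≤ A) (AL : A ≤ L) (ab : ∀ x ∈ A, ∀ y ∈ A, x * y = y * x)
    (ca : ∀ x ∈ A, ∀ g ∈ L, g * x = x * g → g ∈ A ∨ ∀ g ∈ L, g * x = x * g) (o : Odd (Nat.card A))
    (hx : x ∈ X) (x1 : x ≠ 1) (hi : i ∈ L) (i2 : i * i = 1) (e : i * x * i = x⁻¹) :
    Q = U ∧ ∃ g ∈ L, g * x * g⁻¹ = s * t := by
  obtain ⟨g, hg, u, hu, u1, e⟩ := h.exists_form (AL (hA hx)) hi i2 e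
    fun c => x1 (eq_one_of_odd (odd_order_of_mem o (hA hx)) c)
  have ab' : ∀ x ∈ cj g A, ∀ y ∈ cj g A, x * y = y * x := fun _ h1 _ h2 => by
    obtain ⟨x, hx, rfl⟩ := mem_cj'.1 h1
    obtain ⟨y, hy, rfl⟩ := mem_cj'.1 h2
    rw [conj_mul, conj_mul, ab x hx y hy]
  have ca' : ∀ x ∈ cj g A, ∀ k ∈ L, k * x = x * k → k ∈ cj g A ∨ ∀ g ∈ L, g * x = x * g := fun _ h1 k hk e => by
    obtain ⟨x, hx, rfl⟩ := mem_cj'.1 h1
    refine (ca x hx (g⁻¹ * k * g) (mul_mem (mul_mem (inv_mem hg) hk) hg) (by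
      rw [show g⁻¹ * k * g * x = g⁻¹ * (k * (g * x * g⁻¹)) * g by group, e]; group)).imp mem_cj.2 fun c l hl => ?_
    rw [c g hg, mul_inv_cancel_right, c l hl]
  have hx' : u * t ∈ cj g X := e ▸ conj_mem_cj hx
  have o' : Odd (Nat.card (cj g A)) := by rwa [card_cj]
  exact ⟨h.eq_U (T.cj hg) (cj_mono hA) (cj_le_of_mem AL hg) ab' ca' o' hu u1 hx', g, hg, by
    rw [e, h.eq_s (T.cj hg) (cj_mono hA) (cj_le_of_mem AL hg) ab' ca' o' hu u1 hx']⟩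

theorem cent_eq (na : ¬ Abel Q) (hx : x ∈ Q) (e : x ∈ C(Q)) : x * x = 1 := by
  refine h.sq₀ (by_contra fun xU => na fun y hy => ?_)
  obtain rfl | ⟨e', c⟩ := h.alt
  · exact absurd hx xU
  by_cases yU : y ∈ U
  · exact h.Q₀_cent yU
  obtain ⟨k, hk, e2⟩ := h.trans_quo c hx xU hy yU
  exact (mul_mem_cancel_left (inv_mem (conj_mem (norm_C h.nQD) hk e))).1 (h.Q₀_cent e2)
end Zs

theorem zs_cases [IsSimpleGroup G] (h : Suz ⊤ B Q D K V W U t s) : PiGrp {2} Q ∧ 2 < Nat.card U ∧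
    ((Q = U ∧ orderOf (s * t) = 3 ∧ Zs ⊤ (U ⊔ K) U K U t s s) ∨
    (¬ Abel Q ∧ orderOf (s * t) = 5 ∧ Nat.card Q = Nat.card U ^ 2 ∧ ∃ r, Zs ⊤ (Q ⊔ K) Q K U t s r) ∨
    (Nat.card Q = Nat.card U ^ 3 ∧ orderOf (s * t) = 3 ∧ ∃ (F : Type) (_ : Field F) (_ : Fintype F) (n : ℕ), 2 ≤ n ∧
      Fintype.card F = (2 ^ n) ^ 2 ∧ Nonempty (G ≃* PSU 3 F (2 ^ n)))) := by
  have h2 := H19.two_lt_of_simple h
  have gen := h.toA1.gen_of_simple
  have si : IsSimpleGroup (⊤ : Subgroup G) := topEquiv.isSimpleGroup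
  obtain ⟨c, ⟨a, b⟩ | ⟨a, b, d⟩ | ⟨a, b, d, ω, hω, ζ, hζ, ne, g, hg, x, hx, e⟩⟩ := H19.concl h h2
  · obtain rfl := eq_of_card_eq h.leQ₀ a.symm
    have := H19.lemma4 h b
    rw [H19.sup_K h, gen] at this
    exact ⟨c, h2, .inl ⟨rfl, b, ⟨this, si, c, h2⟩, h.sQ, by rw [h.si, H19.tst_of_three h b], .inl rfl⟩⟩
  · have := H19.suz_five h (H19.sq_mem h h2 c b) a d
    rw [gen] at this
    obtain ⟨r, hr, e⟩ := h.struct
    exact ⟨c, h2, .inr (.inl ⟨b, d, a, r, ⟨this, si, c, h2⟩, hr, e, .inr ⟨H19.sq_eq_of_five h d hr e, a⟩⟩)⟩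
  · obtain ⟨F, _, _, n, h1, h3, -, ⟨f⟩⟩ :=
      H5.psu_of_omega h h.toA1.ker_of_simple h2 (H19.suzIH h) c b a d hω hζ ne hg hx e
    rw [gen] at f
    exact ⟨c, h2, .inr (.inr ⟨a, d, F, _, _, n, h1, h3, ⟨topEquiv.symm.trans f⟩⟩)⟩
end H4.Gs
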