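import Cfsg.Agent.H4.Bin2
import Cfsg.Agent.H13.SzSub
import Cfsg.Agent.H13.SzModel

/-! Binary actions of Suzuki groups (`sz_main`); `Om P H` (`H = Ω₁(P)`), `bin_om`, `om_cj`, `exists_z`. -/

set_option autoImplicit false
set_option linter.unusedSectionVars false
set_option linter.unusedVariables false

namespace H4.Gs
open Subgroup Cfsg H18
open H9 (conj_sq conj_sq' conj_ne conj_ne' BS)
open H5 (A1 Suz exists_inv_of_even even_of_inv eq_one_of_odd odd_order_of_mem exists_sqrt exists_inv_comm)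

universe u
variable {G : Type u} [Group G] [Finite G] {A B D H K L M N P Q R U V W X : Subgroup G}
  {a b c d f g i k r s t u v w x y z : G}

/-- `H` consists of the elements of order at most two of `P` -/
def Om (P H : Subgroup G) : Prop := ∀ x, x ∈ H ↔ x ∈ P ∧ x * x = 1

theorem Om.cj (h : Om P H) (g : G) : Om (cj g P) (cj g H) := fun x => by
  rw [mem_cj, mem_cj, h]
  exact and_congr_right fun _ => ⟨fun e => by simpa [mul_assoc] using conj_sq e g, fun e => conj_sq' e g⟩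

theorem syl_eq (h : A1 ⊤ B Q D t) (h2 : PiGrp {2} Q) (P : Sylow 2 G) : ∃ g, (P : Subgroup G) = cj g Q :=
  let ⟨g, _, e⟩ := sylow_conj Nat.prime_two (h.sylow (hall_self h2)) (hall_sylow_top Nat.prime_two P); ⟨g, e⟩

theorem bin_om (h : A1 ⊤ B Q D t) (h2 : PiGrp {2} Q) (P : Sylow 2 G) (o : Om P H) : Bin H := by
  obtain ⟨g, e⟩ := syl_eq h h2 P
  have := h.conj g
  rw [cj_top] at this
  exact bin_U this (e ▸ o)

theorem om_cj (h : A1 ⊤ B Q D t) (h2 : PiGrp {2} Q) (o : Om Q U) (g : G) : ∃ P : Sylow 2 G, Om P (cj g U) := by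
  obtain ⟨P, e⟩ := ((h.sylow (hall_self h2)).cj_top g).exists_sylow_top Nat.prime_two
  exact ⟨P, e ▸ o.cj g⟩

theorem center_iff (h : ∀ x ∈ P, x ∈ C(P) ↔ x * x = 1) : H = (center P).map P.subtype ↔ Om P H := by
  have : Om P ((center P).map P.subtype) := fun x =>
    ⟨by rintro ⟨y, hy, rfl⟩; exact ⟨y.2, (h y y.2).1 (mem_C.2 fun z hz => congrArg Subtype.val (mem_center_iff.1 hy ⟨z, hz⟩))⟩,
      fun e => ⟨⟨x, e.1⟩, mem_center_iff.2 fun z => Subtype.ext (mem_C.1 ((h x e.1).2 e.2) z z.2), rfl⟩⟩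
  exact ⟨fun e => e ▸ this, fun o => Subgroup.ext fun x => (o x).trans (this x).symm⟩

theorem Zs.center_iff (h : Zs ⊤ B Q K U t s r) (na : ¬ Abel Q) (P : Sylow 2 G) :
    H = (center (P : Subgroup G)).map (P : Subgroup G).subtype ↔ Om P H := by
  obtain ⟨g, e⟩ := syl_eq h.toA1 h.two P
  refine H4.Gs.center_iff fun x hx => ?_
  rw [e] at hx ⊢
  rw [← cj_C, mem_cj]
  exact ⟨fun c => by simpa [mul_assoc] using conj_sq (h.cent_eq na (mem_cj.1 hx) c) g,
    fun c => h.Q₀_cent (h.memQ₀.2 ⟨mem_cj.1 hx, conj_sq' c g⟩)⟩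

theorem exists_z (o : Odd (Nat.card X)) (h0 : X ≠ ⊥) :
    ∃ z ∈ X, z ≠ 1 ∧ ∀ g ∈ X, g * z * g⁻¹ * z = z * (g * z * g⁻¹) := by
  obtain ⟨p, E, -, h1, h2, h3, -, h4⟩ := (H5.solv_of_odd o).exists_elem_norm h0 le_normalizer
  obtain ⟨z, hz, z1⟩ := exists_mem_ne_one' h2
  exact ⟨z, h1 hz, z1, fun g hg => comm_of_cent h3.abel (conj_mem h4 hg hz) hz⟩

theorem SEin.comap {G' : Type*} [Group G'] [Finite G'] {M : Subgroup G'} (h : SEin M ⊤) (e : G ≃* G') :
    SEin (M.comap (e : G →* G')) ⊤ := by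
  refine ⟨lt_top_iff_ne_top.2 fun c => h.lt.ne (eq_top_iff.2 fun x _ => by simpa using c.ge (mem_top (e.symm x))), ?_,
    fun g _ hg x hx c x2 => e.injective ?_⟩
  · obtain ⟨i, hi, i2, i1⟩ := exists_inv_of_even h.even
    exact even_of_inv (x := e.symm i) (by simpa using hi) (by rw [← map_mul, i2, map_one]) (by simpa using i1)
  · rw [map_one]
    exact h.odd (e g) trivial hg (e x) hx (by simpa using c) (by rw [← map_mul, x2, map_one])

theorem exists_suz [IsSimpleGroup G] (h : SEin M ⊤) : ∃ Q D K V W U t s, Suz ⊤ M Q D K V W U t s := by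
  obtain ⟨Q, t, a, -⟩ := H9.bender_simple (sein_top.1 h)
  obtain ⟨K, V, W, U, s, z⟩ := a.exists_suz
  exact ⟨Q, _, K, V, W, U, t, s, z⟩

section sz
open H13.Sz hiding cj mem_cj cj_cj cj_one U N H B w u h
variable {F : Type*} [Field F] [Fintype F] {m : ℕ} [hF : IsSz F m]

theorem sz_se : SEin (H13.Sz.B F m) ⊤ := by
  refine ⟨lt_top_iff_ne_top.2 fun c => ?_, ?_, fun g _ hg x hx c x2 => by_contra fun x1 =>
    hg (inv_mem_iff.1 (mem_B_of_conj_mem_B (mem_U_of_pow_four hx (pow_four_of_mul_self x2)) x1 (by simpa using c)))⟩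
  · exact w_not_mem_B (c.ge trivial)
  · exact even_of_inv (U_le_B (u_mem_U 0 1)) (u_zero_mul_self 1) (u_zero_ne_one one_ne_zero)

theorem sz_zs (e : G ≃* Cfsg.Sz F m) : ∃ (B Q K U : Subgroup G) (t s r : G), Zs ⊤ B Q K U t s r ∧ ¬ Abel Q := by
  have := e.isSimpleGroup
  obtain ⟨Q, D, K, V, W, U, t, s, z⟩ := exists_suz (SEin.comap sz_se e)
  have n3 : orderOf (s * t) ≠ 3 := fun c => by
    have := orderOf_dvd_natCard (s * t)
    rw [c, Nat.card_congr e.toEquiv, card_Sz, hF.card] at this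
    have h1 : 2 ^ (2 * m + 1) % 3 = 2 := by rw [pow_succ, pow_mul, Nat.mul_mod, Nat.pow_mod]; simp
    generalize 2 ^ (2 * m + 1) = q at this h1
    obtain ⟨j, rfl⟩ : ∃ j, q = 3 * j + 2 := ⟨q / 3, by omega⟩
    rcases (Nat.Prime.dvd_mul Nat.prime_three).1 this with c | c
    · rcases (Nat.Prime.dvd_mul Nat.prime_three).1 c with c | c
      · have := Nat.prime_three.dvd_of_dvd_pow c; omega
      · rw [show (3 * j + 2) ^ 2 + 1 = 3 * (3 * j ^ 2 + 4 * j + 1) + 2 by ring] at c; omega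
    · omega
  obtain ⟨-, -, ⟨-, c, -⟩ | ⟨na, -, -, r, h⟩ | ⟨-, c, -⟩⟩ := zs_cases z
  exacts [absurd c n3, ⟨_, Q, K, U, t, s, r, h, na⟩, absurd c n3]

theorem sz_odd {X : Subgroup (Cfsg.Sz F m)} (T : Tri ⊤ X) (o : Odd (Nat.card X)) : X = ⊥ := by_contra fun h0 => by
  obtain ⟨z, hz, z1, e⟩ := exists_z o h0
  have tz : Tor z := ⟨z1, odd_order_of_mem o hz⟩
  have z0 : z ∈ centralizer {z} := mem_centralizer_singleton_iff.2 rfl
  obtain ⟨i, hi, i2, i1⟩ := exists_inv_of_even (X := normalizer (centralizer {z} : Set (Cfsg.Sz F m))) (by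
    obtain c | ⟨k, s, hs, rfl⟩ := tz.cases
    · rw [c.card_normalizer]; exact Even.mul_right (by decide) _
    · rw [card_normalizer_conj_h k hs]; exact even_two_mul _)
  obtain ⟨B, Q, K, U, t, s, r, h, na⟩ := sz_zs (MulEquiv.refl (Cfsg.Sz F m))
  refine na ((h.od T (A := centralizer {z}) (fun g hg => ?_) le_top (fun x hx y hy => tz.comm hx hy) (fun x hx g _ c => ?_)
    tz.odd_card hz z1 trivial i2 (by simpa [H9.inv_eq_of_mul_self i2] using tz.inverts i1 i2 hi z0)).1 ▸ h.elem₀.abel)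
  · by_cases g1 : g = 1
    · exact g1 ▸ one_mem _
    exact tz.mem_of_mem_normalizer ⟨g1, odd_order_of_mem o hg⟩
      (tz.mem_normalizer z0 z1 (mem_centralizer_singleton_iff.2 (e g hg)))
  · by_cases x1 : x = 1
    · exact .inr (by simp [x1])
    exact .inl (tz.centralizer_eq hx x1 ▸ mem_centralizer_singleton_iff.2 c)

theorem sz_main (e : G ≃* Cfsg.Sz F m) (hH : H ≠ ⊤) : Bin H ↔
    H = ⊥ ∨ ∃ P : Sylow 2 G, H = (center (P : Subgroup G)).map (P : Subgroup G).subtype := by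
  obtain ⟨B, Q, K, U, t, s, r, h, na⟩ := sz_zs e
  simp only [h.center_iff na]
  refine ⟨fun b => ?_, ?_⟩
  · obtain o | o := Nat.even_or_odd (Nat.card H)
    · obtain ⟨g, -, rfl⟩ := h.ev b.tri hH.lt_top o
      exact .inr (om_cj h.toA1 h.two (fun _ => h.memQ₀) g)
    · have := sz_odd (b.tri.comap e.symm.toMonoidHom e.symm.surjective) (by
        rwa [comap_equiv_eq_map_symm', card_map_of_injective (by exact e.injective)])
      exact .inl (eq_bot_iff.2 fun x hx => by simpa using this.le (show e x ∈ _ by simpa using hx))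
  · rintro (rfl | ⟨P, o⟩)
    exacts [bin_bot, bin_om h.toA1 h.two P o]
end sz
end H4.Gs
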