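import Cfsg.Agent.H4.Bin3
import Cfsg.Agent.H5.SuzG

/-! Binary actions of `SU₃(2^n)` in the matrix model of `H5/SuzG`: subgroups of the Borel subgroup (`UM.borel`). -/

set_option autoImplicit false
set_option linter.unusedSectionVars false
set_option linter.unusedVariables false

namespace H4.Gs
open Subgroup Cfsg H18 Matrix
open H9 (conj_sq conj_sq' conj_ne conj_ne')
open H5 (A1 Suz uM dM dH QM tM uM_mul uM_zero dM_uM dM_mul tM_dM tM_uM tM_mul)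
open scoped MatrixGroups

variable {F : Type*} [Field F] [Finite F] [CharP F 2] {σ : F ≃+* F} {inv : ∀ a, σ (σ a) = a}
  {Γ B K V W U X : Subgroup SL(3, F)} {s g x y : SL(3, F)} {a b a' b' c e j m α κ μ ν : F} {l : Fˣ}

theorem exists_norm (hc : σ c = c) : ∃ a, a * σ a = c := by
  obtain ⟨a, rfl⟩ := isSquare_of_charTwo' c
  refine ⟨a, ?_⟩
  rw [map_mul] at hc
  rw [show σ a = a by grind]

theorem uM_inj (h : uM σ a b = uM σ a' b') : a = a' ∧ b = b' := by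
  simpa [uM] using And.intro (congrArg (fun g : SL(3, F) => g.1 0 1) h) (congrArg (fun g : SL(3, F) => g.1 0 2) h)

theorem uM_inv (h : b + σ b = a * σ a) : (uM σ a b)⁻¹ = uM σ a (σ b) := inv_eq_of_mul_eq_one_right (by
  rw [uM_mul, h, CharTwo.add_self_eq_zero, CharTwo.add_self_eq_zero, uM_zero])

theorem dM_conj (inv : ∀ a, σ (σ a) = a) (l : Fˣ) (a b : F) : dM σ l * uM σ a b * (dM σ l)⁻¹ =
    uM σ (a * l * (σ l)⁻¹ * (σ l)⁻¹) (b * (σ l)⁻¹ * (l : F)⁻¹) := mul_inv_eq_of_eq_mul (dM_uM inv l a b)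

theorem span (inv : ∀ a, σ (σ a) = a) {P : F → Prop} (ad : ∀ x y, P x → P y → P (x + y)) (a0 : a ≠ 0) (hm : σ m ≠ m)
    (h1 : ∀ κ, σ κ = κ → P (κ * a)) (h2 : ∀ κ, σ κ = κ → P (κ * (m * a))) (z : F) : P z := by
  have h : m + σ m ≠ 0 := fun e => hm (CharTwo.add_eq_zero.1 e).symm
  have e : σ ((z / a + σ (z / a)) / (m + σ m)) = (z / a + σ (z / a)) / (m + σ m) := by
    rw [map_div₀, map_add, map_add, inv, inv, add_comm, add_comm (σ m)]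
  have := ad _ _ (h1 (z / a + (z / a + σ (z / a)) / (m + σ m) * m) (by
    rw [map_add, map_mul, e]; generalize z / a = w; grind)) (h2 _ e)
  convert this using 1
  grind

/-- the matrix model -/
structure UM (inv : ∀ a, σ (σ a) = a) (Γ B K V W U : Subgroup SL(3, F)) (s : SL(3, F)) (α κ j : F) : Prop extends
    Suz Γ B (QM inv) (dH σ).range K V W U tM s where
  pw : ∃ q : ℕ, ∀ x, σ x = x ^ q
  hα : α + σ α = 1
  hκ : σ κ = κ
  κ0 : κ ≠ 0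
  κ1 : κ ≠ 1
  hj : j * σ j = 1
  j3 : j ^ 3 ≠ 1
  uni : Γ ≤ preserving (slToMat 3 F) (H5.anti σ)
  gen : Γ = B ⊔ zpowers tM

theorem uQ (h : b + σ b = a * σ a) : uM σ a b ∈ QM inv := ⟨a, b, h, rfl⟩
theorem dD (l : Fˣ) : dM σ l ∈ (dH σ).range := ⟨l, rfl⟩
theorem dM_inv (l : Fˣ) : (dM σ l)⁻¹ = dM σ l⁻¹ := (map_inv (dH σ) l).symm
theorem dM_comm (l m : Fˣ) : dM σ l * dM σ m = dM σ m * dM σ l := by rw [← dM_mul, mul_comm, dM_mul]

/-- eigenvectors -/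
def Ev (g : SL(3, F)) (v : Fin 3 → F) (μ : F) : Prop := g.1 *ᵥ v = μ • v

theorem mulVec_mul (g y : SL(3, F)) (v : Fin 3 → F) : (g * y).1 *ᵥ v = g.1 *ᵥ (y.1 *ᵥ v) := by
  rw [mulVec_mulVec, Matrix.SpecialLinearGroup.coe_mul]
theorem inv_mulVec (y : SL(3, F)) (v : Fin 3 → F) : (y⁻¹).1 *ᵥ (y.1 *ᵥ v) = v := by
  rw [← mulVec_mul, inv_mul_cancel, Matrix.SpecialLinearGroup.coe_one, one_mulVec]
theorem Ev.conj {v : Fin 3 → F} : Ev (y⁻¹ * g * y) v μ ↔ Ev g (y.1 *ᵥ v) μ := by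
  rw [Ev, Ev, mulVec_mul, mulVec_mul, ← mulVec_smul]
  exact ⟨fun e => by rw [← inv_mulVec y⁻¹ (g.1 *ᵥ _), e, inv_inv, mulVec_smul],
    fun e => by rw [e, inv_mulVec]⟩
theorem Ev.mul {v : Fin 3 → F} (h : Ev g v μ) (h' : Ev y v ν) : Ev (g * y) v (μ * ν) := by
  rw [Ev, mulVec_mul, h', mulVec_smul, h, smul_smul, mul_comm]
theorem Ev.inv' {v : Fin 3 → F} (h : Ev g v μ) (h0 : μ ≠ 0) : Ev g⁻¹ v μ⁻¹ := by
  rw [Ev, eq_inv_smul_iff₀ h0, ← mulVec_smul, ← h, inv_mulVec]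
theorem ev_iff {v : Fin 3 → F} : Ev g v μ ↔ ∀ i, g.1 i 0 * v 0 + g.1 i 1 * v 1 + g.1 i 2 * v 2 = μ * v i := by
  simp [Ev, funext_iff, mulVec, dotProduct, Fin.sum_univ_three]

theorem ev_u1 : Ev (uM σ a b) ![1, 0, 0] 1 := ev_iff.2 fun i => by fin_cases i <;> simp [uM]
theorem ev_d1 : Ev (dM σ l) ![1, 0, 0] (σ l)⁻¹ := ev_iff.2 fun i => by fin_cases i <;> simp [dM]
theorem ev_u2 : Ev (uM σ 0 b) ![0, 1, 0] 1 := ev_iff.2 fun i => by fin_cases i <;> simp [uM]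
theorem ev_d2 : Ev (dM σ l) ![0, 1, 0] (σ l * (l : F)⁻¹) := ev_iff.2 fun i => by fin_cases i <;> simp [dM]
theorem ev_t2 : Ev (tM : SL(3, F)) ![0, 1, 0] 1 := ev_iff.2 fun i => by fin_cases i <;> simp [tM]

/-- the torus of an orthonormal frame -/
def TM (α x y z : F) : Matrix (Fin 3) (Fin 3) F :=
  !![x * (α + 1) + y * α, 0, α * (α + 1) * (x + y); 0, z, 0; x + y, 0, α * x + (α + 1) * y]
/-- the rotation of the frame -/
def nM (σ : F ≃+* F) (α : F) : SL(3, F) := uM σ 1 α * tM * uM σ 1 α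

theorem nM_coe : (nM σ α).1 = !![α, α + 1, α * α; 1, 0, α + 1; 1, 1, α] := by
  ext i j; simp only [nM, Matrix.SpecialLinearGroup.coe_mul]
  fin_cases i <;> fin_cases j <;> simp [uM, tM, Matrix.mul_apply, Fin.sum_univ_three] <;> grind
theorem nM_inv : (nM σ α)⁻¹ = nM σ (α + 1) := inv_eq_of_mul_eq_one_right (by
  ext i j; simp only [Matrix.SpecialLinearGroup.coe_mul, nM_coe]
  fin_cases i <;> fin_cases j <;> simp [Matrix.mul_apply, Fin.sum_univ_three] <;> grind)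
theorem TM_rot (x y z : F) : (nM σ α).1 * TM α x y z = TM α z x y * (nM σ α).1 := by
  ext i j; rw [nM_coe]
  fin_cases i <;> fin_cases j <;> simp [TM, Matrix.mul_apply, Fin.sum_univ_three] <;> grind
theorem TM_mul (x y z x' y' z' : F) : TM α x y z * TM α x' y' z' = TM α (x * x') (y * y') (z * z') := by
  ext i j
  fin_cases i <;> fin_cases j <;> simp [TM, Matrix.mul_apply, Fin.sum_univ_three] <;> grind
theorem TM_one : TM α 1 1 1 = 1 := by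
  ext i j
  fin_cases i <;> fin_cases j <;> simp [TM] <;> grind

theorem Tri.frame (T : Tri Γ X) (hX : X ≤ Γ) (hn : nM σ α ∈ Γ) (hx : x ∈ X) (e : x.1 = TM α a b c) (e1 : a * b * c = 1) :
    ∃ g ∈ X, (nM σ α)⁻¹ * g * nM σ α ∈ X ∧ (nM σ (α + 1))⁻¹ * (g⁻¹ * x⁻¹) * nM σ (α + 1) ∈ X := by
  have r : ∀ {x : SL(3, F)} {a b c : F}, x.1 = TM α a b c → (nM σ α * x * (nM σ α)⁻¹).1 = TM α c a b := fun e => by
    rw [Matrix.SpecialLinearGroup.coe_mul, Matrix.SpecialLinearGroup.coe_mul, e, TM_rot, mul_assoc,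
      ← Matrix.SpecialLinearGroup.coe_mul, mul_inv_cancel, Matrix.SpecialLinearGroup.coe_one, mul_one]
  have k : nM σ α * (x * (nM σ α * x * (nM σ α)⁻¹) * ((nM σ α)⁻¹ * x * nM σ α)) * (nM σ α)⁻¹ = 1 := Subtype.ext (by
    rw [show ∀ n : SL(3, F), n * (x * (n * x * n⁻¹) * (n⁻¹ * x * n)) * n⁻¹ = n * x * n⁻¹ * (n * (n * x * n⁻¹) * n⁻¹) * x
      from fun n => by group, Matrix.SpecialLinearGroup.coe_mul, Matrix.SpecialLinearGroup.coe_mul _ (_ * _ * _⁻¹), r e,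
      r (r e), e, TM_mul, TM_mul, Matrix.SpecialLinearGroup.coe_one, ← TM_one (α := α)]
    congr 1 <;> grind)
  rw [conj_eq_one_iff, mul_assoc, mul_eq_one_iff_inv_eq, ← inv_mul_eq_iff_eq_mul] at k
  obtain ⟨g, -, g1, g2, g3⟩ := T.three (one_mem Γ) hn (inv_mem hn) (inv_mem (hX hx))
    (mul_mem (mul_mem hn (hX hx)) (inv_mem hn)) (by simpa using hx) (by simpa [mul_assoc] using hx)
    (by rw [k]; simpa [mul_assoc] using hx)
  exact ⟨g, by simpa using g1, g2, nM_inv (σ := σ) (α := α) ▸ g3⟩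

namespace UM
variable (h : UM inv Γ B K V W U s α κ j)
include h

theorem ne : σ ≠ 1 := fun e => by simpa [e, CharTwo.add_self_eq_zero] using h.hα
theorem two : PiGrp {2} (QM inv) := piGrp_of_isPGroup Nat.prime_two (H5.u3d_QM inv h.ne).pg
theorem valid (a : F) : α * (a * σ a) + σ (α * (a * σ a)) = a * σ a := by
  rw [map_mul, map_mul, inv, mul_comm (σ a), ← add_mul, h.hα, one_mul]
theorem memU (hv : b + σ b = a * σ a) : uM σ a b ∈ U ↔ a = 0 := by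
  rw [h.memQ₀, and_iff_right (uQ hv), uM_mul, CharTwo.add_self_eq_zero, CharTwo.add_self_eq_zero, zero_add, ← uM_zero σ]
  exact ⟨fun e => by simpa using (uM_inj e).2, fun e => by simp [e]⟩
theorem uU (hb : σ b = b) : uM σ 0 b ∈ U := (h.memU (by simp [hb, CharTwo.add_self_eq_zero])).2 rfl
theorem exU (hx : x ∈ U) : ∃ b, σ b = b ∧ x = uM σ 0 b := by
  obtain ⟨a, b, hv, rfl⟩ := h.leQ₀ hx
  obtain rfl := (h.memU hv).1 hx
  exact ⟨b, (CharTwo.add_eq_zero.1 (by simpa using hv)).symm, rfl⟩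
theorem dK (hl : σ l = l) : dM σ l ∈ K := h.memK.2 ⟨dD l, by
  rw [tM_dM inv, dM_inv]; congr 2; exact Units.ext hl⟩
theorem dC : dM σ l ∈ C(U) ↔ l * σ l = 1 := by
  have : σ l ≠ 0 := by simp
  refine ⟨fun c => ?_, fun e => mem_C.2 fun y hy => ?_⟩
  · have := (uM_inj ((dM_conj inv l 0 1).symm.trans (conj_eq_self_of_C1 (C_le_C1 (h.uU (map_one σ)) c)))).2
    grind
  · obtain ⟨b, -, rfl⟩ := h.exU hy
    rw [eq_comm, ← mul_inv_eq_iff_eq_mul, dM_conj inv]; congr 1 <;> grind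

theorem le_C (T : Tri Γ X) (h1 : U ≤ X) (hB : X ≤ B) : X ≤ C(U) := by
  refine le_cent h.toSuz h.two ?_ ?_ T h1 hB
  · rintro _ ⟨l, rfl⟩ u hu u1 e
    obtain ⟨b, -, rfl⟩ := h.exU hu
    have b0 : b ≠ 0 := by rintro rfl; exact u1 (uM_zero σ)
    have : σ l ≠ 0 := by simp
    have := (uM_inj ((dM_conj inv l 0 b).symm.trans (mul_inv_eq_of_eq_mul e))).2
    exact h.dC.2 (by grind)
  · rintro _ ⟨l, rfl⟩
    obtain ⟨q, hq⟩ := h.pw
    have : Units.map (σ : F →* F) l = l ^ q := Units.ext (by simpa using hq l)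
    change tM * dM σ l * tM ∈ _
    rw [tM_dM inv, this, ← dM_inv]
    exact inv_mem ((map_pow (dH σ) l q).symm ▸ pow_mem (mem_zpowers _) q : dH σ (l ^ q) ∈ _)

theorem all_b (h1 : U ≤ X) (hv : b + σ b = a * σ a) (hx : uM σ a b ∈ X) (hv' : b' + σ b' = a * σ a) : uM σ a b' ∈ X := by
  have := mul_mem hx (h1 (h.uU (b := b + b') (by rw [map_add]; grind)))
  rwa [uM_mul, add_zero, map_zero, mul_zero, add_zero, ← add_assoc, CharTwo.add_self_eq_zero, zero_add] at this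

theorem Q_le (h1 : U ≤ X) (a0 : a ≠ 0) (hm : σ m ≠ m) (p1 : ∀ κ, σ κ = κ → ∃ b, b + σ b = κ * a * σ (κ * a) ∧ uM σ (κ * a) b ∈ X)
    (p2 : ∀ κ, σ κ = κ → ∃ b, b + σ b = κ * (m * a) * σ (κ * (m * a)) ∧ uM σ (κ * (m * a)) b ∈ X) : QM inv ≤ X := by
  rintro _ ⟨z, b, hv, rfl⟩
  obtain ⟨b', hv', hx⟩ := span inv (P := fun a => ∃ b, b + σ b = a * σ a ∧ uM σ a b ∈ X) (by
    rintro x y ⟨b, hb, hx⟩ ⟨c, hc, hy⟩
    refine ⟨_, ?_, uM_mul σ _ _ _ _ ▸ mul_mem hx hy⟩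
    simp only [map_add, map_mul, inv]
    linear_combination hb + hc) a0 hm p1 p2 z
  exact h.all_b h1 hv' hx hv

theorem memU' (hx : uM σ a b ∈ QM inv) : uM σ a b ∈ U ↔ a = 0 := by
  obtain ⟨x, y, hv, e⟩ := hx
  rw [e, h.memU hv, (uM_inj e).1]

theorem comm_U (hx : x ∈ QM inv) (hy : y ∈ QM inv) : x⁻¹ * (y⁻¹ * x * y) ∈ U := by
  have := mul_mem (inv_mem hx) (mul_mem (mul_mem (inv_mem hy) hx) hy)
  obtain ⟨a, b, hv, rfl⟩ := hx
  obtain ⟨a', b', hv', rfl⟩ := hy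
  rw [uM_inv hv, uM_inv hv', uM_mul, uM_mul, uM_mul] at this ⊢
  rw [h.memU' this]; grind

theorem Fx_U (h1 : U ≤ X) (hg : x⁻¹ * y ∈ U) : Fx B X x = Fx B X y := Set.ext fun z => and_congr_right fun hz => by
  rw [show z⁻¹ * y * z = z⁻¹ * x * z * (z⁻¹ * (x⁻¹ * y) * z) by group,
    mul_mem_cancel_right (h1 (conj_mem' h.nQ₀ hz hg))]

theorem Fx_eq (h1 : U ≤ X) (hv : b + σ b = a * σ a) (hv' : b' + σ b' = a' * σ a') (l : Fˣ)
    (e : a' * σ l * σ l = a * l) : (Fx B X (uM σ a' b')).ncard = (Fx B X (uM σ a b)).ncard := by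
  have : σ l ≠ 0 := by simp
  rw [← ncard_Fx_conj (a := uM σ a b) (h.leD (dD l)), h.Fx_U h1 (y := dM σ l * uM σ a b * (dM σ l)⁻¹)]
  have := mul_mem (inv_mem (uQ (inv := inv) hv')) (conj_mem h.nQD (dD l) (uQ hv))
  rw [dM_conj inv, uM_inv hv', uM_mul] at this ⊢
  rw [h.memU' this]; grind

/-- the fixity lemma modulo `U` -/
theorem Q_le_of (T : Tri Γ X) (h1 : U ≤ X) (hB : X ≤ B) (hv : b + σ b = a * σ a) (a0 : a ≠ 0) (hx : uM σ a b ∈ X) :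
    QM inv ≤ X := by
  obtain ⟨g, ⟨gQ, gU⟩, hm⟩ := Set.exists_max_image {g | g ∈ QM inv ∧ g ∉ U} (fun g => (Fx B X g).ncard)
    (Set.toFinite _) ⟨_, uQ hv, mt (h.memU hv).1 a0⟩
  obtain ⟨z, hz, zX⟩ : (Fx B X g).Nonempty := (Set.ncard_pos (Set.toFinite _)).1 (lt_of_lt_of_le
    ((Set.ncard_pos (s := Fx B X (uM σ a b)) (Set.toFinite _)).2 ⟨1, one_mem B, by simpa using hx⟩)
    (hm _ ⟨uQ hv, mt (h.memU hv).1 a0⟩))
  have e := ncard_Fx_conj (X := X) (a := g) (inv_mem hz)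
  rw [inv_inv] at e
  obtain ⟨a, b, hv, e'⟩ := conj_mem' h.nQ hz gQ
  have a0 : a ≠ 0 := fun c => gU (by
    simpa [mul_assoc] using conj_mem (y := z⁻¹ * g * z) h.nQ₀ hz (e' ▸ (h.memU hv).2 c))
  rw [e'] at e zX
  simp only [← e] at hm
  generalize hn : (Fx B X (uM σ a b)).ncard = n at hm
  have step : ∀ a b, b + σ b = a * σ a → uM σ a b ∈ X → (Fx B X (uM σ a b)).ncard = n → ∀ (a' : F) (l l' : Fˣ),
      a' * σ l * σ l = a * l → (a' + a) * σ l' * σ l' = a * l' → ∃ b', b' + σ b' = a' * σ a' ∧ uM σ a' b' ∈ X ∧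
        (Fx B X (uM σ a' b')).ncard = n := fun a b hv hx hn a' l l' e1 e2 => by
    have hv' := h.valid a'
    have hc := mul_mem (inv_mem (uQ (inv := inv) hv')) (uQ hv)
    obtain ⟨k, hk⟩ := (H5.u3d_QM inv h.ne).pg ⟨_, uQ hv⟩
    have e3 := (h.Fx_eq h1 hv hv' l e1).trans hn
    have := T.fix h.leH hB (hB hx) (h.leQ (uQ hv')) (j := k) (congrArg Subtype.val hk) (fun y hy =>
      ⟨mul_mem (hB hx) hy.1, by simpa [mul_assoc] using ((h.Fx_U h1 (h.comm_U hc (uQ hv))).le hy).2⟩) hn e3 (by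
        obtain ⟨x, y, hv2, e⟩ := hc
        rw [e, h.Fx_eq h1 hv hv2 l' (by rw [uM_inv hv', uM_mul] at e; rw [← (uM_inj e).1, e2]), hn])
      fun g hg k e ne => hm g ⟨h.two_le_Q (zpowers_le.2 hg) (two_elt e).zpowers (mem_zpowers g), fun c => ne (by
        rw [← h.Fx_U h1 (x := 1) (by simpa using c)]; exact Set.ext fun x => by simp [Fx])⟩
    exact ⟨_, hv', by simpa using (this.le ⟨one_mem B, by simpa using hx⟩).2, e3⟩
  have mul : ∀ a b, b + σ b = a * σ a → uM σ a b ∈ X → (Fx B X (uM σ a b)).ncard = n → ∀ κ, σ κ = κ →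
      ∃ b, b + σ b = κ * a * σ (κ * a) ∧ uM σ (κ * a) b ∈ X := fun a b hv hx hn κ hκ => by
    by_cases k0 : κ = 0
    · exact ⟨0, by simp [k0], by simp [k0, uM_zero]⟩
    by_cases k1 : κ = 1
    · exact ⟨b, by simp [k1, hv], by simpa [k1] using hx⟩
    have k2 : κ + 1 ≠ 0 := fun c => k1 (CharTwo.add_eq_zero.1 c)
    obtain ⟨b', h1, h2, -⟩ := step a b hv hx hn (κ * a) (Units.mk0 κ k0)⁻¹ (Units.mk0 _ k2)⁻¹
      (by simp [hκ]; grind) (by simp [hκ]; grind)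
    exact ⟨b', h1, h2⟩
  have hj := h.hj
  have j3 := h.j3
  have j0 : j ≠ 0 := by rintro rfl; simp at hj
  have sj : σ j = j⁻¹ := by grind
  have e0 : j ^ 3 + j⁻¹ ^ 3 ≠ 0 := by grind
  obtain ⟨b', h2, h3, h4⟩ := step a b hv zX hn (j ^ 6 * a) (Units.mk0 j j0 ^ 2) (Units.mk0 j j0 * (Units.mk0 _ e0)⁻¹)
    (by simp [sj]; grind) (by simp [sj]; grind)
  exact h.Q_le h1 a0 (m := j ^ 6) (by rw [map_pow, sj]; grind) (mul a b hv zX hn) (mul _ b' h2 h3 h4)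

theorem exB (hx : x ∈ B) : ∃ a b l, b + σ b = a * σ a ∧ x = uM σ a b * dM σ l := by
  obtain ⟨_, ⟨a, b, hv, rfl⟩, _, ⟨l, rfl⟩, rfl⟩ := h.sd.mem_iff.1 hx
  exact ⟨a, b, l, hv, rfl⟩

theorem tri_Q (T : Tri Γ X) (hQ : QM inv ≤ X) (hB : X ≤ B) (hv : b + σ b = a * σ a) (hv' : b' + σ b' = a' * σ a')
    (b0 : b ≠ 0) (b0' : b' ≠ 0) (hl : dM σ l ∈ X) (e : σ b = l * σ b') :
    ∃ m : Fˣ, dM σ m ∈ X ∧ dM σ m * uM σ a b = uM σ a' b' * dM σ m := by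
  have v : ∀ {a b : F}, b + σ b = a * σ a → b ≠ 0 → uM σ (a / σ b) b⁻¹ ∈ QM inv ∧ uM σ (a / b) b⁻¹ ∈ QM inv :=
    fun {a b} hv b0 => by
    have : σ b ≠ 0 := by simpa
    refine ⟨uQ ?_, uQ ?_⟩ <;> simp only [map_div₀, map_inv₀, inv] <;> grind
  have y := uQ (inv := inv) hv
  have y' := uQ (inv := inv) hv'
  have hβ := mul_mem (v hv' b0').1 (inv_mem (v hv b0).1)
  obtain ⟨g, -, g1, g2, g3⟩ := T.three (one_mem Γ) h.tL (mul_mem (h.leQL y) h.tL) (h.leQL (mul_mem y' (inv_mem y)))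
    (mul_mem (mul_mem h.tL (h.leQL hβ)) h.tL) (by simpa using hQ (mul_mem y' (inv_mem y)))
    (by simpa [mul_assoc, h.tt] using hQ hβ) (by
      have e1 : ∀ y y' β : SL(3, F), (y * tM)⁻¹ * ((tM * β * tM)⁻¹ * (y' * y⁻¹)) * (y * tM) =
          (tM * y * tM)⁻¹ * β⁻¹ * (tM * y' * tM) := fun y y' β => by simp [mul_assoc, h.ti]
      have e2 : (dM σ (Units.mk0 b b0))⁻¹ * dM σ (Units.mk0 b' b0') = tM * dM σ l * tM := by
        rw [tM_dM inv, dM_inv, ← dM_mul]; congr 1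
        have := congrArg σ e
        rw [map_mul, inv, inv] at this
        have l0 : σ l ≠ 0 := by simp
        ext; simp; grind
      rw [e1, tM_uM inv hv b0, tM_uM inv hv' b0']
      simp only [_root_.mul_inv_rev, inv_inv, mul_assoc, inv_mul_cancel_left, h.ti]
      rw [← mul_assoc (dM σ _)⁻¹, e2]
      simpa [mul_assoc, h.tt'] using mul_mem (inv_mem (hQ (v hv b0).2)) (mul_mem hl (hQ (v hv' b0').2)))
  rw [inv_one, one_mul, mul_one] at g1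
  rw [h.ti] at g2
  obtain ⟨m, rfl⟩ := h.mem_D.2 ⟨hB g1, hB g2⟩
  have g4 : tM * ((uM σ a b)⁻¹ * ((dH σ m)⁻¹ * uM σ a' b')) * tM ∈ B := by simpa [mul_assoc, h.ti] using hB g3
  have g5 := h.mem_D.2 ⟨mul_mem (inv_mem (h.leQ y)) (mul_mem (inv_mem (hB g1)) (h.leQ y')), g4⟩
  have := h.QD (mul_mem (inv_mem y) (conj_mem' h.nQD ⟨m, rfl⟩ y')) (by simpa [mul_assoc] using mul_mem g5 ⟨m, rfl⟩)
  exact ⟨m, g1, by rw [inv_mul_eq_one.1 this]; simp [dH, mul_assoc]⟩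

theorem not_Q_le (T : Tri Γ X) (hQ : QM inv ≤ X) (hB : X ≤ B) : False := by
  have hC := h.le_C T (h.leQ₀.trans hQ) hB
  by_cases c : ∃ l, dM σ l ∈ X ∧ l ≠ 1
  · obtain ⟨l, hl, l1⟩ := c
    have n := h.dC.1 (hC hl)
    obtain ⟨a, ha⟩ := exists_norm (σ := σ) (c := l + σ l) (by rw [map_add, inv, add_comm])
    obtain ⟨m, hm, e⟩ := h.tri_Q T hQ hB (a := 0) (b := 1) (by simp [CharTwo.add_self_eq_zero]) ha.symm one_ne_zero
      l.ne_zero hl (by rw [map_one, n])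
    have := (uM_inj ((dM_conj inv m _ _).symm.trans (mul_inv_eq_of_eq_mul e))).2
    have := h.dC.1 (hC hm)
    exact l1 (Units.ext (show (l : F) = 1 by grind))
  have a0 : α ≠ 0 := fun e => by simpa [e] using h.hα
  obtain ⟨m, hm, e⟩ := h.tri_Q T hQ hB (a := 1) (b := α) (a' := j) (b' := α) (l := 1) (by simp [h.hα])
    (h.hα.trans h.hj.symm) a0 a0 ((map_one (dH σ)).symm ▸ one_mem X : dH σ 1 ∈ X) (by simp)
  obtain rfl : m = 1 := by_contra fun e => c ⟨m, hm, e⟩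
  have := (uM_inj ((dM_conj inv 1 _ _).symm.trans (mul_inv_eq_of_eq_mul e))).1
  exact h.j3 (by simp at this; simp [← this])

theorem sα : σ α = α + 1 := by have := h.hα; grind
theorem nΓ : nM σ α ∈ Γ :=
  have := h.leQL (uQ (a := 1) (b := α) (by simp [h.hα])); mul_mem (mul_mem this h.tL) this

theorem scal (hl : l * σ l = 1) (l3 : (l : F) ^ 3 = 1) : dM σ l ∈ C(Γ) := mem_C.2 fun y _ => by
  have e1 : (σ l)⁻¹ = l := by grind
  have e2 : σ l * (l : F)⁻¹ = l := by have := l.ne_zero; grind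
  ext i j; simp only [Matrix.SpecialLinearGroup.coe_mul]
  fin_cases i <;> fin_cases j <;> simp [dM, e1, e2, Matrix.mul_apply, Fin.sum_univ_three, mul_comm]

theorem a_eq (hU : X ⊓ QM inv ≤ U) (hl : dM σ l ∈ X) (l3 : σ l * σ l ≠ l) {m : Fˣ} (hv : b + σ b = a * σ a)
    (hx : uM σ a b * dM σ m ∈ X) : a = 0 := by
  have e : uM σ a b * dM σ m * dM σ l * (uM σ a b * dM σ m)⁻¹ * (dM σ l)⁻¹ =
      uM σ a b * (dM σ l * (uM σ a b)⁻¹ * (dM σ l)⁻¹) := by rw [mul_assoc _ (dM σ m), dM_comm]; group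
  have h1 := mul_mem (uQ (inv := inv) hv) (conj_mem h.nQD (dD l) (inv_mem (uQ hv)))
  have h0 := mul_mem (mul_mem (mul_mem hx hl) (inv_mem hx)) (inv_mem hl)
  have h2 := hU ⟨e ▸ h0, h1⟩
  rw [uM_inv hv, dM_conj inv, uM_mul] at h1 h2
  have := (h.memU' h1).1 h2
  have : σ l ≠ 0 := by simp
  grind

theorem cube (T : Tri Γ X) (h1 : U ≤ X) (hB : X ≤ B) (hU : X ⊓ QM inv ≤ U) (hl : dM σ l ∈ X) : (l : F) ^ 3 = 1 := by
  have n := h.dC.1 (h.le_C T h1 hB hl)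
  by_contra l3
  have ev : ∀ x ∈ X, (∃ μ, Ev x ![1, 0, 0] μ) ∧ ∃ μ, Ev x ![0, 1, 0] μ := fun x hx => by
    obtain ⟨a, b, m, hv, rfl⟩ := h.exB (hB hx)
    obtain rfl := h.a_eq hU hl (by grind) hv hx
    exact ⟨⟨_, ev_u1.mul ev_d1⟩, _, ev_u2.mul ev_d2⟩
  have l0 := l.ne_zero
  obtain ⟨g, g1, g2, g3⟩ := T.frame (σ := σ) (α := α) (hB.trans h.leH) h.nΓ hl (a := l) (b := l) (c := σ l * σ l) (by
    ext i j; fin_cases i <;> fin_cases j <;> simp [dM, TM] <;> grind) (by grind)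
  obtain ⟨⟨μ₁, e1⟩, μ₂, e2⟩ := ev _ g1
  obtain ⟨⟨μ₃, e3⟩, μ₄, e4⟩ := ev _ g2
  obtain ⟨⟨μ₅, e5⟩, -⟩ := ev _ (inv_mem g3)
  rw [show ∀ n d : SL(3, F), (n⁻¹ * (g⁻¹ * d⁻¹) * n)⁻¹ = n⁻¹ * (d * g) * n from fun _ _ => by group] at e5
  rw [Ev.conj, nM_coe] at e3 e4 e5
  rw [Ev, mulVec_mul] at e5
  simp only [ev_iff, Fin.forall_fin_succ] at e1 e2 e3 e4
  simp [funext_iff, Fin.forall_fin_succ, dM, mulVec, vecMul, dotProduct, Fin.sum_univ_three] at e1 e2 e3 e4 e5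
  have := g.det_coe
  rw [det_fin_three] at this
  clear ev
  grind

theorem borel (T : Tri Γ X) (h1 : U ≤ X) (hB : X ≤ B) (hx : x ∈ X) : x * x ∈ C(Γ) := by
  have hU : X ⊓ QM inv ≤ U := by
    rintro _ ⟨hx, a, b, hv, rfl⟩
    exact (h.memU hv).2 (by_contra fun a0 => h.not_Q_le T (h.Q_le_of T h1 hB hv a0 hx) hB)
  let S : Subgroup SL(3, F) :=
    { carrier := {x | ∃ u ∈ U, ∃ z ∈ C(Γ), x = u * z}
      one_mem' := ⟨1, one_mem _, 1, one_mem _, by simp⟩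
      mul_mem' := by
        rintro _ _ ⟨u, hu, z, hz, rfl⟩ ⟨v, hv, w, hw, rfl⟩
        exact ⟨_, mul_mem hu hv, _, mul_mem hz hw, by
          rw [mul_assoc, ← mul_assoc z, ← mem_C.1 hz v (h.leQL (h.leQ₀ hv))]; group⟩
      inv_mem' := by
        rintro _ ⟨u, hu, z, hz, rfl⟩
        exact ⟨_, inv_mem hu, _, inv_mem hz, by rw [mem_C.1 hz u (h.leQL (h.leQ₀ hu))]; group⟩ }
  obtain ⟨u, hu, z, hz, rfl⟩ : x ∈ S := le_of_pElts (fun p hp x hx px => by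
    by_cases p2 : p = 2
    · subst p2
      exact ⟨x, hU ⟨hx, h.two_le_Q (zpowers_le.2 (hB hx)) px.zpowers (mem_zpowers x)⟩, 1, one_mem _, by simp⟩
    obtain ⟨g, hg, l, hd⟩ := exists_cj_D h.toSuz h.two hp p2 (hB hx) px
    have U' : U ≤ cj g X := (cj_eq_self (h.nQ₀ hg)).ge.trans (cj_mono h1)
    have B' := cj_le_of_mem hB hg
    have hl : dM σ l ∈ cj g X := (show dM σ l = _ from hd) ▸ conj_mem_cj hx
    have := h.scal (h.dC.1 (h.le_C (T.cj (h.leH hg)) U' B' hl)) (h.cube (T.cj (h.leH hg)) U' B' (fun y hy => by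
      simpa [mul_assoc] using conj_mem h.nQ₀ hg (hU ⟨mem_cj.1 hy.1, conj_mem' h.nQ hg hy.2⟩)) hl)
    refine ⟨1, one_mem _, x, ?_, by simp⟩
    simpa [show dM σ l = _ from hd, mul_assoc] using conj_mem_N' (N_le_N_C (le_N (h.leH hg))) this) hx
  rw [mul_assoc, ← mul_assoc z, ← mem_C.1 hz u (h.leQL (h.leQ₀ hu)), ← mul_assoc, ← mul_assoc, h.sq₀ hu, one_mul]
  exact mul_mem hz hz
end UM
end H4.Gs
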