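import Cfsg.Agent.H4.Bin4

/-! Binary actions of `SU₃(2^n)`: subgroups containing two opposite root groups (`UM.big`), `UM.main`,
and `psu_sq` (a binary subgroup of even order of `PSU₃(2^n)` has exponent two). -/

set_option autoImplicit false
set_option linter.unusedSectionVars false
set_option linter.unusedVariables false
set_option linter.unusedSimpArgs false

namespace H4.Gs
open Subgroup Cfsg H18 Matrix
open H9 (conj_sq conj_sq' conj_ne conj_ne')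
open H5 (A1 Suz uM dM dH QM tM uM_mul uM_zero dM_uM dM_mul tM_dM tM_uM tM_mul)
open scoped MatrixGroups

variable {F : Type*} [Field F] [Finite F] [CharP F 2] {σ : F ≃+* F} {inv : ∀ a, σ (σ a) = a}
  {Γ B K V W U X : Subgroup SL(3, F)} {s g x y : SL(3, F)} {a b a' b' c e j m α κ μ ν : F} {l : Fˣ}

theorem vQ (hv : b + σ b = a * σ a) (b0 : b ≠ 0) : uM σ (a / σ b) b⁻¹ ∈ QM inv ∧ uM σ (a / b) b⁻¹ ∈ QM inv := by
  have : σ b ≠ 0 := by simpa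
  refine ⟨uQ ?_, uQ ?_⟩ <;> simp only [map_div₀, map_inv₀, inv] <;> grind

namespace UM
variable (h : UM inv Γ B K V W U s α κ j) (h1 : U ≤ X) (h2 : cj tM U ≤ X)
include h h1 h2

theorem mults (hv : b + σ b = a * σ a) (hx : uM σ a b ∈ X) (c : F) (hc : σ c = c) :
    ∃ b, b + σ b = c * a * σ (c * a) ∧ uM σ (c * a) b ∈ X := by
  by_cases c0 : c = 0
  · exact ⟨0, by simp [c0], by simp [c0, uM_zero]⟩
  have hk := h.dK (l := (Units.mk0 c c0)⁻¹) (by simp [hc])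
  have := mul_mem (mul_mem ((pair h.toSuz h1 h2).2 hk) hx) (inv_mem ((pair h.toSuz h1 h2).2 hk))
  rw [dM_conj inv] at this
  refine ⟨_, ?_, by convert this using 2; simp [hc]; grind⟩
  simp [hc]; grind

theorem thr (hv : b + σ b = a * σ a) (h3 : cj (uM σ a b * tM) U ≤ X) :
    ∃ b, b + σ b = (1 + κ) * a * σ ((1 + κ) * a) ∧ uM σ ((1 + κ) * a) b ∈ X := by
  have hk := h.dK (l := (Units.mk0 κ h.κ0)⁻¹) (by simp [h.hκ])
  have h4 := third h.toSuz h1 h2 (uQ hv) h3 hk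
  obtain ⟨a', b', hv', e⟩ := mul_mem (uQ (inv := inv) hv) (conj_mem h.nQD (h.leK hk) (inv_mem (uQ hv)))
  have e' := e
  rw [uM_inv hv, dM_conj inv, uM_mul] at e'
  obtain rfl : (1 + κ) * a = a' := by rw [← (uM_inj e').1]; have := h.κ0; simp [h.hκ]; grind
  exact ⟨b', hv', e ▸ h4⟩

theorem inf_le (hX : X < Γ) : X ⊓ QM inv ≤ U := by
  rintro _ ⟨hx, a, b, hv, rfl⟩
  refine (h.memU hv).2 (by_contra fun a0 => hX.not_ge ?_)
  obtain ⟨ht, hK⟩ := pair h.toSuz h1 h2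
  have n0 : a * σ a ≠ 0 := by simpa
  have b0 : b ≠ 0 := by rintro rfl; simp [a0] at hv
  have sb : σ b ≠ 0 := by simpa
  obtain ⟨_, _, hv2, e⟩ := (vQ (inv := inv) hv b0).1
  obtain ⟨rfl, rfl⟩ := uM_inj e
  obtain ⟨b', hv', hx'⟩ := h.thr h1 h2 hv2 (by
    have := cj_le_of_mem h1 (mul_mem (mul_mem ht hx) ht)
    rwa [tM_uM inv hv b0, ← cj_cj, cj_eq_self (h.nQ₀ (h.leQ (vQ hv b0).2)), show ∀ x d : SL(3, F), x * d * tM =
      x * tM * (tM * d * tM) from fun _ _ => by simp [mul_assoc, h.tt'], ← cj_cj,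
      cj_eq_self (h.nQ₀D (h.conjD (dD _)))] at this)
  have k1 : 1 + κ ≠ 0 := fun c => h.κ1 (CharTwo.add_eq_zero.1 c).symm
  have hQ := h.Q_le h1 a0 (m := (1 + κ) / σ b) (by simp [h.hκ, inv]; grind) (h.mults h1 h2 hv hx) (by
    have := h.mults h1 h2 hv' hx'
    rwa [show (1 + κ) * (a / σ b) = (1 + κ) / σ b * a by ring] at this)
  rw [h.gen, ← h.sd.sup]
  refine sup_le (sup_le hQ ?_) (zpowers_le.2 ht)
  rintro _ ⟨l, rfl⟩
  obtain ⟨a, ha⟩ := exists_norm (σ := σ) (c := l + σ l) (by rw [map_add, inv, add_comm])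
  have := mul_mem (mul_mem ht (hQ (uQ ha.symm))) ht
  rwa [tM_uM inv ha.symm l.ne_zero, mul_mem_cancel_right (hQ (vQ ha.symm l.ne_zero).2), mul_mem_cancel_right ht,
    mul_mem_cancel_left (hQ (vQ ha.symm l.ne_zero).1), Units.mk0_val] at this

theorem ev_of (hX : X < Γ) (hx : x ∈ X) : ∃ l, dM σ l ∈ X ∧ Ev x ![0, 1, 0] (σ l * (l : F)⁻¹) := by
  have hU := h.inf_le h1 h2 hX
  obtain ⟨ht, hK⟩ := pair h.toSuz h1 h2
  have key : ∀ x ∈ X, x ∈ B → ∃ l, dM σ l ∈ X ∧ Ev x ![0, 1, 0] (σ l * (l : F)⁻¹) := fun x hx hB => by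
    obtain ⟨a, b, m, hv, rfl⟩ := h.exB hB
    obtain rfl := h.a_eq hU (hK (h.dK (l := Units.mk0 κ h.κ0) h.hκ)) (by
      have := h.κ0; have := h.κ1; simp [h.hκ]; grind) hv hx
    exact ⟨m, (mul_mem_cancel_left (h1 ((h.memU hv).2 rfl))).1 hx, one_mul (σ m * _) ▸ ev_u2.mul ev_d2⟩
  by_cases hB : x ∈ B
  · exact key x hx hB
  obtain ⟨_, ⟨a, b, hv, rfl⟩, z, hz, rfl⟩ := h.bruhat' (hX.le hx) hB
  obtain ⟨b', hv', hx'⟩ := h.thr h1 h2 hv (by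
    rw [← cj_eq_self (h.nQ₀ hz), cj_cj]; exact cj_le_of_mem h1 hx)
  obtain rfl : a = 0 := (mul_eq_zero.1 ((h.memU hv').1 (hU ⟨hx', uQ hv'⟩))).resolve_left
    fun c => h.κ1 (CharTwo.add_eq_zero.1 c).symm
  obtain ⟨l, hl, e⟩ := key z ((mul_mem_cancel_left (mul_mem (h1 ((h.memU hv).2 rfl)) ht)).1 hx) hz
  exact ⟨l, hl, by simpa using (ev_u2.mul ev_t2).mul e⟩

theorem mem_of_ev (hg : g ∈ Γ) (hl : dM σ l ∈ X) (e : Ev g ![0, 1, 0] (σ l * (l : F)⁻¹)) : g ∈ X := by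
  obtain ⟨ht, hK⟩ := pair h.toSuz h1 h2
  have l0 : σ l * (l : F)⁻¹ ≠ 0 := by simp
  have e' := e.mul (ev_d2.inv' l0)
  rw [mul_inv_cancel₀ l0] at e'
  rw [← mul_mem_cancel_right (inv_mem hl)]
  replace hg := mul_mem hg (inv_mem (h.leDL (dD l)))
  generalize g * (dM σ l)⁻¹ = g at e' hg
  by_cases hB : g ∈ B
  · obtain ⟨a, b, m, hv, rfl⟩ := h.exB hB
    rw [Ev, mulVec_mul] at e'
    have m0 := m.ne_zero
    simp [funext_iff, Fin.forall_fin_succ, dM, uM, dotProduct, Fin.sum_univ_three] at e'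
    exact mul_mem (h1 ((h.memU hv).2 (by grind))) (hK (h.dK (by grind)))
  obtain ⟨_, ⟨a, b, hv, rfl⟩, _, ⟨m, rfl⟩, _, ⟨a', b', hv', rfl⟩, rfl⟩ := h.bruhat3 hg hB
  rw [Ev, mulVec_mul, mulVec_mul, mulVec_mul] at e'
  have m0 := m.ne_zero
  simp [funext_iff, Fin.forall_fin_succ, dH, dM, uM, tM, dotProduct, Fin.sum_univ_three] at e'
  obtain ⟨e1, e2, rfl⟩ := e'
  simp at e1 e2
  exact mul_mem (mul_mem (mul_mem (h1 ((h.memU hv).2 (by grind))) (hK (h.dK (by grind)))) ht) (h1 ((h.memU hv').2 rfl))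

theorem all_norm (T : Tri Γ X) (hX : X < Γ) (hm : m * σ m = 1) : ∃ l, dM σ l ∈ X ∧ σ l * (l : F)⁻¹ = m := by
  by_cases m1 : m = 1
  · exact ⟨1, ((map_one (dH σ)).symm ▸ one_mem X : dH σ 1 ∈ X), by simp [m1]⟩
  obtain ⟨ht, hK⟩ := pair h.toSuz h1 h2
  have m0 : m ≠ 0 := by rintro rfl; simp at hm
  have k0 : m + σ m ≠ 0 := by grind
  have sα := h.sα
  have hx := mul_mem (mul_mem (mul_mem (h1 (h.uU (b := (m * (α + 1) + σ m * α) / (m + σ m)) (by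
      simp [inv, sα]; grind))) (hK (h.dK (l := Units.mk0 _ k0) (by simp [inv, add_comm])))) ht)
    (h1 (h.uU (b := (α * m + (α + 1) * σ m) / (m + σ m)) (by simp [inv, sα]; grind)))
  obtain ⟨x, hx, ex⟩ : ∃ x ∈ X, x.1 = TM α m (σ m) 1 := ⟨_, hx, by
    ext i j; simp only [Matrix.SpecialLinearGroup.coe_mul]
    fin_cases i <;> fin_cases j <;> simp [dM, uM, tM, TM, Matrix.mul_apply, Fin.sum_univ_three, inv] <;> grind⟩
  obtain ⟨g, g1, g2, g3⟩ := T.frame (σ := σ) (α := α) hX.le h.nΓ hx ex (by grind)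
  obtain ⟨l₁, d1, e1⟩ := h.ev_of h1 h2 hX g1
  obtain ⟨l₂, d2, e2⟩ := h.ev_of h1 h2 hX g2
  obtain ⟨l₃, d3, e3⟩ := h.ev_of h1 h2 hX (inv_mem g3)
  rw [show ∀ n : SL(3, F), (n⁻¹ * (g⁻¹ * x⁻¹) * n)⁻¹ = n⁻¹ * (x * g) * n from fun _ => by group] at e3
  rw [Ev.conj, nM_coe] at e2 e3
  have e4 := (Ev.inv' (g := x) (μ := σ m) (by
    rw [Ev, ex]
    simp [funext_iff, Fin.forall_fin_succ, TM, mulVec, vecMul, dotProduct, Fin.sum_univ_three]; grind)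
    (by simpa)).mul e3
  rw [inv_mul_cancel_left] at e4
  refine ⟨(l₁ * l₂ * l₃)⁻¹, by rw [← dM_inv, dM_mul, dM_mul]; exact inv_mem (mul_mem (mul_mem d1 d2) d3), ?_⟩
  have : σ l₁ * (l₁ : F)⁻¹ * (σ l₂ * (l₂ : F)⁻¹) * ((σ m)⁻¹ * (σ l₃ * (l₃ : F)⁻¹)) = 1 := by
    generalize σ l₁ * (l₁ : F)⁻¹ = μ₁ at e1
    generalize σ l₂ * (l₂ : F)⁻¹ = μ₂ at e2
    generalize (σ m)⁻¹ * (σ l₃ * (l₃ : F)⁻¹) = μ₃ at e4
    simp [ev_iff, Fin.forall_fin_succ, mulVec, dotProduct, Fin.sum_univ_three] at e1 e2 e4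
    have := g.det_coe
    rw [det_fin_three] at this
    grind
  rw [show (σ m)⁻¹ = m by grind, mul_left_comm _ m] at this
  rw [eq_inv_of_mul_eq_one_left this]
  simp only [Units.val_inv_eq_inv_val, Units.val_mul, map_inv₀, map_mul, mul_inv, inv_inv]
  ring

theorem big (T : Tri Γ X) (hX : X < Γ) : False := by
  have hj := h.hj
  have j3 := h.j3
  have j0 : j ≠ 0 := by rintro rfl; simp at hj
  have sj : σ j = j⁻¹ := by grind
  obtain ⟨a, ha⟩ := exists_norm (σ := σ) (c := j + σ j) (by rw [map_add, inv, add_comm])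
  have a0 : σ a ≠ 0 := by grind
  have hy := mul_mem (mul_mem (h.leQL (uQ (a := a) (b := σ j) (by rw [inv, ha, add_comm]))) h.tL)
    (h.leQL (uQ (h.valid (σ a)⁻¹)))
  obtain ⟨y, hy, ey⟩ : ∃ y ∈ Γ, y.1 *ᵥ ![0, 1, 0] = (σ a)⁻¹ • ![j, 0, 1] := ⟨_, hy, by
    rw [mulVec_mul, mulVec_mul]
    simp [funext_iff, Fin.forall_fin_succ, uM, tM, dotProduct, Fin.sum_univ_three]; grind⟩
  have sm : ∀ {g : SL(3, F)} {v : Fin 3 → F} {μ : F}, Ev g ((σ a)⁻¹ • v) μ ↔ Ev g v μ := fun {g v μ} => by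
    rw [Ev, Ev, mulVec_smul, smul_comm μ, smul_right_inj (inv_ne_zero a0)]
  have key : ∀ z ∈ Γ, ∀ g ∈ Γ, (z * y)⁻¹ * g * (z * y) ∈ X ↔ ∃ μ, μ * σ μ = 1 ∧ Ev g (z.1 *ᵥ ![j, 0, 1]) μ :=
    fun z hz g hg => by
    refine ⟨fun e => ?_, fun ⟨μ, e, e'⟩ => ?_⟩
    · obtain ⟨l, -, e⟩ := h.ev_of h1 h2 hX e
      rw [Ev.conj, mulVec_mul, ey, mulVec_smul, sm] at e
      have := l.ne_zero
      have : σ l ≠ 0 := by simp
      exact ⟨_, by simp [inv]; grind, e⟩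
    · obtain ⟨l, hl, rfl⟩ := h.all_norm h1 h2 T hX e
      refine h.mem_of_ev h1 h2 (mul_mem (mul_mem (inv_mem (mul_mem hz hy)) hg) (mul_mem hz hy)) hl ?_
      rwa [Ev.conj, mulVec_mul, ey, mulVec_smul, sm]
  have hs := h.leQL (h.leQ₀ (h.uU (map_one σ)))
  have hu := h.leQL (h.leQ₀ (h.uU (b := j + σ j) (by rw [map_add, inv, add_comm])))
  have hx := mul_mem (mul_mem (mul_mem hu h.tL) hu) h.tL
  obtain ⟨x, hx, ex⟩ : ∃ x ∈ Γ, x.1 = !![1 + (j + j⁻¹) ^ 2, 0, j + j⁻¹; 0, 1, 0; j + j⁻¹, 0, 1] := ⟨_, hx, by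
    ext i j; simp only [Matrix.SpecialLinearGroup.coe_mul]
    fin_cases i <;> fin_cases j <;> simp [uM, tM, Matrix.mul_apply, Fin.sum_univ_three, sj] <;> grind⟩
  have x0 : Ev x ![j, 0, 1] (j * j) := by
    rw [Ev, ex]; simp [funext_iff, Fin.forall_fin_succ, dotProduct, Fin.sum_univ_three]; grind
  have n2 : j * j * σ (j * j) = 1 := by rw [map_mul]; grind
  have e0 : x⁻¹ * (uM σ 0 1 * x * (uM σ 0 1)⁻¹) = tM * uM σ 0 1 * x * (tM * uM σ 0 1)⁻¹ := by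
    rw [inv_mul_eq_iff_eq_mul, _root_.mul_inv_rev, h.ti, uM_inv (by simp [CharTwo.add_self_eq_zero])]
    ext i j; simp only [Matrix.SpecialLinearGroup.coe_mul, ex]
    fin_cases i <;> fin_cases j <;> simp [uM, tM, Matrix.mul_apply, Fin.sum_univ_three] <;> grind
  have cj : ∀ z : SL(3, F), Ev (z * x * z⁻¹) (z.1 *ᵥ ![j, 0, 1]) (j * j) := fun z => by
    rw [← Ev.conj]; simpa [mul_assoc] using x0
  have ha' := mul_mem (mul_mem hs hx) (inv_mem hs)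
  have hts := mul_mem h.tL hs
  obtain ⟨g, hg, g1, g2, g3⟩ := T.three (mul_mem hs hy) (mul_mem (one_mem Γ) hy) (mul_mem hts hy) ha' hx
    ((key _ hs _ ha').2 ⟨_, n2, cj _⟩) ((key _ (one_mem Γ) _ hx).2 ⟨_, n2, by simpa using x0⟩)
    ((key _ hts _ (mul_mem (inv_mem hx) ha')).2 ⟨_, n2, e0 ▸ cj _⟩)
  obtain ⟨μ₁, n1, e1⟩ := (key _ hs _ hg).1 g1
  obtain ⟨μ₂, n2, e2⟩ := (key _ (one_mem Γ) _ hg).1 g2
  obtain ⟨μ₃, -, e3⟩ := (key _ hts _ (mul_mem (inv_mem hg) ha')).1 g3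
  have un : H5.anti σ (g.1 *ᵥ _) (g.1 *ᵥ _) = _ := h.uni hg ((uM σ 0 1).1 *ᵥ ![j, 0, 1]) ((1 : SL(3, F)).1 *ᵥ ![j, 0, 1])
  rw [e1, e2] at un
  obtain rfl : μ₁ = μ₂ := by
    simp [H5.anti, uM, dotProduct, Fin.sum_univ_three, sj] at un
    grind
  have e4 : Ev g ((tM * uM σ 0 1).1 *ᵥ ![j, 0, 1]) μ₁ := by
    rw [mulVec_mul]
    simp [ev_iff, Fin.forall_fin_succ, uM, tM, dotProduct, Fin.sum_univ_three] at e1 e2 ⊢
    grind
  have e5 := e4.mul e3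
  rw [mul_inv_cancel_left, Ev, mulVec_mul, mulVec_mul, mulVec_mul, ex, uM_inv (by simp [CharTwo.add_self_eq_zero])] at e5
  simp [funext_iff, Fin.forall_fin_succ, uM, tM, dotProduct, Fin.sum_univ_three] at e5
  grind

omit h1 h2 in
theorem main (T : Tri Γ X) (hX : X < Γ) (he : Even (Nat.card X)) (hx : x ∈ X) : x * x ∈ C(Γ) := by
  obtain ⟨g, hg, h1⟩ := exists_le h.toSuz (T.ci hX.le fun u hu u2 u1 v hv => h.conj_inv hu u2 u1 hv) hX.le he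
  have lt : ∀ {g X}, g ∈ Γ → X < Γ → cj g X < Γ := fun hg hX => by rwa [← cj_eq_self_of_mem hg, cj_lt_cj]
  by_cases hB : cj g X ≤ B
  · simpa [mul_assoc] using conj_mem_N' (N_le_N_C (le_N hg)) (h.borel (T.cj hg) h1 hB (conj_mem_cj hx))
  obtain ⟨y, hy, h2, h3⟩ := exists_le2 h.toSuz (lt hg hX).le h1 hB
  exact (h.big h2 h3 ((T.cj hg).cj (h.leQL hy)) (lt (h.leQL hy) (lt hg hX))).elim
end UM

theorem psu_sq {F : Type*} [Field F] [Fintype F] {n : ℕ} (hn : 2 ≤ n) (hF : Fintype.card F = (2 ^ n) ^ 2)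
    {H : Subgroup (PSU 3 F (2 ^ n))} (T : Tri ⊤ H) (hH : H ≠ ⊤) (he : Even (Nat.card H)) {y : PSU 3 F (2 ^ n)}
    (hy : y ∈ H) : y * y = 1 := by
  have := H25.charP_of_card (p := 2) (hF.trans (pow_mul 2 n 2).symm)
  obtain ⟨σ₀, hq, inv, ne₀⟩ := H11.exists_frob hF
  let σ : F ≃+* F := RingEquiv.ofBijective σ₀ (Finite.injective_iff_bijective.1 σ₀.injective)
  have ne : σ ≠ 1 := fun e => ne₀ (RingHom.ext fun x => DFunLike.congr_fun e x)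
  replace hq : ∀ x, σ x = x ^ 2 ^ n := hq
  replace inv : ∀ x, σ (σ x) = x := inv
  have hF' := Nat.card_eq_fintype_card.trans hF
  have h := H5.a1_model inv ne hF' (dvd_pow_self 2 (by omega))
  obtain ⟨P, hP⟩ := H5.exists_conj_SU inv ne hq
  have hL : cj P (QM inv ⊔ (dH σ).range ⊔ zpowers tM) = SU 3 F (2 ^ n) := by
    refine eq_of_le_of_card_ge ((cj_mono (H5.le_anti inv)).trans hP) (le_of_eq ?_)
    have e1 := Cfsg.Agent.S0278.result hF 3 (by norm_num)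
    simp only [Finset.prod_range_succ, Finset.prod_range_zero] at e1
    norm_num at e1
    rw [card_cj, h.card, h.cardH, (H5.u3d_QM inv ne).card hF', H5.card_dH inv, hF']
    refine Nat.eq_of_mul_eq_mul_left (show 0 < 2 ^ n + 1 by positivity) ?_
    rw [e1]; ring
  obtain ⟨K, V, W, U, s, z⟩ := h.exists_suz
  obtain ⟨α, hα⟩ := H3.exists_trace_one inv ne
  obtain ⟨κ, hκ, κ0, κ1⟩ := H3.exists_fixed_ne inv ne hF' ((Nat.pow_le_pow_right two_pos hn).trans' (by norm_num))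
  obtain ⟨j, hj, j3⟩ : ∃ j : F, j * σ j = 1 ∧ j ^ 3 ≠ 1 := by
    have key : ∀ x : F, σ x = x + 1 → x * x + x + 1 ≠ 0 → ∃ j : F, j * σ j = 1 ∧ j ^ 3 ≠ 1 := fun x e1 e2 => by
      have x0 : x ≠ 0 := by rintro rfl; simp at e1
      have x1 : x + 1 ≠ 0 := e1 ▸ by simpa
      exact ⟨x / σ x, by rw [map_div₀, inv, e1]; grind, by rw [e1]; grind⟩
    by_cases c : α * α + α + 1 = 0
    · exact key (α + κ) (by rw [map_add]; grind) (by grind)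
    · exact key α (by grind) c
  have m : UM inv _ _ K V W U s α κ j := ⟨z, ⟨_, hq⟩, hα, hκ, κ0, κ1, hj, j3, H5.le_anti inv, rfl⟩
  generalize QM inv ⊔ (dH σ).range ⊔ zpowers tM = Γ at hL m
  let π := QuotientGroup.mk' (center (SU 3 F (2 ^ n)))
  let φ : SL(3, F) → PSU 3 F (2 ^ n) := fun x => mfun π (P * x * P⁻¹)
  have hm : ∀ x ∈ Γ, ∀ y ∈ Γ, φ (x * y) = φ x * φ y := fun x hx y hy => by
    simp only [φ]
    rw [← mfun_mul (hL ▸ conj_mem_cj hx) (hL ▸ conj_mem_cj hy), conj_mul]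
  have hs : ∀ g', ∃ g ∈ Γ, φ g = g' := fun g' => by
    obtain ⟨g, rfl⟩ := QuotientGroup.mk'_surjective _ g'
    exact ⟨_, mem_cj.1 (hL.ge g.2), by simp [φ, mul_assoc, mfun_of_mem g.2, π]⟩
  let X := cj P⁻¹ ((H.comap π).map (SU 3 F (2 ^ n)).subtype)
  have hX : ∀ x ∈ Γ, x ∈ X ↔ φ x ∈ H := fun x hx => by
    have : P * x * P⁻¹ ∈ SU 3 F (2 ^ n) := hL ▸ conj_mem_cj hx
    simp only [X, φ, mem_cj, inv_inv, mfun_of_mem this]
    exact ⟨fun ⟨y, hy, e⟩ => by rwa [show (⟨_, this⟩ : SU 3 F (2 ^ n)) = y from Subtype.ext e.symm],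
      fun e => ⟨_, e, rfl⟩⟩
  have XΓ : X ≤ Γ := cj_le_iff.2 (by rw [inv_inv, hL]; exact map_subtype_le _)
  obtain ⟨x, hx, rfl⟩ := hs y
  have := m.main (T.pull φ hm hs hX) (XΓ.lt_of_ne fun e => hH (eq_top_iff.2 fun g _ => by
      obtain ⟨g, hg, rfl⟩ := hs g
      exact (hX g hg).1 (e.ge hg))) (by
      rw [card_cj, card_subtype]
      exact he.trans_dvd (card_dvd_of_surjective _ (π.subgroupComap_surjective_of_surjective H
        (QuotientGroup.mk'_surjective _)))) ((hX x hx).2 hy)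
  have h2 : P * (x * x) * P⁻¹ ∈ SU 3 F (2 ^ n) := hL ▸ conj_mem_cj (mul_mem hx hx)
  rw [← hm x hx x hx]
  simp only [φ, mfun_of_mem h2]
  refine (QuotientGroup.eq_one_iff _).2 (mem_center_iff.2 fun g => Subtype.ext ?_)
  obtain ⟨g', hg, e⟩ := mem_cj'.1 (hL.ge g.2)
  simp only [coe_mul, e, conj_mul, mem_C.1 this g' hg]
end H4.Gs
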