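import Cfsg.Agent.H4.Bin3
import Cfsg.Agent.H4.Bin5
import Cfsg.Agent.H9.L2

/-! Binary actions of simple groups with one class of involutions on cosets of subgroups of even order (`one_class`);
`SL₂` in characteristic two (`sl_zs`, `sl_iso`). -/

set_option autoImplicit false
set_option linter.unusedSectionVars false
set_option linter.unusedVariables false

namespace H4.Gs
open Subgroup Cfsg H18
open H9 (conj_sq conj_sq' conj_ne conj_ne')
open H5 (A1 Suz exists_inv_of_even even_of_inv eq_one_of_odd odd_order_of_mem exists_sqrt exists_inv_comm)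
open H24 (M2 RS C2 IsScal upSL)
open H10 (π π_eq_iff π_eq_one_iff π_surjective)
open scoped MatrixGroups

universe u
variable {G : Type u} [Group G] [Finite G] {A B D H K L M N P Q R U V W X : Subgroup G}
  {a b c d f g i k r s t u v w x y z : G}

theorem zs_of_sq [IsSimpleGroup G] (h : SEin M ⊤) (e : ∀ x : G, x * x * (x * x) = 1 → x * x = 1) :
    ∃ (U K : Subgroup G) (t s : G), orderOf (s * t) = 3 ∧ Zs ⊤ (U ⊔ K) U K U t s s := by
  obtain ⟨Q, D, K, V, W, U, t, s, z⟩ := exists_suz h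
  obtain ⟨h2, lt, c⟩ := zs_cases z
  obtain rfl : Q = U := le_antisymm (fun x hx => z.memQ₀.2 ⟨hx, by
    obtain ⟨n, hn⟩ := H9.exists_pow_of_mem h2.isPGroup hx
    clear hx
    induction n generalizing x with
    | zero => rw [pow_zero, pow_one] at hn; rw [hn, mul_one]
    | succ n ih => exact e x (ih _ (by rw [← sq, ← pow_mul, ← pow_succ', hn]))⟩) z.leQ₀
  obtain ⟨-, a, b⟩ | ⟨na, -⟩ | ⟨c, -⟩ := c
  · exact ⟨Q, K, t, s, a, b⟩
  · exact absurd z.elem₀.abel na
  · nlinarith [Nat.pow_lt_pow_right (show 1 < Nat.card Q by omega) (show 1 < 3 by norm_num)]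

theorem Zs.om (h : Zs ⊤ B U K U t s r) (P : Sylow 2 G) : Om (P : Subgroup G) P := by
  obtain ⟨g, e⟩ := syl_eq h.toA1 h.two P
  rw [e]
  exact Om.cj (fun x => h.memQ₀) g

theorem Zs.syl (h : Zs ⊤ B U K U t s r) (g : G) : ∃ P : Sylow 2 G, cj g U = P :=
  let ⟨P, e⟩ := ((h.toA1.sylow (hall_self h.two)).cj_top g).exists_sylow_top Nat.prime_two; ⟨P, e.symm⟩

section sl
variable {F : Type*} [Field F] (h2 : (2 : F) = 0)
include h2

theorem neg_SL (g : SL(2, F)) : -g = g := Subtype.ext (by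
  ext i j; rw [Matrix.SpecialLinearGroup.coe_neg, Matrix.neg_apply]; linear_combination (-(g.1 i j)) * h2)

theorem sq_SL {g : SL(2, F)} : g * g = 1 ↔ (g : M2 F).trace = 0 := by
  refine ⟨fun e => by_contra fun c => ?_, fun e => (H24.mul_self_of_trace_zero e).trans (neg_SL h2 1)⟩
  have e1 := H10.SL2_cayley g
  rw [← H24.coe_mul_SL, e, ← neg_SL h2 1, Matrix.SpecialLinearGroup.coe_neg, Matrix.SpecialLinearGroup.coe_one,
    eq_sub_iff_add_eq, neg_add_cancel, eq_comm, smul_eq_zero] at e1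
  have := g.2
  rw [e1.resolve_left c] at this
  simp at this

theorem four_SL (g : SL(2, F)) (e : g * g * (g * g) = 1) : g * g = 1 := by
  rw [sq_SL h2, H24.coe_mul_SL, H10.SL2_cayley] at e
  simp only [Matrix.trace_sub, Matrix.trace_smul, Matrix.trace_one, Fintype.card_fin, smul_eq_mul] at e
  exact (sq_SL h2).2 (mul_self_eq_zero.1 (by push_cast at e; linear_combination e + h2))

theorem sl_iso : Nonempty (SL(2, F) ≃* PSL(2, F)) := ⟨MulEquiv.ofBijective (π F)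
  ⟨(injective_iff_map_eq_one _).2 fun g e => ((π_eq_one_iff g).1 e).elim id fun e => e.trans (neg_SL h2 1), π_surjective⟩⟩

theorem sl_se : SEin (H24.BS F) ⊤ := by
  refine ⟨lt_top_iff_ne_top.2 fun c => ?_, even_of_inv (x := upSL 1 1 (mul_one 1)) (H24.mem_BS.2 rfl)
    ((sq_SL h2).2 (by rw [H24.trace_upSL, one_add_one_eq_two, h2])) fun e => ?_, fun g _ hg x hx c x2 => ?_⟩
  · simpa [H24.compSL, H24.comp] using H24.mem_BS.1 (c.ge (mem_top (H24.compSL 0)))
  · simpa [upSL] using congrFun (congrFun (H24.SL_coe_congr e) 0) 1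
  · rw [H24.mem_BS] at hg hx c
    have d := H24.diag_mul_of_mem_BS hx
    rw [sq_SL h2, Matrix.trace_fin_two] at x2
    simp [Matrix.adjugate_fin_two, Matrix.vecMul, dotProduct, Matrix.mul_apply, hx] at c
    refine H24.SL_ext (H24.ext2 ?_ ?_ hx ?_) <;> simp <;> grind

theorem sl_zs [Finite F] [IsSimpleGroup G] (e : G ≃* SL(2, F)) :
    ∃ (U K : Subgroup G) (t s : G), orderOf (s * t) = 3 ∧ Zs ⊤ (U ⊔ K) U K U t s s :=
  zs_of_sq (SEin.comap (sl_se h2) e) fun x c => e.injective (by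
    rw [map_mul, map_one]; exact four_SL h2 _ (by rw [← map_mul, ← map_mul, c, map_one]))
end sl

theorem two_eq_zero {F : Type*} [Field F] [Fintype F] {a : ℕ} (h : Fintype.card F = 2 ^ a) : (2 : F) = 0 := by
  have := H25.charP_of_card (p := 2) h
  exact CharTwo.two_eq_zero

theorem psu_center {F : Type*} [Field F] [Fintype F] {n : ℕ} (hF : Fintype.card F = (2 ^ n) ^ 2)
    (e : G ≃* PSU 3 F (2 ^ n)) (P : Sylow 2 G) : H = (center (P : Subgroup G)).map (P : Subgroup G).subtype ↔ Om P H := by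
  obtain ⟨_, σ, f, z, -, u⟩ := H3.exists_u3d_PSU hF (P.mapSurjective (f := (e : G →* _)) e.surjective)
  have := u.equiv (T' := (P : Subgroup G)) ((P : Subgroup G).equivMapOfInjective (e : G →* PSU 3 F (2 ^ n)) e.injective)
  refine center_iff fun x hx => ?_
  have e1 := (this.mem_center (x := ⟨x, hx⟩)).trans this.sq_eq_one.symm
  rw [mem_center_iff, Subtype.ext_iff] at e1
  exact ⟨fun c => e1.1 fun y => Subtype.ext (mem_C.1 c y y.2), fun c => mem_C.2 fun y hy =>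
    congrArg Subtype.val (e1.2 c ⟨y, hy⟩)⟩

theorem one_class [IsSimpleGroup G] (hone : ∀ s t : G, orderOf s = 2 → orderOf t = 2 → IsConj s t)
    (hH : H ≠ ⊤) (he : Even (Nat.card H)) : Bin H ↔
      (((∃ (F : Type) (_ : Field F) (_ : Fintype F) (a : ℕ), 2 ≤ a ∧ Fintype.card F = 2 ^ a ∧ Nonempty (G ≃* SL(2, F))) ∧
          ∃ P : Sylow 2 G, H = P) ∨
        (Lie.IsoSuzuki G ∧ ∃ P : Sylow 2 G, H = (center (P : Subgroup G)).map (P : Subgroup G).subtype) ∨
        ((∃ (F : Type) (_ : Field F) (_ : Fintype F) (a : ℕ), 2 ≤ a ∧ Fintype.card F = (2 ^ a) ^ 2 ∧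
          Nonempty (G ≃* PSU 3 F (2 ^ a))) ∧
          ∃ P : Sylow 2 G, H = (center (P : Subgroup G)).map (P : Subgroup G).subtype)) := by
  refine ⟨fun b => ?_, ?_⟩
  · have o : ∀ u v : G, u * u = 1 → u ≠ 1 → v * v = 1 → v ≠ 1 → ∃ g, g * u * g⁻¹ = v := fun u v u2 u1 v2 v1 =>
      isConj_iff.1 (hone u v (H9.orderOf_eq_two.2 ⟨u2, u1⟩) (H9.orderOf_eq_two.2 ⟨v2, v1⟩))
    have ci := b.tri.ci le_top fun u _ u2 u1 v _ v2 v1 => let ⟨g, e⟩ := o u v u2 u1 v2 v1; ⟨g, trivial, e⟩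
    obtain ⟨M, hM⟩ := exists_se ci hH he o
    obtain ⟨Q, D, K, V, W, U, t, s, z⟩ := exists_suz (sein_top.2 hM)
    have gen := z.toA1.gen_of_simple
    obtain ⟨h2, lt, ⟨rfl, c, h⟩ | ⟨na, c, c', r, h⟩ | ⟨-, -, F, _, _, n, hn, hF, ⟨e⟩⟩⟩ := zs_cases z
    · obtain ⟨g, -, rfl⟩ := h.ev b.tri hH.lt_top he
      obtain ⟨F, _, _, hF, ⟨e⟩⟩ := H19.isoPSL_of z rfl c
      obtain ⟨a, ha⟩ := h2.card_eq_pow
      rw [gen] at e
      obtain ⟨e'⟩ := sl_iso (two_eq_zero (hF.trans ha))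
      refine .inl ⟨⟨F, _, _, a, ?_, hF.trans ha, ⟨(topEquiv.symm.trans e).trans e'.symm⟩⟩, h.syl g⟩
      rw [ha] at lt
      exact (Nat.pow_lt_pow_iff_right one_lt_two).1 (show 2 ^ 1 < _ from lt)
    · obtain ⟨g, -, rfl⟩ := h.ev b.tri hH.lt_top he
      obtain ⟨F, _, _, m, hm, hF, ⟨e⟩⟩ := H19.isoSuzuki_of H19.pillarA z lt h2 na c' c
      rw [gen] at e
      simp only [h.center_iff na]
      exact .inr (.inl ⟨⟨F, _, _, m, hm, hF, ⟨topEquiv.symm.trans e⟩⟩, om_cj h.toA1 h.two (fun _ => h.memQ₀) g⟩)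
    · have sq : ∀ y ∈ H, y * y = 1 := fun y hy => e.injective (by
        rw [map_mul, map_one]
        exact psu_sq hn hF (b.tri.comap e.symm.toMonoidHom e.symm.surjective)
          (fun c => hH (eq_top_iff.2 fun x _ => by simpa using c.ge (mem_top (e x))))
          (by rwa [comap_equiv_eq_map_symm', card_map_of_injective (by exact e.injective)]) (by simpa using hy))
      obtain ⟨g, -, h1⟩ := exists_le z ci le_top he
      have sq' : ∀ y ∈ cj g H, y * y = 1 := fun y hy => by simpa [mul_assoc] using conj_sq (sq _ (mem_cj.1 hy)) g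
      have : cj g H = U := le_antisymm (fun y hy => z.memQ₀.2 ⟨z.inv_mem_Q (z.mem_H_of_comm trivial z.sQ z.s_ne (by
        rw [← H9.inv_eq_of_mul_self (sq' _ (mul_mem hy (h1 z.sQ₀))), mul_inv_rev, z.si,
          H9.inv_eq_of_mul_self (sq' y hy)])) (sq' y hy), sq' y hy⟩) h1
      refine .inr (.inr ⟨⟨F, _, _, n, hn, hF, ⟨e⟩⟩, ?_⟩)
      simp only [psu_center hF e]
      rw [← cj_inv_cj (g := g) (H := H), this]
      exact om_cj z.toA1 h2 (fun _ => z.memQ₀) _
  · rintro (⟨⟨F, _, _, a, -, hF, ⟨e⟩⟩, P, rfl⟩ | ⟨⟨F, _, _, m, hm, hF, ⟨e⟩⟩, hP⟩ | ⟨⟨F, _, _, n, hn, hF, ⟨e⟩⟩, P, hP⟩)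
    · obtain ⟨U, K, t, s, -, h⟩ := sl_zs (two_eq_zero hF) e
      exact bin_om h.toA1 h.two P (h.om P)
    · have : H13.Sz.IsSz F m := ⟨hm, hF⟩
      exact (sz_main (e.trans (H13.Sz.lieEquiv F m).symm) hH).2 (.inr hP)
    · obtain ⟨B, Q, D, t, -, h, -⟩ := H5.psu_model hn hF
      have : SEin B ⊤ := ⟨lt_top_iff_ne_top.2 fun c => h.tH (c.ge trivial), h.even.trans_dvd (card_dvd_of_le h.leQ),
        fun g _ hg x hx c => eq_one_of_odd (h.odd_of_conj trivial hg hx c)⟩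
      obtain ⟨Q, D, K, V, W, U, t, s, z⟩ := exists_suz (SEin.comap this e)
      exact bin_om z.toA1 (zs_cases z).1 P ((psu_center hF e P).1 hP)
end H4.Gs
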