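import Cfsg.Agent.H4.Bin6

/-! Binary actions of `PSL₂(q)` (`psl_main`). -/

set_option autoImplicit false
set_option linter.unusedSectionVars false
set_option linter.unusedVariables false

namespace H4.Gs
open Subgroup Cfsg H18
open H9 (conj_sq conj_sq' conj_ne conj_ne')
open H5 (A1 Suz exists_inv_of_even even_of_inv eq_one_of_odd odd_order_of_mem exists_sqrt exists_inv_comm)
open H24 (M2 RS C2 IsScal upSL BS mem_BS isScal_SL_iff isConj_SL_of_trace trace_conj_SL trace_inv_SL SL_ext ext2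
  SL_coe_congr C2_comm self_mem_C2 mem_C2_iff_conj coe_mul_SL)
open H10 (π π_eq_iff π_eq_one_iff π_surjective slMk slMk_mul slMk_inj slMk_neg slMk_one slMk_surj slMk_val)
open scoped MatrixGroups

theorem bin_three {G : Type*} [Group G] [Finite G] {H : Subgroup G} (hc : Nat.card H = 3)
    (k : ∀ a c : G, orderOf a = 3 → orderOf c = 3 → orderOf (c * a) = 3 → c = a) : Bin H :=
  bin_of fun x y z a b h1 h2 h3 => by
  have o : ∀ {x a : G}, x⁻¹ * a * x ∈ H → a ≠ 1 → orderOf a = 3 ∧ cj x H = zpowers a := fun {x a} h a1 => by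
    have e : orderOf a = 3 := ((Nat.dvd_prime Nat.prime_three).1 (by
      rw [← hc, ← card_cj (g := x)]; exact orderOf_dvd_card (mem_cj.2 h))).resolve_left (by simpa)
    exact ⟨e, (eq_of_le_of_card_ge (zpowers_le.2 (mem_cj.2 h)) (by rw [card_cj, hc, card_zpowers', e])).symm⟩
  by_cases a1 : a = 1
  · exact .inl (by simp [a1])
  by_cases b1 : b = 1
  · exact .inl (by simpa [b1] using h3)
  by_cases c : b⁻¹ * a = 1
  · obtain rfl := inv_mul_eq_one.1 c
    exact .inr fun g => by rw [← mem_cj, ← mem_cj, (o h1 a1).2, (o h2 a1).2]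
  have := k a b⁻¹ (o h1 a1).1 (by rw [orderOf_inv]; exact (o h2 b1).1) (o h3 c).1
  rw [this] at h3
  have e : a = a * a * (a * a) := by rw [mul_assoc, ← pow_three, ← (o h1 a1).1, pow_orderOf_eq_one, mul_one]
  exact .inl (by rw [e]; simpa [mul_assoc] using mul_mem h3 h3)

variable {F : Type*} [Field F] [Fintype F] {X : Subgroup SL(2, F)} {a b c d g x y z : SL(2, F)}
  {H : Subgroup PSL(2, F)}

theorem slMk_inv {a b c d : F} (h : a * d - b * c = 1) :
    (slMk a b c d h)⁻¹ = slMk d (-b) (-c) a (by linear_combination h) := by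
  rw [inv_eq_iff_mul_eq_one, slMk_mul, ← slMk_one, slMk_inj]
  refine ⟨?_, ?_, ?_, ?_⟩ <;> first | linear_combination h | ring

theorem tr_slMk {a b c d : F} (h : a * d - b * c = 1) : (slMk a b c d h : M2 F).trace = a + d := by
  simp

theorem slMk_BS {a b c d : F} {h : a * d - b * c = 1} : slMk a b c d h ∈ BS F ↔ c = 0 := mem_BS

theorem upSL_eq (b : F) (h : (1 : F) * 1 = 1) : upSL 1 b h = slMk 1 b 0 1 (by simp) := rfl

theorem ca_C2 (hz : ¬ IsScal (z : M2 F)) : ∀ x ∈ C2 z, ∀ g ∈ (⊤ : Subgroup SL(2, F)), g * x = x * g →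
    g ∈ C2 z ∨ ∀ g ∈ (⊤ : Subgroup SL(2, F)), g * x = x * g := fun x hx g _ e => by
  by_cases s : IsScal (x : M2 F)
  · exact .inr fun g _ => SL_ext (s.commute g).symm
  · exact .inl (by rw [C2, ← H24.cent_SL_eq_of_mem hz s hx]; exact mem_centralizer_singleton_iff.2 e)

theorem comm_C2 (T : Tri ⊤ X) (hz : ¬ IsScal (z : M2 F)) (hX : X ≤ C2 z) (h1 : ∃ x ∈ X, IsConj x a) (hb : b ∈ X)
    (h3 : ∃ y ∈ X, IsConj y (b⁻¹ * a)) : a * b = b * a := by
  obtain ⟨x, hx, h1⟩ := h1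
  obtain ⟨y, hy, h3⟩ := h3
  obtain ⟨u, rfl⟩ := isConj_iff.1 h1
  obtain ⟨v, e⟩ := isConj_iff.1 h3
  exact T.comm hX (fun _ h _ h' => C2_comm hz h h') (ca_C2 hz) le_top (mem_top u) (mem_top v) trivial
    (by simpa [mul_assoc] using hx) hb (by rw [← e]; simpa [mul_assoc] using hy)

theorem exists_conj (hz : RS z) (zX : z ∈ X) (m : -1 ∈ X) (e : (a : M2 F).trace ^ 2 = (z : M2 F).trace ^ 2) :
    ∃ x ∈ X, IsConj x a := by
  rcases sq_eq_sq_iff_eq_or_eq_neg.1 e with k | k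
  · exact ⟨z, zX, (isConj_SL_of_trace hz k).symm⟩
  · exact ⟨-z, by simpa using mul_mem m zX, (isConj_SL_of_trace (by simpa [RS] using hz) (by simp [k])).symm⟩

theorem tr_of_sq (e : x * x = -1) : (x : M2 F).trace = 0 := by_contra fun c => by
  have e1 := H10.SL2_cayley x
  rw [← coe_mul_SL, e, Matrix.SpecialLinearGroup.coe_neg, Matrix.SpecialLinearGroup.coe_one,
    eq_sub_iff_add_eq, neg_add_cancel, eq_comm, smul_eq_zero] at e1
  have := x.2
  rw [e1.resolve_left c] at this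
  simp at this

theorem scal_of_sq (o : Odd (Nat.card H)) (hx : x ∈ H.comap (π F)) (e : x * x = -1) : IsScal (x : M2 F) :=
  (isScal_SL_iff x).2 ((π_eq_one_iff x).1 (eq_one_of_odd (odd_order_of_mem o hx) (by
    rw [← map_mul, e, π_eq_one_iff]; exact .inr rfl)))

theorem neg_mem_comap : -1 ∈ H.comap (π F) := by
  rw [mem_comap, (π_eq_one_iff _).2 (.inr rfl)]; exact one_mem H

theorem exists_zz (o : Odd (Nat.card H)) (h0 : H ≠ ⊥) : ∃ z ∈ H.comap (π F), ¬ IsScal (z : M2 F) ∧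
    (z : M2 F).trace ≠ 0 ∧ H.comap (π F) ≤ normalizer (C2 z : Set SL(2, F)) ∧ (RS z → H.comap (π F) ≤ C2 z) := by
  have := Finite.of_surjective _ (π_surjective (F := F))
  obtain ⟨z, hz, z1, e⟩ := exists_z o h0
  obtain ⟨z, rfl⟩ := π_surjective z
  have s := H9.L2.not_isScal_of_ne_one z1
  have t0 : (z : M2 F).trace ≠ 0 := fun c => s (scal_of_sq o hz (H24.mul_self_of_trace_zero c))
  have n : H.comap (π F) ≤ normalizer (C2 z : Set SL(2, F)) := fun g hg => H24.mem_norm_C2_of s (by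
    rw [← H9.L2.comap_cent (.inr t0), mem_comap, mem_centralizer_singleton_iff]; simpa using e _ hg)
  refine ⟨z, hz, s, t0, n, fun r g hg => ?_⟩
  obtain c | c := (r.mem_norm_iff g).1 (n hg)
  · exact mem_C2_iff_conj.2 c
  · exact mem_centralizer_singleton_iff.2 (SL_ext ((scal_of_sq o hg (H10.mul_self_of_inverts c r.ne_inv)).commute z))

section two
variable (h2 : (2 : F) = 0)
include h2

theorem sl_inj : Function.Injective (π F) :=
  (injective_iff_map_eq_one _).2 fun g e => ((π_eq_one_iff g).1 e).elim id fun e => e.trans (neg_SL h2 1)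

theorem tr_three (o : orderOf z = 3) : (z : M2 F).trace = 1 := by
  have s : ¬ IsScal (z : M2 F) := fun s => by
    obtain rfl | rfl := (isScal_SL_iff z).1 s
    · simp at o
    · simp [neg_SL h2] at o
  have e := SL_coe_congr (show z * (z * z) = 1 by rw [← pow_three, ← o, pow_orderOf_eq_one])
  rw [coe_mul_SL, coe_mul_SL, H10.SL2_cayley, mul_sub, Matrix.mul_smul, H10.SL2_cayley] at e
  have := @H24.lin_injective F _ _ s (-(z : M2 F).trace, (z : M2 F).trace * (z : M2 F).trace - 1) (1, 0) (by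
    simp only [one_smul, zero_smul, add_zero]
    refine Eq.trans ?_ e
    simp [smul_sub, smul_smul, sub_smul]; abel)
  rw [Prod.mk.injEq] at this
  linear_combination -this.1 - h2

theorem eq_of_three (n : ∀ w : F, w * w + w + 1 ≠ 0) (ha : orderOf a = 3) (hc : orderOf c = 3)
    (h : orderOf (c * a) = 3) : c = a := by_contra fun ne => by
  have t1 := tr_three h2 ha
  have t2 := tr_three h2 hc
  have t3 := tr_three h2 h
  have t4 : ((c * a⁻¹ : SL(2, F)) : M2 F).trace = 1 + 1 := by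
    rw [coe_mul_SL] at t3
    rw [coe_mul_SL, H24.coe_inv_SL, Matrix.mul_add, Matrix.mul_smul, Matrix.mul_smul, Matrix.trace_add, Matrix.trace_smul,
      Matrix.trace_smul, Matrix.mul_one, t1, t2, t3]
    simp [one_add_one_eq_two, h2]
  obtain ⟨β, β0, e⟩ := H24.exists_isConj_upSL (fun s => ne (mul_inv_eq_one.1 (((isScal_SL_iff _).1 s).elim id
    fun e => e.trans (neg_SL h2 1)))) (mul_one 1) t4
  obtain ⟨g, e⟩ := isConj_iff.1 e
  rw [← trace_conj_SL g] at t1 t2
  rw [show g * c * g⁻¹ = g * (c * a⁻¹) * g⁻¹ * (g * a * g⁻¹) by group, e] at t2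
  generalize g * a * g⁻¹ = x at t1 t2
  obtain ⟨p, q, r, s, d, rfl⟩ := slMk_surj x
  rw [upSL_eq, slMk_mul] at t2
  rw [tr_slMk] at t1 t2
  exact n p (by grind)

theorem sl_odd (h4 : 4 ≤ Fintype.card F) (T : Tri ⊤ X) (zX : z ∈ X) (s : ¬ IsScal (z : M2 F))
    (t0 : (z : M2 F).trace ≠ 0) (hX : RS z → X ≤ C2 z) : Nat.card X = 3 ∧ ∀ w : F, w * w + w + 1 ≠ 0 := by
  have r : RS z := fun c => t0 (pow_eq_zero_iff two_ne_zero |>.1 (by linear_combination c + 2 * h2))
  replace hX := hX r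
  obtain ⟨e⟩ := sl_iso h2
  have : IsSimpleGroup PSL(2, F) :=
    Matrix.ProjectiveSpecialLinearGroup.rank_two_simple (by rwa [Nat.card_eq_fintype_card])
  have := e.isSimpleGroup
  obtain ⟨U, K, t, u, o3, h⟩ := sl_zs h2 (MulEquiv.refl SL(2, F))
  obtain ⟨i, hi, iC⟩ := r.exists_mem_norm
  have i2 := (H10.mul_self_of_inverts (r.inv_of_mem_norm hi iC (self_mem_C2 z)) r.ne_inv).trans (neg_SL h2 1)
  have ev : Even (Fintype.card F) := Nat.not_odd_iff_even.1 fun c => H24.two_ne_zero_of_odd c h2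
  have key : ∀ x ∈ X, x ≠ 1 → orderOf x = 3 := fun x hx x1 => by
    obtain ⟨-, g, -, e⟩ := h.od T hX le_top (fun _ h _ h' => C2_comm s h h') (ca_C2 s) (by
      rcases r.cases with ⟨-, e⟩ | ⟨-, e⟩ <;> rw [e]
      exacts [ev.add_one, Nat.Even.sub_odd (by omega) ev odd_one]) hx x1 (mem_top i) i2 (by
      simpa [H9.inv_eq_of_mul_self i2] using r.inv_of_mem_norm hi iC (hX hx))
    rw [← o3, ← e, orderOf_conj]
  have z3 := key z zX (by rintro rfl; exact s H24.isScal_one)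
  have t1 := tr_three h2 z3
  refine ⟨?_, fun w hw => ?_⟩
  · rw [← z3, ← card_zpowers']
    refine congrArg (fun X : Subgroup SL(2, F) => Nat.card X) (le_antisymm (fun x hx => ?_) (zpowers_le.2 zX))
    by_cases x1 : x = 1
    · exact x1 ▸ one_mem _
    obtain rfl | rfl := r.eq_or_eq_inv (hX hx) ((tr_three h2 (key x hx x1)).trans t1.symm)
    exacts [mem_zpowers _, inv_mem (mem_zpowers _)]
  have d1 : (w + 1) * w - 0 * 0 = 1 := by grind
  have d2 : w * (w + 1) - 1 * 0 = 1 := by grind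
  obtain ⟨g, e⟩ := isConj_iff.1 (isConj_SL_of_trace (g := slMk _ _ _ _ d1) r (by rw [t1, tr_slMk]; grind))
  have m : -1 ∈ X := by rw [neg_SL h2]; exact one_mem X
  have := comm_C2 T s hX (a := g * slMk _ _ _ _ d2 * g⁻¹)
    (exists_conj r zX m (by rw [trace_conj_SL, t1, tr_slMk]; grind)) zX (exists_conj r zX m (by
      rw [t1, ← e, conj_inv, conj_mul, trace_conj_SL, slMk_inv, slMk_mul, tr_slMk]; grind))
  rw [← e, conj_mul, conj_mul, mul_left_inj, mul_right_inj, slMk_mul, slMk_mul, slMk_inj] at this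
  grind
end two

section odd
variable (h2 : (2 : F) ≠ 0)
include h2

theorem conj_inv_PSL (u v : PSL(2, F)) (u2 : u * u = 1) (u1 : u ≠ 1) (v2 : v * v = 1) (v1 : v ≠ 1) :
    ∃ g, g * u * g⁻¹ = v := by
  have k : ∀ x : SL(2, F), π F x * π F x = 1 → π F x ≠ 1 → (x : M2 F).trace = 0 := fun x e x1 => by
    rw [← map_mul, π_eq_one_iff] at e
    exact tr_of_sq (e.resolve_left fun e => x1 ((π_eq_one_iff x).2 (H10.SL2_eq_of_mul_self h2 e)))
  obtain ⟨u, rfl⟩ := π_surjective u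
  obtain ⟨v, rfl⟩ := π_surjective v
  exact isConj_iff.1 (H9.L2.isConj_of_sq (H24.rs_of_trace_zero h2 (k u u2 u1)) (by rw [k u u2 u1, k v v2 v1]))

theorem not_a1 (h5 : 5 < Fintype.card F) {B Q D : Subgroup PSL(2, F)} {t : PSL(2, F)} (h : A1 ⊤ B Q D t) : False := by
  have := Finite.of_surjective _ (π_surjective (F := F))
  obtain ⟨s, hs, s2, s1⟩ := h.exists_inv
  obtain ⟨s, rfl⟩ := π_surjective s
  have ss : s * s = -1 := ((π_eq_one_iff _).1 (by rw [map_mul, s2])).resolve_left fun e =>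
    s1 ((π_eq_one_iff s).2 (H10.SL2_eq_of_mul_self h2 e))
  have r := H24.rs_of_trace_zero h2 (tr_of_sq ss)
  obtain ⟨x, hx, xC⟩ := r.exists_mem_norm
  have k : ∀ x ∈ normalizer (C2 s : Set SL(2, F)), x ∉ C2 s → π F x ∈ Q ∧ π F x * π F x = 1 := fun x hx xC => by
    have e : π F x * π F x = 1 := by rw [← map_mul, r.sq_eq_neg_one h2 hx xC, π_eq_one_iff]; exact .inr rfl
    refine ⟨h.inv_mem_Q (h.mem_H_of_comm trivial hs s1 ?_) e, e⟩
    rw [← mul_inv_eq_iff_eq_mul, ← map_inv, ← map_mul, ← map_mul, r.inv_of_mem_norm hx xC (self_mem_C2 s), map_inv,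
      H9.inv_eq_of_mul_self s2]
  have := r.isCyclic
  obtain ⟨⟨z, hz⟩, e⟩ := IsCyclic.exists_ofOrder_eq_natCard (α := C2 s)
  have k2 := k (x * z) (mul_mem hx (le_normalizer hz)) fun c => xC ((mul_mem_cancel_right hz).1 c)
  have c := h.inv_comm (h.leQ (k x hx xC).1) (k x hx xC).2 k2.1
  rw [map_mul, mul_assoc, mul_right_inj, ← mul_inv_eq_iff_eq_mul, ← map_inv, ← map_mul, ← map_mul,
    r.inv_of_mem_norm hx xC hz, map_inv, inv_eq_iff_mul_eq_one, ← map_mul, π_eq_one_iff] at c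
  have : Nat.card (C2 s) ∣ 4 := by
    rw [← e, orderOf_dvd_iff_pow_eq_one, Subtype.ext_iff, show 4 = 2 * 2 from rfl, pow_mul, sq, sq]
    rcases c with c | c <;> simp [c]
  have := Nat.le_of_dvd (by norm_num) this
  rcases r.cases with ⟨-, e⟩ | ⟨-, e⟩ <;> omega

theorem not_rs (T : Tri ⊤ X) (m : -1 ∈ X) (zX : z ∈ X) (r : RS z) (hX : X ≤ C2 z) : False := by
  have h4 : (4 : F) ≠ 0 := fun e => mul_ne_zero h2 h2 (by linear_combination e)
  obtain ⟨ε, e1, e2⟩ : ∃ ε : F, ε * ε = 1 ∧ (z : M2 F).trace ≠ -ε := by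
    by_cases c : (z : M2 F).trace = -1
    exacts [⟨-1, by simp, by grind⟩, ⟨1, by simp, c⟩]
  have r' : (z : M2 F).trace ^ 2 ≠ 4 := r
  obtain ⟨c, b, h⟩ := FiniteField.exists_root_sum_quadratic
    (f := Polynomial.C (4 : F) * Polynomial.X ^ 2 + Polynomial.C 0 * Polynomial.X + Polynomial.C 0)
    (g := Polynomial.C (4 - (z : M2 F).trace ^ 2) * Polynomial.X ^ 2 +
      Polynomial.C (4 * ε * (z : M2 F).trace - 2 * (z : M2 F).trace ^ 2) * Polynomial.X +
      Polynomial.C (4 - (z : M2 F).trace ^ 2))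
    (Polynomial.degree_quadratic h4) (Polynomial.degree_quadratic (by grind))
    (Nat.odd_iff.1 (H24.odd_of_two_ne_zero h2))
  simp only [Polynomial.eval_add, Polynomial.eval_mul, Polynomial.eval_C, Polynomial.eval_pow, Polynomial.eval_X] at h
  obtain ⟨x, h1, h3⟩ := H9.L2.exists_factor r.not_isScal (t := (z : M2 F).trace) (r := ε * (z : M2 F).trace)
    (a := c + (z : M2 F).trace * (b + 1) / 2) (b := b) (by grind)
  have := comm_C2 T r.not_isScal hX (a := x) (exists_conj r zX m (by rw [h1])) zX (exists_conj r zX m (by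
    rw [← trace_inv_SL, mul_inv_rev, inv_inv, h3]; grind))
  obtain rfl | rfl := r.eq_or_eq_inv (mem_centralizer_singleton_iff.2 this) h1
  · rw [inv_mul_cancel, ← slMk_one, tr_slMk] at h3
    grind
  · rw [inv_inv, coe_mul_SL, H10.SL2_cayley] at h3
    simp at h3
    grind

theorem not_par {β : F} (T : Tri ⊤ X) (m : -1 ∈ X) (o : ∀ x ∈ X, x * x ≠ -1) (β0 : β ≠ 0)
    (zX : slMk 1 β 0 1 (by simp) ∈ X) (hX : X ≤ BS F) : False := by
  have h4 : (4 : F) ≠ 0 := fun e => mul_ne_zero h2 h2 (by linear_combination e)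
  by_cases c : X ≤ C2 (slMk 1 β 0 1 (by simp))
  · have := comm_C2 T (fun s => β0 s.1) c (a := slMk 1 0 (-4 / β) 1 (by simp)) ⟨_, zX, H24.isConj_SL_of_Qf
      (v := ![0, 1]) (w := ![β / 2, 0]) (by simp) (by simpa [H24.Qf]) (by simp [H24.Qf]; grind)⟩ (inv_mem zX)
      ⟨_, mul_mem m (inv_mem zX), by
        rw [inv_inv, slMk_inv, neg_one_mul, slMk_neg, slMk_mul]
        exact H24.isConj_SL_of_Qf (v := ![0, 1]) (w := ![0, 1]) (by simp; grind) (by simpa [H24.Qf])
          (by simp [H24.Qf])⟩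
    rw [slMk_inv, slMk_mul, slMk_mul, slMk_inj] at this
    grind
  obtain ⟨x, hx, c⟩ := SetLike.not_le_iff_exists.1 c
  obtain ⟨l, p, q, n, d, rfl⟩ := slMk_surj x
  obtain rfl := slMk_BS.1 (hX hx)
  have ln : l ≠ n := fun e => c (by
    rw [mem_centralizer_singleton_iff, slMk_mul, slMk_mul, slMk_inj]; grind)
  let g := slMk 1 (p / (l - n)) 0 1 (by simp)
  have hd : slMk l 0 0 n (by grind) ∈ cj g X := by
    convert conj_mem_cj (g := g) hx using 1
    rw [slMk_inv, slMk_mul, slMk_mul, slMk_inj]; grind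
  have hy : slMk 1 β 0 1 (by simp) ∈ cj g X := by
    convert conj_mem_cj (g := g) zX using 1
    rw [slMk_inv, slMk_mul, slMk_mul, slMk_inj]; grind
  have hB : cj g X ≤ BS F := cj_le_of_mem hX (slMk_BS.2 rfl)
  obtain ⟨y, hy, e1, e2, e3⟩ := (T.cj (mem_top g)).frob le_top (mem_top (slMk 0 (-1) 1 0 (by simp))) hd (by
    convert inv_mem hd using 1
    simp only [slMk_inv, slMk_mul, slMk_inj]; grind) hy (by simp only [slMk_inv, slMk_mul, slMk_inj]; grind)
  obtain ⟨a, b, c, e, d', rfl⟩ := slMk_surj y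
  obtain rfl := slMk_BS.1 (hB hy)
  replace e1 := hB e1
  replace e2 := hB e2
  replace e3 := hB e3
  simp only [slMk_inv, slMk_mul, slMk_BS] at e1 e2 e3
  refine o _ (mem_cj.1 hd) ?_
  rw [show g⁻¹ * slMk l 0 0 n _ * g * (g⁻¹ * slMk l 0 0 n _ * g) = g⁻¹ * (slMk l 0 0 n (by grind) * slMk l 0 0 n (by grind)) * g
    by group, show slMk l 0 0 n _ * slMk l 0 0 n _ = -1 by rw [slMk_mul, ← slMk_one, slMk_neg, slMk_inj]; grind]
  simp

theorem odd_bot (T : Tri ⊤ H) (o : Odd (Nat.card H)) : H = ⊥ := by_contra fun h0 => by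
  obtain ⟨z, zX, s, -, n, c⟩ := exists_zz o h0
  replace T := T.comap (π F) π_surjective
  have m := neg_mem_comap (H := H)
  have o' : ∀ x ∈ H.comap (π F), x * x ≠ -1 := fun x hx e => by
    obtain rfl | rfl := (isScal_SL_iff x).1 (scal_of_sq o hx e) <;> exact H24.neg_one_ne_one_SL h2 (by simpa using e.symm)
  generalize H.comap (π F) = X at *
  by_cases r : RS z
  · exact not_rs h2 T m zX r (c r)
  wlog t : (z : M2 F).trace = 1 + 1 generalizing z
  · have e : C2 (-z) = C2 z := Subgroup.ext fun x => by simp [mem_centralizer_singleton_iff]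
    simp only [RS, not_not] at r
    exact this (z := -z) (by simpa [IsScal] using s) (by simpa using mul_mem m zX) (e ▸ n)
      (fun c => absurd (by simpa using r) c) (by simpa [RS] using r) (by simp; grind)
  obtain ⟨β, β0, e⟩ := H24.exists_isConj_upSL s (mul_one 1) t
  obtain ⟨g, e⟩ := isConj_iff.1 e
  rw [upSL_eq] at e
  refine not_par h2 (T.cj (mem_top g)) (by simpa [mem_cj] using m) (fun x hx c => o' _ (mem_cj.1 hx) (by
    rw [show g⁻¹ * x * g * (g⁻¹ * x * g) = g⁻¹ * (x * x) * g by group, c]; simp)) β0 (e ▸ conj_mem_cj zX) fun x hx => ?_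
  have := (H24.conj_mem_C2_iff g z _).2 ((mem_normalizer_iff.1 (n (mem_cj.1 hx)) z).1 (self_mem_C2 z))
  rw [show g * (g⁻¹ * x * g * z * (g⁻¹ * x * g)⁻¹) * g⁻¹ = x * (g * z * g⁻¹) * x⁻¹ by group, e] at this
  obtain ⟨a, b, c, d, h, rfl⟩ := slMk_surj x
  simp only [mem_centralizer_singleton_iff, slMk_inv, slMk_mul, slMk_inj] at this
  rw [slMk_BS]
  grind
end odd

theorem root_iff {a : ℕ} (h : Fintype.card F = 2 ^ a) : (∀ w : F, w * w + w + 1 ≠ 0) ↔ Odd a := by
  have h2 := two_eq_zero h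
  refine ⟨fun n => Nat.not_even_iff_odd.1 fun ⟨k, e⟩ => ?_, fun ⟨k, e⟩ w hw => ?_⟩
  · classical
    obtain ⟨w, hw⟩ := exists_prime_orderOf_dvd_card (G := Fˣ) 3 (by
      rw [Fintype.card_units, h, e, ← two_mul, pow_mul]; exact Nat.sub_one_dvd_pow_sub_one 4 k)
    have e1 : (w : F) ^ 3 = 1 := by rw [← Units.val_pow_eq_pow_val, ← hw, pow_orderOf_eq_one, Units.val_one]
    have e2 : (w : F) ≠ 1 := fun c => by simp [Units.val_eq_one.1 c] at hw
    exact n w (by grind)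
  · have e1 := FiniteField.pow_card w
    have e2 : ∀ k, w ^ 4 ^ k = w := fun k => by
      induction k with
      | zero => simp
      | succ k ih => rw [pow_succ, pow_mul, ih]; grind
    rw [h, e, pow_succ, pow_mul, pow_mul, show 2 ^ 2 = 4 from rfl, e2] at e1
    grind

theorem psl_main (h4 : 4 ≤ Fintype.card F) (h5 : Fintype.card F ≠ 5) (hH : H ≠ ⊤) : Bin H ↔
    (H = ⊥ ∨ ((∃ a : ℕ, Fintype.card F = 2 ^ a) ∧ ∃ P : Sylow 2 PSL(2, F), H = P) ∨
      ((∃ a : ℕ, Odd a ∧ Fintype.card F = 2 ^ a) ∧ Nat.card H = 3)) := by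
  have := Finite.of_surjective _ (π_surjective (F := F))
  have : IsSimpleGroup PSL(2, F) :=
    Matrix.ProjectiveSpecialLinearGroup.rank_two_simple (by rwa [Nat.card_eq_fintype_card])
  refine ⟨fun b => ?_, ?_⟩
  · by_cases h2 : (2 : F) = 0
    · have : CharP F 2 := CharTwo.of_one_ne_zero_of_two_eq_zero one_ne_zero h2
      obtain ⟨a, -, ha⟩ := FiniteField.card F 2
      obtain o | o := Nat.even_or_odd (Nat.card H)
      · obtain ⟨e⟩ := sl_iso h2
        obtain ⟨U, K, t, s, -, h⟩ := sl_zs h2 e.symm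
        obtain ⟨g, -, rfl⟩ := h.ev b.tri hH.lt_top o
        exact .inr (.inl ⟨⟨a, ha⟩, h.syl g⟩)
      refine or_iff_not_imp_left.2 fun h0 => .inr ?_
      obtain ⟨z, zX, s, t0, -, c⟩ := exists_zz o h0
      obtain ⟨c, n⟩ := sl_odd h2 h4 (b.tri.comap (π F) π_surjective) zX s t0 c
      refine ⟨⟨a, (root_iff ha).1 n, ha⟩, ?_⟩
      rw [← c, ← card_map_of_injective (f := π F) (sl_inj h2), map_comap_eq_self_of_surjective π_surjective]
    obtain o | o := Nat.even_or_odd (Nat.card H)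
    · obtain ⟨M, hM⟩ := exists_se (b.tri.ci le_top fun u _ u2 u1 v _ v2 v1 =>
        let ⟨g, e⟩ := conj_inv_PSL h2 u v u2 u1 v2 v1; ⟨g, trivial, e⟩) hH o (conj_inv_PSL h2)
      obtain ⟨Q, D, K, V, W, U, t, s, z⟩ := exists_suz (sein_top.2 hM)
      have := Nat.odd_iff.1 (H24.odd_of_two_ne_zero h2)
      exact (not_a1 h2 (by omega) z.toA1).elim
    · exact .inl (odd_bot h2 b.tri o)
  · rintro (rfl | ⟨⟨a, ha⟩, P, rfl⟩ | ⟨⟨a, o, ha⟩, c⟩)
    · exact bin_bot
    · obtain ⟨e⟩ := sl_iso (two_eq_zero ha)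
      obtain ⟨U, K, t, s, -, h⟩ := sl_zs (two_eq_zero ha) e.symm
      exact bin_om h.toA1 h.two P (h.om P)
    · obtain ⟨e⟩ := sl_iso (two_eq_zero ha)
      exact bin_three c fun x y h1 h2 h3 => e.symm.injective (eq_of_three (two_eq_zero ha) ((root_iff ha).2 o)
        (by rwa [e.symm.orderOf_eq]) (by rwa [e.symm.orderOf_eq]) (by rwa [← map_mul, e.symm.orderOf_eq]))
end H4.Gs
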