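import Mathlib.GroupTheory.Sylow
import Mathlib.Tactic

/-! Binary affine groups `V ⋊ H` (`BA H V`): orbit equivalence `Eqv`, fixed space `Pf`, commutator space `Mv`,
reflections `Rf` (nontrivial elements with minimal commutator space) and their basic properties. -/

set_option autoImplicit false
set_option linter.unusedSectionVars false
set_option linter.unusedVariables false

namespace H4.Gs.Ch

variable {H V : Type*} [Group H] [AddCommGroup V] [DistribMulAction H V] {a b g g' h j k s t : H}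
  {c e u v w x y z : V} {A B W : AddSubgroup V}

/-- same orbit -/
def Eqv (H : Type*) {V : Type*} [SMul H V] (x y : V) : Prop := ∃ h : H, h • x = y

theorem Eqv.rfl : Eqv H x x := ⟨1, one_smul _ _⟩
theorem Eqv.symm (h : Eqv H x y) : Eqv H y x := let ⟨g, e⟩ := h; ⟨g⁻¹, by rw [← e, inv_smul_smul]⟩
theorem Eqv.trans (h : Eqv H x y) (h' : Eqv H y z) : Eqv H x z :=
  let ⟨g, e⟩ := h; let ⟨g', e'⟩ := h'; ⟨g' * g, by rw [mul_smul, e, e']⟩
theorem Eqv.neg (h : Eqv H x y) : Eqv H (-x) (-y) := let ⟨g, e⟩ := h; ⟨g, by rw [smul_neg, e]⟩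
theorem Eqv.zero (h : Eqv H 0 y) : y = 0 := let ⟨g, e⟩ := h; by rw [← e, smul_zero]
theorem Eqv.of_eq {x' y' : V} (h : Eqv H x y) (e : x = x') (e' : y = y') : Eqv H x' y' := e ▸ e' ▸ h

/-- `y ↦ s y - y` -/
def dl (V : Type*) [AddCommGroup V] [DistribMulAction H V] (s : H) : V →+ V :=
  AddMonoidHom.mk' (fun y => s • y - y) fun x y => by rw [smul_add]; abel
/-- fixed space -/
def Pf (V : Type*) [AddCommGroup V] [DistribMulAction H V] (s : H) : AddSubgroup V := (dl V s).ker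
/-- commutator space -/
def Mv (V : Type*) [AddCommGroup V] [DistribMulAction H V] (s : H) : AddSubgroup V := (dl V s).range
/-- reflections -/
def Rf (V : Type*) [AddCommGroup V] [DistribMulAction H V] (g : H) : Prop :=
  g ≠ 1 ∧ ∀ s : H, s ≠ 1 → Nat.card (Mv V g) ≤ Nat.card (Mv V s)

theorem mem_P : x ∈ Pf V s ↔ s • x = x := sub_eq_zero
theorem mem_M : x ∈ Mv V s ↔ ∃ y, s • y - y = x := Iff.rfl
theorem sub_mem_M (s : H) (y : V) : s • y - y ∈ Mv V s := ⟨y, rfl⟩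
theorem card_PM (s : H) : Nat.card (Pf V s) * Nat.card (Mv V s) = Nat.card V := by
  rw [Mv, ← AddSubgroup.index_ker]; exact AddSubgroup.card_mul_index _

theorem conj_M (h : H) (hx : x ∈ Mv V g) : h • x ∈ Mv V (h * g * h⁻¹) :=
  let ⟨y, e⟩ := hx; ⟨h • y, by simp [dl, mul_smul, ← e, smul_sub]⟩

theorem comm_M (c : h * g = g * h) (hx : x ∈ Mv V g) : h • x ∈ Mv V g := by
  have := conj_M h hx
  rwa [c, mul_inv_cancel_right] at this

variable [Finite V]

theorem card_conj_le (h g : H) : Nat.card (Mv V g) ≤ Nat.card (Mv V (h * g * h⁻¹)) :=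
  Nat.card_le_card_of_injective (fun x => ⟨h • x.1, conj_M h x.2⟩) fun x y e =>
    Subtype.ext (MulAction.injective h (congrArg Subtype.val e))

theorem Rf.conj (r : Rf V g) (h : H) : Rf V (h * g * h⁻¹) :=
  ⟨by simpa using r.1, fun s s1 => (card_conj_le h⁻¹ _).trans (by simpa [mul_assoc] using r.2 s s1)⟩

theorem Rf.of_le (r : Rf V g) (s1 : s ≠ 1) (e : Nat.card (Mv V s) ≤ Nat.card (Mv V g)) : Rf V s :=
  ⟨s1, fun t t1 => e.trans (r.2 t t1)⟩

theorem Rf.card_eq (r : Rf V g) (r' : Rf V s) : Nat.card (Mv V g) = Nat.card (Mv V s) :=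
  le_antisymm (r.2 s r'.1) (r'.2 g r.1)

theorem Rf.P_eq (r : Rf V g) (s1 : s ≠ 1) (e : Pf V g ≤ Pf V s) : Pf V s = Pf V g := by
  refine (AddSubgroup.eq_of_le_of_card_ge e (Nat.le_of_mul_le_mul_right ?_ (Nat.card_pos (α := Mv V g)))).symm
  rw [card_PM, ← card_PM (V := V) s]
  exact Nat.mul_le_mul_left _ (r.2 s s1)

theorem card_mul_le (hA : A ≤ W) (hB : B ≤ W) (e : ∀ x ∈ A, x ∈ B → x = 0) : Nat.card A * Nat.card B ≤ Nat.card W := by
  rw [← Nat.card_prod]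
  refine Nat.card_le_card_of_injective (fun p => ⟨p.1.1 + p.2.1, add_mem (hA p.1.2) (hB p.2.2)⟩) fun p q c => ?_
  have c : p.1.1 - q.1.1 = q.2.1 - p.2.1 := by rw [sub_eq_sub_iff_add_eq_add, add_comm q.2.1]; exact congrArg Subtype.val c
  have := e _ (sub_mem p.1.2 q.1.2) (c ▸ sub_mem q.2.2 p.2.2)
  exact Prod.ext (Subtype.ext (sub_eq_zero.1 this)) (Subtype.ext (sub_eq_zero.1 (c ▸ this)).symm)

theorem card_sup_le (A B : AddSubgroup V) : Nat.card (A ⊔ B : AddSubgroup V) ≤ Nat.card A * Nat.card B := by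
  rw [← Nat.card_prod]
  exact Nat.card_le_card_of_surjective (fun p : A × B => (⟨p.1.1 + p.2.1, AddSubgroup.add_mem_sup p.1.2 p.2.2⟩ : ↥(A ⊔ B)))
    fun x => let ⟨a, ha, b, hb, e⟩ := AddSubgroup.mem_sup.1 x.2; ⟨(⟨a, ha⟩, ⟨b, hb⟩), Subtype.ext e⟩

theorem dl_surj (hc : Nat.card B ≤ Nat.card A) (hm : ∀ y ∈ A, s • y - y ∈ B) (hi : ∀ y ∈ A, s • y = y → y = 0)
    (hw : w ∈ B) : ∃ y ∈ A, s • y - y = w := by
  have i : Function.Injective fun y : A => (⟨s • y.1 - y.1, hm _ y.2⟩ : B) := fun x y e => Subtype.ext (sub_eq_zero.1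
    (hi _ (sub_mem x.2 y.2) (by rw [smul_sub, sub_eq_sub_iff_sub_eq_sub]; exact congrArg Subtype.val e)))
  obtain ⟨y, e⟩ := (i.bijective_of_nat_card_le hc).2 ⟨w, hw⟩
  exact ⟨y, y.2, congrArg Subtype.val e⟩

/-- a faithful irreducible binary affine group -/
structure BA (H V : Type*) [Group H] [AddCommGroup V] [DistribMulAction H V] : Prop where
  faith : ∀ h : H, (∀ v : V, h • v = v) → h = 1
  irr : ∀ U : AddSubgroup V, (∀ h : H, ∀ v ∈ U, h • v ∈ U) → U = ⊥ ∨ U = ⊤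
  bin : ∀ (S : Set V) (f : V → V), (∀ x ∈ S, ∀ y ∈ S, Eqv H (x - y) (f x - f y)) →
    ∃ (h : H) (b : V), ∀ x ∈ S, h • x + b = f x

namespace BA
variable (T : BA H V)
include T

theorem eq_top {D : Set V} (hD : ∀ h : H, ∀ v ∈ D, h • v ∈ D) (hv : v ∈ D) (v0 : v ≠ 0) (hU : D ⊆ W) : W = ⊤ := by
  refine eq_top_iff.2 (((T.irr (AddSubgroup.closure D) fun h x hx => ?_).resolve_left fun c =>
    v0 (c.le (AddSubgroup.subset_closure hv))).ge.trans ((AddSubgroup.closure_le _).2 hU))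
  induction hx using AddSubgroup.closure_induction with
  | mem x hx => exact AddSubgroup.subset_closure (hD h x hx)
  | zero => simp
  | add x y _ _ h1 h2 => rw [smul_add]; exact add_mem h1 h2
  | neg x _ h1 => rw [smul_neg]; exact neg_mem h1

theorem one_pt (S : Set V) (h0 : Eqv H u v) (h : ∀ x ∈ S, Eqv H (u - x) (v - x)) :
    ∃ g : H, g • u = v ∧ ∀ x ∈ S, g • x = x := by
  classical
  have k : ∀ x ∈ insert 0 S, Eqv H (u - x) (v - x) := by
    rintro x (rfl | hx)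
    exacts [by simpa, h x hx]
  have f : ∀ x ∈ insert 0 S, Function.update id u v x = x := fun x hx => by
    by_cases c : x = u
    · subst c
      simpa [sub_eq_zero] using ((k x hx).of_eq (sub_self x) rfl).zero
    · simp [c]
  obtain ⟨g, b, e⟩ := T.bin (insert u (insert 0 S)) (Function.update id u v) (by
    rintro x (rfl | hx) y (rfl | hy)
    · simpa using Eqv.rfl
    · rw [f y hy]; simpa using k y hy
    · rw [f x hx]; simpa using (k x hx).neg
    · rw [f x hx, f y hy]; exact .rfl)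
  obtain rfl : b = 0 := by simpa [f 0 (.inl rfl)] using e 0 (.inr (.inl rfl))
  exact ⟨g, by simpa using e u (.inl rfl), fun x hx => by simpa [f x (.inr hx)] using e x (.inr (.inr hx))⟩

theorem swap (h : Eqv H x y) : ∃ t : H, t • x = y ∧ t • y = x := by
  obtain ⟨t, e1, e2⟩ := T.one_pt {x + y} h (by rintro _ rfl; simpa using h.symm.neg)
  exact ⟨t, e1, by simpa [e1, add_comm y] using e2 _ rfl⟩

theorem exists_ne (g1 : g ≠ 1) : ∃ u ∈ Mv V g, u ≠ 0 := by
  obtain ⟨y, e⟩ := not_forall.1 (mt (T.faith g) g1)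
  exact ⟨_, sub_mem_M g y, sub_ne_zero.2 e⟩

theorem exists_neg (g1 : g ≠ 1) : ∃ n : H, ∀ v : V, n • v = -v := by
  obtain ⟨_, ⟨v, rfl⟩, v0⟩ := T.exists_ne g1
  obtain ⟨n, b, e⟩ := T.bin {x | Eqv H v x} Neg.neg fun x hx y hy => by
    obtain ⟨t, e1, e2⟩ := T.swap (hx.symm.trans hy)
    exact ⟨t, by rw [smul_sub, e1, e2]; abel⟩
  have := T.eq_top (D := {u | ∃ x y, Eqv H v x ∧ Eqv H v y ∧ x - y = u}) (W := (dl V n + 2 • AddMonoidHom.id V).ker)
    (by rintro h _ ⟨x, y, hx, hy, rfl⟩; exact ⟨_, _, hx.trans ⟨h, rfl⟩, hy.trans ⟨h, rfl⟩, (smul_sub ..).symm⟩)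
    ⟨_, _, ⟨g, rfl⟩, .rfl, rfl⟩ v0 (by
      rintro _ ⟨x, y, hx, hy, rfl⟩
      change n • (x - y) - (x - y) + 2 • (x - y) = 0
      rw [smul_sub, eq_sub_of_add_eq (e x hx), eq_sub_of_add_eq (e y hy)]; abel)
  refine ⟨n, fun v => ?_⟩
  have : n • v - v + 2 • v = 0 := this.ge (AddSubgroup.mem_top v)
  rw [eq_neg_iff_add_eq_zero, ← this]; abel

theorem exists_tr (h : Eqv H z (z + u)) : ∃ g : H, ∀ x, Eqv H x (x + u) → g • x = x + u := by
  obtain ⟨g, e1, e2⟩ := T.one_pt ((z - ·) '' {x | Eqv H x (x + u)}) h (by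
    rintro _ ⟨x, hx, rfl⟩; exact hx.of_eq (by beta_reduce; abel) (by beta_reduce; abel))
  refine ⟨g, fun x hx => ?_⟩
  have := e2 _ ⟨x, hx, rfl⟩
  rw [smul_sub, e1, sub_eq_sub_iff_sub_eq_sub] at this
  rw [← sub_eq_iff_eq_add', ← this]; abel

theorem tr_fix (e : s • y - y = u) (ht : ∀ x, Eqv H x (x + u) → t • x = x + u) (hx : s • x = x) : t • x = x := by
  have e1 := ht y ⟨s, by rw [← e]; abel⟩
  have e2 := ht (y + x) ⟨s, by rw [← e, smul_add, hx]; abel⟩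
  rwa [smul_add, e1, add_right_comm, add_left_inj, add_right_inj] at e2

theorem fix_of (hx : s • x = x) (h : g • x - x ∈ Mv V s) : g • x = x := by
  obtain ⟨y, e⟩ := h
  obtain ⟨t, ht⟩ := T.exists_tr (z := x) (u := g • x - x) ⟨g, by abel⟩
  have := ht x ⟨g, by abel⟩
  rwa [T.tr_fix e ht hx, left_eq_add, sub_eq_zero] at this

theorem rf_tr (r : Rf V g) (hu : u ∈ Mv V g) (u0 : u ≠ 0) (h : Eqv H x (x + u)) : g • x = x + u := by
  obtain ⟨y, e⟩ := hu
  obtain ⟨t, ht⟩ := T.exists_tr h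
  have e1 := ht y ⟨g, by rw [← e]; exact (add_sub_cancel ..).symm⟩
  have := mem_P.1 ((r.P_eq (s := t) (by rintro rfl; simp [u0] at e1) fun c hc =>
    mem_P.2 (T.tr_fix e ht (mem_P.1 hc))).le (mem_P.2 (show t • (x - y) = x - y by rw [smul_sub, e1, ht x h]; abel)))
  rw [smul_sub, sub_eq_sub_iff_sub_eq_sub, sub_eq_iff_eq_add'] at this
  rw [this, ← e]; rfl

theorem rf_neg (r : Rf V g) (hu : u ∈ Mv V g) : g • u = -u := by
  by_cases u0 : u = 0
  · simp [u0]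
  obtain ⟨y, e⟩ := id hu
  replace e : g • y = y + u := by rw [← e]; exact (add_sub_cancel ..).symm
  have := T.rf_tr r hu u0 (x := -(y + u)) ((Eqv.symm ⟨g, e⟩).neg.of_eq rfl (by abel))
  rw [smul_neg, smul_add, e, neg_eq_iff_eq_neg, ← eq_sub_iff_add_eq'] at this
  rw [this]; abel

theorem rf_ss (r : Rf V g) (y : V) : g • g • y = y := by
  have := T.rf_neg r (sub_mem_M g y)
  rwa [smul_sub, neg_sub, sub_left_inj] at this

theorem rf_sq (r : Rf V g) : g * g = 1 := T.faith _ fun y => by rw [mul_smul, T.rf_ss r]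

theorem rf_eq (r : Rf V g) (r' : Rf V g') (hu : u ∈ Mv V g) (hu' : u ∈ Mv V g') (u0 : u ≠ 0) : g = g' := by
  obtain ⟨y, e⟩ := id hu
  replace e : g • y = y + u := by rw [← e]; exact (add_sub_cancel ..).symm
  have e' := T.rf_tr r' hu' u0 ⟨g, e⟩
  by_contra ne
  have := r.P_eq (s := g⁻¹ * g') (fun c => ne (inv_mul_eq_one.1 c)) fun c hc => mem_P.2 (by
    have := T.rf_tr r' hu' u0 (x := y + c) ⟨g, by rw [smul_add, e, mem_P.1 hc]; abel⟩
    rw [smul_add, e', add_right_comm, add_left_inj, add_right_inj] at this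
    rw [mul_smul, this, inv_smul_eq_iff, mem_P.1 hc])
  have := mem_P.1 (this.le (mem_P.2 (show (g⁻¹ * g') • y = y by rw [mul_smul, e', ← e, inv_smul_smul])))
  exact u0 (by rwa [e, add_eq_left] at this)

theorem rf_inf (r : Rf V g) (r' : Rf V g') (ne : g ≠ g') (hu : u ∈ Mv V g) (hu' : u ∈ Mv V g') : u = 0 :=
  by_contra fun u0 => ne (T.rf_eq r r' hu hu' u0)

theorem rf_pm (r : Rf V g) (hx : x ∈ Mv V g) (hy : y ∈ Mv V g) (h : Eqv H x y) : y = x ∨ y = -x :=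
  or_iff_not_imp_left.2 fun ne => by
    have := T.rf_tr r (sub_mem hy hx) (sub_ne_zero.2 ne) (x := x) (by simpa)
    rw [T.rf_neg r hx] at this
    simp [this]

theorem rf_conj (r : Rf V g) (r' : Rf V g') (hx : x ∈ Mv V g) (x0 : x ≠ 0) (e : h • x ∈ Mv V g') : h * g * h⁻¹ = g' :=
  T.rf_eq (r.conj h) r' (conj_M h hx) e (by rwa [Ne, smul_eq_zero_iff_eq])

theorem rf_comm (r : Rf V g) (hx : x ∈ Mv V g) (x0 : x ≠ 0) (e : h • x ∈ Mv V g) : h * g = g * h :=
  mul_inv_eq_iff_eq_mul.1 (T.rf_conj r r hx x0 e)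

theorem P_mul (r : Rf V g) (r' : Rf V g') (ne : g ≠ g') : (g * g') • y = y ↔ g • y = y ∧ g' • y = y := by
  refine ⟨fun e => ?_, fun e => by rw [mul_smul, e.2, e.1]⟩
  have e1 : g' • y = g • y := by rw [← T.rf_ss r (g' • y), ← mul_smul g g', e]
  have := sub_eq_zero.1 (T.rf_inf r r' ne (sub_mem_M g y) (e1 ▸ sub_mem_M g' y))
  exact ⟨this, e1.trans this⟩

omit T in
theorem M_mul (g g' : H) : Mv V (g * g') ≤ Mv V g ⊔ Mv V g' := by
  rintro _ ⟨y, rfl⟩
  have := AddSubgroup.add_mem_sup (sub_mem_M g (g' • y)) (sub_mem_M g' y)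
  rwa [sub_add_sub_cancel, ← mul_smul] at this

omit T in
theorem exists_rf (g1 : g ≠ 1) : ∃ g : H, Rf V g := by
  obtain ⟨s, s1, e⟩ := (measure fun s : H => Nat.card (Mv V s)).wf.has_min {s | s ≠ 1} ⟨g, g1⟩
  exact ⟨s, s1, fun t t1 => not_lt.1 (e t t1)⟩
end BA
end H4.Gs.Ch
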