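import Cfsg.Agent.H4.Ch1

/-! Binary affine groups in odd characteristic (`OA`): orthogonality `Perp`, anisotropic planes (`Cov`), and
`OA.st2`: point stabilizers have order two. -/

set_option autoImplicit false
set_option linter.unusedSectionVars false
set_option linter.unusedVariables false

namespace H4.Gs.Ch

variable {H V : Type*} [Group H] [AddCommGroup V] [DistribMulAction H V] [Finite V] {a b d g g' h j k n s t : H}
  {c e u v w x y z : V} {A B W : AddSubgroup V}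

/-- orthogonality -/
def Perp (H : Type*) {V : Type*} [SMul H V] [AddCommGroup V] (x u : V) : Prop := Eqv H (x + u) (x - u)

/-- covered by reflection lines -/
def Cov (H : Type*) [Group H] {V : Type*} [AddCommGroup V] [DistribMulAction H V] (W : AddSubgroup V) : Prop :=
  ∀ w ∈ W, w ≠ 0 → ∃ j : H, Rf V j ∧ w ∈ Mv V j

/-- stabilizers of nonzero vectors have order two -/
def St2 (H V : Type*) [Group H] [AddCommGroup V] [DistribMulAction H V] : Prop :=
  ∀ v : V, v ≠ 0 → ∃ t : H, t ≠ 1 ∧ t • v = v ∧ ∀ h : H, h • v = v → h = 1 ∨ h = t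

theorem Cov.mono (h : Cov H W) (e : A ≤ W) : Cov H A := fun w hw => h w (e hw)

/-- odd characteristic -/
structure OA (V : Type*) [AddCommGroup V] [DistribMulAction H V] (n : H) : Prop extends BA H V where
  odd : ∀ x : V, x + x = 0 → x = 0
  neg : ∀ v : V, n • v = -v

namespace OA
variable (T : OA V n)
include T

theorem inj (e : x + x = y + y) : x = y := sub_eq_zero.1 (T.odd _ (by rw [sub_add_sub_comm, e, sub_self]))

theorem half (hx : x ∈ W) : ∃ y ∈ W, y + y = x := by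
  obtain ⟨y, e⟩ := Finite.injective_iff_surjective.1 (show Function.Injective fun y : W => y + y from
    fun x y e => Subtype.ext (T.inj (congrArg Subtype.val e))) ⟨x, hx⟩
  exact ⟨y, y.2, congrArg Subtype.val e⟩

theorem pp (u : V) : ∃ t : H, t • u = -u ∧ ∀ x, Perp H x u ↔ t • x = x := by
  obtain ⟨t, e1, e2⟩ := T.one_pt {x | Perp H x u} ⟨n, T.neg u⟩ fun x hx => (Eqv.neg hx).symm.of_eq (by abel) (by abel)
  exact ⟨t, e1, fun x => ⟨e2 x, fun e => ⟨t, by rw [smul_add, e, e1, sub_eq_add_neg]⟩⟩⟩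

theorem symm (h : Perp H x u) : Perp H u x := (h.trans ⟨n, T.neg _⟩).of_eq (add_comm ..) (neg_sub ..)

theorem add (h : Perp H x u) (h' : Perp H y u) : Perp H (x + y) u := by
  obtain ⟨t, -, e⟩ := T.pp u
  rw [e] at h h' ⊢
  rw [smul_add, h, h']

theorem sub (h : Perp H x u) (h' : Perp H y u) : Perp H (x - y) u := by
  obtain ⟨t, -, e⟩ := T.pp u
  rw [e] at h h' ⊢
  rw [smul_sub, h, h']

theorem self (h : Perp H u u) : u = 0 := T.odd u (Eqv.zero (h.symm.of_eq (sub_self u) rfl))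

omit T in
theorem of_eqv (h : Eqv H x y) : Perp H (x + y) (y - x) :=
  let ⟨g, e⟩ := h.symm; ⟨g, by rw [show x + y + (y - x) = y + y by abel, smul_add, e]; abel⟩

theorem to_eqv (h : Perp H (x + y) (y - x)) : Eqv H y x :=
  let ⟨g, e⟩ := h; ⟨g, T.inj (by rw [← smul_add, show y + y = x + y + (y - x) by abel, e]; abel)⟩

theorem perp_PM (hx : s • x = x) (hu : u ∈ Mv V s) : Perp H x u := by
  obtain ⟨y, rfl⟩ := mem_M.1 hu
  have := T.sub (of_eqv (x := y + x) (y := s • y + x) ⟨s, by rw [smul_add, hx]⟩)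
    ((of_eqv ⟨s, rfl⟩).of_eq (by abel) (by abel) : Perp H (y + s • y) (s • y + x - (y + x)))
  rw [show y + x + (s • y + x) - (y + s • y) = x + x by abel, add_sub_add_right_eq_sub] at this
  obtain ⟨t, -, e⟩ := T.pp (s • y - y)
  rw [e] at this ⊢
  exact T.inj (by rwa [smul_add] at this)

theorem PM (hx : s • x = x) (hu : x ∈ Mv V s) : x = 0 := T.self (T.perp_PM hx hu)

theorem ne_one (e : t • u = -u) (u0 : u ≠ 0) : t ≠ 1 := by
  rintro rfl; exact u0 (T.odd u (by simpa [eq_neg_iff_add_eq_zero] using e))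

theorem mem_of_neg (e : g • x = -x) : x ∈ Mv V g := by
  obtain ⟨y, -, rfl⟩ := T.half (AddSubgroup.mem_top x)
  exact mem_M.2 ⟨-y, by rw [smul_neg, T.inj (x := g • y) (y := -y) (by rw [← smul_add, e, neg_add])]; abel⟩

theorem rf_perp (r : Rf V g) (hu : u ∈ Mv V g) (u0 : u ≠ 0) (h : Perp H x u) : g • x = x := by
  obtain ⟨t, e1, e⟩ := T.pp u
  exact mem_P.1 ((r.P_eq (T.ne_one e1 u0) fun c hc => mem_P.2 ((e c).1 (T.perp_PM (mem_P.1 hc) hu))).le
    (mem_P.2 ((e x).1 h)))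

theorem M_le (r : Rf V g) (r' : Rf V g') (ne : g ≠ g') (h : ∀ c : V, g • c = c → g' • c = c → s • c = c) :
    Mv V s ≤ Mv V g ⊔ Mv V g' := fun u hu => by
  obtain ⟨m, hm, e⟩ := dl_surj le_rfl (fun y _ => sub_mem_M (g * g') y) (fun y hy e => T.PM e hy) (sub_mem_M (g * g') u)
  have c : (g * g') • (u - m) = u - m := by rw [smul_sub, sub_eq_sub_iff_sub_eq_sub, e]
  have c' := (T.P_mul r r' ne).1 c
  rw [sub_eq_zero.1 (T.self (T.sub (T.symm (T.perp_PM (h _ c'.1 c'.2) hu)) (T.symm (T.perp_PM c hm))))]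
  exact BA.M_mul g g' hm

theorem perp_W (hc : g • c = c) (hc' : g' • c = c) (hw : w ∈ Mv V g ⊔ Mv V g') : Perp H c w := by
  obtain ⟨e, he, e', he', rfl⟩ := AddSubgroup.mem_sup.1 hw
  exact T.symm (T.add (T.symm (T.perp_PM hc he)) (T.symm (T.perp_PM hc' he')))

theorem cov_of (r : Rf V g) (r' : Rf V g') (ne : g ≠ g') (h : ∀ c : V, g • c = c → g' • c = c → s • c = c)
    (h' : ∀ y ∈ Mv V g ⊔ Mv V g', s • y = y ∨ s • y = -y → y = 0) : Cov H (Mv V g ⊔ Mv V g') := fun w hw w0 => by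
  have l := T.M_le r r' ne h
  obtain ⟨y, hy, rfl⟩ := dl_surj le_rfl (fun y _ => l (sub_mem_M s y)) (fun y hy e => h' y hy (.inl e)) hw
  have hx : y + s • y ∈ Mv V g ⊔ Mv V g' := by simpa [add_assoc] using add_mem hy (add_mem hy hw)
  have x0 : y + s • y ≠ 0 := fun e => w0 (by simp [h' y hy (.inr (eq_neg_of_add_eq_zero_right e))])
  obtain ⟨t, e1, e2⟩ := T.pp (s • y - y)
  obtain ⟨k, e3, e4⟩ := T.pp (y + s • y)
  refine ⟨t, r.of_le (T.ne_one e1 w0) (Nat.le_of_mul_le_mul_right ?_ (Nat.card_pos (α := Mv V g))), T.mem_of_neg e1⟩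
  refine (Nat.mul_le_mul_left _ (r.2 k (T.ne_one e3 x0))).trans ((card_mul_le
    (T.M_le r r' ne fun c h1 h2 => (e2 c).1 (T.perp_W h1 h2 hw)) (T.M_le r r' ne fun c h1 h2 => (e4 c).1 (T.perp_W h1 h2 hx))
    fun z h1 h2 => T.PM ((e4 z).1 (T.symm (T.perp_PM ((e2 _).1 (of_eqv ⟨s, rfl⟩)) h1))) h2).trans ?_)
  exact (card_sup_le _ _).trans (r'.card_eq r ▸ le_rfl)

theorem cov_nc (r : Rf V g) (r' : Rf V g') (nc : g * g' ≠ g' * g) : Cov H (Mv V g ⊔ Mv V g') := by
  have ne : g ≠ g' := by rintro rfl; exact nc rfl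
  refine T.cov_of r r' ne (s := g * g') (fun c h1 h2 => (T.P_mul r r' ne).2 ⟨h1, h2⟩) fun y hy e => ?_
  obtain e | e := e
  · exact T.self (T.perp_W ((T.P_mul r r' ne).1 e).1 ((T.P_mul r r' ne).1 e).2 hy)
  have e1 : g' • y = -(g • y) := by rw [← T.rf_ss r (g' • y), ← mul_smul g g', e, smul_neg]
  have e2 : g' • g • y = -y := by rw [← neg_eq_iff_eq_neg.2 e1, smul_neg, T.rf_ss r']
  have a1 : g • y - y = 0 := by_contra fun c => nc (T.rf_comm r (sub_mem_M g y) c (h := g') (by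
    rw [smul_sub, e2, e1, neg_sub_neg]; exact sub_mem_M g y)).symm
  have a2 : g' • y - y = 0 := by_contra fun c => nc (T.rf_comm r' (sub_mem_M g' y) c (h := g) (by
    rw [smul_sub, ← mul_smul, e, show -y - g • y = g' • y - y by rw [e1]; abel]; exact sub_mem_M g' y))
  rw [sub_eq_zero] at a1 a2
  exact T.odd y (by rwa [a1, a2, eq_neg_iff_add_eq_zero] at e1)

theorem M_le_P (r : Rf V g) (r' : Rf V g') (ne : g ≠ g') (c : g * g' = g' * g) (hx : x ∈ Mv V g') : g • x = x :=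
  (T.rf_pm r' hx (comm_M c hx) ⟨g, rfl⟩).elim id fun e => by
    simp [T.rf_inf r r' ne (T.mem_of_neg e) hx]

theorem cov_conj (r : Rf V g) (ne : g ≠ h * g * h⁻¹) : Cov H (Mv V g ⊔ Mv V (h * g * h⁻¹)) := by
  have r' := r.conj h
  obtain ⟨x, hx, x0⟩ := T.exists_ne r.1
  have hx' := conj_M h hx
  have ex : Eqv H x (h • x) := ⟨h, rfl⟩
  generalize h * g * h⁻¹ = g' at *
  generalize h • x = x' at *
  by_cases c : g * g' = g' * g
  swap; · exact T.cov_nc r r' c
  obtain ⟨t, e1, e2⟩ := T.pp (x' - x)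
  have e3 := (e2 _).1 (of_eqv ex)
  have e4 : t • x = x' := T.inj (by
    rw [← smul_add, show x + x = x + x' - (x' - x) by abel, smul_sub, e1, e3]; abel)
  have e5 : t • x' = x := by rwa [smul_add, e4, add_comm, add_left_inj] at e3
  have x0' : x' ≠ 0 := fun e => x0 (by simpa [e] using e5.symm)
  have m1 : ∀ e ∈ Mv V g, t • e ∈ Mv V g' := fun e he => T.rf_conj r r' hx x0 (e4 ▸ hx') ▸ conj_M t he
  have m2 : ∀ e ∈ Mv V g', t • e ∈ Mv V g := fun e he => T.rf_conj r' r hx' x0' (e5 ▸ hx) ▸ conj_M t he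
  have sq : ∀ e ∈ Mv V g, t • t • e = -e → e = 0 := fun e he c => by
    have := T.rf_pm r (add_mem he hx) (m2 _ (m1 _ (add_mem he hx))) ⟨t * t, mul_smul ..⟩
    rw [smul_add, smul_add, c, e4, e5, add_left_inj, neg_add, add_right_inj] at this
    exact this.elim (fun c => T.odd e (add_eq_zero_iff_neg_eq.2 c)) fun c => absurd (T.odd x (eq_neg_iff_add_eq_zero.1 c)) x0
  refine T.cov_of r r' ne (s := g * t) (fun z h1 h2 => ?_) fun y hy e => ?_
  · rw [mul_smul, (e2 z).1 (T.perp_W h1 h2 (sub_mem (AddSubgroup.mem_sup_right hx') (AddSubgroup.mem_sup_left hx))), h1]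
  obtain ⟨p, hp, q, hq, rfl⟩ := AddSubgroup.mem_sup.1 hy
  rw [mul_smul, smul_add, smul_add, T.M_le_P r r' ne c (m1 p hp), T.rf_neg r (m2 q hq)] at e
  have k : t • t • p = -p ∧ (t • p = q ∨ t • p = -q) := by
    rcases e with e | e
    · have e' : t • p - q = p + t • q := by rw [sub_eq_iff_eq_add, add_right_comm, ← e]; abel
      have := T.rf_inf r r' ne (add_mem hp (m2 q hq)) (e' ▸ sub_mem (m1 p hp) hq)
      rw [this, sub_eq_zero] at e'
      exact ⟨by rw [e', eq_neg_of_add_eq_zero_right this], .inl e'⟩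
    · have e' : t • p + q = t • q - p := by rw [← add_left_inj (-(t • q)), add_right_comm, e]; abel
      have := T.rf_inf r r' ne (sub_mem (m2 q hq) hp) (e' ▸ add_mem (m1 p hp) hq)
      rw [this, add_eq_zero_iff_eq_neg] at e'
      exact ⟨by rw [e', smul_neg, sub_eq_zero.1 this], .inr e'⟩
  obtain rfl := sq p hp k.1
  simpa [eq_comm] using k.2

theorem ortho (r : Rf V g) (r' : Rf V g') (ne : g ≠ g') (cv : Cov H (Mv V g ⊔ Mv V g')) (he : e ∈ Mv V g') (e0 : e ≠ 0) :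
    ∃ b : H, Rf V b ∧ e + g • e ∈ Mv V b ∧ Mv V b ≤ Mv V g ⊔ Mv V g' ∧ ∀ x ∈ Mv V b, g • x = x := by
  have hw : e + g • e ∈ Mv V g ⊔ Mv V g' := by
    simpa [add_comm] using AddSubgroup.add_mem_sup (sub_mem_M g e) (add_mem he he)
  have w0 : e + g • e ≠ 0 := fun c => e0 (T.rf_inf r r' ne (T.mem_of_neg (eq_neg_of_add_eq_zero_right c)) he)
  obtain ⟨b, rb, hb⟩ := cv _ hw w0
  obtain ⟨y, hy, y0⟩ := T.exists_ne r.1
  exact ⟨b, rb, hb, T.M_le r r' ne fun c h1 h2 => T.rf_perp rb hb w0 (T.perp_W h1 h2 hw), fun x hx => T.rf_perp r hy y0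
    (T.symm (T.perp_PM (T.rf_perp rb hb w0 (T.symm (T.perp_PM (by rw [smul_add, T.rf_ss r, add_comm]) hy))) hx))⟩

theorem count (ra : Rf V a) (rb : Rf V b) (o : ∀ x ∈ Mv V b, a • x = x) (cv : Cov H (Mv V a ⊔ Mv V b)) (hy : y ∈ Mv V b)
    (y0 : y ≠ 0) : ∃ S : Set V, S ⊆ (Mv V b : Set V) \ {0, y} ∧ Nat.card (Mv V b) ≤ 2 * S.ncard + 1 ∧
      ∀ α ∈ S, ∃ x ∈ Mv V a, x ≠ 0 ∧ Perp H (x + α) (x + y) := by
  classical
  have pp : ∀ x ∈ Mv V a, ∀ z ∈ Mv V b, Perp H z x := fun x hx z hz => T.perp_PM (o z hz) hx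
  have n0 : ∀ x ∈ Mv V a, x + y ≠ 0 := fun x hx e => y0 (T.PM (o y hy) (eq_neg_of_add_eq_zero_right e ▸ neg_mem hx))
  have : ∀ x, ∃ α, x ∈ Mv V a → α ∈ Mv V b ∧ Perp H (x + α) (x + y) := fun x => by
    by_cases hx : x ∈ Mv V a
    swap; · exact ⟨0, fun c => absurd c hx⟩
    obtain ⟨j, rj, hj⟩ := cv _ (AddSubgroup.add_mem_sup hx hy) (n0 x hx)
    obtain ⟨β, hβ, e⟩ := dl_surj (rj.card_eq rb).le (fun y _ => sub_mem_M j y) (fun β hβ e => by_contra fun β0 => y0 (T.PM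
      (T.rf_perp rb hβ β0 (by simpa using T.sub (T.symm (T.perp_PM e hj)) (T.symm (pp x hx β hβ)))) hy)) (sub_mem_M j x)
    exact ⟨-β, fun _ => ⟨neg_mem hβ, T.perp_PM (by rw [← sub_eq_add_neg, smul_sub, sub_eq_sub_iff_sub_eq_sub, e]) hj⟩⟩
  choose f hf using this
  have := Fintype.ofFinite V
  let D := (Finset.univ.filter (· ∈ Mv V a)).erase 0
  have hD : ∀ x ∈ D, x ≠ 0 ∧ x ∈ Mv V a := fun x hx => by simpa [D] using hx
  refine ⟨D.image f, fun α hα => ?_, ?_, fun α hα => ?_⟩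
  · obtain ⟨x, hx, rfl⟩ := Finset.mem_image.1 hα
    obtain ⟨x0, hx⟩ := hD x hx
    refine ⟨(hf x hx).1, ?_⟩
    rintro (e | e)
    · have := (hf x hx).2
      rw [e, add_zero] at this
      exact x0 (T.self (by simpa only [add_sub_cancel_right] using T.sub (T.symm this) (pp x hx y hy)))
    · exact n0 x hx (T.self (by simpa [show f x = y from e] using (hf x hx).2))
  · rw [Set.ncard_coe_finset, rb.card_eq ra]
    refine le_trans ?_ (Nat.succ_le_succ (Finset.card_le_mul_card_image D 2 fun α hα => ?_))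
    · rw [Finset.card_erase_of_mem (by simp), Nat.subtype_card (Finset.univ.filter (· ∈ Mv V a)) (by simp)]; omega
    obtain ⟨x, hx, rfl⟩ := Finset.mem_image.1 hα
    refine (Finset.card_le_card (t := {x, -x}) fun z hz => ?_).trans Finset.card_le_two
    obtain ⟨hz, e⟩ := Finset.mem_filter.1 hz
    have h1 := hf x (hD x hx).2
    have h2 := hf z (hD z hz).2
    have hx := (hD x hx).2
    have hz := (hD z hz).2
    have hγ := add_mem h1.1 hy
    rw [e] at h2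
    have h3 : Eqv H (x + x + (f x + y)) (z + z + (f x + y)) :=
      (h1.2.trans (h2.2.symm.of_eq (by abel) rfl)).of_eq (by abel) (by abel)
    have h4 := pp _ (sub_mem (add_mem hz hz) (add_mem hx hx)) _ hγ
    have h5 := T.to_eqv (x := x + x) (y := z + z) (by
      have := of_eqv h3
      rw [add_sub_add_right_eq_sub] at this
      have := T.sub (T.sub this h4) h4
      rwa [show x + x + (f x + y) + (z + z + (f x + y)) - (f x + y) - (f x + y) = x + x + (z + z) by abel] at this)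
    simpa using (T.rf_pm ra (add_mem hx hx) (add_mem hz hz) h5.symm).imp T.inj fun c => T.inj (c.trans (neg_add ..))
  · obtain ⟨x, hx, rfl⟩ := Finset.mem_image.1 hα
    exact ⟨x, (hD x hx).2, (hD x hx).1, (hf x (hD x hx).2).2⟩

theorem not_three (ra : Rf V a) (rb : Rf V b) (rd : Rf V d) (ab : ∀ x ∈ Mv V b, a • x = x) (db : ∀ x ∈ Mv V b, d • x = x)
    (ad : ∀ x ∈ Mv V d, a • x = x) (c1 : Cov H (Mv V a ⊔ Mv V b)) (c2 : Cov H (Mv V d ⊔ Mv V b)) : False := by
  obtain ⟨y, hy, y0⟩ := T.exists_ne rb.1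
  obtain ⟨S, s1, s2, s3⟩ := T.count ra rb ab c1 hy y0
  obtain ⟨S', s1', s2', s3'⟩ := T.count rd rb db c2 hy y0
  have d1 : Disjoint S ((y - ·) '' S') := Set.disjoint_left.2 (by
    rintro _ h1 ⟨β, h2, rfl⟩
    obtain ⟨x, hx, x0, p⟩ := s3 _ h1
    obtain ⟨z, hz, -, p'⟩ := s3' _ h2
    have q1 := T.symm (T.perp_PM (ad z hz) hx)
    have q2 := T.symm (T.add (T.symm p) (T.symm (T.add q1 (T.perp_PM (db _ (s1 h1).1) hz))))
    have q3 := T.symm (T.add (T.symm p') (T.symm (T.add (T.symm q1) (T.perp_PM (ab _ (s1' h2).1) hx))))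
    rw [show z + y + x = x + y + z by abel] at q3
    have := T.self (by simpa only [show x + (y - β) + (z + β) = x + y + z by abel] using T.add q2 q3)
    refine x0 (T.PM ?_ hx)
    rw [eq_neg_of_add_eq_zero_left ((add_assoc x y z).symm.trans this), smul_neg, smul_add, ab y hy, ad z hz])
  have h1 := Set.ncard_le_ncard (s := insert 0 (insert y (S ∪ (y - ·) '' S'))) (t := Mv V b) (by
    rintro _ (rfl | rfl | h | ⟨β, h, rfl⟩)
    exacts [zero_mem _, hy, (s1 h).1, sub_mem hy (s1' h).1])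
  rw [Set.ncard_insert_of_notMem, Set.ncard_insert_of_notMem, Set.ncard_union_eq d1,
    Set.ncard_image_of_injective _ sub_right_injective, show (Mv V b : Set V).ncard = Nat.card (Mv V b) from rfl] at h1
  · omega
  · rintro (h | ⟨β, h, e⟩)
    exacts [(s1 h).2 (.inr rfl), (s1' h).2 (.inl (sub_eq_self.1 e))]
  · rintro (h | h | ⟨β, h, e⟩)
    exacts [y0 h.symm, (s1 h).2 (.inl rfl), (s1' h).2 (.inr (sub_eq_zero.1 e).symm)]

theorem exists_out (r : Rf V g) (hW : W ≠ ⊤) : ∃ h : H, ∃ e ∈ Mv V (h * g * h⁻¹), e ∉ W := by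
  by_contra! c
  obtain ⟨x, hx, x0⟩ := T.exists_ne r.1
  exact hW (T.eq_top (D := {y | Eqv H x y}) (fun h _ e => e.trans ⟨h, rfl⟩) .rfl x0
    (by rintro _ ⟨h, rfl⟩; exact c h _ (conj_M h hx)))

theorem plane (r : Rf V g) (hg : Mv V g ≠ ⊤) : ∃ g' : H, Rf V g' ∧ Mv V g ⊔ Mv V g' = ⊤ ∧ Cov H (⊤ : AddSubgroup V) := by
  obtain ⟨h, e, he, eM⟩ := T.exists_out r hg
  have ne : g ≠ h * g * h⁻¹ := fun c => eM (c ▸ he)
  have cv := T.cov_conj r ne
  suffices Mv V g ⊔ Mv V (h * g * h⁻¹) = ⊤ from ⟨_, r.conj h, this, this ▸ cv⟩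
  by_contra hW
  obtain ⟨k, e', he', eW⟩ := T.exists_out r hW
  have ne' : g ≠ k * g * k⁻¹ := fun c => eW (AddSubgroup.mem_sup_left (c ▸ he'))
  have cv' := T.cov_conj r ne'
  obtain ⟨b, rb, -, lb, ob⟩ := T.ortho r (r.conj h) ne cv he (by rintro rfl; exact eM (zero_mem _))
  obtain ⟨d, rd, hd, ld, od⟩ := T.ortho r (r.conj k) ne' cv' he' (by rintro rfl; exact eW (zero_mem _))
  have bd : b ≠ d := by
    rintro rfl
    obtain ⟨y, hy, e⟩ := T.half (sub_mem (lb hd) (AddSubgroup.mem_sup_left (sub_mem_M g e')))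
    exact eW (T.inj (x := y) (y := e') (by rw [e]; abel) ▸ hy)
  have sw : ∀ {b : H}, Rf V b → (∀ x ∈ Mv V b, g • x = x) → ∀ x ∈ Mv V g, b • x = x := fun rb ob x hx =>
    let ⟨y, hy, y0⟩ := T.exists_ne rb.1; T.rf_perp rb hy y0 (T.symm (T.perp_PM (ob y hy) hx))
  by_cases c : b * d = d * b
  · exact T.not_three rb r rd (sw rb ob) (sw rd od) (fun x => T.M_le_P rb rd bd c) (cv.mono (sup_le lb le_sup_left))
      (cv'.mono (sup_le ld le_sup_left))
  obtain ⟨y, hy, y0⟩ := T.exists_ne rd.1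
  obtain ⟨j, rj, -, lj, oj⟩ := T.ortho rb rd bd (T.cov_nc rb rd c) hy y0
  obtain ⟨z, hz, z0⟩ := T.exists_ne rj.1
  exact T.not_three r rb rj ob (fun x hx => T.rf_perp rj hz z0 (T.symm (T.perp_PM (oj z hz) hx)))
    (fun x hx => mem_P.1 ((lj.trans (sup_le (fun x hx => mem_P.2 (ob x hx)) fun x hx => mem_P.2 (od x hx))) hx))
    (cv.mono (sup_le le_sup_left lb)) ((T.cov_nc rb rd c).mono (sup_le lj le_sup_left))

theorem st2 (r : Rf V g) (hg : Mv V g ≠ ⊤) : St2 H V := fun v v0 => by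
  obtain ⟨g', r', e, cv⟩ := T.plane r hg
  obtain ⟨j, rj, hj⟩ := cv v trivial v0
  have c : Nat.card (Pf V j) ≤ Nat.card (Mv V g) := Nat.le_of_mul_le_mul_right (by
    rw [card_PM, ← AddSubgroup.card_top, ← e, rj.card_eq r']; exact card_sup_le _ _) (Nat.card_pos (α := Mv V j))
  have key : ∀ k : H, k ≠ 1 → k • v = v → Rf V k ∧ Mv V k = Pf V j := fun k k1 hk => by
    have l : Mv V k ≤ Pf V j := fun x hx => mem_P.2 (T.rf_perp rj hj v0 (T.symm (T.perp_PM hk hx)))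
    exact ⟨r.of_le k1 ((AddSubgroup.card_le_of_le l).trans c), AddSubgroup.eq_of_le_of_card_ge l (c.trans (r.2 k k1))⟩
  have e1 : (n * j) • v = v := by rw [mul_smul, T.rf_neg rj hj, T.neg, neg_neg]
  have n1 : n * j ≠ 1 := fun c => hg (AddSubgroup.eq_top_of_card_eq _ (by
    rw [r.card_eq rj, (AddSubgroup.eq_top_iff' _).2 fun x => T.mem_of_neg (g := j) (by
      rw [eq_comm, neg_eq_iff_eq_neg, ← T.neg, ← mul_smul, c, one_smul]), AddSubgroup.card_top]))
  refine ⟨n * j, n1, e1, fun k hk => or_iff_not_imp_left.2 fun k1 => ?_⟩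
  obtain ⟨x, hx, x0⟩ := T.exists_ne k1
  exact T.rf_eq (key k k1 hk).1 (key _ n1 e1).1 hx ((key _ n1 e1).2.ge ((key k k1 hk).2.le hx)) x0
end OA
end H4.Gs.Ch
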