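import Cfsg.Agent.H4.Ch2

/-! Binary affine groups in characteristic two (`EA`): `EA.st2`, point stabilizers have order two. -/

set_option autoImplicit false
set_option linter.unusedSectionVars false
set_option linter.unusedVariables false

namespace H4.Gs.Ch

variable {H V : Type*} [Group H] [AddCommGroup V] [DistribMulAction H V] [Finite V] [Finite H]
  {a b d g g' h j k n s t : H} {c e u v w x y z : V} {A B W : AddSubgroup V}

theorem dih_pow (e : g * g = 1) (e' : g' * g' = 1) (k : ℕ) : g * (g * g') ^ k * g⁻¹ = ((g * g') ^ k)⁻¹ := by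
  rw [← conj_pow, ← inv_pow, mul_inv_rev, ← mul_assoc, e, one_mul, inv_eq_of_mul_eq_one_right e']

theorem dih_conj (e : g * g = 1) (e' : g' * g' = 1) (o : Odd (orderOf (g * g'))) : ∃ h : H, h * g * h⁻¹ = g' := by
  obtain ⟨k, o⟩ := o
  have := pow_orderOf_eq_one (g * g')
  rw [o, pow_succ, two_mul, pow_add, ← mul_assoc, mul_eq_one_iff_eq_inv, inv_eq_of_mul_eq_one_right e'] at this
  refine ⟨(g * g') ^ k, ?_⟩
  rw [← dih_pow e e', inv_eq_of_mul_eq_one_right e]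
  simpa [mul_assoc, ← mul_assoc g g, e] using this

/-- characteristic two -/
structure EA (H V : Type*) [Group H] [AddCommGroup V] [DistribMulAction H V] : Prop extends BA H V where
  two : ∀ x : V, -x = x

namespace EA
variable (T : EA H V)
include T

theorem add_self (x : V) : x + x = 0 := by nth_rw 1 [← T.two x, neg_add_cancel]

theorem rf_fix (r : Rf V g) (hu : u ∈ Mv V g) : g • u = u := (T.rf_neg r hu).trans (T.two u)

theorem comm_fix (r : Rf V g) (c : k * g = g * k) (hx : x ∈ Mv V g) : k • x = x := by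
  simpa [T.two] using T.rf_pm r hx (comm_M c hx) ⟨k, rfl⟩

theorem comm_P (r : Rf V g) (c : k * g = g * k) (hx : x ∈ Mv V k) : g • x = x := by
  obtain ⟨y, rfl⟩ := mem_M.1 hx
  rw [smul_sub, ← mul_smul, ← c, mul_smul, sub_eq_sub_iff_sub_eq_sub, ← smul_sub, T.comm_fix r c (sub_mem_M g y)]

theorem not_comm (r : Rf V g) (ne : g ≠ h * g * h⁻¹) : g * (h * g * h⁻¹) ≠ h * g * h⁻¹ * g := fun c => by
  have r' := r.conj h
  obtain ⟨x, hx, x0⟩ := T.exists_ne r.1
  have hx' := conj_M h hx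
  obtain ⟨t, e4, e5⟩ := T.swap (x := x) ⟨h, rfl⟩
  generalize h * g * h⁻¹ = g' at *
  generalize h • x = x' at *
  have x0' : x' ≠ 0 := fun e => x0 (by simpa [e] using e5.symm)
  have c1 := T.rf_conj r r' hx x0 (e4 ▸ hx')
  have c2 := T.rf_conj r' r hx' x0' (e5 ▸ hx)
  have l : ∀ u ∈ Mv V g ⊔ Mv V g', (t * t) • u = u := fun u hu => mem_P.1 ((sup_le
    (fun x hx => mem_P.2 (T.comm_fix r (by rw [← mul_inv_eq_iff_eq_mul]; nth_rw 2 [← c2]; rw [← c1]; group) hx))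
    fun x hx => mem_P.2 (T.comm_fix r' (by rw [← mul_inv_eq_iff_eq_mul]; nth_rw 2 [← c1]; rw [← c2]; group) hx) :
    Mv V g ⊔ Mv V g' ≤ Pf V (t * t)) hu)
  have ct : t * (g * g') = g * g' * t := by rw [← mul_inv_eq_iff_eq_mul, ← conj_mul, c1, c2, c]
  obtain ⟨u, hu, u0, e⟩ : ∃ u ∈ Mv V (g * g'), u ≠ 0 ∧ t • u = u := by
    obtain ⟨u, hu, u0⟩ := T.exists_ne (g := g * g') fun e => ne (by
      rw [← inv_eq_of_mul_eq_one_right e, inv_eq_of_mul_eq_one_right (T.rf_sq r)])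
    by_cases e : t • u = u
    · exact ⟨u, hu, u0, e⟩
    exact ⟨t • u - u, sub_mem (comm_M ct hu) hu, sub_ne_zero.2 e, by
      rw [smul_sub, ← mul_smul, l u (BA.M_mul g g' hu), ← T.two (_ - _), neg_sub]⟩
  obtain ⟨p, hp, q, hq, rfl⟩ := AddSubgroup.mem_sup.1 (BA.M_mul g g' hu)
  have e1 : t • p - q = p - t • q := by rw [sub_eq_sub_iff_add_eq_add, ← smul_add, e]
  have e2 := sub_eq_zero.1 (T.rf_inf r r' ne (e1 ▸ sub_mem hp (c2 ▸ conj_M t hq)) (sub_mem (c1 ▸ conj_M t hp) hq))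
  have := T.fix_of (s := g * g') (x := p) (g := t) (by rw [mul_smul, T.comm_fix r c.symm hp, T.rf_fix r hp])
    (by rwa [e2, sub_eq_add_neg, T.two, add_comm])
  exact u0 (by rw [← e2, this, T.add_self])

theorem nc_inf (r' : Rf V g') (nc : g * g' ≠ g' * g) (hx : x ∈ Mv V g') (e : g • x = x) : x = 0 :=
  by_contra fun x0 => nc (T.rf_comm r' hx x0 (e.symm ▸ hx))

theorem WC (r : Rf V g) (r' : Rf V g') (nc : g * g' ≠ g' * g) (hw : w ∈ Mv V g ⊔ Mv V g') (e : g • w = w)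
    (e' : g' • w = w) : w = 0 := by
  obtain ⟨p, hp, q, hq, rfl⟩ := AddSubgroup.mem_sup.1 hw
  rw [smul_add, T.rf_fix r hp, add_right_inj] at e
  rw [smul_add, T.rf_fix r' hq, add_left_inj] at e'
  rw [T.nc_inf r' nc hq e, T.nc_inf r nc.symm hp e', add_zero]

theorem odd_mul (r : Rf V g) (r' : Rf V g') (nc : g * g' ≠ g' * g) : Odd (orderOf (g * g')) :=
  Nat.not_even_iff_odd.1 fun ⟨k, o⟩ => by
  have o0 := orderOf_pos (g * g')
  have e := pow_orderOf_eq_one (g * g')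
  rw [o, pow_add] at e
  have c : (g * g') ^ k * g = g * (g * g') ^ k := by
    rw [← mul_inv_eq_iff_eq_mul.1 ((dih_pow (T.rf_sq r) (T.rf_sq r') k).trans (inv_eq_of_mul_eq_one_right e))]
  have c' : (g * g') ^ k * g' = g' * (g * g') ^ k := by
    have : Commute ((g * g') ^ k) (g⁻¹ * (g * g')) := (Commute.inv_right c).mul_right (Commute.pow_self _ k)
    simpa using this.eq
  refine pow_ne_one_of_lt_orderOf (by omega) (show k < _ by omega) (T.faith _ fun y => sub_eq_zero.1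
    (T.WC r r' nc ?_ (T.comm_P r c (sub_mem_M _ y)) (T.comm_P r' c' (sub_mem_M _ y))))
  clear o e c c'
  induction k with
  | zero => simp
  | succ k ih => simpa [pow_succ', mul_smul (g * g')] using add_mem (BA.M_mul g g' (sub_mem_M _ ((g * g') ^ k • y))) ih

theorem exists_comm {i : ℕ} (r : Rf V g) (ht : t ^ 2 ^ i = 1) : ∃ h : H, t * (h * g * h⁻¹) = h * g * h⁻¹ * t := by
  have pz : ∀ {t : H} {i : ℕ}, t ^ 2 ^ i = 1 → IsPGroup 2 (Subgroup.zpowers t) := fun {t i} e => by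
    rintro ⟨_, m, rfl⟩
    exact ⟨i, Subtype.ext (by simp [← zpow_natCast, ← zpow_mul, mul_comm m]; simp only [zpow_mul]; norm_cast; simp [e])⟩
  obtain ⟨P, hP⟩ := (pz ht).exists_le_sylow
  obtain ⟨Q, hQ⟩ := (pz (i := 1) (by simpa [sq] using T.rf_sq r)).exists_le_sylow
  obtain ⟨h, rfl⟩ := MulAction.exists_smul_eq H Q P
  have h1 : h * g * h⁻¹ ∈ ((h • Q : Sylow 2 H) : Subgroup H) := ⟨g, hQ (Subgroup.mem_zpowers g), rfl⟩
  have h2 := hP (Subgroup.mem_zpowers t)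
  have r1 := r.conj h
  refine ⟨h, by_contra fun c => ?_⟩
  generalize h * g * h⁻¹ = j at *
  have ne : j ≠ t * j * t⁻¹ := fun e => c (mul_inv_eq_iff_eq_mul.1 e.symm)
  have o := T.odd_mul r1 (r1.conj t) (T.not_comm r1 ne)
  obtain ⟨m, e⟩ := (h • Q).2 ⟨_, mul_mem h1 (mul_mem (mul_mem h2 h1) (inv_mem h2))⟩
  have := orderOf_eq_one_iff.1 ((o.coprime_two_right.pow_right m).eq_one_of_dvd
    (orderOf_dvd_of_pow_eq_one (congrArg Subtype.val e)))
  exact ne (by rw [← inv_eq_of_mul_eq_one_right this, inv_eq_of_mul_eq_one_right (T.rf_sq r1)])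

theorem mem_line (r : Rf V g) (ne : g ≠ h * g * h⁻¹) (hu : u ∈ Mv V g ⊔ Mv V (h * g * h⁻¹)) :
    ∃ k : H, u ∈ Mv V (k * g * k⁻¹) := by
  have r' := r.conj h
  have nc := T.not_comm r ne
  by_cases ug : g • u = u
  · obtain ⟨p, hp, q, hq, rfl⟩ := AddSubgroup.mem_sup.1 hu
    rw [smul_add, T.rf_fix r hp, add_right_inj] at ug
    exact ⟨1, by simpa [T.nc_inf r' nc hq ug] using hp⟩
  by_cases ug' : (h * g * h⁻¹) • u = u
  · obtain ⟨p, hp, q, hq, rfl⟩ := AddSubgroup.mem_sup.1 hu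
    rw [smul_add, T.rf_fix r' hq, add_left_inj] at ug'
    exact ⟨h, by simpa [T.nc_inf r nc.symm hp ug'] using hq⟩
  obtain ⟨y, -, e⟩ := dl_surj le_rfl (fun y _ => BA.M_mul g _ (sub_mem_M _ y))
    (fun y hy e => T.WC r r' nc hy ((T.P_mul r r' ne).1 e).1 ((T.P_mul r r' ne).1 e).2) hu
  have e0 : Eqv H y (y + u) := ⟨_, by rw [← e]; exact (add_sub_cancel ..).symm⟩
  obtain ⟨t, ht⟩ := T.exists_tr e0
  obtain ⟨i, m, hm, o⟩ := Nat.exists_eq_two_pow_mul_odd (orderOf_pos t).ne'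
  have e1 := ht y e0
  have e2 := ht (y + u) (e0.symm.of_eq rfl (by rw [add_assoc, T.add_self, add_zero]))
  have e3 : t ^ m • y = y + u := by
    obtain ⟨m, rfl⟩ := hm
    rw [pow_succ', mul_smul, pow_mul, MulAction.mem_stabilizer_iff.1 (pow_mem (show t ^ 2 ∈ MulAction.stabilizer H y by
      rw [MulAction.mem_stabilizer_iff, sq, mul_smul, e1, e2, add_assoc, T.add_self, add_zero]) m), e1]
  have e4 : Pf V (g * (h * g * h⁻¹)) ≤ Pf V (t ^ m) := fun c hc => mem_P.2 (MulAction.mem_stabilizer_iff.1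
    (pow_mem (MulAction.mem_stabilizer_iff.2 (T.tr_fix e ht (mem_P.1 hc))) m))
  obtain ⟨k, c⟩ := T.exists_comm r (t := t ^ m) (i := i) (by rw [← pow_mul', ← o, pow_orderOf_eq_one])
  generalize t ^ m = t at e3 e4 c
  have hu' : u ∈ Mv V t := ⟨y, by rw [← add_sub_cancel_left y u, ← e3]; rfl⟩
  have rj := r.conj k
  have e5 := T.comm_P rj c hu'
  have rt : Rf V t := by
    refine r.of_le (by rintro rfl; exact ug (by simp_all)) (Nat.le_of_mul_le_mul_left ?_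
      (Nat.mul_pos (Nat.card_pos (α := Pf V (g * (h * g * h⁻¹)))) (Nat.card_pos (α := Mv V (k * g * k⁻¹)))))
    refine (Nat.mul_le_mul_right _ (card_mul_le e4 (fun x hx => mem_P.2 (T.comm_fix rj c hx)) fun x hx hx' =>
      T.nc_inf rj (T.not_comm r fun c => ug (by rwa [← c] at e5)) hx' ((T.P_mul r r' ne).1 (mem_P.1 hx)).1)).trans ?_
    rw [card_PM, ← card_PM (V := V) (g * (h * g * h⁻¹)), rj.card_eq r, Nat.mul_assoc]
    refine Nat.mul_le_mul_left _ ((AddSubgroup.card_le_of_le (BA.M_mul (V := V) g _)).trans ((card_sup_le _ _).trans ?_))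
    rw [r'.card_eq r]
  obtain ⟨l, e⟩ := dih_conj (T.rf_sq r) (T.rf_sq rt) (T.odd_mul r rt fun c => ug (T.comm_fix rt c hu'))
  exact ⟨l, e ▸ hu'⟩

theorem cover (r : Rf V g) (v : V) : ∃ k : H, v ∈ Mv V (k * g * k⁻¹) := by
  let L : AddSubgroup V :=
    { carrier := {v | ∃ k : H, v ∈ Mv V (k * g * k⁻¹)}
      zero_mem' := ⟨1, zero_mem _⟩
      neg_mem' := fun ⟨k, h⟩ => ⟨k, neg_mem h⟩
      add_mem' := fun ⟨k, h⟩ ⟨l, h'⟩ => by
        by_cases c : k * g * k⁻¹ = l * g * l⁻¹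
        · exact ⟨l, add_mem (c ▸ h) h'⟩
        have e : l * g * l⁻¹ = l * k⁻¹ * (k * g * k⁻¹) * (l * k⁻¹)⁻¹ := by group
        obtain ⟨m, hm⟩ := T.mem_line (r.conj k) (e ▸ c) (AddSubgroup.add_mem_sup h (e ▸ h'))
        exact ⟨m * k, by simpa [mul_assoc] using hm⟩ }
  obtain ⟨x, hx, x0⟩ := T.exists_ne r.1
  exact (T.eq_top (W := L) (D := L) (fun h _ ⟨k, e⟩ => ⟨h * k, by simpa [mul_assoc] using conj_M h e⟩)
    ⟨1, by simpa using hx⟩ x0 le_rfl).ge (AddSubgroup.mem_top v)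

theorem st2 (r : Rf V g) : St2 H V := fun v v0 => by
  obtain ⟨k, hj⟩ := T.cover r v
  have rj := r.conj k
  generalize k * g * k⁻¹ = j at hj rj
  have pm : ∀ x : V, j • x = x → x ∈ Mv V j := fun x e => by
    obtain ⟨l, hl⟩ := T.cover rj x
    by_cases c : j = l * j * l⁻¹
    · exact c ▸ hl
    · rw [T.nc_inf (rj.conj l) (T.not_comm rj c) hl e]; exact zero_mem _
  refine ⟨j, rj.1, T.rf_fix rj hj, fun k hk => or_iff_not_imp_left.2 fun k1 => ?_⟩
  have c := T.rf_comm rj hj v0 (hk.symm ▸ hj)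
  have l : Mv V k ≤ Mv V j := fun x hx => pm x (T.comm_P rj c hx)
  obtain ⟨x, hx, x0⟩ := T.exists_ne k1
  exact T.rf_eq (rj.of_le k1 (AddSubgroup.card_le_of_le l)) rj hx (l hx) x0
end EA
end H4.Gs.Ch
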