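import Cfsg.Agent.H4.Ch3
import Cfsg.Agent.H25.FieldAut
import Mathlib.RingTheory.LittleWedderburn
import Mathlib.Algebra.Field.Shrink
import Mathlib.RingTheory.Norm.Transitivity
import Mathlib.GroupTheory.GroupAction.Primitive

/-! Cherlin's classification of the binary primitive affine groups (`bin_affine`). -/

set_option autoImplicit false
set_option linter.unusedSectionVars false
set_option linter.unusedVariables false

namespace H4.Gs.Ch

section
variable {H V : Type*} [Group H] [AddCommGroup V] [DistribMulAction H V] [Finite V] [Finite H]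
  {a b d g g' h h' j k n s t t' : H} {c e u v w x y z : V}

theorem BA.cases (T : BA H V) : (∀ (h : H) (x : V), h • x = x ∨ h • x = -x) ∨ (St2 H V ∧ ∃ n : H, ∀ v : V, n • v = -v) := by
  by_cases c : ∀ g : H, g = 1
  · exact .inl fun h x => .inl (by rw [c h, one_smul])
  obtain ⟨g, g1⟩ := not_forall.1 c
  obtain ⟨n, hn⟩ := T.exists_neg g1
  obtain ⟨g, r⟩ := BA.exists_rf (V := V) g1
  by_cases o : ∀ x : V, x + x = 0 → x = 0
  · by_cases hg : Mv V g = ⊤
    · exact .inl fun h x => T.rf_pm r (hg.ge trivial) (hg.ge trivial) ⟨h, rfl⟩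
    · exact .inr ⟨OA.st2 ⟨T, o, hn⟩ r hg, n, hn⟩
  simp only [not_forall] at o
  obtain ⟨x, e, x0⟩ := o
  have := T.eq_top (D := {x | x + x = 0}) (W := (AddMonoidHom.id V + AddMonoidHom.id V).ker)
    (fun h v hv => show h • v + h • v = 0 by rw [← smul_add, hv, smul_zero]) e x0 le_rfl
  exact .inr ⟨EA.st2 ⟨T, fun x => neg_eq_of_add_eq_zero_left (this.ge (AddSubgroup.mem_top x))⟩ r, n, hn⟩

theorem BA.prime [Nontrivial V] (T : BA H V) (e : ∀ (h : H) (x : V), h • x = x ∨ h • x = -x) :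
    (Nat.card V).Prime ∧ Nat.card H ≤ 2 := by
  have k : ∀ U : AddSubgroup V, U = ⊥ ∨ U = ⊤ := fun U => T.irr U fun h v hv => by
    rcases e h v with c | c <;> simpa [c] using hv
  have : IsSimpleAddGroup V := ⟨fun U _ => k U⟩
  refine ⟨IsSimpleAddGroup.prime_card, ?_⟩
  obtain ⟨x, x0⟩ := _root_.exists_ne (0 : V)
  refine (Nat.card_le_card_of_injective (β := ({x, -x} : Set V)) (fun h => ⟨h • x, e h x⟩) fun g h c => ?_).trans
    ((Set.ncard_insert_le ..).trans (by simp))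
  have := ((k (Pf V (h⁻¹ * g))).resolve_left fun c' => x0 (c'.le (mem_P.2 (by
    rw [mul_smul, show g • x = h • x from congrArg Subtype.val c, inv_smul_smul])))).ge
  exact (inv_mul_eq_one.1 (T.faith _ fun v => mem_P.1 (this trivial))).symm

/-- nontrivial elements with a nonzero fixed vector -/
def Rr (V : Type*) [AddCommGroup V] [DistribMulAction H V] (t : H) : Prop := t ≠ 1 ∧ ∃ v : V, v ≠ 0 ∧ t • v = v

/-- stabilizers of order two -/
structure SA (V : Type*) [AddCommGroup V] [DistribMulAction H V] (n : H) : Prop extends BA H V where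
  st : St2 H V
  neg : ∀ v : V, n • v = -v

namespace SA
variable (T : SA V n)
include T

theorem uniq (v0 : v ≠ 0) (t1 : t ≠ 1) (e : t • v = v) (e' : h • v = v) : h = 1 ∨ h = t := by
  obtain ⟨s, -, -, k⟩ := T.st v v0
  exact (k h e').imp id fun c => c.trans ((k t e).resolve_left t1).symm

theorem exists_R (v0 : v ≠ 0) : ∃ t : H, Rr V t ∧ t • v = v :=
  let ⟨s, s1, e, _⟩ := T.st v v0; ⟨s, ⟨s1, v, v0, e⟩, e⟩

theorem sq (r : Rr V t) : t * t = 1 :=
  let ⟨v, v0, e⟩ := r.2; (T.uniq v0 r.1 e (by rw [mul_smul, e, e])).resolve_right (by simpa using r.1)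

theorem inv (r : Rr V t) : t⁻¹ = t := inv_eq_of_mul_eq_one_right (T.sq r)

theorem nn : n * n = 1 := T.faith _ fun v => by simp [mul_smul, T.neg]

theorem not_n : ¬ Rr V n := fun ⟨n1, v, v0, e⟩ => n1 (T.faith n fun x => mem_P.1 ((T.eq_top (D := Pf V n) (W := Pf V n)
  (fun h v hv => mem_P.2 (by rw [T.neg, ← smul_neg, ← T.neg, mem_P.1 hv])) (mem_P.2 e) v0 le_rfl).ge trivial))

theorem n_mul (r : Rr V t) : Rr V (n * t) := by
  obtain ⟨_, ⟨x, rfl⟩, x0⟩ := T.exists_ne r.1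
  refine ⟨fun c => T.not_n (by rwa [eq_inv_of_mul_eq_one_left c, T.inv r]), _, x0, ?_⟩
  change (n * t) • (t • x - x) = t • x - x
  rw [mul_smul, T.neg, smul_sub, ← mul_smul, T.sq r, one_smul, neg_sub]

theorem of_sq (e : t * t = 1) (t1 : t ≠ 1) (tn : t ≠ n) : Rr V t := by
  obtain ⟨x, hx⟩ := not_forall.1 (mt (T.faith (n * t)) fun c => tn (by
    rw [← inv_eq_of_mul_eq_one_right c, inv_eq_of_mul_eq_one_right T.nn]))
  exact ⟨t1, t • x + x, fun c => hx (by rw [mul_smul, T.neg, neg_eq_of_add_eq_zero_right c]),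
    by rw [smul_add, ← mul_smul, e, one_smul, add_comm]⟩

theorem n_comm (h : H) : h * n = n * h := mul_inv_eq_one.1 (T.faith _ fun v => by
  simp [mul_smul, T.neg, inv_eq_of_mul_eq_one_right T.nn])

theorem RR (r : Rr V t) (r' : Rr V t') : ¬ Rr V (t * t') := fun ⟨h1, v, v0, e⟩ => by
  have e1 : t' • v = t • v := by rw [← inv_smul_smul t (t' • v), ← mul_smul t, e, T.inv r]
  by_cases c : v + t • v = 0
  · have := (T.uniq v0 h1 e (h := n * t) (by rw [mul_smul, T.neg, neg_eq_of_add_eq_zero_left c])).resolve_left (T.n_mul r).1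
    rw [← T.n_comm, mul_right_inj] at this
    exact T.not_n (this ▸ r')
  have := (T.uniq c r.1 (by rw [smul_add, ← mul_smul, T.sq r, one_smul, add_comm]) (h := t') (by
    rw [smul_add, ← e1, ← mul_smul, T.sq r', one_smul, add_comm])).resolve_left r'.1
  exact h1 (by rw [this, T.sq r])

theorem RA (r : Rr V t) (hh : ¬ Rr V h) : Rr V (t * h) := by
  obtain ⟨v, v0, e⟩ := r.2
  have ne : h * h ≠ t := fun c => by
    by_cases u0 : h • v - v = 0
    · rcases T.uniq v0 r.1 e (sub_eq_zero.1 u0) with rfl | rfl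
      exacts [r.1 (by simpa using c.symm), hh r]
    have e1 : h • h • v = v := by rw [← mul_smul, c, e]
    rcases T.uniq u0 r.1 (h := n * h) (by rw [← c, mul_smul, smul_sub, smul_sub, e1])
      (by rw [mul_smul, T.neg, smul_sub, e1, neg_sub]) with c' | c'
    · exact r.1 (by rw [← c, ← inv_eq_of_mul_eq_one_right c', inv_eq_of_mul_eq_one_right T.nn, T.nn])
    · exact hh (by rw [← inv_mul_cancel_left n h, c', inv_eq_of_mul_eq_one_right T.nn]; exact T.n_mul r)
  have k : t * h * (t * h) = 1 → Rr V (t * h) := fun c => T.of_sq c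
    (fun c => hh (by rwa [← inv_eq_of_mul_eq_one_right c, T.inv r]))
    fun c => hh (by rw [← inv_mul_cancel_left t h, c, T.inv r, T.n_comm]; exact T.n_mul r)
  obtain ⟨s, e1, e2⟩ := T.one_pt {v} (u := h • v) (v := h⁻¹ • v) ⟨h⁻¹ * h⁻¹, by simp [mul_smul]⟩ (by
    rintro _ rfl; exact ⟨n * h⁻¹, by simp [mul_smul, T.neg, smul_sub, neg_add_eq_sub]⟩)
  have e3 := T.uniq v0 r.1 e (h := h * s * h) (by rw [mul_smul, mul_smul, e1, smul_inv_smul])
  rcases T.uniq v0 r.1 e (e2 v rfl) with rfl | rfl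
  · rw [mul_one] at e3
    by_cases h1 : h = 1
    · simpa [h1] using r
    rw [not_not.1 (mt (T.of_sq (e3.resolve_right ne) h1) hh), T.n_comm]
    exact T.n_mul r
  · refine k (e3.elim (fun c => absurd ?_ ne) fun c => by rw [mul_assoc, ← mul_assoc h, c, T.sq r])
    rw [← T.inv r, eq_inv_iff_mul_eq_one, mul_assoc, ← mul_eq_one_comm, c]

theorem R_inv : Rr V h⁻¹ ↔ Rr V h := ⟨fun r => by rwa [← inv_inv h, T.inv r], fun r => by rwa [T.inv r]⟩

theorem AR (hh : ¬ Rr V h) (r : Rr V t) : Rr V (h * t) := by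
  rw [← T.R_inv, mul_inv_rev]; exact T.RA (T.R_inv.2 r) (mt T.R_inv.1 hh)

theorem AA (hh : ¬ Rr V h) (hh' : ¬ Rr V h') : ¬ Rr V (h * h') := fun c =>
  hh (by simpa using T.RA c (mt T.R_inv.1 hh'))

theorem inverts (r : Rr V t) (hh : ¬ Rr V h) : t * h = h⁻¹ * t := by
  rw [← T.inv (T.RA r hh), mul_inv_rev, T.inv r]

theorem comm [Nontrivial V] (hh : ¬ Rr V h) (hh' : ¬ Rr V h') : h * h' = h' * h := by
  obtain ⟨v, v0⟩ := exists_ne (0 : V)
  obtain ⟨t, r, -⟩ := T.exists_R v0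
  have := T.inverts r (T.AA hh hh')
  rwa [← mul_assoc, T.inverts r hh, mul_assoc, T.inverts r hh', ← mul_assoc, mul_left_inj, ← mul_inv_rev, inv_inj,
    eq_comm] at this

theorem top (W : AddSubgroup V) (hW : ∀ h : H, ¬ Rr V h → ∀ v ∈ W, h • v ∈ W) (hv : v ∈ W) (v0 : v ≠ 0) : W = ⊤ := by
  obtain ⟨t, r, e⟩ := T.exists_R v0
  refine T.eq_top (D := {x | ∃ a : H, ¬ Rr V a ∧ a • v = x}) ?_ ⟨1, fun c => c.1 rfl, one_smul ..⟩ v0
    (by rintro _ ⟨a, ha, rfl⟩; exact hW a ha v hv)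
  rintro h _ ⟨a, ha, rfl⟩
  by_cases c : Rr V h
  · exact ⟨h * a * t, T.RR (T.RA c ha) r, by simp [mul_smul, e]⟩
  · exact ⟨h * a, T.AA c ha, mul_smul ..⟩

omit T in
theorem exists_field (K : Type*) [Ring K] [Finite K] [IsDomain K] :
    ∃ (E : Type) (_ : Field E) (_ : Fintype E), Nonempty (K ≃+* E) := by
  let := (Finite.isDomain_to_isField K).toField
  have := Finite.of_equiv _ (equivShrink.{0} K)
  exact ⟨Shrink K, inferInstance, Fintype.ofFinite _, ⟨(equivShrink.{0} K).symm.ringEquiv.symm⟩⟩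

theorem exists_K (r : Rr V t) : ∃ (E : Type) (_ : Field E) (_ : Fintype E) (φ : E ≃+* E) (e : V ≃+ E),
    (∀ v, e (t • v) = φ (e v)) ∧ ∀ a : H, ¬ Rr V a → ∃ α, ∀ v, e (a • v) = α * e v := by
  obtain ⟨v, v0, ev⟩ := r.2
  have : Nontrivial V := ⟨v, 0, v0⟩
  let ρ := DistribMulAction.toAddMonoidEnd H V
  let K := Subring.centralizer (ρ '' {a | ¬ Rr V a})
  have hK : ∀ f : AddMonoid.End V, f ∈ K ↔ ∀ a : H, ¬ Rr V a → ∀ v, a • f v = f (a • v) := fun f =>
    ⟨fun h a ha v => DFunLike.congr_fun (h _ ⟨a, ha, rfl⟩) v,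
      fun h => by rintro _ ⟨a, ha, rfl⟩; exact AddMonoidHom.ext (h a ha)⟩
  have inj : ∀ f : K, ∀ x, x ≠ 0 → f.1 x = 0 → f = 0 := fun f x x0 e => Subtype.ext (AddMonoidHom.ext fun y =>
    (T.top (AddMonoidHom.ker f.1) (fun a ha y hy => show f.1 (a • y) = 0 by
      rw [← (hK _).1 f.2 a ha, show f.1 y = 0 from hy, smul_zero]) e x0).ge trivial)
  have : Finite (AddMonoid.End V) := Finite.of_injective (fun f : AddMonoid.End V => (f : V → V)) DFunLike.coe_injective
  have : Nontrivial K := ⟨1, 0, fun e => v0 (DFunLike.congr_fun (congrArg Subtype.val e) v)⟩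
  have : NoZeroDivisors K := ⟨fun {f g} e => or_iff_not_imp_right.2 fun g0 => inj f (g.1 v) (mt (inj g v v0) g0)
    (DFunLike.congr_fun (congrArg Subtype.val e) v)⟩
  have : IsDomain K := NoZeroDivisors.to_isDomain K
  have tt : ∀ x : V, t • t • x = x := fun x => by rw [← mul_smul, T.sq r, one_smul]
  let c : K → K := fun f => ⟨ρ t * f.1 * ρ t, (hK _).2 fun a ha x => show a • t • f.1 (t • x) = t • f.1 (t • a • x) by
    rw [← mul_smul t a, T.inverts r ha, mul_smul, ← (hK _).1 f.2 _ (mt T.R_inv.1 ha), ← mul_smul t a⁻¹,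
      T.inverts r (mt T.R_inv.1 ha), inv_inv, mul_smul]⟩
  have cc : ∀ f, c (c f) = f := fun f => Subtype.ext (AddMonoidHom.ext fun x => by
    change t • t • f.1 (t • t • x) = f.1 x; rw [tt, tt])
  let φ : K ≃+* K := ⟨⟨c, c, cc, cc⟩, fun f g => Subtype.ext (AddMonoidHom.ext fun x => by
      change t • f.1 (g.1 (t • x)) = t • f.1 (t • t • g.1 (t • x)); rw [tt]),
    fun f g => Subtype.ext (AddMonoidHom.ext fun x => smul_add t (f.1 (t • x)) (g.1 (t • x)))⟩
  let ε : K →+ V := AddMonoidHom.mk' (fun f => f.1 v) fun _ _ => rfl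
  have mem : ∀ a : H, ¬ Rr V a → ρ a ∈ K := fun a ha => (hK _).2 fun b hb x => by
    change b • a • x = a • b • x; rw [← mul_smul, T.comm hb ha, mul_smul]
  let e := AddEquiv.ofBijective ε ⟨(injective_iff_map_eq_zero _).2 fun f => inj f v v0,
    AddMonoidHom.range_eq_top.1 (T.top _ (by rintro a ha _ ⟨f, rfl⟩; exact ⟨⟨_, mem a ha⟩ * f, rfl⟩) ⟨1, rfl⟩ v0)⟩
  obtain ⟨E, _, _, ⟨s⟩⟩ := exists_field K
  refine ⟨E, _, ‹_›, s.symm.trans (φ.trans s), e.symm.trans s.toAddEquiv, fun x => ?_, fun a ha => ⟨s ⟨_, mem a ha⟩, fun x => ?_⟩⟩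
  · obtain ⟨f, rfl⟩ := e.surjective x
    have : t • e f = e (φ f) := show t • f.1 v = t • f.1 (t • v) by rw [ev]
    simp [this]
  · obtain ⟨f, rfl⟩ := e.surjective x
    have : a • e f = e (⟨_, mem a ha⟩ * f) := rfl
    simp [this]

theorem field [Nontrivial V] : ∃ (F E : Type) (_ : Field F) (_ : Fintype F) (_ : Field E) (_ : Fintype E) (_ : Algebra F E)
    (e : V ≃+ E), Module.finrank F E = 2 ∧ ∀ f : V → V, (∃ h : H, ∀ v, f v = h • v) ↔
      ∃ (a : E) (φ : E ≃ₐ[F] E), Algebra.norm F a = 1 ∧ ∀ v, e (f v) = a * φ (e v) := by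
  classical
  obtain ⟨v, v0⟩ := exists_ne (0 : V)
  obtain ⟨t, r, -⟩ := T.exists_R v0
  obtain ⟨E, _, _, φ, e, h1, h2⟩ := T.exists_K r
  have ne : φ ≠ 1 := fun c => r.1 (T.faith t fun v => e.injective (by simpa [c] using h1 v))
  have φφ : ∀ x, φ (φ x) = x := fun x => by
    obtain ⟨v, rfl⟩ := e.surjective x
    rw [← h1, ← h1, ← mul_smul, T.sq r, one_smul]
  have fr : Module.finrank (H25.fixF φ) E = 2 :=
    (H25.finrank_fixF φ).trans (orderOf_eq_prime (RingEquiv.ext φφ) ne)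
  let ψ : E ≃ₐ[H25.fixF φ] E := { φ with commutes' := fun x => H25.mem_fixF.1 x.2 }
  have ne' : (1 : E ≃ₐ[H25.fixF φ] E) ≠ ψ := fun c => ne (RingEquiv.ext fun x => (DFunLike.congr_fun c x).symm)
  have un : (Finset.univ : Finset (E ≃ₐ[H25.fixF φ] E)) = {1, ψ} := (Finset.eq_univ_of_card _ (by
    rw [Finset.card_pair ne', ← Nat.card_eq_fintype_card, IsGalois.card_aut_eq_finrank, fr])).symm
  have nm : ∀ a : E, Algebra.norm (H25.fixF φ) a = 1 ↔ a * φ a = 1 := fun a => by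
    rw [← (algebraMap (H25.fixF φ) E).injective.eq_iff, Algebra.norm_eq_prod_automorphisms, un, Finset.prod_pair ne', map_one]
    rfl
  have h3 : ∀ a : H, ¬ Rr V a → ∃ α, α * φ α = 1 ∧ ∀ v, e (a • v) = α * e v := fun a ha => by
    obtain ⟨α, k⟩ := h2 a ha
    refine ⟨α, ?_, k⟩
    have := congrArg (fun g : H => e (a • g • e.symm 1)) (T.inverts r ha)
    simpa [mul_smul, h1, k] using this
  have h4 : ∀ α : E, α * φ α = 1 → ∃ a : H, ∀ v, e (a • v) = α * e v := fun α hα => by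
    obtain ⟨x, x0, hx⟩ : ∃ x, x ≠ 0 ∧ α * φ x = x := by
      by_cases c : 1 + α = 0
      · obtain ⟨y, hy⟩ := not_forall.1 (mt RingEquiv.ext ne)
        exact ⟨φ y - y, sub_ne_zero.2 hy, by rw [map_sub, φφ, eq_neg_of_add_eq_zero_right c]; ring⟩
      · exact ⟨1 + α, c, by rw [map_add, map_one, mul_add, hα, mul_one, add_comm]⟩
    obtain ⟨s, rs, es⟩ := T.exists_R (v := e.symm x) (by simpa)
    obtain ⟨β, k⟩ := h2 _ (T.RR rs r)
    have := k (t • e.symm x)
    rw [mul_smul, ← mul_smul t, T.sq r, one_smul, es, h1, e.apply_symm_apply] at this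
    exact ⟨s * t, by rwa [mul_right_cancel₀ (by simpa : φ x ≠ 0) (hx.trans this)]⟩
  refine ⟨H25.fixF φ, E, _, Fintype.ofFinite _, _, ‹_›, _, e, fr, fun f => ⟨?_, ?_⟩⟩
  · rintro ⟨h, k⟩
    by_cases c : Rr V h
    · obtain ⟨α, k1, k2⟩ := h3 _ (T.RR c r)
      exact ⟨α, ψ, (nm α).2 k1, fun v => by
        rw [k, show h • v = (h * t) • t • v by rw [← mul_smul, mul_assoc, T.sq r, mul_one], k2, h1]; rfl⟩
    · obtain ⟨α, k1, k2⟩ := h3 _ c
      exact ⟨α, 1, (nm α).2 k1, fun v => by rw [k, k2]; rfl⟩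
  · rintro ⟨α, χ, k1, k2⟩
    obtain ⟨a, k⟩ := h4 α ((nm α).1 k1)
    obtain rfl | rfl : χ = 1 ∨ χ = ψ := by simpa [un] using Finset.mem_univ χ
    · exact ⟨a, fun v => e.injective (by rw [k, k2]; rfl)⟩
    · exact ⟨a * t, fun v => e.injective (by rw [mul_smul, k, k2, h1]; rfl)⟩
end SA
end

open MulAction Subgroup in
theorem bin_affine {G Ω : Type*} [Group G] [Finite G] [MulAction G Ω] [FaithfulSMul G Ω] [Fintype Ω]
    (hprim : IsPreprimitive G Ω) (N : Subgroup G) [N.Normal] (N0 : N ≠ ⊥) [IsMulCommutative N]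
    (hbin : ∀ (n : ℕ) (I J : Fin n → Ω), 2 ≤ n →
      (∀ i j : Fin n, i ≠ j → ∃ g : G, g • I i = J i ∧ g • I j = J j) → ∃ g : G, ∀ i, g • I i = J i) :
    ((Fintype.card Ω).Prime ∧ ∀ ω : Ω, Nat.card (stabilizer G ω) ≤ 2) ∨
    (∃ (F E : Type) (_ : Field F) (_ : Fintype F) (_ : Field E) (_ : Fintype E) (_ : Algebra F E) (e : Ω ≃ E),
        Module.finrank F E = 2 ∧ ∀ σ : Equiv.Perm Ω, σ ∈ (toPermHom G Ω).range ↔
          ∃ (a b : E) (φ : E ≃ₐ[F] E), Algebra.norm F a = 1 ∧ ∀ ω : Ω, e (σ ω) = a * φ (e ω) + b) := by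
  have tr : ∀ (U : Subgroup G) [U.Normal], U ≠ ⊥ → IsPretransitive U Ω := fun U _ U0 =>
    IsQuasiPreprimitive.isPretransitive_of_normal fun c => U0 (eq_bot_iff.2 fun x hx =>
      eq_of_smul_eq_smul (α := Ω) fun ω => (c.ge (Set.mem_univ ω) ⟨x, hx⟩).trans (one_smul ..).symm)
  have := tr N N0
  have : Nontrivial N := (nontrivial_iff_ne_bot N).2 N0
  have ne : Nonempty Ω := by
    by_contra c
    exact N0 (eq_bot_iff.2 fun x _ => eq_of_smul_eq_smul (α := Ω) fun ω => (c ⟨ω⟩).elim)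
  let : CommGroup N := open scoped IsMulCommutative in inferInstance
  have main : ∀ ω : Ω, ((Fintype.card Ω).Prime ∧ Nat.card (stabilizer G ω) ≤ 2) ∨
      (∃ (F E : Type) (_ : Field F) (_ : Fintype F) (_ : Field E) (_ : Fintype E) (_ : Algebra F E) (e : Ω ≃ E),
        Module.finrank F E = 2 ∧ ∀ σ : Equiv.Perm Ω, σ ∈ (toPermHom G Ω).range ↔
          ∃ (a b : E) (φ : E ≃ₐ[F] E), Algebra.norm F a = 1 ∧ ∀ ω : Ω, e (σ ω) = a * φ (e ω) + b) := fun ω => by
    let V := Additive N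
    let H := stabilizer G ω
    let : DistribMulAction H V :=
      { smul := fun h v => .ofMul (MulAut.conjNormal (h : G) v.toMul)
        one_smul := fun v => by change Additive.ofMul (MulAut.conjNormal _ _) = _; simp
        mul_smul := fun g h v => by
          change Additive.ofMul (MulAut.conjNormal _ _) = Additive.ofMul (MulAut.conjNormal _ (MulAut.conjNormal _ _)); simp
        smul_zero := fun h => congrArg Additive.ofMul (map_one _)
        smul_add := fun h x y => congrArg Additive.ofMul (map_mul _ _ _) }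
    let ε : V ≃ Ω := Equiv.ofBijective (fun v => (v.toMul : G) • ω) ⟨fun x y e => Additive.toMul.injective
      (Subtype.ext (eq_of_smul_eq_smul (α := Ω) fun α => by
        obtain ⟨z, rfl⟩ := exists_smul_eq N ω α
        have c : ∀ x : N, (x : G) • z • ω = (z : G) • (x : G) • ω := fun x => by
          rw [Subgroup.smul_def, ← mul_smul, ← mul_smul, ← coe_mul, mul_comm, coe_mul]
        rw [c, c]; exact congrArg _ e)), fun α => exists_smul_eq N ω α⟩
    have e1 : ∀ (h : H) (v : V), ε (h • v) = (h : G) • ε v := fun h v => by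
      change ((h : G) * v.toMul * (h : G)⁻¹) • ω = (h : G) • (v.toMul : G) • ω
      rw [mul_smul, mul_smul, show (h : G)⁻¹ • ω = ω from (h⁻¹).2]
    have e2 : ∀ b v : V, ε (v + b) = (b.toMul : G) • ε v := fun b v => by
      rw [add_comm]; exact mul_smul (b.toMul : G) (v.toMul : G) ω
    have e0 : ε 0 = ω := one_smul G ω
    have dec : ∀ g : G, ∃ (h : H) (b : V), ∀ v, g • ε v = ε (h • v + b) := fun g => by
      obtain ⟨b, hb⟩ := ε.surjective (g • ω)
      exact ⟨⟨(b.toMul : G)⁻¹ * g, by rw [mem_stabilizer_iff, mul_smul, ← hb, inv_smul_eq_iff]; rfl⟩, b, fun v => by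
        rw [e2, e1, mul_smul, smul_inv_smul]⟩
    have T : BA H V := by
      refine ⟨fun h c => Subtype.ext (eq_of_smul_eq_smul (α := Ω) fun α => ?_), fun U hU => ?_, fun S f c => ?_⟩
      · obtain ⟨v, rfl⟩ := ε.surjective α
        rw [← e1, c]; simp
      · let U' := (AddSubgroup.toSubgroup' U : Subgroup N).map N.subtype
        have : U'.Normal := ⟨by
          rintro _ ⟨x, hx, rfl⟩ g
          obtain ⟨h, b, e⟩ := dec g
          refine ⟨(h • Additive.ofMul x : V).toMul, hU h _ hx, eq_of_smul_eq_smul (α := Ω) fun α => ?_⟩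
          obtain ⟨v, rfl⟩ := ε.surjective (g⁻¹ • α) |>.imp fun v (c : ε v = _) => (eq_inv_smul_iff.1 c)
          rw [mul_smul, mul_smul, inv_smul_smul, coe_subtype, e, ← e2, ← toMul_ofMul x, ← e2, e, smul_add,
            add_right_comm]; rfl⟩
        refine or_iff_not_imp_left.2 fun U0 => eq_top_iff.2 fun v _ => ?_
        obtain ⟨⟨_, x, hx, rfl⟩, e⟩ := (tr U' fun c => U0 (eq_bot_iff.2 fun x hx =>
          Subtype.ext (c.le ⟨x.toMul, hx, rfl⟩))).exists_smul_eq ω (ε v)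
        exact ε.injective (a₁ := .ofMul x) e ▸ hx
      · obtain ⟨n, ⟨k⟩⟩ := Finite.exists_equiv_fin (S × Fin 2)
        rcases isEmpty_or_nonempty S with h0 | h0
        · exact ⟨1, 0, fun x hx => h0.elim ⟨x, hx⟩⟩
        have : 2 ≤ n := by
          have := Nat.card_congr k
          rw [Nat.card_prod, Nat.card_fin, Nat.card_fin] at this
          have := Nat.card_pos (α := S)
          omega
        obtain ⟨g, hg⟩ := hbin n (fun i => ε (k.symm i).1) (fun i => ε (f (k.symm i).1)) this fun i j _ => by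
          obtain ⟨h, e⟩ := c _ (k.symm i).1.2 _ (k.symm j).1.2
          refine ⟨((f (k.symm j).1 - h • (k.symm j).1.1).toMul : G) * h, ?_, ?_⟩ <;> rw [mul_smul, ← e1, ← e2]
          · rw [← add_sub_assoc, add_sub_right_comm, ← smul_sub, e, sub_add_cancel]
          · rw [add_sub_cancel]
        obtain ⟨h, b, e⟩ := dec g
        exact ⟨h, b, fun x hx => ε.injective (by simpa [e] using hg (k (⟨x, hx⟩, 0)))⟩
    obtain c | ⟨st, n, hn⟩ := T.cases
    · exact .inl (by rw [← Nat.card_eq_fintype_card, ← Nat.card_congr ε]; exact T.prime c)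
    obtain ⟨F, E, _, _, _, _, _, e, fr, k⟩ := SA.field ⟨T, st, hn⟩
    refine .inr ⟨F, E, _, ‹_›, _, ‹_›, _, ε.symm.trans e.toEquiv, fr, fun σ => ⟨?_, ?_⟩⟩
    · rintro ⟨g, rfl⟩
      obtain ⟨h, b, c⟩ := dec g
      obtain ⟨a, φ, h1, h2⟩ := (k (h • ·)).1 ⟨h, fun _ => rfl⟩
      refine ⟨a, e b, φ, h1, fun α => ?_⟩
      obtain ⟨v, rfl⟩ := ε.surjective α
      simp [c, h2]
    · rintro ⟨a, b, φ, h1, h2⟩
      obtain ⟨h, c⟩ := (k fun v => e.symm (a * φ (e v))).2 ⟨a, φ, h1, fun v => by simp⟩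
      refine ⟨((e.symm b).toMul : G) * h, Equiv.ext fun α => ?_⟩
      obtain ⟨v, rfl⟩ := ε.surjective α
      rw [toPermHom_apply, toPerm_apply, mul_smul, ← e1, ← e2, ← c, ← map_add, eq_comm, ← ε.symm_apply_eq,
        e.eq_symm_apply]
      simpa using h2 (ε v)
  obtain ⟨ω⟩ := ne
  exact or_iff_not_imp_right.2 fun c => ⟨((main ω).resolve_right c).1, fun ω => ((main ω).resolve_right c).2⟩
end H4.Gs.Ch
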