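import Cfsg.Agent.H4.Cor3
import Cfsg.Agent.H20.ThB
import Cfsg.Agent.H21.AbSyl
import Cfsg.Agent.H1.Solv2
import Cfsg.Agent.H17.LBal
import Cfsg.Agent.H6.J1Ord

/-! Solvability of `Out(G)` from properties of a Sylow `2`-subgroup (`s3066`, `out_key`); perfect groups acting on
abelian groups of order at most `8` (`perf_four`, `perf_red`, `perf_eight`), `perf_phi`, `perf_syl`. -/

set_option autoImplicit false
set_option linter.unusedSectionVars false
set_option linter.unusedVariables false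

namespace H4.Gs
open Subgroup Cfsg H18
open H17 hiding Subn card_cj card_mul_relIndex cj cj_bot cj_cj_inv cj_fit cj_inf cj_inv_cj cj_mono cj_mul cj_one
  cj_sup conj_mem_cj elem_iff elem_zpowers fit_le fit_top le_phi mem_cj mim_cj mim_fit_le phi phi_le
open H20.G3 (perf_le bt_perf card_mod)
open scoped commutatorElement

universe u
variable {G : Type u} [Group G] [Finite G] {A B D E H K L M N P Q R S T U V W X Y Z : Subgroup G}
  {a b e g l t u x y z : G}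

theorem perf_quo (hP : ⁅P, P⁆ = P) (n : P ≤ N(K)) : ⁅P ⫽ K, P ⫽ K⁆ = P ⫽ K := by rw [← mim_comm n n, hP]

theorem perf_four (hP : ⁅P, P⁆ = P) (n : P ≤ N(V)) (h : Nat.card V ∣ 4) : P ≤ C(V) := by
  have d : Nat.card (P ⫽ C(V)) ∣ 2 ^ 3 * 3 := card_quo (norm_C n) ▸ (H21.relIndex_C_dvd_factorial n).trans
    (Nat.factorial_dvd_factorial (Nat.le_of_dvd (by norm_num) h))
  refine (quo_eq_bot_iff (norm_C n)).1 (eq_bot_of_perfect_of_solvable (H1.solv_of_two_primes Nat.prime_two Nat.prime_three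
    fun q hq e => ?_) (perf_quo hP (norm_C n)))
  rcases (Nat.Prime.dvd_mul hq).1 (e.trans d) with e | e
  · exact .inl ((Nat.prime_dvd_prime_iff_eq hq Nat.prime_two).1 (hq.dvd_of_dvd_pow e))
  · exact .inr ((Nat.prime_dvd_prime_iff_eq hq Nat.prime_three).1 e)

theorem perf_red (hP : ⁅P, P⁆ = P) (n : P ≤ N(V)) (h : Nat.card V ∣ 8) (hW : W ⊴ V) (nW : P ≤ N(W)) (h0 : W ≠ ⊥)
    (h1 : W ≠ V) : P ≤ C(V) := by
  have m := card_quo_mul hW
  have k : ∀ a b : ℕ, a * b ∣ 8 → b ≠ 1 → a ∣ 4 := fun a b d e => by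
    have := Nat.le_of_dvd (by norm_num) ((dvd_mul_left b a).trans d)
    have := Nat.le_of_dvd (by norm_num) ((dvd_mul_right a b).trans d)
    interval_cases a <;> interval_cases b <;> simp_all
  have c1 := perf_four hP nW (k _ _ (m ▸ h) fun e => h1 (le_antisymm hW.le ((quo_eq_bot_iff hW.norm).1 (card_eq_one.1 e))))
  have c2 := perf_four (perf_quo hP nW) (mim_norm n) (k _ _ (mul_comm (Nat.card W) _ ▸ m ▸ h) fun e => h0 (card_eq_one.1 e))
  exact cent_symm (comm_eq_bot_iff.1 (commutator_eq_bot_of_perfect hP (comm_eq_bot_iff.2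
    (((comm_le_iff_quo hW.norm nW).2 (cent_symm c2)).trans (cent_symm c1)))))

theorem perf_eight {r : ℕ} (hP : ⁅P, P⁆ = P) (n : P ≤ N(V)) (h : Nat.card V ∣ 8) (ab : Abel V) (hr : r.Prime) (r2 : r ≠ 2)
    (hZ : IsPGroup r Z) (n1 : Z ≤ N(V)) (n2 : P ≤ N(Z)) (hc : ¬ Z ≤ C(V)) : P ≤ C(V) := by
  have := Fact.mk hr
  by_cases e : V ⊓ C(Z) = ⊥
  swap
  · exact perf_red hP n h ⟨inf_le_left, cent_norm (ab.trans (C_anti inf_le_left))⟩ (norm_inf n (norm_C n2)) e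
      fun f => hc (cent_symm (f.ge.trans inf_le_right))
  by_cases h4 : Nat.card V ∣ 4
  · exact perf_four hP n h4
  have h8 : Nat.card V = 8 := by
    have := Nat.le_of_dvd (by norm_num) h
    interval_cases Nat.card V <;> simp_all
  obtain rfl : r = 7 := by
    have := card_mod hZ n1
    rw [e, card_bot, h8] at this
    exact (Nat.prime_dvd_prime_iff_eq hr (by norm_num)).1 ((Nat.modEq_iff_dvd' (by norm_num)).1 this.symm)
  have cy : Cyc (Z ⫽ C(V)) := by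
    obtain ⟨k, hk⟩ := IsPGroup.iff_card.1 (isPGroup_mim (f := coset C(V)) hZ)
    have d := card_quo (norm_C n1) ▸ H21.relIndex_C_dvd_factorial n1
    rw [hk, h8] at d
    rcases k with _ | _ | k
    · exact (card_eq_one.1 hk).symm ▸ inferInstance
    · exact isCyclic_of_prime_card hk
    · exact absurd ((pow_dvd_pow 7 (by omega : 2 ≤ _)).trans d) (by decide)
  have c : ⁅P, Z⁆ ≤ C(V) := (comm_le_iff_quo (norm_C n) (norm_C n1)).2 (perf_quo hP (norm_C n) ▸ cy.der_cent (mim_norm n2))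
  obtain ⟨R, hR⟩ := exists_isSyl 2 P
  have p : IsPGroup 2 V := IsPGroup.of_card (n := 3) h8
  have nZ : Z ≤ N(V ⊓ C(R)) := by
    have : V ⊓ C(R) = V ⊓ C(R ⊔ C(V)) := by rw [C_sup, ← inf_assoc, inf_right_comm, inf_eq_left.2 (cent_symm le_rfl)]
    have k : ⁅Z, R ⊔ C(V)⁆ ≤ R ⊔ C(V) := comm_sup_le' (le_sup_of_le_right (H18.comm_comm.le.trans
      ((H18.comm_mono hR.le le_rfl).trans c))) (le_sup_of_le_right (comm_le_right (norm_C n1)))
      (le_norm le_sup_left) (le_norm le_sup_right)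
    rw [this]
    exact norm_inf n1 (norm_C (norm_of_comm_le k))
  have m := card_mod hZ nZ
  rw [inf_right_comm, e, bot_inf_eq, card_bot] at m
  have d := h8 ▸ card_dvd_of_le (inf_le_left : V ⊓ C(R) ≤ V)
  have n0 : Nat.card ↥(V ⊓ C(R)) ≠ 1 := fun f => inf_centralizer_ne_bot p hR.pgroup (hR.le.trans n)
    (fun f => by simp [f] at h8) (card_eq_one.1 f)
  refine perf_le hP hR (norm_C n) (cent_symm ((eq_of_le_of_card_ge inf_le_left ?_).ge.trans inf_le_right))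
  have := Nat.le_of_dvd (by norm_num) d
  rw [h8]
  interval_cases Nat.card ↥(V ⊓ C(R)) <;> simp_all [Nat.ModEq]

theorem od_phi (hT : IsPGroup 2 T) (hZ : Od Z) (n : Z ≤ N(T)) (h : Z ⫽ Φ(T) ≤ C(T ⫽ Φ(T))) : Z ≤ C(T) :=
  H1.cent_of_comm_le_phi n (coprime_card_of_pgroup hT hZ).symm
    ((comm_le_iff_quo phi_nml.norm (norm_phi n)).2 (cent_symm h))

theorem perf_phi (hP : ⁅P, P⁆ = P) (hT : IsPGroup 2 T) (n : P ≤ N(T)) (h : P ⫽ Φ(T) ≤ C(T ⫽ Φ(T))) : P ≤ C(T) :=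
  (oUp_eq_self_of_perfect (p := 2) hP).ge.trans (oUp_le_iff.2 fun g hg o => zpowers_le.1 (od_phi hT
    (by rwa [Od, Nat.card_zpowers]) ((zpowers_le.2 hg).trans n) ((mim_mono (zpowers_le.2 hg)).trans h)))

theorem perf_syl (ns : NS L) (hT : IsSyl 2 T L) (hP : ⁅P, P⁆ = P) (n : P ≤ N(L)) (h : P ≤ C(T)) : P ≤ C(L) := by
  obtain ⟨R, hR⟩ := exists_isSyl 2 P
  exact ws_two ns.oQ P T n hP (le_antisymm (oUq_le _ _) (perf_le hP hR (le_N.trans (normalizer_le_oUq 2 P))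
    (le_oUq hR.le hR.pgroup))) hT h

theorem out_phi (ns : NS L) (hT : IsSyl 2 T L) (h : Nat.card (T ⫽ Φ(T)) ∣ 4 ∨ Nat.card (T ⫽ Φ(T)) ∣ 8 ∧
    ∃ g ∈ L ⊓ N(T), Odd (orderOf g) ∧ g ∉ C(T)) : ∃ H, N(L) ≤ L ⊔ H ∧ ∀ P ≤ H, ⁅P, P⁆ = P → P ≤ C(L) := by
  have fr := (hT.frattini le_N le_rfl).le
  rcases h with h | ⟨h, g, hg, o, c⟩
  · exact ⟨_, fr, fun P l hP => perf_syl ns hT hP (l.trans inf_le_left) (perf_phi hP hT.pgroup (l.trans inf_le_right)
      (perf_four (perf_quo hP (norm_phi (l.trans inf_le_right))) (mim_norm (l.trans inf_le_right)) h))⟩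
  obtain ⟨r, hr, d, k⟩ : ∃ r, r.Prime ∧ r ∣ Nat.card (zpowers g) ∧ ∀ P, Hall {r} P (zpowers g) → ¬ P ≤ C(T) := by
    by_contra k; push Not at k; exact c (zpowers_le.1 (le_of_sylows k))
  have := Fact.mk hr
  have r2 : r ≠ 2 := by rintro rfl; exact od_zp.2 o d
  obtain ⟨Y, hY⟩ := exists_sylow hr (zpowers g)
  obtain ⟨Z, hZ, l⟩ := exists_isSyl_ge (hY.pi.isPGroup) (hY.le.trans (zpowers_le.2 hg))
  have nZ := hZ.le.trans inf_le_right
  refine ⟨N(L) ⊓ N(T) ⊓ N(Z), fr.trans (sup_le le_sup_left ((hZ.frattini (inf_le_inf_right _ le_N)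
    (norm_inf inf_le_left (le_norm inf_le_right))).le.trans (sup_le_sup_right inf_le_left _))), fun P l' hP => ?_⟩
  have nT := l'.trans (inf_le_left.trans inf_le_right)
  refine perf_syl ns hT hP (l'.trans (inf_le_left.trans inf_le_left)) (perf_phi hP hT.pgroup nT (perf_eight
    (perf_quo hP (norm_phi nT)) (mim_norm nT) h ((pg_pi hT.pgroup).elem_quo_phi Nat.prime_two).abel hr r2
    (isPGroup_mim hZ.pgroup) (mim_norm nZ) (mim_norm (l'.trans inf_le_right)) fun c => k Y hY (l.trans (od_phi hT.pgroup ?_ nZ c))))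
  obtain ⟨n, hn⟩ := IsPGroup.iff_card.1 hZ.pgroup
  exact fun e => r2 ((Nat.prime_dvd_prime_iff_eq Nat.prime_two hr).1 (Nat.prime_two.dvd_of_dvd_pow (hn ▸ e))).symm

theorem out_bt (b : BT L T U K) : ∃ H, N(L) ≤ L ⊔ H ∧ ∀ P ≤ H, ⁅P, P⁆ = P → P ≤ C(L) := by
  obtain ⟨H, D, V, W, t, s, h⟩ := H9.bs_of b
  refine ⟨N(L) ⊓ N(T) ⊓ N(K), (b.1.syl.frattini le_N le_rfl).le.trans (sup_le le_sup_left fun y hy => ?_), fun P l hP => ?_⟩
  · obtain ⟨x, hx, e⟩ := h.nK hy.1 hy.2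
    exact mul_inv_cancel_left x y ▸ mul_mem (mem_sup_left (b.1.syl.le hx)) (mem_sup_right
      (mem_inf.2 ⟨mul_mem (inv_mem (mem_inf.2 ⟨le_N (b.1.syl.le hx), le_N hx⟩)) hy, e⟩))
  obtain ⟨R, hR⟩ := exists_isSyl 2 P
  have nT := l.trans (inf_le_left.trans inf_le_right)
  exact bt_perf b hP (l.trans (inf_le_left.trans inf_le_left)) (perf_le hP hR (norm_C (nT.trans b.1.nU))
    (b.1.cent_of hR.pgroup (hR.le.trans nT) (cent_norm (cent_symm (hR.le.trans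
      (hP ▸ b.1.cyc.der_cent (l.trans inf_le_right)))))))

theorem out_inv [G0.{u}] (ns : NS L) (hT : IsSyl 2 T L)
    (h : ∀ s ∈ T, ∀ t ∈ T, s * s = 1 → t * t = 1 → s * t = t * s) :
    ∃ H, N(L) ≤ L ⊔ H ∧ ∀ P ≤ H, ⁅P, P⁆ = P → P ≤ C(L) := by
  let A : Subgroup G :=
    { carrier := {x | x ∈ T ∧ x * x = 1}
      one_mem' := ⟨one_mem _, mul_one _⟩
      mul_mem' := fun {a b} ha hb => ⟨mul_mem ha.1 hb.1, by
        rw [mul_assoc, ← mul_assoc b, h b hb.1 a ha.1 hb.2 ha.2, mul_assoc, hb.2, mul_one, ha.2]⟩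
      inv_mem' := fun {a} ha => ⟨inv_mem ha.1, by rw [← mul_inv_rev, ha.2, inv_one]⟩ }
  obtain ⟨s, e⟩ := scl_clIn (A := A) hT (fun _ h => h.1) fun a ha g _ m => ⟨m, conj_sq ha.2 g⟩
  obtain ⟨u, hu, u2, u1⟩ := exists_inv_of_pg hT.pgroup fun e => ns.not_od (hT.eq_bot_iff.1 e)
  rcases G0.g0 ns _ T s hT (e.symm ▸ cent_iff.2 fun a ha b hb => h a ha.1 b hb.1 ha.2 hb.2)
    (e.symm ▸ ne_bot_of_mem ⟨hu, u2⟩ u1) with se | ⟨el, c⟩
  · obtain ⟨U, K, b⟩ := GBF.bt ns.simple ns.na se hT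
    exact out_bt b
  obtain ⟨K, g⟩ := GBF.el ns.simple ns.na hT el c
  obtain ⟨k, hk, n⟩ := SetLike.not_le_iff_exists.1 fun f : K ≤ C(T) =>
    g.ne_bot (le_bot_iff.1 (g.le_comm.trans (comm_eq_bot_iff.2 (cent_symm f)).le))
  refine out_phi ns hT (.inr ⟨((dvd_mul_left _ _).trans (card_quo_mul phi_nml).dvd).trans ?_, k, g.leK hk,
    od_zp.1 (not_dvd_card_of_le (zpowers_le.2 hk) g.odd), n⟩)
  rcases c with c | c <;> simp [c]

theorem card_phi_sup (hT : IsPGroup 2 T) (hA : A ≤ T) (hx : x ∈ T) :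
    Nat.card ((A ⊔ zpowers x) ⫽ Φ(T)) ∣ Nat.card (A ⫽ Φ(T)) * 2 := by
  have e := (pg_pi hT).elem_quo_phi Nat.prime_two
  rw [mim_sup (hA.trans phi_nml.norm) (zpowers_le.2 (phi_nml.norm hx))]
  refine (card_sup_dvd (cent_norm (cent_mono e.abel (mim_mono hA) (mim_mono (zpowers_le.2 hx))))).trans
    (mul_dvd_mul_left _ ?_)
  rw [mim_zpowers (phi_nml.norm hx), Nat.card_zpowers]
  exact orderOf_dvd_of_pow_eq_one (e.pow _ (mfun_mem_mim hx))

theorem s3066 [G0.{u}] [IsSimpleGroup G] (hG : ¬ IsMulCommutative G) (S : Sylow 2 G)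
    (h : (∃ a b : ↥S, Subgroup.closure ({a, b} : Set ↥S) = ⊤) ∨
      ((∃ a b c : ↥S, Subgroup.closure ({a, b, c} : Set ↥S) = ⊤) ∧
        ∃ g ∈ Subgroup.normalizer ((S : Subgroup G) : Set G), Odd (orderOf g) ∧ g ∉ Subgroup.centralizer ((S : Subgroup G) : Set G)) ∨
      ((∀ s ∈ S, ∀ t ∈ S, orderOf s = 2 → orderOf t = 2 → s * t = t * s) ∧
        (∀ s ∈ S, ∀ t ∈ S, orderOf s = 2 → orderOf t = 2 → ∃ g : G, g * s * g⁻¹ = t))) :
    Group.IsSolvable (Out G) := by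
  have cj : ∀ (ψ : MulAut G) (x : G), ψ * MulAut.conj x * ψ⁻¹ = MulAut.conj (ψ x) := fun ψ x => by ext y; simp
  have hi : Function.Injective (MulAut.conj : G →* MulAut G) := (injective_iff_map_eq_one _).2 fun x hx =>
    mem_bot.1 (H9.center_eq_bot_of_simple hG ▸ mem_center_iff.2 fun g =>
      (mul_inv_eq_iff_eq_mul.1 (DFunLike.congr_fun hx g)).symm)
  have e := MonoidHom.ofInjective hi
  have ns : NS (Inn G) := ⟨e.symm.isSimpleGroup, fun c => hG ⟨⟨fun a b =>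
    hi (by rw [map_mul, map_mul]; exact comm_of_cent c ⟨a, rfl⟩ ⟨b, rfl⟩)⟩⟩⟩
  have hT : IsSyl 2 ((S : Subgroup G).map MulAut.conj) (Inn G) := by
    have := (isSyl_sylow S).map MulAut.conj
    rwa [← MonoidHom.range_eq_map] at this
  let f : S →* MulAut G := MulAut.conj.comp (S : Subgroup G).subtype
  have m : ∀ a : S, f a ∈ (S : Subgroup G).map MulAut.conj := fun a => mem_map_of_mem _ a.2
  have g : ∀ {s : Set S}, closure s = ⊤ → (S : Subgroup G).map MulAut.conj = closure (f '' s) := fun e => by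
    rw [← MonoidHom.map_closure, e, ← map_map, ← MonoidHom.range_eq_map, range_subtype]
  have z := fun a => zpowers_le.2 (m a)
  have c1 := fun a => card_phi_sup hT.pgroup bot_le (m a)
  have c2 := fun a b => (card_phi_sup hT.pgroup (z a) (m b)).trans (mul_dvd_mul_right (by simpa using c1 a) 2)
  obtain ⟨H, h1, h2⟩ : ∃ H, N(Inn G) ≤ Inn G ⊔ H ∧ ∀ P ≤ H, ⁅P, P⁆ = P → P ≤ C(Inn G) := by
    rcases h with ⟨a, b, e⟩ | ⟨⟨a, b, c, e⟩, x, hx, o, n⟩ | ⟨h, -⟩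
    · refine out_phi ns hT (.inl ?_)
      have := c2 a b
      rwa [zpowers_eq_closure, zpowers_eq_closure, ← Subgroup.closure_union, ← Set.insert_eq, ← Set.image_pair, ← g e] at this
    · refine out_phi ns hT (.inr ⟨?_, MulAut.conj x, ⟨⟨x, rfl⟩, le_normalizer_map _ (mem_map_of_mem _ hx)⟩,
        by rwa [orderOf_injective _ hi], fun k => n (mem_C.2 fun s hs => hi ?_)⟩)
      · have := (card_phi_sup hT.pgroup (sup_le (z a) (z b)) (m c)).trans (mul_dvd_mul_right (c2 a b) 2)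
        rwa [sup_assoc, zpowers_eq_closure, zpowers_eq_closure, zpowers_eq_closure, ← Subgroup.closure_union,
          ← Subgroup.closure_union, ← Set.insert_eq, ← Set.insert_eq, ← Set.image_pair, ← Set.image_insert_eq, ← g e] at this
      · rw [map_mul, map_mul]; exact mem_C.1 k _ (mem_map_of_mem _ hs)
    · refine out_inv ns hT ?_
      rintro _ ⟨s, hs, rfl⟩ _ ⟨t, ht, rfl⟩ s2 t2
      rw [← map_mul, map_eq_one_iff _ hi] at s2 t2
      by_cases s1 : s = 1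
      · simp [s1]
      by_cases t1 : t = 1
      · simp [t1]
      rw [← map_mul, ← map_mul, h s hs t ht (H9.orderOf_eq_two.2 ⟨s2, s1⟩) (H9.orderOf_eq_two.2 ⟨t2, t1⟩)]
  have : Solv H := by
    by_contra n
    obtain ⟨P, l, p0, p⟩ := H6.Ree.exists_perf_nml n
    refine p0 (eq_bot_iff.2 fun φ hφ => MulEquiv.ext fun x => hi ?_)
    rw [← cj, ← mem_C.1 (h2 P l.le p hφ) _ ⟨x, rfl⟩, mul_inv_cancel_right]; rfl
  exact H1.isSolvable_quotient_of_sup_eq_top (top_le_iff.1 ((normalizer_eq_top _).ge.trans h1))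

end H4.Gs
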