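import Cfsg.Agent.H4.WS
import Cfsg.Prelude.Def_DStar

/-! The Glauberman–Solomon subgroup `D*(S)`: the family `DF S A` in ambient form, `dStarOf S` is its largest
member (`df_dStarOf`), it lies in `Z(J(S))` (`dStarOf_le_centerThompson`), and the `D*`-theorem (`dstar_thm`).
Also `centralizer_le_of_max_normal_comm` (maximal normal abelian subgroups of `p`-groups are self-centralizing). -/

set_option autoImplicit false

namespace H4
open Subgroup H26 Cfsg
open scoped commutatorElement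

variable {G : Type*} [Group G] {G' : Type*} [Group G'] {p : ℕ}

theorem class_two_of_comm {A X : Subgroup G} (hA : IsMulCommutative A) (hX : IsMulCommutative X)
    (h : ⁅A, X⁆ ≤ 𝐂 (A ⊔ X)) : ⁅⁅A ⊔ X, A ⊔ X⁆, A ⊔ X⁆ = ⊥ := by
  have hn : A ⊔ X ≤ 𝐍 (𝐂 (A ⊔ X)) := le_normalizer_centralizer le_normalizer
  have h1 := le_sup_left.trans hn
  have h2 := le_sup_right.trans hn
  rw [commutator_eq_bot_iff_le_centralizer]
  refine commutator_sup_le (commutator_sup_le' ?_ h h1 h2) (commutator_sup_le' ?_ ?_ h1 h2) h1 h2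
  · rw [commutator_eq_bot_iff'.2 (comm_le_centralizer hA)]; exact bot_le
  · rwa [commutator_comm]
  · rw [commutator_eq_bot_iff'.2 (comm_le_centralizer hX)]; exact bot_le

theorem centralizer_le_of_max_normal_comm [Finite G] [Fact p.Prime] (hG : IsPGroup p G) {M : Subgroup G}
    [M.Normal] (hc : IsMulCommutative M)
    (hmax : ∀ B : Subgroup G, B.Normal → IsMulCommutative B → M ≤ B → B = M) : 𝐂 M ≤ M := by
  by_contra h
  obtain ⟨x, hx, hxM, -, hx'⟩ := exists_central_mod hG M (𝐂 M) h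
  have hn : (M ⊔ zpowers x).Normal := by
    refine normal_of_top_le_normalizer (le_normalizer_of_commutator_le ?_)
    refine (commutator_sup_le (N := M) (commutator_le_left _ _) (commutator_zpowers_le (fun a _ => hx' a) ?_)
      le_normalizer ?_).trans le_sup_left
    · rw [normalizer_eq_top]; trivial
    · rw [normalizer_eq_top]; exact le_top
  have := hmax _ hn (comm_sup hc (comm_zpowers x) (le_centralizer_iff.1 (zpowers_le.2 hx))) le_sup_left
  exact hxM (this ▸ mem_sup_right (mem_zpowers x))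

/-- ambient form of `dStarFamily` -/
structure DF (S A : Subgroup G) : Prop where
  le : A ≤ S
  comm : IsMulCommutative A
  cent : ∀ x ∈ S, ⁅A, zpowers x⁆ ≤ 𝐂 (A ⊔ zpowers x) → x ∈ 𝐂 A

theorem df_top_iff {A : Subgroup G} : DF ⊤ A ↔ A ∈ dStarFamily G := by
  refine ⟨fun h => ⟨h.comm, fun x hx => mem_centralizer_iff.1 (h.cent x trivial ?_)⟩,
    fun h => ⟨le_top, h.1, fun x _ hx => mem_centralizer_iff.2 (h.2 x (class_two_of_comm h.1 (comm_zpowers x) hx))⟩⟩
  exact (commutator_mono le_sup_left le_sup_right).trans (commutator_eq_bot_iff_le_centralizer.1 hx)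

theorem df_map_iff {f : G →* G'} (hf : Function.Injective f) {S A : Subgroup G} :
    DF (S.map f) (A.map f) ↔ DF S A := by
  have e : ∀ x, ⁅A.map f, zpowers (f x)⁆ ≤ 𝐂 (A.map f ⊔ zpowers (f x)) ↔ ⁅A, zpowers x⁆ ≤ 𝐂 (A ⊔ zpowers x) :=
    fun x => by
      rw [← MonoidHom.map_zpowers, ← map_commutator, ← Subgroup.map_sup, map_le_centralizer_map_iff hf]
  refine ⟨fun h => ⟨(map_le_map_iff_of_injective hf).1 h.le, (comm_map_iff hf).1 h.comm, fun x hx hc =>
    (map_mem_centralizer_iff hf).1 (h.cent _ (mem_map_of_mem f hx) ((e x).2 hc))⟩,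
    fun h => ⟨map_mono h.le, comm_map h.comm f, ?_⟩⟩
  rintro _ ⟨x, hx, rfl⟩ hc
  exact (map_mem_centralizer_iff hf).2 (h.cent x hx ((e x).1 hc))

theorem DF.cj {S A : Subgroup G} (h : DF S A) {g : G} (hg : g ∈ 𝐍 S) : DF S (cj g A) := by
  have := (df_map_iff (conj_injective' g)).2 h
  rwa [cj_eq_of_mem_normalizer hg] at this

theorem dStarOf_eq (S : Subgroup G) : dStarOf S = sSup {A | DF S A} := by
  rw [dStarOf, dStar, map_sSup']
  congr 1
  ext A
  refine ⟨?_, fun h => ⟨A.subgroupOf S, df_top_iff.1 ((df_map_iff S.subtype_injective).1 ?_),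
    map_subgroupOf_eq_of_le h.le⟩⟩
  · rintro ⟨B, hB, rfl⟩
    have := (df_map_iff S.subtype_injective).2 (df_top_iff.2 hB)
    rwa [map_subtype_top] at this
  · rwa [map_subtype_top, map_subgroupOf_eq_of_le h.le]

theorem dStarOf_top : dStarOf (⊤ : Subgroup G) = dStar G := by
  rw [dStarOf_eq, dStar]; congr 1; ext A; exact df_top_iff

theorem DF.le_dStarOf {S A : Subgroup G} (h : DF S A) : A ≤ dStarOf S := by
  rw [dStarOf_eq]; exact le_sSup h

theorem dStarOf_le_iff {S K : Subgroup G} : dStarOf S ≤ K ↔ ∀ A, DF S A → A ≤ K := by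
  rw [dStarOf_eq]; exact sSup_le_iff

theorem dStarOf_le (S : Subgroup G) : dStarOf S ≤ S := dStarOf_le_iff.2 fun _ h => h.le

theorem normalizer_le_normalizer_dStarOf (S : Subgroup G) : 𝐍 S ≤ 𝐍 (dStarOf S) :=
  le_normalizer_iff_cj.2 fun g hg => by
    rw [cj_le_iff]
    exact dStarOf_le_iff.2 fun A hA => by rw [← cj_le_iff]; exact (hA.cj hg).le_dStarOf

theorem center_le_dStarOf (S : Subgroup G) : S ⊓ 𝐂 S ≤ dStarOf S :=
  DF.le_dStarOf ⟨inf_le_left, comm_inf_centralizer S, fun _ hx _ => le_centralizer_iff.1 inf_le_right hx⟩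

variable [Finite G] [Fact p.Prime]

theorem DF.le_centralizer {S A B : Subgroup G} (hS : IsPGroup p S) (hA : DF S A) (hBS : B ≤ S)
    (hB : IsMulCommutative B) (hn : A ≤ 𝐍 B) : B ≤ 𝐂 A := by
  by_contra h
  obtain ⟨U, hUB, ⟨h1, h2⟩, hmin⟩ := exists_minimal_le (Q := fun U => A ≤ 𝐍 U ∧ ¬ U ≤ 𝐂 A) B ⟨hn, h⟩
  have hlt : ⁅U, A⁆ < U := commutator_lt_of_isPGroup (hS.to_le (hUB.trans hBS)) (hS.to_le hA.le) h1
    (by rintro rfl; exact h2 bot_le)
  have h3 : ⁅U, A⁆ ≤ 𝐂 A := by
    by_contra h3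
    exact hlt.ne (hmin _ hlt.le ⟨le_normalizer_commutator_right _ _, h3⟩)
  refine h2 fun x hx => hA.cent x (hBS (hUB hx)) ?_
  have : ⁅A, zpowers x⁆ ≤ ⁅U, A⁆ := by rw [commutator_comm]; exact commutator_mono (zpowers_le.2 hx) le_rfl
  exact le_centralizer_sup (this.trans h3)
    (le_centralizer_of_le_comm hB (this.trans (hlt.le.trans hUB)) (zpowers_le.2 (hUB hx)))

theorem dStar_le_of_max (hG : IsPGroup p G) {M : Subgroup G} [M.Normal] (hc : IsMulCommutative M)
    (hmax : ∀ B : Subgroup G, B.Normal → IsMulCommutative B → M ≤ B → B = M) : dStar G ≤ M :=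
  sSup_le fun A hA => (le_centralizer_iff.1 ((df_top_iff.2 hA).le_centralizer (hG.to_subgroup ⊤) le_top hc
    (by rw [normalizer_eq_top]; exact le_top))).trans (centralizer_le_of_max_normal_comm hG hc hmax)

theorem comm_dStar (hG : IsPGroup p G) : IsMulCommutative (dStar G) := by
  obtain ⟨M, -, -, ⟨hM, hc⟩, hmax⟩ := exists_maximal_ge
    (Q := fun B : Subgroup G => B.Normal ∧ IsMulCommutative B) (L := ⊤) (P := ⊥) le_top ⟨inferInstance, comm_bot⟩
  exact comm_mono hc (dStar_le_of_max hG hc fun B h1 h2 h => hmax B h le_top ⟨h1, h2⟩)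

theorem df_dStarOf {S : Subgroup G} (hS : IsPGroup p S) : DF S (dStarOf S) := by
  refine ⟨dStarOf_le S, comm_map (comm_dStar hS) _, fun x hx hc => ?_⟩
  rw [← zpowers_le_centralizer_iff, le_centralizer_iff, dStarOf_le_iff]
  intro A hA
  rw [le_centralizer_iff, zpowers_le_centralizer_iff]
  exact hA.cent x hx ((commutator_mono hA.le_dStarOf le_rfl).trans
    (hc.trans (centralizer_anti (sup_le_sup_right hA.le_dStarOf _))))

omit [Finite G] in
theorem DF.cent_of_quadratic {S A V : Subgroup G} (h : DF S A) (hV : IsMulCommutative V) (hAV : A ≤ V) {x : G}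
    (hx : x ∈ S) (hn : x ∈ 𝐍 V) (hq : ⁅⁅V, zpowers x⁆, zpowers x⁆ = ⊥) : x ∈ 𝐂 A :=
  h.cent x hx <| (commutator_mono hAV le_rfl).trans <| le_centralizer_sup
    (le_centralizer_of_le_comm hV (commutator_le_of_le_normalizer (zpowers_le.2 hn)) hAV)
    (commutator_eq_bot_iff_le_centralizer.1 hq)

theorem dStarOf_le_centerThompson {S : Subgroup G} (hS : IsPGroup p S) : dStarOf S ≤ centerThompsonOf 0 S := by
  have hD := df_dStarOf hS
  have hn : S ≤ 𝐍 (dStarOf S) := le_normalizer.trans (normalizer_le_normalizer_dStarOf S)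
  have h4 : dStarOf S ≤ 𝐂 (thompsonSubgroupOf 0 S) := le_centralizer_thompsonOf.2 fun A hA => by
    rw [le_centralizer_iff]
    by_contra h
    obtain ⟨B, hB, -, hq, hB'⟩ := MaxEA.exists_quadratic hA hS hD.le (elemAb_zero.2 hD.comm)
      ((MaxEA.le hA).trans hn) h
    exact hB' fun x hx => hD.cent_of_quadratic hD.comm le_rfl (MaxEA.le hB hx) (hn (MaxEA.le hB hx))
      (quadratic_zpowers hq hx)
  exact le_inf (fun x hx => mem_thompsonOf_of_centralizes (hD.le hx) (h4 hx) (pow_zero x)) h4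

/-- the `D*`-theorem -/
theorem dstar_thm {H S : Subgroup G} (hS : IsSyl p S H) (hc : CharPOf p H) (hs : PStab p H) :
    H ≤ 𝐍 (dStarOf S) := by
  have hD := df_dStarOf hS.isP
  have hn : S ≤ 𝐍 (dStarOf S) := le_normalizer.trans (normalizer_le_normalizer_dStarOf S)
  have hT := hS.pCoreOf_le
  have hDT : dStarOf S ≤ pCoreOf p H :=
    hs.le_pCoreOf hc (hS.isP.to_le hD.le) (hD.le.trans hS.le) hD.comm (hT.trans hn)
  have hTH := le_normalizer_pCoreOf p H
  set W := ncl (dStarOf S) H with hW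
  have hWT : W ≤ pCoreOf p H := ncl_le hDT hTH
  have hHW : H ≤ 𝐍 W := le_normalizer_ncl _ _
  have h1 : W ≤ 𝐂 (dStarOf S) := ncl_le_iff.2 fun g hg =>
    hD.le_centralizer hS.isP ((cj_le_of_mem_normalizer hDT (hTH hg)).trans hT) (comm_map hD.comm _) (by
      refine hDT.trans ?_
      rw [← cj_normalizer, ← cj_eq_of_mem_normalizer (hTH hg)]
      exact cj_mono g (hT.trans hn))
  have hWc : IsMulCommutative W :=
    isMulCommutative_iff'.2 (ncl_le_centralizer (le_centralizer_iff.1 h1) hHW)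
  have hWD : DF S W := by
    refine ⟨hWT.trans hT, hWc, fun x hx hq => ?_⟩
    have hq' : ⁅⁅W, zpowers x⁆, zpowers x⁆ = ⊥ :=
      commutator_eq_bot_iff_le_centralizer.2 (hq.trans (centralizer_anti le_sup_right))
    have hxL : x ∈ S ⊓ opMod p H (𝐂 W) := ⟨hx, zpowers_le.1 (hs W _ ((isPGroup_pCoreOf p H).to_le hWT)
      (hWT.trans (pCoreOf_le p H)) hHW (hS.isP.to_le (zpowers_le.2 hx)) (zpowers_le.2 (hS.le hx)) hq')⟩
    rw [← zpowers_le_centralizer_iff, le_centralizer_iff, ncl_le_iff]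
    intro g hg
    obtain ⟨n, hn', c, hc', e⟩ := exists_frattini_opMod hS (le_normalizer_centralizer hHW) hg
    have hnW : n ∈ 𝐍 W := by
      have : n = g * c⁻¹ := by rw [e]; group
      rw [this]; exact mul_mem (hHW hg) (inv_mem (centralizer_le_normalizer _ hc'))
    have hy := conj_mem_of_mem_normalizer' hn' hxL
    have e2 : zpowers (n⁻¹ * x * n) = cj n⁻¹ (zpowers x) := by rw [cj_zpowers, inv_inv]
    have h2 : n⁻¹ * x * n ∈ 𝐂 (dStarOf S) := by
      refine hD.cent_of_quadratic hWc (le_ncl _ _) hy.1 (hHW (hS.le hy.1)) ?_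
      rw [e2, ← cj_eq_of_mem_normalizer (inv_mem hnW), ← cj_commutator, ← cj_commutator, hq', cj_bot]
    rw [e, cj_mul, cj_eq_of_mem_centralizer (centralizer_anti (le_ncl _ _) hc'), cj_le_iff, cj_centralizer, ← e2,
      le_centralizer_iff]
    exact zpowers_le.2 h2
  rwa [le_antisymm hWD.le_dStarOf (le_ncl _ _)] at hHW

end H4
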