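import Cfsg.Agent.H11.Gm0

/-! Piece `PB` of the minimal degree of `G₂(q)`: counting in an `SL₃(q)`-invariant subspace. -/
set_option autoImplicit false
namespace H4.Gm
open H24 H11 H11.Gm Module Matrix

variable {F G M : Type*} [Field F] [Group G] [AddCommGroup M] [Module ℂ M]
variable {S : Sy F G} {ρ : G →* End ℂ M} {ψ : AddChar F ℂ}

theorem x0 (S : Sy F G) (r : ℕ) : S.x r 0 = 1 := by simpa using S.add r 0 0

theorem mix {r s : ℕ} {g : G} {p q p' q' : F}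
    (hg : ∀ a b, S.x r a * S.x s b * g = g * (S.x r (a * p + b * p') * S.x s (a * q + b * q')))
    {l1 l2 : F} {v : M} (h1 : v ∈ J S ρ ψ r l1) (h2 : v ∈ J S ρ ψ s l2) :
    ρ g v ∈ J S ρ ψ r (p * l1 + q * l2) ∧ ρ g v ∈ J S ρ ψ s (p' * l1 + q' * l2) := by
  constructor
  · intro a
    change ρ _ _ = _
    have := hg a 0
    rw [x0, mul_one] at this
    rw [← app, this, app, app, mem_J.1 h2, map_smul, mem_J.1 h1, smul_smul, map_smul, ← AddChar.map_add_eq_mul]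
    congr 2; ring
  · intro b
    change ρ _ _ = _
    have := hg 0 b
    rw [x0, one_mul] at this
    rw [← app, this, app, app, mem_J.1 h2, map_smul, mem_J.1 h1, smul_smul, map_smul, ← AddChar.map_add_eq_mul]
    congr 2; ring

theorem tr {r : ℕ} {g : G} {ε m : F} (hg : ∀ t, S.x r t * g = g * S.x r (ε * t)) {v : M}
    (h : v ∈ J S ρ ψ r m) : ρ g v ∈ J S ρ ψ r (ε * m) := fun t => by
  change ρ _ _ = _
  rw [← app, hg, app, mem_J.1 h, map_smul]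
  congr 2; ring

theorem sum_const {ι : Type*} [Fintype ι] (a : ι) (f : ι → ℕ) (m : ℕ) (h : ∀ i, i ≠ a → f i = m) :
    ∑ i, f i = f a + (Fintype.card ι - 1) * m := by
  classical
  rw [← Finset.add_sum_erase _ _ (Finset.mem_univ a),
    Finset.sum_congr rfl (fun i hi => h i (Finset.ne_of_mem_erase hi)), Finset.sum_const,
    Finset.card_erase_of_mem (Finset.mem_univ a), Finset.card_univ, smul_eq_mul]

theorem sum_ge {ι : Type*} [Fintype ι] (a : ι) (f : ι → ℕ) (m : ℕ) (h : ∀ i, i ≠ a → m ≤ f i) :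
    (Fintype.card ι - 1) * m ≤ ∑ i, f i := by
  classical
  rw [← Finset.add_sum_erase _ _ (Finset.mem_univ a)]
  refine le_trans ?_ (Nat.le_add_left _ _)
  have := Finset.card_nsmul_le_sum (Finset.univ.erase a) f m (fun i hi => h i (Finset.ne_of_mem_erase hi))
  rwa [Finset.card_erase_of_mem (Finset.mem_univ a), Finset.card_univ, smul_eq_mul] at this

variable [FiniteDimensional ℂ M]

theorem cnt [Fintype F] (hψ : ψ ≠ 1) (U : Submodule ℂ M) (r s : ℕ) (hUr : ∀ u, ∀ v ∈ U, ρ (S.x r u) v ∈ U)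
    (hUs : ∀ u, ∀ v ∈ U, ρ (S.x s u) v ∈ U) (hc : ∀ t u, Commute (S.x r t) (S.x s u))
    (H : ∀ p q p' q' : F, p * q' - q * p' = 1 → ∃ g, (∀ v ∈ U, ρ g v ∈ U) ∧
      ∀ a b, S.x r a * S.x s b * g = g * (S.x r (a * p + b * p') * S.x s (a * q + b * q'))) :
    finrank ℂ U = finrank ℂ ↥(U ⊓ J S ρ ψ r 0 ⊓ J S ρ ψ s 0) +
      (Fintype.card F ^ 2 - 1) * finrank ℂ ↥(U ⊓ J S ρ ψ r 1 ⊓ J S ρ ψ s 0) ∧
    finrank ℂ ↥(U ⊓ J S ρ ψ s 0) = finrank ℂ ↥(U ⊓ J S ρ ψ r 0 ⊓ J S ρ ψ s 0) +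
      (Fintype.card F - 1) * finrank ℂ ↥(U ⊓ J S ρ ψ r 1 ⊓ J S ρ ψ s 0) := by
  have key : ∀ l1 l2 : F, (l1, l2) ≠ (0, 0) →
      finrank ℂ ↥(U ⊓ J S ρ ψ r l1 ⊓ J S ρ ψ s l2) = finrank ℂ ↥(U ⊓ J S ρ ψ r 1 ⊓ J S ρ ψ s 0) := by
    intro l1 l2 hl
    obtain ⟨p, q, hpq⟩ : ∃ p q : F, p * l1 + q * l2 = 1 := by
      by_cases h1 : l1 = 0
      · have h2 : l2 ≠ 0 := fun h2 => hl (by rw [h1, h2])
        exact ⟨0, l2⁻¹, by simp [h2]⟩
      · exact ⟨l1⁻¹, 0, by simp [h1]⟩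
    apply le_antisymm
    · obtain ⟨g, hgU, hg⟩ := H p q (-l2) l1 (by linear_combination hpq)
      refine fr_le (ρ := ρ) g fun v hv => ?_
      have := mix hg hv.1.2 hv.2
      rw [hpq, show -l2 * l1 + l1 * l2 = 0 by ring] at this
      exact ⟨⟨hgU v hv.1.1, this.1⟩, this.2⟩
    · obtain ⟨g, hgU, hg⟩ := H l1 (-q) l2 p (by linear_combination hpq)
      refine fr_le (ρ := ρ) g fun v hv => ?_
      have := mix hg hv.1.2 hv.2
      simp only [mul_one, mul_zero, add_zero] at this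
      exact ⟨⟨hgU v hv.1.1, this.1⟩, this.2⟩
  constructor
  · rw [← sum_fr (S := S) (ρ := ρ) hψ hUr]
    have e : ∀ l1, finrank ℂ ↥(U ⊓ J S ρ ψ r l1) = ∑ l2, finrank ℂ ↥(U ⊓ J S ρ ψ r l1 ⊓ J S ρ ψ s l2) := fun l1 =>
      (sum_fr (S := S) (ρ := ρ) (r := s) hψ (U := U ⊓ J S ρ ψ r l1)
        fun u v hv => ⟨hUs u v hv.1, J_comm (fun t => hc t u) hv.2⟩).symm
    rw [Finset.sum_congr rfl fun l1 _ => e l1, ← Fintype.sum_prod_type',
      sum_const ((0, 0) : F × F) _ _ (fun i hi => key i.1 i.2 hi), Fintype.card_prod, ← sq]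
  · rw [← sum_fr (S := S) (ρ := ρ) (r := r) hψ (U := U ⊓ J S ρ ψ s 0)
      (fun u v hv => ⟨hUr u v hv.1, J_comm (fun t => (hc u t).symm) hv.2⟩),
      sum_const (0 : F) _ (finrank ℂ ↥(U ⊓ J S ρ ψ r 1 ⊓ J S ρ ψ s 0)) (fun i hi => by
        rw [inf_right_comm]; exact key i 0 (fun h => hi (congrArg Prod.fst h))), inf_right_comm]

omit [FiniteDimensional ℂ M] in
theorem x11 (S : Sy F G) (t : F) : S.x 11 t = S.θ (trv 0 2 (-t)) := by rw [S.θ02, neg_neg]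

omit [FiniteDimensional ℂ M] in
theorem row (S : Sy F G) (p q p' q' : F) (h : p * q' - q * p' = 1) : ∃ g : SpecialLinearGroup (Fin 3) F,
    ∀ a b, S.x 10 a * S.x 11 b * S.θ g = S.θ g * (S.x 10 (a * p + b * p') * S.x 11 (a * q + b * q')) := by
  obtain ⟨g, hg⟩ : ∃ g : SpecialLinearGroup (Fin 3) F, g.1 = !![1, 0, 0; 0, p, -q; 0, -p', q'] :=
    ⟨⟨_, by rw [Matrix.det_fin_three]; simp; linear_combination h⟩, rfl⟩
  refine ⟨g, fun a b => ?_⟩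
  simp only [x11, ← S.θ01, ← map_mul]
  congr 1
  apply Subtype.ext
  simp only [Matrix.SpecialLinearGroup.coe_mul]
  rw [hg, coe_trv (by decide), coe_trv (by decide), coe_trv (by decide), coe_trv (by decide)]
  ext i j
  fin_cases i <;> fin_cases j <;>
    simp [Matrix.mul_apply, Fin.sum_univ_three, Matrix.single, Matrix.one_apply] <;> ring

omit [FiniteDimensional ℂ M] in
theorem col (S : Sy F G) (p q p' q' : F) (h : p * q' - q * p' = 1) : ∃ g : SpecialLinearGroup (Fin 3) F,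
    ∀ a b, S.x 6 a * S.x 11 b * S.θ g = S.θ g * (S.x 6 (a * p + b * p') * S.x 11 (a * q + b * q')) := by
  obtain ⟨g, hg⟩ : ∃ g : SpecialLinearGroup (Fin 3) F, g.1 = !![p, q, 0; p', q', 0; 0, 0, 1] :=
    ⟨⟨_, by rw [Matrix.det_fin_three]; simp; linear_combination h⟩, rfl⟩
  refine ⟨g, fun a b => ?_⟩
  simp only [x11, ← S.θ12, ← map_mul]
  congr 1
  apply Subtype.ext
  simp only [Matrix.SpecialLinearGroup.coe_mul]
  rw [hg, coe_trv (by decide), coe_trv (by decide), coe_trv (by decide), coe_trv (by decide)]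
  ext i j
  fin_cases i <;> fin_cases j <;>
    simp [Matrix.mul_apply, Fin.sum_univ_three, Matrix.single, Matrix.one_apply]
  · linear_combination (b) * h
  · linear_combination (-a) * h

omit [FiniteDimensional ℂ M] in
theorem tor3 (S : Sy F G) (u v w : F) (h : u * v * w = 1) : ∃ g : SpecialLinearGroup (Fin 3) F,
    (∀ t, S.x 10 t * S.θ g = S.θ g * S.x 10 (v / u * t)) ∧ (∀ t, S.x 11 t * S.θ g = S.θ g * S.x 11 (w / u * t)) ∧
    ∀ t, S.x 6 t * S.θ g = S.θ g * S.x 6 (w / v * t) := by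
  have hu : u ≠ 0 := fun e => by simp [e] at h
  have hv : v ≠ 0 := fun e => by simp [e] at h
  obtain ⟨g, hg⟩ : ∃ g : SpecialLinearGroup (Fin 3) F, g.1 = !![u, 0, 0; 0, v, 0; 0, 0, w] :=
    ⟨⟨_, by rw [Matrix.det_fin_three]; simp; linear_combination h⟩, rfl⟩
  refine ⟨g, fun t => ?_, fun t => ?_, fun t => ?_⟩ <;>
  · simp only [x11, ← S.θ12, ← S.θ01, ← map_mul]
    congr 1
    apply Subtype.ext
    simp only [Matrix.SpecialLinearGroup.coe_mul]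
    rw [hg, coe_trv (by decide), coe_trv (by decide)]
    ext i j
    fin_cases i <;> fin_cases j <;>
      simp [Matrix.mul_apply, Fin.sum_univ_three, Matrix.single, Matrix.one_apply]
    field_simp

theorem le3 (U : Submodule ℂ M) (hU : ∀ g, ∀ v ∈ U, ρ (S.θ g) v ∈ U) (u v w : F) (h : u * v * w = 1) (a b : F) :
    finrank ℂ ↥(U ⊓ J S ρ ψ 10 a ⊓ J S ρ ψ 11 0 ⊓ J S ρ ψ 6 b) ≤
      finrank ℂ ↥(U ⊓ J S ρ ψ 10 (v / u * a) ⊓ J S ρ ψ 11 0 ⊓ J S ρ ψ 6 (w / v * b)) := by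
  obtain ⟨g, h1, h2, h3⟩ := tor3 S u v w h
  refine fr_le (ρ := ρ) (S.θ g) fun z hz => ⟨⟨⟨hU g z hz.1.1.1, tr h1 hz.1.1.2⟩, ?_⟩, tr h3 hz.2⟩
  simpa using tr h2 hz.1.2

universe u v w

theorem pb : H11.Gm.PB.{u, v, w} := by
  intro F G M _ _ _ _ _ _ S ρ ψ hψ U hU
  have h10 : ∀ u, ∀ v ∈ U, ρ (S.x 10 u) v ∈ U := fun u v hv => by rw [← S.θ01]; exact hU _ v hv
  have h6 : ∀ u, ∀ v ∈ U, ρ (S.x 6 u) v ∈ U := fun u v hv => by rw [← S.θ12]; exact hU _ v hv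
  have h11 : ∀ u, ∀ v ∈ U, ρ (S.x 11 u) v ∈ U := fun u v hv => by rw [x11]; exact hU _ v hv
  have R := cnt (S := S) (ρ := ρ) hψ U 10 11 h10 h11 (S.cm (10, 11) (by simp)) fun p q p' q' h =>
    (row S p q p' q' h).elim fun g hg => ⟨S.θ g, hU g, hg⟩
  have C := cnt (S := S) (ρ := ρ) hψ U 6 11 h6 h11 (S.cm (6, 11) (by simp)) fun p q p' q' h =>
    (col S p q p' q' h).elim fun g hg => ⟨S.θ g, hU g, hg⟩
  refine ⟨R.1, ?_, fun β c hc => le_antisymm ?_ ?_⟩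
  · have hq : 2 ≤ Fintype.card F := Fintype.one_lt_card
    have e : finrank ℂ ↥(U ⊓ J S ρ ψ 10 0 ⊓ J S ρ ψ 11 0) = finrank ℂ ↥(U ⊓ J S ρ ψ 6 0 ⊓ J S ρ ψ 11 0) := by
      obtain ⟨R1, R2⟩ := R
      obtain ⟨C1, C2⟩ := C
      obtain ⟨k, hk⟩ : ∃ k, Fintype.card F = k + 2 := ⟨Fintype.card F - 2, by omega⟩
      rw [hk] at R1 R2 C1 C2
      rw [show (k + 2) ^ 2 - 1 = (k + 1) + (k + 1) * (k + 2) by
        rw [show (k + 2) ^ 2 = (k + 1) + (k + 1) * (k + 2) + 1 by ring]; rfl] at R1 C1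
      rw [show k + 2 - 1 = k + 1 from rfl] at R2 C2
      generalize finrank ℂ ↥(U ⊓ J S ρ ψ 10 0 ⊓ J S ρ ψ 11 0) = f at *
      generalize finrank ℂ ↥(U ⊓ J S ρ ψ 6 0 ⊓ J S ρ ψ 11 0) = f' at *
      generalize finrank ℂ ↥(U ⊓ J S ρ ψ 10 1 ⊓ J S ρ ψ 11 0) = m at *
      generalize finrank ℂ ↥(U ⊓ J S ρ ψ 6 1 ⊓ J S ρ ψ 11 0) = m' at *
      have : (k + 1) * (k + 2) * m = (k + 1) * (k + 2) * m' := by
        rw [add_mul] at R1 C1; omega
      have hm : m = m' := Nat.eq_of_mul_eq_mul_left (by positivity) this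
      subst hm
      omega
    rw [e, ← sum_fr (S := S) (ρ := ρ) (r := 10) hψ (U := U ⊓ J S ρ ψ 6 0 ⊓ J S ρ ψ 11 0) (fun u v hv =>
      ⟨⟨h10 u v hv.1.1, mem_J0.2 fun t => by
        rw [← mem_J0.1 hv.2 (-(t * u)), ← app, ← app, mul_assoc, ← mul_assoc, ← S.c6A, app, mem_J0.1 hv.1.2,
          mem_J0.1 hv.2]⟩,
        J_comm (fun t => (S.cm (10, 11) (by simp) u t).symm) hv.2⟩)]
    refine sum_ge (0 : F) _ _ fun m hm => ?_
    have := le3 (ψ := ψ) U hU 1 m m⁻¹ (by simp [hm]) 1 0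
    rw [div_one, mul_one, mul_zero] at this
    refine this.trans (Submodule.finrank_mono fun z hz => ⟨⟨⟨hz.1.1.1, hz.2⟩, hz.1.2⟩, hz.1.1.2⟩)
  · have := le3 (ψ := ψ) U hU c⁻¹ c⁻¹ (c ^ 2) (by field_simp) 1 β
    rwa [div_self (inv_ne_zero hc), mul_one, show c ^ 2 / c⁻¹ * β = c ^ 3 * β by field_simp] at this
  · have := le3 (ψ := ψ) U hU c c (c⁻¹ ^ 2) (by field_simp) 1 (c ^ 3 * β)
    rwa [div_self hc, mul_one, show c⁻¹ ^ 2 / c * (c ^ 3 * β) = β by field_simp] at this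

end H4.Gm
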