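import Cfsg.Agent.H4.PF2
import Cfsg.Agent.H27.Gold
import Cfsg.Agent.H9.Quat
import Cfsg.Agent.H22.Dih

/-! `SCl.ctl_mod` (the normalizer of a strongly closed subgroup controls fusion modulo it) and `SCl.syl_of_uniq`
(a strongly closed subgroup with at most one involution is a Sylow subgroup of its normal closure). -/

set_option autoImplicit false
set_option linter.unusedSectionVars false
set_option linter.unusedVariables false

namespace H4.Gs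
open Subgroup Cfsg H18
open H17 hiding Subn card_cj card_mul_relIndex cj cj_bot cj_cj_inv cj_fit cj_inf cj_inv_cj cj_mono cj_mul cj_one
  cj_sup conj_mem_cj elem_iff elem_zpowers fit_le fit_top le_phi mem_cj mim_cj mim_fit_le phi phi_le
open H9 (QData)
open scoped commutatorElement

universe u
variable {G : Type u} [Group G] [Finite G] {𝒜 ℬ : Set G} {A B D E H J K L M P Q R S T U V W X Y Z : Subgroup G}
  {a b e g l n r t u x y z : G} {m : ℕ}

theorem syl26 (s : IsSyl 2 R H) : H26.IsSyl 2 R H := ⟨s.le, s.pgroup, fun _ a b c => (s.eq_of_le a b c).le⟩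
theorem syl17 (s : H26.IsSyl 2 R H) : IsSyl 2 R H :=
  have := Fact.mk Nat.prime_two
  isSyl_of_max s.le s.isP fun _ p a b => s.max _ p a b

theorem exists_cm (hM : M ≤ N(U)) (hV : M ≤ N(V)) (hU : U ≤ N(V)) :
    ∃ K, K ⊴ M ∧ ∀ X ≤ M, X ≤ K ↔ ⁅X, U⁆ ≤ V :=
  ⟨M ⊓ qpre V C(U ⫽ V), ⟨inf_le_left, norm_inf le_N (norm_mpre hV (norm_C (mim_norm hM)))⟩, fun X hX => by
    rw [le_inf_iff, and_iff_right hX, comm_le_iff_quo (hX.trans hV) hU, mim_le_iff (hX.trans hV)]⟩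

theorem le_of_N (hR : IsPGroup 2 R) (hS : S ⊴ R) (hU : U ≤ R) (h : S ⊓ N(U) ≤ U) : S ≤ U := by
  have := Fact.mk Nat.prime_two
  by_contra c
  refine (lt_normalizer_of_pgroup (hR.to_le (sup_le hU hS.le)) (left_lt_sup.2 c)).not_ge ?_
  rw [Nrm2.modular (Or.inl (hU.trans hS.norm)) le_N]
  exact sup_le le_rfl h

theorem mul_two (h : K.relIndex Q = 2) (hg : a ∈ Q) (hb : b ∈ Q) : a * b ∈ K ↔ (a ∈ K ↔ b ∈ K) :=
  mul_mem_iff_of_index_two (H := K.subgroupOf Q) h (a := ⟨a, hg⟩) (b := ⟨b, hb⟩)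

theorem norm_sup' (h : ⁅A, H⁆ ≤ K) (n : H ≤ N(K)) : H ≤ N(A ⊔ K) := fun g hg => mem_N_of_cj_le (by
  rw [cj_sup, mem_N_iff_cj.1 (n hg)]
  refine sup_le (cj_le_iff.2 fun a ha => mem_cj.2 ?_) le_sup_right
  simpa [commutatorElement_def, mul_assoc] using mul_mem (mem_sup_left ha) (mem_sup_right (h (commutator_mem_commutator
    (inv_mem ha) hg))))

theorem SCl.comm_N (hs : SCl 2 𝒜 H) (hR : IsSyl 2 R H) (hU : U ≤ R) : ⁅gen 𝒜 R ⊓ N(U), U⁆ ≤ gen 𝒜 U := by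
  rw [hs.gen_eq_inf hR.pgroup hR.le hU]
  exact le_inf ((H18.comm_mono inf_le_left le_rfl).trans (comm_le_left (hU.trans (hs.nml_gen hR.le).norm)))
    (comm_le_right inf_le_right)

theorem SCl.ctl_mod (hs : SCl 2 𝒜 H) (hR : IsSyl 2 R H) (ha : a ∈ R) (hg : g ∈ H) (e : g * a * g⁻¹ ∈ R) :
    ∃ n ∈ H ⊓ N(gen 𝒜 R), (n * a * n⁻¹)⁻¹ * (g * a * g⁻¹) ∈ gen 𝒜 R := by
  have := Fact.mk Nat.prime_two
  refine (H27.alperin_rad (syl26 hR)
    (fun A g => ∃ n ∈ H ⊓ N(gen 𝒜 R), ∀ a ∈ A, (n * a * n⁻¹)⁻¹ * (g * a * g⁻¹) ∈ gen 𝒜 R)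
    (fun A B g h _ _ _ ⟨n, hn, e⟩ => ⟨n, hn, fun a ha => e a (h ha)⟩)
    (fun A g k _ _ _ _ _ ⟨m, hm, e⟩ ⟨n, hn, f⟩ => ⟨n * m, mul_mem hn hm, fun a ha => by
      convert mul_mem (conj_mem_N hn.2 (e a ha)) (f _ (H26.conj_mem_cj g ha)) using 1; group⟩)
    (fun A g _ _ _ ⟨m, hm, e⟩ => ⟨m⁻¹, inv_mem hm, fun a ha => by
      obtain ⟨b, hb, rfl⟩ := H26.mem_cj'.1 ha
      convert conj_mem_N' hm.2 (inv_mem (e b hb)) using 1; group⟩)
    (fun A _ c hc => ⟨1, one_mem _, fun a ha => by rw [← mem_C.1 hc.2 a ha]; simp⟩)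
    (fun U hU _ IH x hx => ?_)
    (zpowers a) g (zpowers_le.2 ha) hg ((cj_zpowers (g := g)).le.trans (zpowers_le.2 e))).imp
      fun n hn => ⟨hn.1, hn.2 a (mem_zpowers a)⟩
  have UH := hU.le.trans hR.le
  by_cases c : gen 𝒜 R ≤ U
  · exact ⟨x, ⟨hx.1, gen_eq_of_le c hU.le ▸ hs.mem_N_gen UH hx.1 hx.2⟩, fun _ _ => by
      rw [inv_mul_cancel]; exact one_mem _⟩
  have nS := hs.nml_gen hR.le
  obtain ⟨K, nK, hK⟩ := exists_cm (M := H ⊓ N(U)) inf_le_right (hs.norm_gen UH inf_le_left inf_le_right)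
    (hs.nml_gen UH).norm
  have sy := (syl17 hU.syl).inf_normal nK.le (inf_le_inf_right _ hR.le |>.trans nK.norm)
  obtain ⟨k, hk, kn⟩ := sy.frattini_mem (nK.norm hx)
  have ym := mul_mem (nK.le hk) hx
  have l : U ⊔ R ⊓ N(U) ⊓ K ≤ R := sup_le hU.le (inf_le_left.trans inf_le_left)
  obtain ⟨n, hn, f⟩ := IH _ (k * x) l ym.1 ((mem_N_iff_cj.1 (zpowers_le.1 (norm_sup (zpowers_le.2 ym.2)
    (zpowers_le.2 kn)))).le.trans l) (card_lt (left_lt_sup.2 fun m => c (le_of_N hR.pgroup nS hU.le (le_trans (le_inf (inf_le_inf_right _ nS.le)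
      ((hK _ (inf_le_inf_right _ (nS.le.trans hR.le))).2 (hs.comm_N hR hU.le))) m))))
  refine ⟨n, hn, fun u hu => ?_⟩
  have u' := conj_mem_N ym.2 hu
  have := gen_mono hU.le ((hK K nK.le).1 le_rfl (commutator_mem_commutator (inv_mem hk) u'))
  convert mul_mem (f u (mem_sup_left hu)) (conj_mem_N' (nS.norm (hU.le u')) this) using 1
  rw [commutatorElement_def]; group

section
variable (q : QData S m x y)
include q

theorem q_le (hx : x ∈ K) (hy : y ∈ K) : S ≤ K := fun g hg => (q.gen g hg).elim (fun h => zpowers_le.2 hx h)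
  fun h => (mul_mem_cancel_right (inv_mem hy)).1 (zpowers_le.2 hx h)

theorem q_nab (hm : 2 ≤ m) : ¬ Abel S := fun h => q.x_mul_x_ne_one hm (by
  have := q.inv
  rw [comm_of_cent h q.ymem q.xmem, mul_inv_cancel_right] at this
  exact mul_eq_one_iff_eq_inv.2 this)

theorem q_inner (h1 : r * x * r⁻¹ = x ∨ r * x * r⁻¹ = x⁻¹) (h2 : r * y * r⁻¹ * y⁻¹ ∈ zpowers (x * x)) :
    r ∈ S ⊔ C(S) := by
  obtain ⟨j, hj⟩ := h2
  have i := H9.inverts_of_mem_zpowers q.inv (zpow_mem_zpowers x (-j))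
  have e : (x ^ j)⁻¹ * r * y = y * ((x ^ j)⁻¹ * r) := by
    have : r * y * r⁻¹ = x ^ j * (y * x ^ (-j) * y⁻¹) * y := by
      rw [i, ← mul_inv_eq_iff_eq_mul, ← hj]; simp only []; rw [← sq, ← zpow_natCast, ← zpow_mul]; group
    rw [mul_assoc, mul_inv_eq_iff_eq_mul.1 this]; group
  have jS : x ^ j ∈ S := zpow_mem q.xmem j
  rcases h1 with h | h
  · exact (mul_mem_cancel_left (mem_sup_left (inv_mem jS))).1 (mem_sup_right (le_C1_iff.1 (q_le q (mem_C1.2 (by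
      rw [mul_assoc, mul_inv_eq_iff_eq_mul.1 h]; group)) (mem_C1.2 e.symm))))
  · refine (mul_mem_cancel_left (mem_sup_left (mul_mem q.ymem (inv_mem jS)))).1 (mem_sup_right (le_C1_iff.1 (q_le q
      (mem_C1.2 ?_) (mem_C1.2 (by rw [mul_assoc y, mul_assoc y, e])))))
    have : y * x⁻¹ = x * y := by rw [← mul_inv_eq_iff_eq_mul, ← conj_inv, q.inv, inv_inv]
    calc _ = y * x⁻¹ * (x ^ j)⁻¹ * r := by rw [this]; group
      _ = y * (x ^ j)⁻¹ * (r * x * r⁻¹) * r := by rw [h]; group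
      _ = _ := by group

theorem q_idx : (zpowers (x * x)).relIndex (zpowers x) = 2 := by
  have l : zpowers (x * x) ≤ zpowers x := zpowers_le.2 (mul_mem (mem_zpowers x) (mem_zpowers x))
  refine relIndex_eq_of_mul l ?_
  rw [Nat.card_zpowers, Nat.card_zpowers, ← sq, orderOf_pow_of_dvd two_ne_zero (q.ordx ▸ dvd_mul_right 2 m), q.ordx]
  omega

theorem q_cent (hm : 2 ≤ m) (hV : V ≤ S) (na : ¬ Abel V) : S ⊓ C(V) ≤ C(S) := fun s hs => by
  by_cases h : s ∈ zpowers x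
  · by_cases h2 : s * s = 1
    · rcases q.eq_one_or_eq_u hs.1 h2 with rfl | rfl
      exacts [one_mem _, mem_C.2 fun g hg => (q.commute_u hg).eq]
    · exact absurd (abel_zpowers.mono fun v hv => q.mem_zpowers_of_commute (hV hv) h h2 (mem_C.1 hs.2 v hv)) na
  · exact absurd (abel_zpowers.mono fun v hv => q.mem_zpowers_of_commute' hs.1 h (hV hv) (mem_C.1 hs.2 v hv)) na
end

theorem out_key (hS : Cyc S ∨ ∃ k x y, QData S (2 ^ (k + 1)) x y) (hR : IsPGroup 2 R) (nS : S ⊴ R) (hn : n ∈ N(S))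
    (ha : a ∈ R) (e : n * a * n⁻¹ ∈ R) : a⁻¹ * (n * a * n⁻¹) ∈ S ⊔ C(S) := by
  have c : ∀ {M : Subgroup G}, a ∈ M → n ∈ M → a⁻¹ * (n * a * n⁻¹) ∈ ⁅M, M⁆ := fun h1 h2 => by
    simpa [commutatorElement_def, mul_assoc] using commutator_mem_commutator (inv_mem h1) h2
  obtain h | ⟨k, x, y, q⟩ := hS
  · exact mem_sup_right (h.der_cent le_rfl (c (nS.norm ha) hn))
  have l : ∀ x : G, zpowers (x * x) ≤ zpowers x := fun x => zpowers_le.2 (mul_mem (mem_zpowers x) (mem_zpowers x))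
  rcases k with _ | k
  swap
  · have n1 : N(S) ≤ N(zpowers x) := fun g hg => mem_N_of_cj_le ((cj_zpowers (g := g)).le.trans (zpowers_le.2
      (by_contra fun h => by
        have := q.orderOf_of_notMem (conj_mem_N hg q.xmem) h
        rw [orderOf_conj, q.ordx, pow_succ, pow_succ] at this
        have := Nat.two_pow_pos k
        omega)))
    have n2 := n1.trans (cyc_zpowers.N_le (l x))
    have h : ⁅⁅S, N(S)⁆, N(S)⁆ ≤ zpowers (x * x) := (H18.comm_mono (H22.comm_le_of_relIndex_two q.relIndex_eq le_rfl n1)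
      le_rfl).trans (H22.comm_le_of_relIndex_two (q_idx q) n1 n2)
    refine q_inner q (.inl ?_) (three_subgroups n2 n2 (le_N.trans n2) (by rwa [H18.comm_comm (B := S)]) h
      (commutator_mem_commutator (c (nS.norm ha) hn) q.ymem))
    rw [← mem_C.1 (cyc_zpowers.der_cent n1 (c (nS.norm ha) hn)) x (mem_zpowers x), mul_inv_cancel_right]
  replace q : QData S 2 x y := q
  have nn := zpowers_le.1 (norm_sup (zpowers_le.2 hn) (norm_C (zpowers_le.2 hn)))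
  by_cases h : a ∈ S ⊔ C(S)
  · exact mul_mem (inv_mem h) (conj_mem_N nn h)
  have h' : n * a * n⁻¹ ∉ S ⊔ C(S) := fun k => h (by simpa [mul_assoc] using conj_mem_N' nn k)
  have nZ : R ≤ N(zpowers (x ^ 2)) := cent_norm (cent_symm (zpowers_le_C_iff.2 fun g hg => mem_C1.2 (mul_inv_eq_iff_eq_mul.1
    (q.eq_u (conj_mem_N (nS.norm hg) q.umem) (by rw [orderOf_conj]; exact q.orderOf_u)))))
  obtain ⟨⟨_, hw', hc⟩, w1⟩ := Subgroup.ne_bot_iff_exists_ne_one.1 ((pg_pi (isPGroup_mim (f := coset (zpowers (x ^ 2)))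
    hR)).nil.meet_Z nS.mim fun k => q_nab q le_rfl (abel_zpowers.mono ((quo_eq_bot_iff (nS.le.trans nZ)).1 k)))
  have := (mem_quo (nS.le.trans nZ)).1 hw'
  obtain ⟨w, hw, rfl⟩ := this
  have w2 : w ∉ zpowers (x ^ 2) := fun k => w1 (Subtype.ext (cs_eq_one k))
  have o := q.orderOf_eq_four hw (fun k => w2 (k ▸ one_mem _)) fun k => w2 (k ▸ mem_zpowers _)
  obtain ⟨v, q'⟩ := q.exists_q8 hw o
  have k1 : ∀ r ∈ R, r * w * r⁻¹ = w ∨ r * w * r⁻¹ = w⁻¹ := fun r hr => H9.eq_or_eq_inv_of_orderOf_four o (by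
    have : ⁅r, w⁆ ∈ zpowers (x ^ 2) := (comm_le_iff_quo nZ (zpowers_le.2 (nZ (nS.le hw)))).2
      (by rw [mim_zpowers (nZ (nS.le hw))]; exact cent_symm (zpowers_le.2 hc.2)) (commutator_mem_commutator hr (mem_zpowers w))
    rw [q'.eq_u q.umem q.orderOf_u] at this
    simpa [commutatorElement_def] using mul_mem (zpowers_le.2 (npow_mem_zpowers w 2) this) (mem_zpowers w))
    (by rw [orderOf_conj, o])
  have n1 : R ≤ N(zpowers w) := fun r hr => mem_N_of_cj_le ((cj_zpowers (g := r)).le.trans (zpowers_le.2 (by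
    rcases k1 r hr with k | k <;> simp [k])))
  have k2 : ∀ r ∈ R, r * v * r⁻¹ * v⁻¹ ∈ zpowers w := fun r hr => by
    simpa [commutatorElement_def, mul_assoc] using inv_mem (H22.comm_le_of_relIndex_two q'.relIndex_eq nS.norm n1
      (commutator_mem_commutator q'.ymem hr))
  refine q_inner q' (k1 _ (mul_mem (inv_mem ha) e)) ?_
  generalize n * a * n⁻¹ = b at e h'
  rw [show a⁻¹ * b * v * (a⁻¹ * b)⁻¹ * v⁻¹ = a⁻¹ * (b * v * b⁻¹ * v⁻¹) * a * (a⁻¹ * v * a⁻¹⁻¹ * v⁻¹) by group]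
  refine (mul_two (q_idx q') (conj_mem' n1 ha (k2 b e)) (k2 _ (inv_mem ha))).2 (iff_of_false (fun k => h' (q_inner q'
    (k1 b e) ?_)) fun k => h (inv_mem_iff.1 (q_inner q' (k1 _ (inv_mem ha)) k)))
  simpa [mul_assoc] using conj_mem (n1.trans (cyc_zpowers.N_le (l w))) ha k

theorem scl_C (hs : SCl 2 𝒜 H) (hR : IsSyl 2 R H) (q : QData (gen 𝒜 R) (2 ^ (m + 1)) x y)
    (hc : R ≤ gen 𝒜 R ⊔ C(gen 𝒜 R)) (ha : a ∈ R ⊓ C(gen 𝒜 R)) (hg : g ∈ H) (e : g * a * g⁻¹ ∈ R) :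
    g * a * g⁻¹ ∈ R ⊓ C(gen 𝒜 R) := by
  have := Fact.mk Nat.prime_two
  have hm : 2 ≤ 2 ^ (m + 1) := Nat.le_self_pow m.succ_ne_zero 2
  refine ⟨e, (H27.alperin_rad (syl26 hR) (fun A g => ∀ a ∈ A, (a ∈ C(gen 𝒜 R) ↔ g * a * g⁻¹ ∈ C(gen 𝒜 R)))
    (fun A B g h _ _ _ e a ha => e a (h ha))
    (fun A g k _ _ _ _ _ e f a ha => (e a ha).trans ((f _ (H26.conj_mem_cj g ha)).trans (by simp [mul_assoc])))
    (fun A g _ _ _ e a ha => by
      obtain ⟨b, hb, rfl⟩ := H26.mem_cj'.1 ha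
      simpa [mul_assoc] using (e b hb).symm)
    (fun A _ c hc a ha => by rw [← mem_C.1 hc.2 a ha, mul_inv_cancel_right])
    (fun U hU hr _ x hx => ?_)
    (zpowers a) g (zpowers_le.2 ha.1) hg ((cj_zpowers (g := g)).le.trans (zpowers_le.2 e)) a (mem_zpowers a)).1 ha.2⟩
  have UH := hU.le.trans hR.le
  have nS := hs.nml_gen hR.le
  have nV := hs.norm_gen (X := H ⊓ N(U)) UH inf_le_left inf_le_right
  have l := gen_mono (𝒜 := 𝒜) hU.le
  have p := hR.pgroup.to_le (l.trans nS.le)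
  by_cases ab : Abel (gen 𝒜 U)
  · obtain ⟨K, nK, hK⟩ := exists_cm inf_le_right nV (hs.nml_gen UH).norm
    have cy : Cyc (gen 𝒜 U) := (H9.isCyclic_or_qData p fun v hv w hw a b => (q.eq_u (l hv) a).trans
      (q.eq_u (l hw) b).symm).resolve_right fun ⟨n, _, _, q⟩ => q_nab q (Nat.le_self_pow n.succ_ne_zero 2) ab
    have := hr K nK.le nK.norm fun z hz o => by
      have o' := (piGrp_zpowers.2 (piElt_odd.2 (Nat.coprime_two_right.1 o)))
      have zM := zpowers_le.2 (nK.le hz)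
      exact zpowers_le.1 (cent_symm (H1.cent_of_comm_le (H18.comm_comm.le.trans ((hK _ zM).1 (zpowers_le.2 hz)))
        (cent_symm (H22.cyc_cent cy (pg_pi p) o' (zM.trans nV))) (o'.coprime' (pg_pi p))))
    exact absurd (ab.mono (le_trans (le_inf le_rfl (le_of_N hR.pgroup nS hU.le (le_trans (le_inf (inf_le_left.trans nS.le)
      ((hK _ (inf_le_inf_right _ (nS.le.trans hR.le))).2 (hs.comm_N hR hU.le))) this)))
      (hs.gen_eq_inf hR.pgroup hR.le hU.le).ge)) (q_nab q hm)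
  have k : ∀ u ∈ U, u ∈ C(gen 𝒜 R) ↔ u ∈ C(gen 𝒜 U) := fun u hu => ⟨fun h => C_anti l h, fun h => by
    obtain ⟨s, hs, c, hc, rfl⟩ := (mem_sup_of_cent (cent_symm le_rfl)).1 (hc (hU.le hu))
    exact mul_mem (q_cent q hm l ab ⟨hs, (mul_mem_cancel_right (C_anti l hc)).1 h⟩) hc⟩
  intro a ha
  rw [k a ha, k _ (conj_mem_N hx.2 ha)]
  exact ⟨conj_mem_N (N_le_N_C (nV hx)), fun h => by simpa [mul_assoc] using conj_mem_N' (N_le_N_C (nV hx)) h⟩

theorem inf_sup_oQ (hR : IsPGroup 2 R) (hA : A ≤ R) (n : A ≤ N(oQ 2 H)) : R ⊓ (A ⊔ oQ 2 H) = A := by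
  have := Fact.mk Nat.prime_two
  rw [Nrm2.modular_left (.inl n) hA, inf_eq_bot_of_pgroup_of_not_dvd hR od_oQ, sup_bot_eq]

theorem SCl.syl_aux [ZD.{u}] (hs : SCl 2 𝒜 H) (hR : IsSyl 2 R H) (hH : H ≤ gen 𝒜 H)
    (hu : ∀ v ∈ gen 𝒜 R, ∀ w ∈ gen 𝒜 R, orderOf v = 2 → orderOf w = 2 → v = w) : R ≤ gen 𝒜 R := by
  have := Fact.mk Nat.prime_two
  have nS := hs.nml_gen hR.le
  have SH := nS.le.trans hR.le
  have key : ∀ T, gen 𝒜 R ≤ T → (∀ n ∈ H ⊓ N(gen 𝒜 R), ∀ a ∈ R, n * a * n⁻¹ ∈ R → a⁻¹ * (n * a * n⁻¹) ∈ T) → R ≤ T :=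
    fun T l k => by
    have f := H27.focal_le (T := T) (syl26 hR) fun a ha g hg e => by
      obtain ⟨n, hn, m⟩ := hs.ctl_mod hR ha hg e
      simpa only [mul_assoc, mul_inv_cancel_left] using mul_mem (k n hn a ha (inv_mem_iff.1 ((mul_mem_cancel_right e).1 (nS.le m)))) (l m)
    have := hH.trans (hs.gen_le_of_nml hR le_rfl (norm_of_der_le le_sup_right (sup_le SH (commutator_le_self H))) le_sup_left)
    exact (le_inf le_rfl (hR.le.trans this)).trans ((Nrm2.modular_left (.inl (SH.trans (norm_der le_N))) nS.le).le.trans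
      (sup_le l f))
  have cq := H9.isCyclic_or_qData (hR.pgroup.to_le nS.le) hu
  have s1 := key _ le_sup_left fun n hn a ha e => out_key cq hR.pgroup nS hn.2 ha e
  have fin : ∀ z ∈ R, (∀ g ∈ H, g * z * g⁻¹ ∈ R → g * z * g⁻¹ = z) → H ≤ N(zpowers z ⊔ oQ 2 H) := fun z hz k =>
    norm_sup' (zstar_syl hR hz k) nO
  obtain cy | ⟨m, x, y, q⟩ := cq
  · obtain ⟨s, e⟩ := Cyc.gen cy
    have sS : s ∈ gen 𝒜 R := e ▸ mem_zpowers s
    have c : H ⊓ N(gen 𝒜 R) ≤ C(gen 𝒜 R) := relIndex_eq_one_iff.1 (by_contra fun k => by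
      obtain ⟨p, pp, d⟩ := Nat.exists_prime_and_dvd k
      rcases Cyc.prime_dvd_relIndex_C cy Nat.prime_two (pg_pi (hR.pgroup.to_le nS.le)) inf_le_right pp d with rfl | d
      · exact (hR.mono (le_inf hR.le nS.norm) inf_le_left).not_dvd_relIndex (s1.trans (sup_le (Cyc.abel cy) le_rfl)) d
      · exact pp.not_dvd_one d)
    have := fin s (nS.le sS) fun g hg m => by
      have m' := mem_gen_of (hs.conj s (hs.mem_of_gen hR.pgroup hR.le sS) (SH sS) g hg) m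
      rw [← mem_C.1 (c ⟨hg, mem_N_of_cj_le (by rw [← e, cj_zpowers, e]; exact zpowers_le.2 m')⟩) s sS, mul_inv_cancel_right]
    rw [e] at this
    exact (le_inf le_rfl (hR.le.trans (hH.trans (hs.gen_le_of_nml hR le_rfl this le_sup_left)))).trans
      (inf_sup_oQ hR.pgroup nS.le (SH.trans nO)).le
  have hm : 2 ≤ 2 ^ (m + 1) := Nat.le_self_pow m.succ_ne_zero 2
  obtain ⟨s2, e2⟩ := scl_clIn hR inf_le_left fun a ha g hg e => scl_C hs hR q s1 ha hg e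
  have zS := zpowers_le.2 q.umem
  have c := thmA hs s2 hR (e2.symm ▸ cent_symm inf_le_right) (fin _ (nS.le q.umem) fun g hg e => q.eq_u (mem_gen_of
    (hs.conj _ (hs.mem_of_gen hR.pgroup hR.le q.umem) (SH q.umem) g hg) e) (by rw [orderOf_conj, q.orderOf_u])) le_sup_right
    (e2.symm ▸ fun z hz => mem_sup_left (by
      rcases q.center_eq hm hz.1 (mem_C.1 hz.2.2 x q.xmem).symm (mem_C.1 hz.2.2 y q.ymem).symm with rfl | rfl <;> simp))
  refine key _ le_rfl fun n hn a ha e => ?_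
  obtain ⟨s, hs', c', hc, rfl⟩ := (mem_sup_of_cent (cent_symm le_rfl)).1 (s1 ha)
  have cR := (mul_mem_cancel_left (nS.le hs')).1 ha
  have n1 := conj_mem_N hn.2 hs'
  have n2 : n * c' * n⁻¹ ∈ R := (mul_mem_cancel_left (nS.le n1)).1 (by simpa [mul_assoc] using e)
  have : n * c' * n⁻¹ * c'⁻¹ ∈ gen 𝒜 R := zS ((inf_sup_oQ hR.pgroup (zS.trans nS.le) (zS.trans (SH.trans nO))).le
    ⟨R.mul_mem n2 (R.inv_mem cR), c (commutator_mem_commutator (hH hn.1) (gen_mono hR.le (e2.ge ⟨cR, hc⟩)))⟩)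
  convert conj_mem_N' (nS.norm cR) (mul_mem (mul_mem (inv_mem hs') n1) this) using 1
  group

theorem SCl.syl_of_uniq [ZD.{u}] (hs : SCl 2 𝒜 H) (hR : IsSyl 2 R H)
    (hu : ∀ v ∈ gen 𝒜 R, ∀ w ∈ gen 𝒜 R, orderOf v = 2 → orderOf w = 2 → v = w) : R ⊓ gen 𝒜 H = gen 𝒜 R := by
  have e : gen 𝒜 (R ⊓ gen 𝒜 H) = gen 𝒜 R := gen_eq_of_le (le_inf gen_le (gen_mono hR.le)) inf_le_left
  exact le_antisymm (((hs.mono gen_le).syl_aux (hR.inf_normal gen_le (hR.le.trans (hs.nml_gen le_rfl).norm)) gen_gen.ge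
    (e.symm ▸ hu)).trans e.le) (le_inf gen_le (gen_mono hR.le))

end H4.Gs
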