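import Cfsg.Agent.H4.QS
import Cfsg.Agent.H4.Mul

/-! The structure of groups with a strongly `ℬ`-embedded subgroup: `BT.irr`, `Emb.comp`, `Emb.core`, `s3289`. -/

set_option autoImplicit false
set_option linter.unusedSectionVars false
set_option linter.unusedVariables false

namespace H4.Gs
open Subgroup Cfsg H18
open H17 hiding Subn card_cj card_mul_relIndex cj cj_bot cj_cj_inv cj_fit cj_inf cj_inv_cj cj_mono cj_mul cj_one
  cj_sup conj_mem_cj elem_iff elem_zpowers fit_le fit_top le_phi mem_cj mim_cj mim_fit_le phi phi_le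
open scoped commutatorElement

universe u
variable {G : Type u} [Group G] [Finite G] {ℬ : Set G} {A B D E H J K L M P Q R S T U V W X Y Z Γ : Subgroup G}
  {a b e g l n r t u x y z : G}

theorem BT.irr (b : BT L T U K) (hU : U ≤ X) (hX : X ≤ T) (hn : L ⊓ N(T) ≤ N(X)) : X = U ∨ X = T := by
  obtain ⟨H, D, V, W, t, s, h⟩ := H9.bs_of b
  refine or_iff_not_imp_left.2 fun k => le_antisymm hX fun y hy => ?_
  obtain ⟨x, hx, n⟩ := SetLike.exists_of_lt (hU.lt_of_ne' k)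
  rcases (H19.concl h.toSuz h.lt).2 with ⟨c, -⟩ | ⟨c, na, o⟩ | ⟨c, na, o, ω, -, ζ, hζ, ne, -⟩
  · exact hU ((eq_of_card_eq h.leQ₀ c.symm).ge hy)
  · by_contra m
    obtain ⟨k, hk, e⟩ := h.trans_quo c (hX hx) n hy fun e => m (hU e)
    exact m ((mul_mem_cancel_left (inv_mem (conj_mem_N (hn (b.1.leK hk)) hx))).1 (hU e))
  have z1 : ζ ≠ 1 := by rintro rfl; simp at ne
  obtain ⟨f, g, m, E, _, _, σ, v, ψ, d⟩ := H5.exists_C4 h.toSuz h.ker h.lt (H19.suzIH h.toSuz) h.two na c o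
    fun e => z1 (eq_one_of_eq_bot e hζ)
  have l : K ⊔ W ≤ N(X) := (sup_le b.1.leK (le_inf (h.leWD.trans h.leDL) (h.leWD.trans h.nQD))).trans hn
  have act : ∀ a ∈ K ⊔ W, ∀ w ∈ X, ∃ w' ∈ X, v w' = ψ a * v w := fun a ha w hw =>
    ⟨_, conj_mem_N' (l ha) hw, d.act a ha w (hX hw)⟩
  have fix : ∀ e, σ e = e → ∀ w ∈ X, ∃ w' ∈ X, v w' = e * v w := fun e he w hw => by
    by_cases e0 : e = 0
    · exact ⟨1, one_mem _, by rw [e0, zero_mul, (d.ker 1 (one_mem _)).2 (one_mem _)]⟩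
    obtain ⟨k, hk, rfl⟩ := d.surjK e he e0
    exact act k (mem_sup_left hk) w hw
  have two := d.two
  have n1 : ψ ζ + σ (ψ ζ) ≠ 0 := fun e => z1 (d.ψ_inj ζ (mem_sup_right hζ) (by
    have : (ψ ζ - 1) ^ 2 = 0 := by linear_combination ψ ζ * e - d.normW ζ hζ - ψ ζ * two
    exact sub_eq_zero.1 (pow_eq_zero_iff two_ne_zero |>.1 this)))
  have n2 : v x ≠ 0 := fun e => n ((d.ker x (hX hx)).1 e)
  set e := v y / v x
  set β := (e + σ e) / (ψ ζ + σ (ψ ζ)) with hβ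
  have s1 : σ β = β := by rw [hβ, map_div₀, map_add, map_add, d.σσ, d.σσ, add_comm, add_comm (σ (ψ ζ))]
  have s2 : β * (ψ ζ + σ (ψ ζ)) = e + σ e := div_mul_cancel₀ _ n1
  obtain ⟨w1, h1, e1⟩ := fix (e + β * ψ ζ) (by
    rw [map_add, map_mul, s1]; linear_combination s2 + (σ e - β * ψ ζ) * two) x hx
  obtain ⟨w2, h2, e2⟩ := act ζ (mem_sup_right hζ) x hx
  obtain ⟨w3, h3, e3⟩ := fix β s1 w2 h2
  refine (mul_mem_cancel_left (inv_mem (mul_mem h1 h3))).1 (hU (d.mem_of_x (hX (mul_mem h1 h3)) hy ?_))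
  rw [d.add _ (hX h1) _ (hX h3), e1, e3, e2]
  linear_combination div_mul_cancel₀ (v y) n2 + β * ψ ζ * v x * two

theorem Emb.comp [ZD.{u}] (h : Emb ℬ Γ R H) (hO : oQ 2 H = ⊥) (h0 : gen ℬ R ≠ ⊥) : ∃ L, L ⊴ H ∧ NS L ∧ ¬ L ≤ Γ ∧
    gen ℬ L ≠ ⊥ ∧ ∀ u ∈ gen ℬ R, u * u = 1 → u ∈ L := by
  have nP : oP 2 H ⊴ H := ⟨oP_le 2 H, le_normalizer_oP 2 H⟩
  have dP := h.gen_eq_bot nP (h.syl.oP_le.trans h.le)
  have nF : gfit H ⊴ H := ⟨gfit_le H, le_normalizer_gfit H⟩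
  have cF : H ⊓ C(gfit H) ≤ oP 2 H := fit_eq_oP_of_oQ_eq_bot hO ▸ centralizer_gfit_le_fit H
  obtain ⟨u, uB, uR, u2, u1⟩ := h.scl.exists_inv (K := R ⊓ gfit H) (inf_le_left.trans h.syl.le) fun e => h0 (le_bot_iff.1
    ((gen_mono h.syl.le).trans (gen_gen.ge.trans ((gen_mono ((le_inf gen_le (h.scl.gen_cent nF (le_bot_iff.1 (hO ▸ oQ_nml nF))
      (h.scl.gen_eq_bot_of_syl (h.syl.inf_normal nF.le (h.syl.le.trans nF.norm)) nF.le e))).trans cF)).trans dP.le))))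
  have uH := h.syl.le uR.1
  obtain ⟨L, hL, k⟩ : ∃ L, IsPComp 2 L H ∧ u ∉ kr L := by
    by_contra! k
    refine u1 (Gs.gen_eq_bot.1 dP u uB (cF ⟨uH, le_C1_iff.1 ((gfit_eq H).le.trans (sup_le (lay_le_iff.2 fun L hL => ?_) ?_))⟩))
    · have c := (isPComp_iff_isComp hO).2 hL
      exact le_C1_iff.2 (kr_le_C (le_bot_iff.1 (hO ▸ oQ_le_of_comp c)) (k L c))
    · rw [fit_eq_oP_of_oQ_eq_bot hO]
      exact le_C1_iff.2 (h.scl.cent nP.le (le_bot_iff.1 (hO ▸ oQ_nml nP)) dP uB uH (nP.norm uH))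
  have c0 := (isPComp_iff_isComp hO).1 hL
  have uN : u ∈ N(L) := ((gfit_eq H).le.trans (sup_le c0.lay_le_normalizer (cent_norm (cent_symm (c0.le_lay.trans
    (comm_eq_bot_iff.1 (commutator_lay_fit H))))))) uR.2
  have g0 : gen ℬ L ≠ ⊥ := fun e => k (zpowers_le.1 (le_kr.2 ⟨zpowers_le.2 uN, h.scl.comm_le hL.le e uB uH uN⟩))
  have inv : ∀ g ∈ H, ∃ v ∈ ℬ, v ∈ R ⊓ cj g L ∧ v * v = 1 ∧ v ≠ 1 := fun g hg =>
    have c := hL.cj_of_mem_normalizer (le_N hg)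
    h.scl.exists_inv (inf_le_left.trans h.syl.le) fun e => g0 (cj_eq_bot.1 ((h.scl.cj_gen hL.le hg).trans
      (h.scl.gen_eq_bot_of_syl (h.syl.inf_subn c.subn) c.le e)))
  obtain ⟨v, hv, vR, v2, v1⟩ := inv 1 (one_mem _)
  rw [cj_one] at vR
  obtain ⟨g, hg, ng⟩ : ∃ g ∈ H, ¬ cj g L ≤ Γ := by
    by_contra e; push Not at e
    exact h.ne fun g hg => h.emb v hv (h.le vR.1) v2 v1 g hg (e g hg (conj_mem_cj vR.2))
  have eq : ∀ x ∈ H, cj g L = cj x L := fun x hx => by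
    obtain ⟨w, hw, wR, w2, w1⟩ := inv x hx
    have c := hL.cj_of_mem_normalizer (le_N hg)
    refine (c.eq_or_commutator (hL.cj_of_mem_normalizer (le_N hx))).resolve_right fun e => ng ?_
    rw [hO, le_bot_iff, comm_eq_bot_iff] at e
    exact (le_inf c.le (e.trans (C_le_C1 wR.2))).trans (h.cent hw (h.le wR.1) w2 w1)
  have e1 : cj g L = L := (eq 1 (one_mem _)).trans cj_one
  have nL : L ⊴ H := ⟨hL.le, fun x hx => mem_N_iff_cj.2 ((eq x hx).symm.trans e1)⟩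
  rw [e1] at ng
  obtain ⟨l, hl, nl⟩ := SetLike.not_le_iff_exists.1 ng
  have lZ := kr_inf_le hL hO
  have dZ : gen ℬ (kr L ⊓ L) = ⊥ := le_bot_iff.1 (dP ▸ gen_mono lZ)
  have sy := h.syl.inf_subn hL.subn
  have em := (h.sub hL.le sy ng).mim (f := coset (kr L)) le_N_kr (by
    rw [mker_coset]; exact le_inf (lZ.trans (h.syl.oP_le.trans h.le)) inf_le_right) (by rwa [mker_coset])
  have c1 : cs (kr L) v ≠ 1 := fun e => v1 (Gs.gen_eq_bot.1 dZ v hv ⟨(cs_eq_one_iff (le_N_kr vR.2)).1 e, vR.2⟩)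
  have vm : cs (kr L) v ∈ (R ⊓ L) ⫽ kr L := mfun_mem_mim vR
  obtain ⟨U, K, bt⟩ := GBF.bt (simple_kr hL.pqs) (not_abel_kr hL.pqs) (em.hasSE (simple_kr hL.pqs)
    fun e => c1 (Gs.gen_eq_bot.1 e _ (mem_img hv vR.2) vm)) em.syl
  have nB : L ⊓ N(R ⊓ L) ≤ N(gen ℬ (R ⊓ L)) := h.scl.norm_gen (inf_le_right.trans hL.le) (inf_le_left.trans hL.le) inf_le_right
  have UB : U ≤ gen ℬ (R ⊓ L) ⫽ kr L := fun w hw => by
    by_cases w1 : w = 1
    · exact w1 ▸ one_mem _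
    obtain ⟨k, hk, rfl⟩ := bt.1.trans _ (bt.1.memU.2 ⟨vm, by
      rw [← mfun_mul (le_N_kr vR.2) (le_N_kr vR.2), v2, mfun_one]⟩) c1 w hw w1
    exact conj_mem_N (mim_norm nB (mim_N_syl sy le_N_kr (bt.1.leK hk).1 (bt.1.leK hk).2)) (mfun_mem_mim (mem_gen_of hv vR))
  have z := cent_le_of_cov (f := coset (kr L)) hL.perfect le_N_kr sy (inf_le_right.trans (mker_coset.le.trans
    (kr_le_C (le_bot_iff.1 (hO ▸ oQ_le_of_comp hL))))) gen_le nB (fun x hx => UB (by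
      rcases GBF.cases bt with e | ⟨-, k, -⟩
      exacts [mul_mem (e.le hx) (e.le hx), k x hx])) fun x hx n => let ⟨y, hy, z, hz, k⟩ := bt.cov x hx fun e => n (UB e)
        ⟨y, hy, z, hz, fun w hw => (k w hw).imp fun _ k => ⟨k.1, UB k.2⟩⟩
  have z0 : kr L ⊓ L = ⊥ := eq_bot_iff.2 fun x hx => mem_bot.2 (Gs.gen_eq_bot.1 dZ x (h.scl.mem_of_gen sy.pgroup
    (inf_le_right.trans hL.le) (z ⟨⟨h.syl.oP_le (lZ hx), hx.2⟩, mker_coset.ge hx.1⟩)) hx)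
  have L0 : L ≠ ⊥ := fun e => ng (e ▸ bot_le)
  refine ⟨L, nL, ⟨simple_of_nml L0 fun U hU => (le_kr_or hL.pqs hU.le hU.norm).symm.imp_left fun e =>
    le_bot_iff.1 (z0 ▸ le_inf e hU.le), fun e => L0 (hL.perfect.symm.trans e.der)⟩, ng, g0, fun u hu u2 => ?_⟩
  by_cases u1 : u = 1
  · exact u1 ▸ one_mem _
  exact h.mem_nml nL (h.scl.mem_of_gen h.syl.pgroup h.syl.le hu) (h.le (gen_le hu)) u2 u1 (h.scl.conj v hv (hL.le vR.2) l
    (hL.le hl)) (cmem hl vR.2) (fun e => nl (h.emb v hv (h.le vR.1) v2 v1 l (hL.le hl) e)) (conj_sq v2 l)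

theorem Emb.core0 [ZD.{u}] (h : Emb ℬ Γ R H) (hO : oQ 2 H = ⊥) (h0 : gen ℬ R ≠ ⊥) :
    (∀ x ∈ R ⊓ gen ℬ H, x * x = 1 → x ∈ gen ℬ R) ∧ (R ⊓ gen ℬ H ≤ gen ℬ R ∨ ∀ s ∈ gen ℬ R, s * s = 1) := by
  obtain ⟨L, nL, ns, ng, g0, inv⟩ := h.comp hO h0
  have sy := h.syl.inf_normal nL.le (h.syl.le.trans nL.norm)
  have se := (h.sub nL.le sy ng).hasSE ns.simple fun e => g0 (h.scl.gen_eq_bot_of_syl sy nL.le e)
  obtain ⟨U, K, bt⟩ := GBF.bt ns.simple ns.na se sy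
  have nS := h.scl.nml_gen h.syl.le
  have p := h.syl.pgroup.to_le nS.le
  have mS : ∀ {x}, x ∈ gen ℬ R ↔ x ∈ ℬ ∧ x ∈ R := h.scl.mem_gen h.syl.pgroup h.syl.le
  have US : U ≤ gen ℬ R := fun u hu => have ⟨a, b⟩ := bt.1.memU.1 hu
    mS.2 ⟨inv_conj ns.simple ns.na se (h.scl.mono nL.le) g0 a.2 b, a.1⟩
  have nT : R ≤ N(R ⊓ L) := norm_inf le_N (h.syl.le.trans nL.norm)
  have bot : ∀ {X}, (∀ u ∈ U, u ∈ X → u = 1) → gen ℬ R ⊓ X = ⊥ := fun k => by_contra fun e => by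
    obtain ⟨v, hv, v2, v1⟩ := exists_inv_of_pg p.to_inf_left e
    exact v1 (k v (bt.1.memU.2 ⟨⟨nS.le hv.1, inv v hv.1 v2⟩, v2⟩) hv.2)
  have fin : gen ℬ R ≤ L → R ⊓ gen ℬ H ≤ R ⊓ L := fun k => inf_le_inf_left _ (h.scl.gen_le_of_nml h.syl le_rfl nL.norm k)
  have e := h.scl.gen_eq_inf h.syl.pgroup h.syl.le (inf_le_left : R ⊓ L ≤ R)
  have UT : U ≤ R ⊓ L := fun u hu => (bt.1.memU.1 hu).1
  by_cases c : R ⊓ L ≤ gen ℬ R
  · have d := bot (X := N(K)) fun u hu n => by_contra fun u1 => by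
      have : ∀ w ∈ U, w ≠ 1 → w = u := fun w hw w1 => by
        obtain ⟨k, hk, rfl⟩ := bt.1.trans u hu u1 w hw w1
        have := Fact.mk Nat.prime_two
        exact mul_inv_eq_one.1 (mem_bot.1 ((inf_eq_bot_of_pgroup_of_not_dvd sy.pgroup bt.1.odd).le (mem_inf.2 ⟨mul_mem (conj_mem_N
          (bt.1.leK hk).2 (UT hu)) (inv_mem (UT hu)), by simpa [mul_assoc] using mul_mem hk (conj_mem_N n (inv_mem hk))⟩)))
      have := card_le_of_le (show U ≤ zpowers u from fun w hw => (em (w = 1)).elim (fun e => e ▸ one_mem _)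
        fun e => this w hw e ▸ mem_zpowers _)
      rw [Nat.card_zpowers, H9.orderOf_eq_two.2 ⟨(bt.1.memU.1 hu).2, u1⟩] at this
      exact absurd (bt.1.four.trans this) (by decide)
    have := (fin fun y hy => by
      obtain ⟨x, hx, m⟩ := GBF.nK bt ⟨nL.norm (h.syl.le (nS.le hy)), nT (nS.le hy)⟩ (pg_mem p hy)
      exact inv_mul_eq_one.1 (mem_bot.1 (d.le (mem_inf.2 ⟨mul_mem (inv_mem (c hx)) hy, m⟩))) ▸ hx.2).trans c
    exact ⟨fun x hx _ => this hx, .inl this⟩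
  have e2 : gen ℬ R ⊓ (R ⊓ L) = U := (bt.irr (le_inf US UT) inf_le_right (e ▸ h.scl.norm_gen (inf_le_right.trans nL.le)
    (inf_le_left.trans nL.le) inf_le_right)).resolve_right fun k => c (k.ge.trans inf_le_left)
  obtain ⟨-, sq, -⟩ := (GBF.cases bt).resolve_left fun k => c (k.le.trans US)
  obtain ⟨x, hx, xU⟩ := SetLike.not_le_iff_exists.1 fun k => c (k.trans US)
  have d := bot (X := C(L)) fun u hu n => mem_bot.1 ((nml_of_simple ns.simple (nml_cent le_N)).resolve_right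
    (fun k => ns.na (k.ge.trans inf_le_right)) ▸ mem_inf.2 ⟨(UT hu).2, n⟩)
  have SU : gen ℬ R ≤ U := fun y hy => by
    have cm : ⁅R ⊓ L, zpowers y⁆ ≤ U := e2 ▸ le_inf ((H18.comm_mono le_rfl (zpowers_le.2 hy)).trans (comm_le_right
      (inf_le_left.trans nS.norm))) (comm_le_left (zpowers_le.2 (nT (nS.le hy))))
    obtain ⟨t, ht, m⟩ := bt.1.inner y ⟨⟨nL.norm (h.syl.le (nS.le hy)), nT (nS.le hy)⟩, mem_C.2 fun u hu => by
      by_cases u1 : u = 1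
      · simp [u1]
      obtain ⟨k, hk, rfl⟩ := bt.1.trans _ (sq x hx) (fun e => xU (bt.1.memU.2 ⟨hx, e⟩)) u hu u1
      have w := conj_mem_N (bt.1.leK hk).2 hx
      rw [← conj_mul]
      generalize k * x * k⁻¹ = w' at w
      have v := cm (commutator_mem_commutator (inv_mem w) (mem_zpowers y))
      have e : y * w' * y⁻¹ = w' * ⁅w'⁻¹, y⁆ := by rw [commutatorElement_def]; group
      generalize ⁅w'⁻¹, y⁆ = v' at v e
      calc _ = w' * (w' * v') * v' * y := by rw [mul_assoc w' (w' * v'), mul_assoc w' v', (bt.1.memU.1 v).2]; group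
        _ = w' * v' * (w' * v') * y := by rw [mul_assoc w' v', ← mul_assoc v', ← mem_C.1 (bt.1.cent v) w' w]; group
        _ = _ := by rw [← e]; group⟩ (pg_mem p hy) cm
    have tU : t ∈ U := (bt.abel_eq le_sup_right (sup_le (zpowers_le.2 ht) UT) (abel_zpowers.sup (bt.1.cent.trans (C_anti UT))
      (cent_symm (bt.1.cent.trans (C_anti (zpowers_le.2 ht))))) fun k hk => mem_N_of_cj_le (by
        rw [cj_sup, cj_zpowers, mem_N_iff_cj.1 (bt.1.nU hk.2)]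
        have w := conj_mem_N hk.2 ht
        have e1 : k * y * k⁻¹ = k * t * k⁻¹ * (t⁻¹ * y) := by
          rw [mul_assoc _ k⁻¹, mem_C.1 m _ (inv_mem hk.1)]; group
        have e3 : k * y * k⁻¹ * y⁻¹ = k * t * k⁻¹ * t⁻¹ := by rw [e1]; group
        have := e2.le (mem_inf.2 ⟨mul_mem (mS.2 ⟨h.scl.conj y (mS.1 hy).1 (h.syl.le (nS.le hy)) k (nL.le hk.1), e1 ▸ R.mul_mem w.1
          (R.mul_mem (R.inv_mem ht.1) (nS.le hy))⟩) (inv_mem hy), e3 ▸ mul_mem w (inv_mem ht)⟩)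
        exact sup_le (zpowers_le.2 ((mul_mem_cancel_right (inv_mem (mem_sup_left (mem_zpowers t)))).1
          (mem_sup_right (e3 ▸ this)))) le_sup_right)).le (mem_sup_left (mem_zpowers t))
    exact inv_mul_eq_one.1 (mem_bot.1 (d.le (mem_inf.2 ⟨mul_mem (inv_mem (US tU)) hy, m⟩))) ▸ tU
  have := fin (SU.trans (UT.trans inf_le_right))
  exact ⟨fun x hx x2 => US (bt.1.memU.2 ⟨this hx, x2⟩), .inr fun s hs => (bt.1.memU.1 (SU hs)).2⟩

theorem Emb.core [ZD.{u}] (h : Emb ℬ Γ R H) (hO : oQ 2 H ≤ Γ) (h0 : gen ℬ R ≠ ⊥) :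
    (∀ x ∈ R ⊓ gen ℬ H, x * x = 1 → x ∈ gen ℬ R) ∧ (R ⊓ gen ℬ H ≤ gen ℬ R ∨ ∀ s ∈ gen ℬ R, s * s = 1) := by
  have := Fact.mk Nat.prime_two
  have lS := (gen_le (𝒜 := ℬ)).trans (h.syl.le.trans nO)
  have d := inf_eq_bot_of_pgroup_of_not_dvd h.syl.pgroup (od_oQ (H := H))
  obtain ⟨k1, k2⟩ := (h.mim (f := coset (oQ 2 H)) nO (by rw [mker_coset]; exact inf_le_left.trans hO)
    (h.scl.gen_odd inf_le_right (od_ker od_oQ))).core0 (oQ_quo_oQ H) fun e => h0 (le_bot_iff.1 (d ▸ le_inf gen_le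
      ((quo_eq_bot_iff lS).1 ((h.scl.mim_gen_syl nO h.syl).trans e))))
  rw [← h.scl.mim_gen_syl nO h.syl, ← mim_gen nO] at k1 k2
  have up : ∀ x ∈ R, cs (oQ 2 H) x ∈ gen ℬ R ⫽ oQ 2 H → x ∈ gen ℬ R := fun x hx e => (inf_sup_oQ h.syl.pgroup gen_le lS).le
    ⟨hx, (qpre_quo lS).le (mem_mpre.2 ⟨nO (h.syl.le hx), e⟩)⟩
  refine ⟨fun x hx x2 => up x hx.1 (k1 _ ⟨mfun_mem_mim hx.1, mfun_mem_mim hx.2⟩ (by
    rw [← mfun_mul (nO (h.syl.le hx.1)) (nO (h.syl.le hx.1)), x2, mfun_one])), k2.imp (fun k x hx => up x hx.1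
      (k ⟨mfun_mem_mim hx.1, mfun_mem_mim hx.2⟩)) fun k s hs => mem_bot.1 (d.le (mem_inf.2 ⟨gen_le (mul_mem hs hs), ?_⟩))⟩
  rw [← cs_eq_one_iff (lS (mul_mem hs hs)), mfun_mul (lS hs) (lS hs)]
  exact k _ (mfun_mem_mim hs)

theorem s3289 [ZD.{u}] (T : Sylow 2 G) (hS : S ≠ ⊥) (hsc : IsStronglyClosed S (T : Subgroup G)) (hH : H ≠ ⊤)
    (hC : ∀ s ∈ S, s ≠ 1 → C1(s) ≤ H) (hN : N(Ω[2](S)) ≤ H) :
    IsStronglyEmbedded ((H ⊓ normalClosure (S : Set G)).subgroupOf (normalClosure (S : Set G))) ∧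
      (S = (T : Subgroup G) ⊓ normalClosure (S : Set G) ∨ S = Ω[2]((T : Subgroup G) ⊓ normalClosure (S : Set G))) ∧
      (PRankLE 2 1 ↥S → S = (T : Subgroup G) ⊓ normalClosure (S : Set G)) := by
  have hR := isSyl_sylow T
  have hs := scl_cl hR hsc
  have e := gen_cl hR hsc
  rw [← gen_cl_top]
  generalize (T : Subgroup G) = R at *
  generalize cl S = ℬ at *
  subst e
  have h := emb_of hs hR le_top (fun k => hH (top_le_iff.1 k)) (inf_le_right.trans ((norm_omega le_rfl).trans hN))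
    fun u hu _ u1 => inf_le_right.trans (hC u hu u1)
  have l : gen ℬ R ≤ R ⊓ gen ℬ ⊤ := le_inf gen_le (gen_mono le_top)
  obtain ⟨z, hz, zC, z2, z1⟩ := hs.exists_z hR.pgroup le_top hS
  have oz := H9.orderOf_eq_two.2 ⟨z2, z1⟩
  have key : (∀ x ∈ R ⊓ gen ℬ ⊤, x * x = 1 → x ∈ gen ℬ R) ∧ (R ⊓ gen ℬ ⊤ ≤ gen ℬ R ∨ ∀ s ∈ gen ℬ R, s * s = 1) ∧
      (PRankLE 2 1 ↥(gen ℬ R) → gen ℬ R = R ⊓ gen ℬ ⊤) := by
    by_cases c : ∀ v ∈ gen ℬ R, orderOf v = 2 → v = z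
    · have := hs.syl_of_uniq hR fun v hv w hw a b => (c v hv a).trans (c w hw b).symm
      exact ⟨fun x hx _ => this.le hx, .inl this.le, fun _ => this.symm⟩
    push Not at c
    obtain ⟨v, hv, ov, n⟩ := c
    have cm := (mem_C.1 zC v (gen_le hv)).symm
    have V := H22.V4_le hz hv
    refine and_assoc.1 ⟨h.core (H22.le_of_V4 oz ov cm n ((piNat_compl_iff Nat.prime_two).2 od_oQ) (le_top.trans nO)
      (inf_le_right.trans (hC z hz z1)) (inf_le_right.trans (hC v hv (H22.ne1 ov)))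
      (inf_le_right.trans (hC _ (mul_mem hz hv) (H22.ne1 (H22.ord2_mul oz ov cm n))))) hS, fun r => ?_⟩
    have := r ((H22.V4 z v).subgroupOf _) (⟨⟨fun a b => Subtype.ext (Subtype.ext (comm_of_cent (H22.V4_abel cm) a.2 b.2))⟩⟩)
      fun a ha => Subtype.ext (by simpa [sq] using H22.sq_of_mem_V4 z2 (H22.sq1 ov) cm ha)
    rw [card_subgroupOf V, H22.card_V4 oz ov cm n] at this
    omega
  have n := hs.nml_gen (le_refl ⊤)
  refine ⟨SEin.se ⟨lt_of_le_of_ne inf_le_right fun k => hS (le_bot_iff.1 ((gen_mono le_top).trans (gen_gen.ge.trans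
    (h.gen_eq_bot n (k.ge.trans inf_le_left)).le))), even_iff_two_dvd.2 (oz ▸ orderOf_dvd_card (mem_inf.2 ⟨h.le (gen_le hz),
      (l hz).2⟩)), fun g hg gH x hx m x2 => by_contra fun x1 => gH ⟨?_, hg⟩⟩, key.2.1.imp (le_antisymm l) fun k =>
      le_antisymm (fun s hs => mem_omega (l hs) (by rw [sq, k s hs])) (omega_le_iff.2 fun x hx x2 => key.1 x hx (sq x ▸ x2)),
    key.2.2⟩
  obtain ⟨k, -, e⟩ := hR.exists_le_cj (pg_zp x2) le_top
  have m1 := mem_cj.1 (e (mem_zpowers x))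
  have := hs.conj _ (hs.mem_of_gen hR.pgroup le_top (key.1 _ ⟨m1, conj_mem' n.norm trivial hx.2⟩ (conj_sq' x2 k))) trivial k trivial
  exact H.inv_mem_iff.1 (h.emb x (by simpa [mul_assoc] using this) hx.1 x2 x1 g⁻¹ trivial (by simpa using m.1))

end H4.Gs
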