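import Cfsg.Agent.H13.SzAut
import Cfsg.Agent.H13.SzOdd
import Cfsg.Agent.H13.SzModel

/-! Direct squares of Suzuki groups, part 0: the four classes `cm m i` (`4, q - 1, q + r + 1, q - r + 1`)
and the condition `Ok m G` (every element order divides a product of two different classes). -/
set_option autoImplicit false
namespace H4.Sq

/-- the four maximal element orders of `Sz(2^(2m+1))` -/
def cm (m : ℕ) : Fin 4 → ℕ :=
  ![4, 2 ^ (2 * m + 1) - 1, 2 ^ (2 * m + 1) + 2 ^ (m + 1) + 1, 2 ^ (2 * m + 1) - 2 ^ (m + 1) + 1]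

/-- every element order divides a product of two different classes -/
def Ok (m : ℕ) (G : Type*) [Group G] : Prop := ∀ g : G, ∃ i j : Fin 4, i ≠ j ∧ orderOf g ∣ cm m i * cm m j

variable {m : ℕ} {G X : Type*} [Group G] [Group X]

theorem cm0 : cm m 0 = 4 := rfl
theorem cm1 : cm m 1 = 2 ^ (2 * m + 1) - 1 := rfl
theorem cm2 : cm m 2 = 2 ^ (2 * m + 1) + 2 ^ (m + 1) + 1 := rfl
theorem cm3 : cm m 3 = 2 ^ (2 * m + 1) - 2 ^ (m + 1) + 1 := rfl

theorem cm_r_le : 2 ^ (m + 1) ≤ 2 ^ (2 * m + 1) := Nat.pow_le_pow_right two_pos (by omega)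

theorem cm23 : cm m 2 * cm m 3 = (2 ^ (2 * m + 1)) ^ 2 + 1 := by
  have h := cm_r_le (m := m)
  rw [cm2, cm3]; zify [h]; ring

theorem odd_cm1 : Odd (cm m 1) :=
  Nat.Even.sub_odd Nat.one_le_two_pow (by simp [Nat.even_pow]) odd_one

theorem odd_cm23 : Odd (cm m 2 * cm m 3) := by
  rw [cm23]; exact Even.add_one (by simp [Nat.even_pow])

theorem cop1_23 : (cm m 1).Coprime (cm m 2 * cm m 3) := by
  refine Nat.coprime_of_dvd fun p hp h1 h2 => ?_
  rw [cm23] at h2; rw [cm1] at h1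
  obtain ⟨a, ha⟩ : ∃ a, 2 ^ (2 * m + 1) = a + 1 := ⟨_, (Nat.sub_add_cancel Nat.one_le_two_pow).symm⟩
  have o := odd_cm1 (m := m)
  rw [cm1] at o
  rw [ha, Nat.add_sub_cancel] at h1 o
  rw [ha, show (a + 1) ^ 2 + 1 = a * (a + 2) + 2 by ring] at h2
  have := (Nat.prime_dvd_prime_iff_eq hp Nat.prime_two).1 ((Nat.dvd_add_right (h1.mul_right _)).1 h2)
  subst this
  exact (Nat.not_even_iff_odd.2 o) (even_iff_two_dvd.2 h1)

theorem cop23 : (cm m 2).Coprime (cm m 3) := by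
  refine Nat.coprime_of_dvd fun p hp h1 h2 => ?_
  have h := cm_r_le (m := m)
  have e : cm m 2 = cm m 3 + 2 ^ (m + 2) := by rw [cm2, cm3, pow_succ 2 (m + 1)]; omega
  have := (Nat.prime_dvd_prime_iff_eq hp Nat.prime_two).1
    (hp.dvd_of_dvd_pow ((Nat.dvd_add_right h2).1 (e ▸ h1)))
  subst this
  exact (Nat.not_even_iff_odd.2 odd_cm23) (even_iff_two_dvd.2 (h1.mul_right _))

theorem cm_cop {i j : Fin 4} (h : i ≠ j) : (cm m i).Coprime (cm m j) := by
  have c : ∀ n, Odd n → Nat.Coprime 4 n := fun n o => (Nat.coprime_two_left.2 o).pow_left 2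
  have a1 : (cm m 0).Coprime (cm m 1) := c _ odd_cm1
  have a2 : (cm m 0).Coprime (cm m 2) := c _ (Nat.Odd.of_mul_left odd_cm23)
  have a3 : (cm m 0).Coprime (cm m 3) := c _ (Nat.Odd.of_mul_right odd_cm23)
  have a4 := (cop1_23 (m := m)).coprime_mul_right_right
  have a5 := (cop1_23 (m := m)).coprime_mul_left_right
  have a6 := cop23 (m := m)
  fin_cases i <;> fin_cases j <;> first | exact absurd rfl h | assumption | (apply Nat.Coprime.symm; assumption)

/-- a prime lies in only one class -/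
theorem cls_eq {p : ℕ} {i j : Fin 4} (hp : p.Prime) (h1 : p ∣ cm m i) (h2 : p ∣ cm m j) : i = j :=
  by_contra fun h => hp.one_lt.ne' (Nat.eq_one_of_dvd_coprimes (cm_cop h) h1 h2)

theorem Ok.of_dvd (h : Ok m G) (k : ∀ x : X, ∃ g : G, orderOf x ∣ orderOf g) : Ok m X := fun x =>
  let ⟨g, a⟩ := k x
  let ⟨i, j, b, c⟩ := h g
  ⟨i, j, b, a.trans c⟩

theorem Ok.sub (h : Ok m G) (H : Subgroup G) : Ok m H := h.of_dvd fun x => ⟨x, (Subgroup.orderOf_coe x).ge |> fun _ => by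
  rw [Subgroup.orderOf_coe]⟩

theorem Ok.surj (h : Ok m G) (f : G →* X) (hf : Function.Surjective f) : Ok m X := h.of_dvd fun x =>
  let ⟨g, a⟩ := hf x
  ⟨g, a ▸ orderOf_map_dvd f g⟩

theorem Ok.quot (h : Ok m G) (N : Subgroup G) [N.Normal] : Ok m (G ⧸ N) :=
  h.surj _ (QuotientGroup.mk'_surjective N)

/-- every prime dividing an element order has a class -/
theorem Ok.cls (h : Ok m G) {p : ℕ} (hp : p.Prime) {g : G} (d : p ∣ orderOf g) : ∃ i, p ∣ cm m i :=
  let ⟨i, j, _, c⟩ := h g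
  ((hp.dvd_mul.1 (d.trans c))).elim (fun a => ⟨i, a⟩) fun a => ⟨j, a⟩

/-- no element order meets three classes -/
theorem Ok.tri (h : Ok m G) {p q r : ℕ} {i j k : Fin 4} (hp : p.Prime) (hq : q.Prime) (hr : r.Prime)
    (h1 : p ∣ cm m i) (h2 : q ∣ cm m j) (h3 : r ∣ cm m k) (ij : i ≠ j) (ik : i ≠ k) (jk : j ≠ k) {g : G}
    (d1 : p ∣ orderOf g) (d2 : q ∣ orderOf g) (d3 : r ∣ orderOf g) : False := by
  obtain ⟨a, b, -, c⟩ := h g
  have e1 := (hp.dvd_mul.1 (d1.trans c)).imp (cls_eq hp h1) (cls_eq hp h1)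
  have e2 := (hq.dvd_mul.1 (d2.trans c)).imp (cls_eq hq h2) (cls_eq hq h2)
  have e3 := (hr.dvd_mul.1 (d3.trans c)).imp (cls_eq hr h3) (cls_eq hr h3)
  omega

/-- three pairwise commuting elements of prime orders in different classes do not exist -/
theorem Ok.tri' (h : Ok m G) {x y z : G} {i j k : Fin 4} (hp : (orderOf x).Prime) (hq : (orderOf y).Prime)
    (hr : (orderOf z).Prime) (h1 : orderOf x ∣ cm m i) (h2 : orderOf y ∣ cm m j) (h3 : orderOf z ∣ cm m k)
    (ij : i ≠ j) (ik : i ≠ k) (jk : j ≠ k) (xy : Commute x y) (xz : Commute x z) (yz : Commute y z) : False := by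
  have c1 := ((cm_cop ij).coprime_dvd_left h1).coprime_dvd_right h2
  have c2 := ((cm_cop ik).coprime_dvd_left h1).coprime_dvd_right h3
  have c3 := ((cm_cop jk).coprime_dvd_left h2).coprime_dvd_right h3
  have e1 := xy.orderOf_mul_eq_mul_orderOf_of_coprime c1
  have e2 := (xz.mul_left yz).orderOf_mul_eq_mul_orderOf_of_coprime (e1 ▸ Nat.Coprime.mul_left c2 c3)
  rw [e1] at e2
  exact h.tri hp hq hr h1 h2 h3 ij ik jk (g := x * y * z) (e2 ▸ (dvd_mul_right _ _).mul_right _)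
    (e2 ▸ (dvd_mul_left _ _).mul_right _) (e2 ▸ dvd_mul_left _ _)

/-- a divisor of an element order all of whose primes lie in class `i` divides `cm m i` -/
theorem Ok.over (h : Ok m G) {g : G} {i : Fin 4} {d : ℕ} (hd : d ∣ orderOf g)
    (k : ∀ p, p.Prime → p ∣ d → p ∣ cm m i) : d ∣ cm m i := by
  obtain ⟨a, b, n, c⟩ := h g
  have e : ∀ j, j ≠ i → d.Coprime (cm m j) := fun j t =>
    Nat.coprime_of_dvd fun p hp h1 h2 => t (cls_eq hp h2 (k p hp h1))
  by_cases s : a = i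
  · exact s ▸ (e b (s ▸ n.symm)).dvd_of_dvd_mul_right (hd.trans c)
  by_cases t : b = i
  · exact t ▸ (e a s).dvd_of_dvd_mul_left (hd.trans c)
  rw [(Nat.Coprime.mul_right (e a s) (e b t)).eq_one_of_dvd (hd.trans c)]
  exact one_dvd _

theorem Ok.not_eight (h : Ok m G) (g : G) : ¬ 8 ∣ orderOf g := fun d => by
  have := h.over (i := 0) d fun p hp k => (hp.dvd_of_dvd_pow (m := 2) (n := 3) k).trans (show 2 ∣ 4 by decide)
  rw [cm0] at this
  omega

theorem not_three_cm (i : Fin 4) : ¬ 3 ∣ cm m i := by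
  have e : 2 ^ (2 * m + 1) % 3 = 2 := by rw [pow_succ, pow_mul, Nat.mul_mod, Nat.pow_mod]; simp
  have e2 : ¬ 3 ∣ cm m 2 * cm m 3 := by
    rw [cm23, Nat.dvd_iff_mod_eq_zero, Nat.add_mod, Nat.pow_mod, e]; decide
  fin_cases i
  · show ¬ 3 ∣ 4; decide
  · show ¬ 3 ∣ 2 ^ (2 * m + 1) - 1
    generalize 2 ^ (2 * m + 1) = x at e; omega
  · exact fun h => e2 (h.mul_right _)
  · exact fun h => e2 (h.mul_left _)

theorem five_cm : 5 ∣ cm m 2 * cm m 3 := by
  rw [cm23, ← pow_mul, show (2 * m + 1) * 2 = 4 * m + 2 by ring, pow_add, pow_mul, Nat.dvd_iff_mod_eq_zero,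
    Nat.add_mod, Nat.mul_mod, Nat.pow_mod]
  simp

/-- all products of two different classes are element orders -/
def Full (m : ℕ) (G : Type*) [Group G] : Prop := ∀ i j : Fin 4, i ≠ j → ∃ g : G, orderOf g = cm m i * cm m j

end H4.Sq
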