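import Cfsg.Agent.H4.Sq0
import Cfsg.Agent.H13.SzClass

/-! Direct squares of Suzuki groups, part 1: the element orders of `Sz(q)` (`ord_dvd`, `ord_ex`) and the statements
of the pieces `PA`-`PE` of the proof. -/
set_option autoImplicit false
namespace H4.Sq
open Cfsg H13.Sz Function
universe u

section
variable {F : Type*} [Field F] [Fintype F] {m : ℕ} [hF : IsSz F m]

/-- every element order of `Sz(q)` divides one class -/
theorem ord_dvd (x : Cfsg.Sz F m) : ∃ i, orderOf x ∣ cm m i := by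
  by_cases h4 : x ^ 4 = 1
  · exact ⟨0, orderOf_dvd_of_pow_eq_one h4⟩
  have hz := tor_of_pow_four_ne h4
  have d : orderOf x ∣ Nat.card (Subgroup.centralizer {x}) :=
    Subgroup.orderOf_dvd_natCard _ (Subgroup.mem_centralizer_singleton_iff.2 rfl)
  rcases hz.card_cases with h | h | h
  all_goals rw [h, hF.card] at d
  · exact ⟨1, d⟩
  · exact ⟨2, d⟩
  · exact ⟨3, d⟩

/-- every class is an element order of `Sz(q)` -/
theorem ord_ex (i : Fin 4) : ∃ x : Cfsg.Sz F m, orderOf x = cm m i := by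
  have c : ∀ A : Subgroup (Cfsg.Sz F m), IsCyclic A → ∃ x : Cfsg.Sz F m, orderOf x = Nat.card A := fun A h =>
    let ⟨x, hx⟩ := IsCyclic.exists_ofOrder_eq_natCard (α := A)
    ⟨x, by rw [Subgroup.orderOf_coe, hx]⟩
  obtain ⟨x₁, x₂, h₁, h₂, c₁, c₂, -⟩ := exists_tori (F := F) (m := m)
  fin_cases i
  · exact ⟨u m (1 : F) 0, orderOf_u one_ne_zero⟩
  · have := c (H F m) inferInstance
    rwa [card_H, hF.card] at this
  · have := c _ h₁.tor.isCyclic
    rwa [c₁, hF.card] at this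
  · have := c _ h₂.tor.isCyclic
    rwa [c₂, hF.card] at this

end

/-- one Suzuki factor `Sz(q)` over a solvable kernel meeting three classes -/
def PA : Prop := ∀ {F : Type} [Field F] [Fintype F] {m : ℕ} [IsSz F m] {G : Type u} [Group G] [Finite G],
  Ok m G → ∀ f : G →* Cfsg.Sz F m, Surjective f → Group.IsSolvable f.ker →
  ∀ {p q r : ℕ} {i j k : Fin 4}, p.Prime → q.Prime → r.Prime → p ∣ cm m i → q ∣ cm m j → r ∣ cm m k →
  i ≠ j → i ≠ k → j ≠ k → p ∣ Nat.card f.ker → q ∣ Nat.card f.ker → r ∣ Nat.card f.ker → False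

/-- one component, equal to `Sz(q)` -/
def PA2 : Prop := ∀ {F : Type} [Field F] [Fintype F] {m : ℕ} [IsSz F m] {G : Type u} [Group G] [Finite G],
  Ok m G → Full m G → ∀ φ : G →* MulAut (Cfsg.Sz F m), Group.IsSolvable φ.ker →
  (∀ s, ∃ g, φ g = MulAut.conj s) → False

/-- two factors, the first equal to `Sz(q)`: the kernel is trivial -/
def PB : Prop := ∀ {F F' : Type} [Field F] [Fintype F] [Field F'] [Fintype F'] {m m' : ℕ} [IsSz F m] [IsSz F' m']
  {G : Type u} [Group G] [Finite G], Ok m G → 2 * m' + 1 ∣ 2 * m + 1 →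
  ∀ f : G →* Cfsg.Sz F m × Cfsg.Sz F' m', Surjective f → Injective f

/-- all components smaller than `Sz(q)` -/
def PC : Prop := ∀ {m : ℕ} {G : Type u} [Group G] [Finite G] {ι : Type u} [Finite ι] {F : ι → Type}
  [∀ i, Field (F i)] [∀ i, Fintype (F i)] {n : ι → ℕ} [∀ i, IsSz (F i) (n i)], 1 ≤ m → Ok m G → Full m G →
  ∀ φ : ∀ i, G →* MulAut (Cfsg.Sz (F i) (n i)), Group.IsSolvable (⨅ i, (φ i).ker : Subgroup G) →
  (∀ s : ∀ i, Cfsg.Sz (F i) (n i), ∃ g, ∀ i, φ i g = MulAut.conj (s i)) →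
  (∀ i, 2 * n i + 1 ∣ 2 * m + 1 ∧ n i ≠ m) → False

/-- the components of `G / O_∞(G)` -/
def PD : Prop := ∀ {m : ℕ} {G : Type u} [Group G] [Finite G], Ok m G →
  ∃ (ι : Type u) (_ : Finite ι) (F : ι → Type) (_ : ∀ i, Field (F i)) (_ : ∀ i, Fintype (F i)) (n : ι → ℕ)
    (_ : ∀ i, IsSz (F i) (n i)) (φ : ∀ i, G →* MulAut (Cfsg.Sz (F i) (n i))), Nat.card ι ≤ 2 ∧
    Group.IsSolvable (⨅ i, (φ i).ker : Subgroup G) ∧
    (∀ s : ∀ i, Cfsg.Sz (F i) (n i), ∃ g, ∀ i, φ i g = MulAut.conj (s i)) ∧ ∀ i, 2 * n i + 1 ∣ 2 * m + 1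

/-- two components, trivial radical -/
def PE : Prop := ∀ {F F' : Type} [Field F] [Fintype F] [Field F'] [Fintype F'] {m m' : ℕ} [IsSz F m] [IsSz F' m']
  {G : Type u} [Group G] [Finite G], m ≠ 2 → Ok m G → Full m G → 2 * m' + 1 ∣ 2 * m + 1 →
  ∀ (φ : G →* MulAut (Cfsg.Sz F m)) (ψ : G →* MulAut (Cfsg.Sz F' m')), φ.ker ⊓ ψ.ker = ⊥ →
  (∀ s t, ∃ g, φ g = MulAut.conj s ∧ ψ g = MulAut.conj t) →
  m' = m ∧ Nonempty (G ≃* Cfsg.Sz F m × Cfsg.Sz F' m')

end H4.Sq
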