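import Cfsg.Agent.H4.Sq1
import Cfsg.Agent.H28.SzSq4

/-! Direct squares of Suzuki groups, part 2: the facts used about `Sz(q)` (`SzD`) and fixed point lemmas for a
section `Sz(q)` acting on abelian subgroups (after `H28.SS`, for general `q`). -/
set_option autoImplicit false
set_option linter.unusedSectionVars false
namespace H4.Sq
open Cfsg H18 H1 H13 Subgroup
open H28.SS (part ex_ord NL pie ex_p)
open scoped commutatorElement

/-- the primes of class `i` -/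
def cl (m : ℕ) (i : Fin 4) : Set ℕ := {p | p ∣ cm m i}
/-- the primes of the classes `2`, `3` -/
def RR (m : ℕ) : Set ℕ := {p | p ∣ cm m 2 ∨ p ∣ cm m 3}

structure SzD (m : ℕ) (L : Type*) [Group L] : Prop where
  simple : IsSimpleGroup L
  dv : ∀ x : L, ∃ i, orderOf x ∣ cm m i
  ex : ∀ i, ∃ x : L, orderOf x = cm m i
  one : ∀ i, 1 < cm m i
  f1 : ∃ Q : Subgroup L, PiGrp {2} Q ∧ Z(Q) ≠ ⊥ ∧ (∀ y ∈ Z(Q), y ^ 2 = 1 ∧ ∃ u ∈ Q, u ^ 2 = y) ∧
    ∃ x ∈ N(Q), orderOf x = cm m 1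
  f2 : ∃ (t : ℕ) (i : Fin 4), t.Prime ∧ t ∣ cm m i ∧ i ≠ 0 ∧ ∃ a x : L, a ≠ 1 ∧ PiElt {t} a ∧ orderOf x = 4 ∧
    x ∈ N(zpowers a) ∧ ∀ k, t ^ k ∣ cm m i → t ^ k ∣ orderOf a

variable {m : ℕ} {G L : Type*} [Group G] [Group L] [Finite G] [Finite L] {φ : G →* L} {Y V U W : Subgroup G}
  {p q r s : ℕ} {i j k : Fin 4}

theorem two_cm : 2 ∣ cm m 0 := show 2 ∣ 4 by decide

omit [Finite G] in
theorem cle {x : G} (h : PiElt {p} x) (d : p ∣ cm m i) : PiElt (cl m i) x := fun t ht e =>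
  (h t ht e : t = p) ▸ d

theorem cle' {x : L} (h : orderOf x ∣ cm m i) : PiElt (cl m i) x := fun _ _ d => d.trans h

theorem cne (hp : p.Prime) (h1 : p ∣ cm m i) (h2 : q ∣ cm m j) (ij : i ≠ j) : p ≠ q := fun e =>
  ij (cls_eq hp h1 (e ▸ h2))

theorem rr_cls (h : p ∈ RR m) : ∃ i, p ∣ cm m i ∧ i ≠ 0 ∧ i ≠ 1 :=
  h.elim (fun a => ⟨2, a, by decide, by decide⟩) fun a => ⟨3, a, by decide, by decide⟩

theorem not_rr (hp : p.Prime) (h : p ∣ cm m i) (e : i = 0 ∨ i = 1) : p ∉ RR m := fun c => by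
  obtain ⟨j, a, b, d⟩ := rr_cls c
  have := cls_eq hp h a
  omega

theorem Ok.tc (h : Ok m G) (hp : p.Prime) (hq : q.Prime) (hr : r.Prime) (h1 : p ∣ cm m i) (h2 : q ∣ cm m j)
    (h3 : r ∣ cm m k) (ij : i ≠ j) (ik : i ≠ k) (jk : j ≠ k) {u g : G} (hu : orderOf u = p)
    (c : u * g = g * u) (hg : q * r ∣ orderOf g) : False := by
  have e := orderOf_pow_orderOf_div (x := g) (orderOf_pos g).ne' hg
  have := Commute.orderOf_mul_eq_mul_orderOf_of_coprime (x := u) (y := g ^ (orderOf g / (q * r)))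
    (Commute.pow_right c _) (by
      rw [e, hu]
      exact Nat.Coprime.mul_right ((Nat.coprime_primes hp hq).2 (cne hp h1 h2 ij))
        ((Nat.coprime_primes hp hr).2 (cne hp h1 h3 ik)))
  rw [e, hu] at this
  exact h.tri hp hq hr h1 h2 h3 ij ik jk (this ▸ dvd_mul_right _ _) (this ▸ (dvd_mul_right q r).mul_left _)
    (this ▸ (dvd_mul_left r q).mul_left _)

theorem Ok.t3 (h : Ok m G) (hp : p.Prime) (hq : q.Prime) (hr : r.Prime) (h1 : p ∣ cm m i) (h2 : q ∣ cm m j)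
    (h3 : r ∣ cm m k) (ij : i ≠ j) (ik : i ≠ k) (jk : j ≠ k) {u x y : G} (hu : orderOf u = p)
    (hx : orderOf x = q) (hy : orderOf y = r) (c1 : u * x = x * u) (c2 : u * y = y * u)
    (c3 : x * y = y * x) : False :=
  h.tri' (hu ▸ hp) (hx ▸ hq) (hy ▸ hr) (hu ▸ h1) (hx ▸ h2) (hy ▸ h3) ij ik jk c1 c2 c3

omit [Finite G] in
theorem Ok.pw (h : Ok m G) {x : G} (hx : PiElt (cl m i) x) : x ^ cm m i = 1 :=
  orderOf_dvd_iff_pow_eq_one.1 (h.over dvd_rfl hx)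

omit [Finite G] in
theorem SzD.comm (hL : SzD m L) (c : i ≠ j) {u w : L} (hu : PiElt (cl m i) u)
    (hw : PiElt (cl m j) w) (e : u * w = w * u) (h1 : u ≠ 1) : w = 1 := by
  by_contra h2
  obtain ⟨p, hp, d1, a⟩ := hu.exists_mem h1
  obtain ⟨q, hq, d2, b⟩ := hw.exists_mem h2
  have := Commute.orderOf_mul_eq_mul_orderOf_of_coprime e
    (Nat.coprime_of_dvd fun t ht x y => c (cls_eq ht (hu t ht x) (hw t ht y)))
  obtain ⟨l, hl⟩ := hL.dv (u * w)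
  rw [this] at hl
  exact c ((cls_eq hp a ((d1.mul_right _).trans hl)).trans (cls_eq hq b ((d2.mul_left _).trans hl)).symm)

omit [Finite G] in
theorem SzD.exp (hL : SzD m L) (h : p ∣ cm m i) : ∃ x : L, orderOf x = p :=
  let ⟨x, hx⟩ := hL.ex i
  ⟨_, orderOf_pow_orderOf_div (orderOf_pos x).ne' (hx ▸ h)⟩

omit [Finite G] in
theorem SzD.center (hL : SzD m L) {x : L} (h : ∀ g, g * x = x * g) : x = 1 := by
  have := hL.simple
  obtain ⟨a, ha⟩ := hL.ex 0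
  obtain ⟨b, hb⟩ := hL.ex 1
  rcases (inferInstance : (Subgroup.center L).Normal).eq_bot_or_eq_top with e | e
  · exact mem_bot.1 (e ▸ mem_center_iff.2 h)
  · have := hL.comm (i := 0) (j := 1) (by decide) (u := a) (w := b) (cle' ha.dvd)
      (cle' hb.dvd) (mem_center_iff.1 (e ▸ mem_top b) a)
      (by rintro rfl; exact (hL.one 0).ne (by simpa using ha))
    exact absurd (by simpa [this] using hb) (hL.one 1).ne

omit [Finite G] [Finite L] in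
theorem SzD.top (hL : SzD m L) (φ : G →* L) {Y D : Subgroup G} (hY : Y.map φ = ⊤) (hn : Y ≤ N(D))
    {c : G} (hc : c ∈ D) (h1 : φ c ≠ 1) : D.map φ = ⊤ := by
  have := hL.simple
  have n : (D.map φ).Normal := ⟨by
    rintro _ ⟨d, hd, rfl⟩ g
    obtain ⟨y, hy, rfl⟩ : g ∈ Y.map φ := hY ▸ mem_top g
    exact ⟨y * d * y⁻¹, conj_mem hn hy hd, by simp⟩⟩
  exact n.eq_bot_or_eq_top.resolve_left fun e => h1 (mem_bot.1 (e ▸ mem_map_of_mem φ hc))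

omit [Finite G] in
theorem SzD.perf (hL : SzD m L) : ⁅(⊤ : Subgroup L), (⊤ : Subgroup L)⁆ = ⊤ := by
  have := hL.simple
  refine (inferInstance : (⁅(⊤ : Subgroup L), (⊤ : Subgroup L)⁆).Normal).eq_bot_or_eq_top.resolve_left
    fun e => ?_
  obtain ⟨a, ha⟩ := hL.ex 0
  have := hL.center (x := a) fun g => comm_of_cent (comm_eq_bot_iff.1 e) (mem_top g) (mem_top a)
  exact absurd (by simpa [this] using ha) (hL.one 0).ne

theorem lift (φ : G →* L) (hY : Y.map φ = ⊤) {π : Set ℕ} (hr : r.Prime)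
    {Q : Subgroup L} (hQ : PiGrp {r} Q) {x : L} (hx : x ∈ N(Q)) (hs : PiElt π x) :
    ∃ P ≤ Y, PiGrp {r} P ∧ P.map φ = Q ∧ ∃ h ∈ Y, h ∈ N(P) ∧ PiElt π h ∧ φ h = x := by
  obtain ⟨P, PY, hP, e, -⟩ := H28.SS.lift φ hY (s := r) hr hQ (one_mem _) PiElt.one
  obtain ⟨P', hP', PP⟩ := exists_sylow_le hr hP (le_inf PY (map_le_iff_le_comap.1 e.le))
  have e' : P'.map φ = Q := le_antisymm (map_le_iff_le_comap.2 (hP'.le.trans inf_le_right)) (e ▸ map_mono PP)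
  obtain ⟨y, hy, rfl⟩ : x ∈ Y.map φ := hY ▸ mem_top x
  have ny : y ∈ N(Y ⊓ Q.comap φ) := mem_N_of_finite fun b hb =>
    ⟨Y.mul_mem (Y.mul_mem hy hb.1) (Y.inv_mem hy), by
      simpa using conj_mem_N hx hb.2⟩
  obtain ⟨k, hk, n, hn, e2⟩ := frattini_elt hr hP' ny
  obtain ⟨p, hp, e3⟩ : φ k ∈ P'.map φ := e' ▸ hk.2
  have e4 : φ (p * n) = φ y := by rw [map_mul, e3, e2, map_mul]
  obtain ⟨z, hz, h1, h2⟩ := part φ (π := π) (g := p * n) (e4 ▸ hs)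
  have nY : n ∈ Y := by
    rw [show n = k⁻¹ * y by rw [e2]; group]; exact Y.mul_mem (Y.inv_mem hk.1) hy
  exact ⟨P', hP'.le.trans inf_le_left, hP'.pi, e', z,
    zpowers_le.2 (mul_mem (hP'.le hp).1 nY) hz, zpowers_le.2 (mul_mem (le_N hp) hn) hz, h1, h2.trans e4⟩

/-- a Frobenius configuration `P⟨g⟩` over the Borel subgroup, `P` meeting the kernel trivially -/
theorem good (hL : SzD m L) (hY : Y.map φ = ⊤) (oW : PiGrp {2}ᶜ W) (c : ⁅Y, Y ⊓ φ.ker⁆ ≤ W) :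
    ∃ P ≤ Y, PiGrp {2} P ∧ P ≠ ⊥ ∧ (∀ f ∈ P, φ f = 1 → f = 1) ∧ ∃ g ∈ Y, g ∈ N(P) ∧ PiElt (cl m 1) g ∧
      orderOf (φ g) = cm m 1 := by
  obtain ⟨Q, hQ, Z1, sq, x, hx, ox⟩ := hL.f1
  have px : PiElt (cl m 1) x := cle' ox.dvd
  obtain ⟨P, PY, hP, e, g, gY, gN, hg, rfl⟩ := lift φ hY Nat.prime_two hQ hx px
  have z : ∀ y ∈ Y, y ∈ N(P) → ∀ f ∈ P, φ f = 1 → y * f = f * y := fun y hy n f hf e => by
    have := eq_one_of_eq_bot (inf_eq_bot_of_coprime' (hP.coprime oW))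
      ⟨P.mul_mem (conj_mem_N n hf) (P.inv_mem hf), c (commutator_mem_commutator hy ⟨PY hf, e⟩)⟩
    rwa [mul_inv_eq_one, mul_inv_eq_iff_eq_mul] at this
  set R := P ⊓ Z(Q).comap φ
  have PQ : ∀ f ∈ P, φ f ∈ Q := fun f hf => e ▸ mem_map_of_mem φ hf
  have ab : Abel R := fun a ha => mem_C.2 fun b hb => by
    obtain ⟨u, hu, e1⟩ := (sq _ hb.2).2
    obtain ⟨v, hv, rfl⟩ : u ∈ P.map φ := e ▸ hu
    have a2 := z v (PY hv) (le_N hv) (a ^ 2) (pow_mem ha.1 2) (by rw [map_pow, (sq _ ha.2).1])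
    have z1 := z a (PY ha.1) (le_N ha.1) ((v ^ 2)⁻¹ * b) (P.mul_mem (P.inv_mem (pow_mem hv 2)) hb.1)
      (by rw [map_mul, map_inv, map_pow, e1, inv_mul_cancel])
    have hc : a * v * a⁻¹ * v⁻¹ ∈ P := P.mul_mem (conj_mem_N (le_N ha.1) hv) (P.inv_mem hv)
    have kc : φ (a * v * a⁻¹ * v⁻¹) = 1 := by
      rw [map_mul, map_mul, map_mul, map_inv, map_inv, ← mem_C.1 ha.2.2 _ (PQ v hv)]; group
    have z2 := z v (PY hv) (le_N hv) _ hc kc
    have z3 := z a (PY ha.1) (le_N ha.1) _ hc kc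
    generalize hd : a * v * a⁻¹ * v⁻¹ = d at z2 z3
    have e2 : a * v = d * v * a := by rw [← hd]; group
    have e3 : d * d = 1 := by
      have : a ^ 2 * v = d * d * (v * a ^ 2) := by
        calc _ = a * (a * v) := by rw [pow_two]; group
          _ = (a * d) * v * a := by rw [e2]; group
          _ = d * (a * v) * a := by rw [z3]; group
          _ = _ := by rw [e2, pow_two]; group
      rw [a2] at this
      exact (mul_eq_right.1 this.symm)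
    have e4 : a * v ^ 2 = v ^ 2 * a := by
      calc _ = (a * v) * v := by rw [pow_two]; group
        _ = d * v * (a * v) := by conv_lhs => rw [e2]
                                  group
        _ = d * (v * d) * v * a := by rw [e2]; group
        _ = d * d * (v * v * a) := by rw [z2]; group
        _ = _ := by rw [e3, pow_two]; group
    calc _ = v ^ 2 * ((v ^ 2)⁻¹ * b * a) := by group
      _ = (v ^ 2 * a) * ((v ^ 2)⁻¹ * b) := by rw [← z1]; group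
      _ = _ := by rw [← e4]; group
  have nR : zpowers g ≤ N(R) := zpowers_le.2 (mem_N_of_finite fun b hb =>
    ⟨conj_mem_N gN hb.1, by simpa using conj_mem_N (norm_Z (zpowers_le.2 hx) (mem_zpowers _)) hb.2⟩)
  have cR : (Nat.card (zpowers g)).Coprime (Nat.card R) :=
    (hg.zpowers.p' fun c => absurd (cls_eq Nat.prime_two two_cm c) (by decide)).coprime' hP.inf_left
  have lR : ⁅R, zpowers g⁆ ≤ R := comm_le_left nR
  refine ⟨⁅R, zpowers g⁆, lR.trans (inf_le_left.trans PY), hP.inf_left.of_le lR, fun b => ?_,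
    fun f hf e => ?_, g, gY, norm_comm_right (mem_zpowers g), hg, ox⟩
  · obtain ⟨y, hy, y1⟩ := exists_mem_ne_one' Z1
    obtain ⟨f, hf, rfl⟩ : y ∈ P.map φ := e ▸ hy.1
    refine y1 (hL.comm (i := 1) (j := 0) (by decide) px (cle (hQ.elt hy.1) two_cm) ?_ fun c => ?_)
    · simpa using congrArg φ (comm_of_cent (comm_eq_bot_iff.1 b) ⟨hf, hy⟩ (mem_zpowers g)).symm
    · exact (hL.one 1).ne (by simpa [c] using ox)
  · refine eq_one_of_eq_bot (abel_comm_inf_cent ab nR cR) ⟨hf, ?_⟩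
    rw [C_zpowers]
    exact mem_C1.2 (z g gY gN f (lR hf).1 e).symm

theorem N1 (h : Ok m G) (hL : SzD m L) (hY : Y.map φ = ⊤) (hV : Abel V) (pV : PiGrp {p} V) (hp : p ∣ cm m 1)
    (nV : Y ≤ N(V)) (oW : PiGrp {2}ᶜ W) (c : ⁅Y, Y ⊓ φ.ker⁆ ≤ W) : ∃ c ∈ Y ⊓ C(V), φ c ≠ 1 := by
  obtain ⟨P, PY, hP, P1, inj, g, gY, gN, hg, og⟩ := good hL hY oW c
  obtain ⟨n, hn⟩ : ∃ n, cm m 1 = n + 1 := ⟨_, (Nat.sub_add_cancel (hL.one 1).le).symm⟩
  have pV' : PiGrp (cl m 1) V := pV.of_p hp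
  have : P ≤ C(V) := NL (m := n) hV (PY.trans nV) (nV gY) gN (fun i i0 i1 f hf e => inj f hf
      (hL.comm (i := 1) (j := 0) (by decide) (u := φ g ^ i) ((cle' og.dvd).pow' i)
        (cle ((hP.elt hf).of_dvd (orderOf_map_dvd _ _)) two_cm) (by simpa using congrArg φ e)
        (pow_ne_one_of_lt_orderOf i0.ne' (og ▸ hn ▸ i1))))
    (hP.coprime (pV'.p' fun c => absurd (cls_eq Nat.prime_two two_cm c) (by decide))) fun v hv => by
      rw [← hn, h.pw hg]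
      exact h.pw ((pV'.sup_norm' hg.zpowers (zpowers_le.2 (nV gY))).elt (mul_mem_sup' hv (mem_zpowers g)))
  obtain ⟨c, hc, c1⟩ := exists_mem_ne_one' P1
  exact ⟨c, ⟨PY hc, this hc⟩, fun e => c1 (inj c hc e)⟩

theorem N2 (h : Ok m G) (hL : SzD m L) (hY : Y.map φ = ⊤) (hV : Abel V) (pV : PiGrp {2} V)
    (nV : Y ≤ N(V)) : ∃ c ∈ Y ⊓ C(V), φ c ≠ 1 := by
  classical
  obtain ⟨t, l, ht, tl, l0, a, x, a1, pa, ox, hx, mx⟩ := hL.f2
  have t2 : t ≠ 2 := cne ht tl two_cm l0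
  have px : PiElt {2} x := by
    rw [PiElt, ox]; exact piNat_pow_self Nat.prime_two 2
  obtain ⟨P, PY, hP, e, g, gY, gN, hg, rfl⟩ := lift φ hY ht pa.zpowers hx px
  have g4 : g ^ 4 = 1 := h.pw (cle hg two_cm)
  have pw : ∀ y ∈ P, y ^ orderOf a = 1 := fun y hy => by
    obtain ⟨k, hk⟩ := (hP.elt hy).eq_pow (orderOf_pos y).ne'
    exact orderOf_dvd_iff_pow_eq_one.1 (hk ▸ mx k (hk ▸ h.over dvd_rfl (cle (hP.elt hy) tl)))
  obtain ⟨j, hj⟩ : ∃ j : ℕ, (φ g * a * (φ g)⁻¹) ^ j = a := by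
    have h1 : zpowers (φ g * a * (φ g)⁻¹) = zpowers a := by rw [← cj_zpowers, cj_eq_self hx]
    obtain ⟨j, hj⟩ := (mem_zpowers_iff_mem_range_orderOf).1 (h1 ▸ mem_zpowers a)
      |> Finset.mem_image.1
    exact ⟨j, hj.2⟩
  let S := {y : G // y ∈ P ∧ φ y = a}
  let σ : S → S := fun y => ⟨(g * y * g⁻¹) ^ j, pow_mem (conj_mem_N gN y.2.1) j, by
    rw [map_pow, map_mul, map_mul, map_inv, y.2.2, hj]⟩
  have hσ : ∀ k, ∀ y : S, ((σ^[k] y : S) : G) = (g ^ k * y * (g ^ k)⁻¹) ^ j ^ k := fun k y => by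
    induction k with
    | zero => simp
    | succ k ih =>
      rw [Function.iterate_succ_apply']
      show (g * ((σ^[k] y : S) : G) * g⁻¹) ^ j = _
      rw [ih, ← conj_pow, ← pow_mul, ← pow_succ, pow_succ' g]
      congr 1; group
  have h4 : σ^[4] = id := funext fun y => Subtype.ext (by
    have e1 := hσ 4 y
    rw [g4, one_mul, inv_one, mul_one] at e1
    have e2 := (σ^[4] y).2.2
    rw [e1, map_pow, y.2.2] at e2
    have e3 : j ^ 4 ≡ 1 [MOD orderOf a] := by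
      rw [← pow_eq_pow_iff_modEq, e2, pow_one]
    rw [e1, pow_eq_pow_mod _ (pw _ y.2.1), e3, ← pow_eq_pow_mod _ (pw _ y.2.1)]; simp)
  have cS : Nat.card S = Nat.card ↥(P ⊓ φ.ker) := by
    obtain ⟨y0, hy0, e0⟩ : a ∈ P.map φ := e ▸ mem_zpowers a
    exact Nat.card_congr ⟨fun y => ⟨y0⁻¹ * y, P.mul_mem (P.inv_mem hy0) y.2.1, by
        simp [MonoidHom.mem_ker, e0, y.2.2]⟩,
      fun z => ⟨y0 * z, P.mul_mem hy0 z.2.1, by rw [map_mul, e0, z.2.2, mul_one]⟩,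
      fun y => by simp, fun z => by simp⟩
  have := Fintype.ofFinite S
  have : Fact (Nat.Prime 2) := ⟨Nat.prime_two⟩
  let τ : Equiv.Perm S := ⟨σ, σ^[3], fun y => congrFun h4 y, fun y => by
    rw [← Function.iterate_succ_apply' σ 3 y]; exact congrFun h4 y⟩
  obtain ⟨y, hy⟩ := Equiv.Perm.exists_fixed_point_of_prime (p := 2) (n := 2) (σ := τ) (by
    rw [← Nat.card_eq_fintype_card, cS]
    exact (hP.inf_left (B := φ.ker)).not_dvd Nat.prime_two (by simpa using t2.symm)) (by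
      ext1 y; rw [Equiv.Perm.coe_pow]; exact congrFun h4 y)
  have hy : (g * y * g⁻¹) ^ j = y := congrArg Subtype.val hy
  have gy : g ∈ N(zpowers (y : G)) := by
    rw [mem_N_iff_cj, cj_zpowers]
    refine (eq_of_card_eq (zpowers_le.2 (mem_zpowers_iff.2 ⟨j, by rw [zpow_natCast, hy]⟩)) ?_).symm
    rw [card_zpowers', card_zpowers', orderOf_conj]
  have : zpowers (y : G) ≤ C(V) := NL (m := 3) hV ((zpowers_le.2 (PY y.2.1)).trans nV) (nV gY) gy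
    (fun i i0 i1 f hf e => by
      have f1 : φ f = 1 := hL.comm l0.symm (u := φ g ^ i) (cle (px.pow' i) two_cm)
        (cle ((hP.elt (zpowers_le.2 y.2.1 hf)).of_dvd (orderOf_map_dvd _ _)) tl) (by simpa using congrArg φ e)
        (pow_ne_one_of_lt_orderOf i0.ne' (ox ▸ i1))
      obtain ⟨n, rfl⟩ := (mem_powers_iff_mem_zpowers).2 hf
      rw [map_pow, y.2.2] at f1
      obtain ⟨d, rfl⟩ := orderOf_dvd_of_pow_eq_one f1
      show (y : G) ^ _ = 1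
      rw [pow_mul, pw _ y.2.1, one_pow])
    ((hP.elt y.2.1).zpowers.coprime (pV.p'_of_ne t2.symm)) fun v hv => by
      rw [g4]
      exact h.pw (cle ((pV.sup_norm' hg.zpowers (zpowers_le.2 (nV gY))).elt (mul_mem_sup' hv (mem_zpowers g))) two_cm)
  exact ⟨y, ⟨PY y.2.1, this (mem_zpowers _)⟩, fun c => a1 (y.2.2.symm.trans c)⟩

theorem F2 (hL : SzD m L) (hY : Y.map φ = ⊤) (hU : Abel U) (nU : Y ≤ N(U)) {x : G} (hx : x ∈ Y)
    (ox : orderOf x = 2) (x1 : φ x ≠ 1) (h0 : U ⊓ C1(x) = ⊥) : (Y ⊓ C(U)).map φ = ⊤ := by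
  have x2 : x * x = 1 := by rw [← pow_two, ← ox, pow_orderOf_eq_one]
  have xi : x⁻¹ = x := inv_eq_of_mul_eq_one_right x2
  have inv : ∀ u ∈ U, x * u * x⁻¹ = u⁻¹ := fun u hu => by
    have h1 := conj_mem nU hx hu
    refine (inv_eq_of_mul_eq_one_right (eq_one_of_eq_bot h0 ⟨U.mul_mem hu h1, mem_C1.2 ?_⟩)).symm
    calc _ = x * u * x⁻¹ * u * x := by rw [comm_of_cent hU hu h1]
      _ = x * u * (x * u * x⁻¹) := by rw [xi]; group
      _ = _ := by group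
  have : ∃ c ∈ Y ⊓ C(U), φ c ≠ 1 := by
    by_contra c
    push Not at c
    refine x1 (hL.center fun g => ?_)
    obtain ⟨y, hy, rfl⟩ : g ∈ Y.map φ := hY ▸ mem_top g
    have := c (y * x * y⁻¹ * x⁻¹) ⟨Y.mul_mem (Y.mul_mem (Y.mul_mem hy hx) (Y.inv_mem hy)) (Y.inv_mem hx),
      mem_C.2 fun u hu => by
        have h1 := inv _ (conj_mem' nU hy (conj_mem' nU hx hu))
        have h2 := inv _ (conj_mem' nU hx hu)
        calc _ = (y * (y⁻¹ * (x * (x⁻¹ * u * x) * x⁻¹)⁻¹ * y)⁻¹ * y⁻¹) * (y * x * y⁻¹ * x⁻¹) := by group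
          _ = (y * (x * (y⁻¹ * (x⁻¹ * u * x) * y) * x⁻¹)⁻¹⁻¹ * y⁻¹) * (y * x * y⁻¹ * x⁻¹) := by
            rw [h1, h2]; group
          _ = _ := by group⟩
    rw [map_mul, map_mul, map_mul, map_inv, map_inv, mul_inv_eq_one, mul_inv_eq_iff_eq_mul] at this
    exact this
  obtain ⟨c, hc, c1⟩ := this
  exact hL.top φ hY (nml_cent nU).norm hc c1

theorem inv_ex (hL : SzD m L) (hY : Y.map φ = ⊤) (oW : PiGrp {2}ᶜ W) (c : ⁅Y, Y ⊓ φ.ker⁆ ≤ W) :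
    ∃ x ∈ Y, orderOf x = 2 ∧ φ x ≠ 1 := by
  obtain ⟨P, PY, hP, P1, inj, -⟩ := good hL hY oW c
  obtain ⟨x, hx, ox⟩ := cauchy Nat.prime_two (hP.dvd_card P1)
  exact ⟨x, PY hx, ox, fun e => by rw [inj x hx e] at ox; simp at ox⟩

theorem F1 (hL : SzD m L) (hY : Y.map φ = ⊤) (oW : PiGrp (RR m) W) (c : ⁅Y, Y ⊓ φ.ker⁆ ≤ W)
    (k : ∀ y ∈ Y, φ y = 1 → PiElt (cl m 1) y → y = 1) (hp : p ∈ RR m)
    (pU : PiGrp {p} U) (U1 : U ≠ ⊥) (nU : Y ≤ N(U)) :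
    ∃ x ∈ Y, (orderOf x).Prime ∧ orderOf x ∣ cm m 1 ∧ U ⊓ C1(x) ≠ ⊥ := by
  have pp := pU.prime U1
  obtain ⟨P, PY, hP, P1, inj, g, gY, gN, hg, og⟩ := good hL hY
    (oW.p' (not_rr Nat.prime_two two_cm (.inl rfl))) c
  obtain ⟨g', h1, pg⟩ := exists_prime_order (H := zpowers g) fun e => (hL.one 1).ne (by
    rw [← og, zpowers_eq_bot.1 e, map_one, orderOf_one])
  have hg' := hg.of_mem_zpowers h1
  have dg : orderOf g' ∣ cm m 1 := hg' _ pg dvd_rfl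
  by_cases h0 : U ⊓ C1(g') = ⊥
  · have gY' := zpowers_le.2 gY h1
    have : P ≤ C(U) := H9.Tri.fr pU (hP.p'_of_ne fun e => not_rr pp (e ▸ two_cm) (.inl rfl) hp)
      (hg'.zpowers.p' fun e => not_rr pp e (.inr rfl) hp)
      (zpowers_le.2 (zpowers_le.2 gN h1)) (fun z hz z1 => eq_bot_iff.2 fun f hf => mem_bot.2 (inj f hf.1
        (hL.comm (i := 1) (j := 0) (by decide) (u := φ z)
          ((hg'.of_mem_zpowers hz).of_dvd (orderOf_map_dvd _ _))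
          (cle ((hP.elt hf.1).of_dvd (orderOf_map_dvd _ _)) two_cm)
          (by simpa using congrArg φ (mem_C1.1 hf.2).symm)
          fun c => z1 (k z (zpowers_le.2 gY' hz) c (hg'.of_mem_zpowers hz)))))
      (PY.trans nU) (zpowers_le.2 (nU gY')) (by rwa [C_zpowers])
    obtain ⟨c, hc, c1⟩ := exists_mem_ne_one' P1
    obtain ⟨z, hz, oz⟩ := ex_ord φ (hL.top φ hY (nml_cent nU).norm (c := c) ⟨PY hc, this hc⟩
      fun e => c1 (inj c hc e)) pg (hL.exp dg)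
    exact ⟨z, hz.1, oz ▸ pg, oz ▸ dg, by rwa [inf_eq_left.2 (le_C1_iff.2 hz.2)]⟩
  · exact ⟨g', zpowers_le.2 gY h1, pg, dg, h0⟩

theorem F3 (hL : SzD m L) (hY : Y.map φ = ⊤) (nW : W ⊴ Y) (WK : W ≤ φ.ker) (oW : PiGrp (RR m) W)
    (c : ⁅Y, Y ⊓ φ.ker⁆ ≤ W) (k : ∀ y ∈ Y, φ y = 1 → PiElt (cl m 1) y → y = 1) (hp : p.Prime)
    (d : p ∣ Nat.card W) (hi : i = 0 ∨ i = 1) :
    ∃ x ∈ Y, ∃ u ∈ Y, (orderOf x).Prime ∧ orderOf x ∣ cm m i ∧ orderOf u = p ∧ u * x = x * u := by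
  obtain ⟨P, hP⟩ := exists_sylow hp W
  have e := frattini_arg hp nW hP
  have hY1 : (Y ⊓ N(P)).map φ = ⊤ := by
    rw [← hY]
    nth_rewrite 2 [← e]
    rw [Subgroup.map_sup, (Subgroup.map_eq_bot_iff _).2 WK, bot_sup_eq]
  have c1 : ⁅Y ⊓ N(P), Y ⊓ N(P) ⊓ φ.ker⁆ ≤ W :=
    (commutator_mono inf_le_left (inf_le_inf_right _ inf_le_left)).trans c
  have Z1 : Z(P) ≠ ⊥ := hP.pi.nil.Z_ne_bot (hP.ne_bot_p hp d)
  have pZ : PiGrp {p} Z(P) := hP.pi.inf_left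
  have nZ : Y ⊓ N(P) ≤ N(Z(P)) := norm_Z inf_le_right
  obtain ⟨x, hx, px, ox, h0⟩ : ∃ x ∈ Y ⊓ N(P), (orderOf x).Prime ∧ orderOf x ∣ cm m i ∧ Z(P) ⊓ C1(x) ≠ ⊥ := by
    rcases hi with rfl | rfl
    · obtain ⟨x, hx, ox, x1⟩ := inv_ex hL hY1 (oW.p' (not_rr Nat.prime_two two_cm (.inl rfl))) c1
      by_cases h0 : Z(P) ⊓ C1(x) = ⊥
      · obtain ⟨z, hz, oz⟩ := ex_ord φ (F2 hL hY1 abel_Z nZ hx ox x1 h0) Nat.prime_two (hL.exp two_cm)
        exact ⟨z, hz.1, oz ▸ Nat.prime_two, oz ▸ two_cm, by rwa [inf_eq_left.2 (le_C1_iff.2 hz.2)]⟩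
      · exact ⟨x, hx, ox ▸ Nat.prime_two, ox ▸ two_cm, h0⟩
    · exact F1 hL hY1 oW c1 (fun y hy => k y hy.1) (oW p hp d) pZ Z1 nZ
  obtain ⟨u, hu, ou⟩ := ex_p pZ h0
  exact ⟨x, hx.1, u, nW.le (hP.le hu.1.1), px, ox, ou, mem_C1.1 hu.2⟩

end H4.Sq
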