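import Cfsg.Agent.H4.Sq2

/-! Direct squares of Suzuki groups, part 3: perfect solvable-by-`Sz(q)` groups (`LB`) and the data for `Sz(q)`. -/
set_option autoImplicit false
set_option linter.unusedSectionVars false
universe u v
namespace H4.Sq
open Cfsg H18 H1 H13 Subgroup
open H28.SS (ex_ord ex_p ql ql_ker ql_card ql_surj ql_solv ql_lt)
open scoped commutatorElement

variable {m : ℕ} {L : Type*} [Group L] [Finite L]

theorem LB (hL : SzD m L) (n : ℕ) : ∀ (X : Type u) [Group X] [Finite X] (φ : X →* L),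
    Nat.card φ.ker = n → Ok m X → Function.Surjective φ → commutator X = ⊤ → Solv φ.ker →
    ∃ W : Subgroup X, W.Normal ∧ W ≤ φ.ker ∧ PiGrp (RR m) W ∧ ⁅(⊤ : Subgroup X), φ.ker⁆ ≤ W := by
  induction' n using Nat.strong_induction_on with n ih
  intro X _ _ φ e h hs hp so
  have q : ∀ V : Subgroup X, V.Normal → V ≠ ⊥ → V ≤ φ.ker → ∃ W : Subgroup X, W.Normal ∧ V ≤ W ∧ W ≤ φ.ker ∧
      PiNat (RR m) (V.relIndex W) ∧ ⁅(⊤ : Subgroup X), φ.ker⁆ ≤ W := fun V _ V1 hV => by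
    have sj := QuotientGroup.mk'_surjective V
    obtain ⟨W, nW, a, b, c⟩ := ih _ (e ▸ ql_lt (h := hV) V1) _ _ rfl (h.surj _ sj) (ql_surj hs) (by
      rw [_root_.commutator_def, ← map_top_of_surjective _ sj, ← map_commutator, ← _root_.commutator_def, hp]) (ql_solv so)
    rw [ql_ker] at a c
    refine ⟨W.comap (QuotientGroup.mk' V), inferInstance, fun x hx => ?_, ?_, ?_, ?_⟩
    · rw [mem_comap, QuotientGroup.mk'_apply, (QuotientGroup.eq_one_iff _).2 hx]; exact one_mem _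
    · refine (comap_mono a).trans ?_
      rw [comap_map_eq, QuotientGroup.ker_mk']; exact sup_le le_rfl hV
    · nth_rewrite 1 [← QuotientGroup.ker_mk' V]
      rwa [relIndex_ker, map_comap_eq_self_of_surjective sj]
    · rw [← map_le_iff_le_comap, map_commutator, map_top_of_surjective _ sj]; exact c
  by_cases h0 : O[RR m](φ.ker) = ⊥
  swap
  · obtain ⟨W, nW, a, b, c, d⟩ := q _ (norm_top_iff.1 (norm_pcore norm_of_normal)) h0 pcore_le
    exact ⟨W, nW, b, piGrp_of_relIndex a pcore_pi c, d⟩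
  suffices k : ⁅(⊤ : Subgroup X), φ.ker⁆ = ⊥ from ⟨⊥, inferInstance, bot_le, PiGrp.bot, k.le⟩
  by_cases k1 : φ.ker = ⊥
  · rw [k1, commutator_bot_right]
  obtain ⟨p, V, pp, eV, V1, nV, nV'⟩ := exists_elem_nml so k1 (A := ⊤) norm_of_normal
  obtain ⟨W, nW, VW, WK, hq, cW⟩ := q V (norm_top_iff.1 nV') V1 nV.le
  have pV := eV.pi' pp
  have pR : p ∉ RR m := fun c => V1 (le_bot_iff.1 (h0 ▸ le_pcore nV (pV.of_p c)))
  have tp := map_top_of_surjective _ hs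
  obtain ⟨c, hc, c1⟩ : ∃ c ∈ ⊤ ⊓ C(V), φ c ≠ 1 := by
    obtain ⟨v, -, ov⟩ := cauchy pp (pV.dvd_card V1)
    obtain ⟨i, hi⟩ := h.cls pp ov.symm.dvd
    fin_cases i
    · obtain rfl := (Nat.prime_dvd_prime_iff_eq pp Nat.prime_two).1 (pp.dvd_of_dvd_pow (n := 2) hi)
      exact N2 h hL tp eV.abel pV nV'
    · exact N1 h hL tp eV.abel pV hi nV' (piGrp_of_relIndex VW (pV.p'_of_ne (cne (j := 0) pp hi two_cm (by decide)))
        (hq.p' (not_rr Nat.prime_two two_cm (.inl rfl)))) (by rwa [top_inf_eq])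
    · exact absurd (.inl hi) pR
    · exact absurd (.inr hi) pR
  have t := hL.top φ tp (nml_cent nV').norm hc c1
  rw [top_inf_eq] at t
  have : C(V).Normal := norm_top_iff.1 (norm_C nV')
  have c : C(V) = ⊤ := by
    have hsolv : Group.IsSolvable (X ⧸ C(V)) :=
      Group.isSolvable_of_surjective (f := (QuotientGroup.mk' C(V)).comp φ.ker.subtype) fun x => by
        obtain ⟨x, rfl⟩ := QuotientGroup.mk'_surjective _ x
        obtain ⟨d, hd, e⟩ : φ x ∈ C(V).map φ := t ▸ mem_top _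
        exact ⟨⟨d⁻¹ * x, by simp [MonoidHom.mem_ker, e]⟩, by
          simp [(QuotientGroup.eq_one_iff _).2 hd]⟩
    by_contra c
    have : Nontrivial (X ⧸ C(V)) := QuotientGroup.nontrivial_iff.2 c
    refine (Group.IsSolvable.commutator_lt_top_of_nontrivial (X ⧸ C(V))).ne ?_
    rw [_root_.commutator_def, ← map_top_of_surjective _ (QuotientGroup.mk'_surjective C(V)), ← map_commutator,
      ← _root_.commutator_def, hp]
  obtain ⟨D, hD⟩ := exists_sd (K := V) (L := W) ⟨VW, le_top.trans nV'⟩ (pV.coprime (hq.p' pR))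
  have D0 : D = ⊥ := le_bot_iff.1 (h0 ▸ (le_pcore ⟨hD.sup ▸ le_sup_right, hD.sup ▸ sup_le
    (cent_norm (cent_symm (c ▸ le_top))) le_N⟩ (by rw [PiGrp, ← hD.relIndex]; exact hq)).trans
    (Nml.pcore_le_pcore ⟨WK, norm_of_normal⟩))
  have kV : W = V := by rw [← hD.sup, D0, sup_bot_eq]
  have z : ⁅⁅(⊤ : Subgroup X), φ.ker⁆, (⊤ : Subgroup X)⁆ = ⊥ :=
    comm_eq_bot_iff.2 ((kV ▸ cW).trans (cent_symm c.ge))
  have := three_subgroup (A := ⊤) (B := ⊤) z (by rwa [commutator_comm φ.ker])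
  rwa [← _root_.commutator_def, hp] at this

section
variable {G : Type*} [Group G] [Finite G] {φ : G →* L} {Y U W : Subgroup G} {p : ℕ} {i : Fin 4}

theorem F1' (h : Ok m G) (hL : SzD m L) (hY : Y.map φ = ⊤) (oW : PiGrp (RR m) W) (c : ⁅Y, Y ⊓ φ.ker⁆ ≤ W)
    (hp : p ∈ RR m)
    (pU : PiGrp {p} U) (U1 : U ≠ ⊥) (nU : Y ≤ N(U)) :
    ∃ x ∈ Y, (orderOf x).Prime ∧ orderOf x ∣ cm m 1 ∧ U ⊓ C1(x) ≠ ⊥ := by
  have pp := pU.prime U1
  obtain ⟨P, PY, hP, P1, inj, g, gY, gN, hg, og⟩ := good hL hY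
    (oW.p' (not_rr Nat.prime_two two_cm (.inl rfl))) c
  obtain ⟨g', h1, pg⟩ := exists_prime_order (H := zpowers g) fun e => (hL.one 1).ne (by
    rw [← og, zpowers_eq_bot.1 e, map_one, orderOf_one])
  have hg' := hg.of_mem_zpowers h1
  have dg : orderOf g' ∣ cm m 1 := hg' _ pg dvd_rfl
  have k : ∀ z ∈ zpowers g, φ z = 1 → z = 1 := fun z hz e => by
    obtain ⟨n, rfl⟩ := (mem_powers_iff_mem_zpowers).2 hz
    rw [map_pow] at e
    obtain ⟨d, rfl⟩ := og ▸ orderOf_dvd_of_pow_eq_one e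
    show g ^ _ = 1
    rw [pow_mul, h.pw hg, one_pow]
  by_cases h0 : U ⊓ C1(g') = ⊥
  · have gY' := zpowers_le.2 gY h1
    have : P ≤ C(U) := H9.Tri.fr pU (hP.p'_of_ne fun e => not_rr pp (e ▸ two_cm) (.inl rfl) hp)
      (hg'.zpowers.p' fun e => not_rr pp e (.inr rfl) hp)
      (zpowers_le.2 (zpowers_le.2 gN h1)) (fun z hz z1 => eq_bot_iff.2 fun f hf => mem_bot.2 (inj f hf.1
        (hL.comm (i := 1) (j := 0) (by decide) (u := φ z)
          ((hg'.of_mem_zpowers hz).of_dvd (orderOf_map_dvd _ _))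
          (cle ((hP.elt hf.1).of_dvd (orderOf_map_dvd _ _)) two_cm)
          (by simpa using congrArg φ (mem_C1.1 hf.2).symm)
          fun c => z1 (k z (zpowers_le.2 h1 hz) c))))
      (PY.trans nU) (zpowers_le.2 (nU gY')) (by rwa [C_zpowers])
    obtain ⟨c, hc, c1⟩ := exists_mem_ne_one' P1
    obtain ⟨z, hz, oz⟩ := ex_ord φ (hL.top φ hY (nml_cent nU).norm (c := c) ⟨PY hc, this hc⟩
      fun e => c1 (inj c hc e)) pg (hL.exp dg)
    exact ⟨z, hz.1, oz ▸ pg, oz ▸ dg, by rwa [inf_eq_left.2 (le_C1_iff.2 hz.2)]⟩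
  · exact ⟨g', zpowers_le.2 gY h1, pg, dg, h0⟩

theorem F3' (h : Ok m G) (hL : SzD m L) (hY : Y.map φ = ⊤) (nW : W ⊴ Y) (WK : W ≤ φ.ker) (oW : PiGrp (RR m) W)
    (c : ⁅Y, Y ⊓ φ.ker⁆ ≤ W) (hp : p.Prime)
    (d : p ∣ Nat.card W) (hi : i = 0 ∨ i = 1) :
    ∃ x ∈ Y, ∃ u ∈ Y, (orderOf x).Prime ∧ orderOf x ∣ cm m i ∧ orderOf u = p ∧ u * x = x * u := by
  obtain ⟨P, hP⟩ := exists_sylow hp W
  have e := frattini_arg hp nW hP
  have hY1 : (Y ⊓ N(P)).map φ = ⊤ := by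
    rw [← hY]
    nth_rewrite 2 [← e]
    rw [Subgroup.map_sup, (Subgroup.map_eq_bot_iff _).2 WK, bot_sup_eq]
  have c1 : ⁅Y ⊓ N(P), Y ⊓ N(P) ⊓ φ.ker⁆ ≤ W :=
    (commutator_mono inf_le_left (inf_le_inf_right _ inf_le_left)).trans c
  have Z1 : Z(P) ≠ ⊥ := hP.pi.nil.Z_ne_bot (hP.ne_bot_p hp d)
  have pZ : PiGrp {p} Z(P) := hP.pi.inf_left
  have nZ : Y ⊓ N(P) ≤ N(Z(P)) := norm_Z inf_le_right
  obtain ⟨x, hx, px, ox, h0⟩ : ∃ x ∈ Y ⊓ N(P), (orderOf x).Prime ∧ orderOf x ∣ cm m i ∧ Z(P) ⊓ C1(x) ≠ ⊥ := by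
    rcases hi with rfl | rfl
    · obtain ⟨x, hx, ox, x1⟩ := inv_ex hL hY1 (oW.p' (not_rr Nat.prime_two two_cm (.inl rfl))) c1
      by_cases h0 : Z(P) ⊓ C1(x) = ⊥
      · obtain ⟨z, hz, oz⟩ := ex_ord φ (F2 hL hY1 abel_Z nZ hx ox x1 h0) Nat.prime_two (hL.exp two_cm)
        exact ⟨z, hz.1, oz ▸ Nat.prime_two, oz ▸ two_cm, by rwa [inf_eq_left.2 (le_C1_iff.2 hz.2)]⟩
      · exact ⟨x, hx, ox ▸ Nat.prime_two, ox ▸ two_cm, h0⟩
    · exact F1' h hL hY1 oW c1 (oW p hp d) pZ Z1 nZ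
  obtain ⟨u, hu, ou⟩ := ex_p pZ h0
  exact ⟨x, hx.1, u, nW.le (hP.le hu.1.1), px, ox, ou, mem_C1.1 hu.2⟩

end

section
open H13.Sz
variable {F : Type} [Field F] [Fintype F] [hF : IsSz F m]

theorem one_lt_cm (hm : 1 ≤ m) (i : Fin 4) : 1 < cm m i := by
  have a : 2 ^ (m + 1) < 2 ^ (2 * m + 1) := Nat.pow_lt_pow_right one_lt_two (by omega)
  have b : 2 ^ 2 ≤ 2 ^ (m + 1) := Nat.pow_le_pow_right two_pos (by omega)
  fin_cases i
  · exact (by decide : 1 < 4)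
  · show 1 < 2 ^ (2 * m + 1) - 1; omega
  · show 1 < 2 ^ (2 * m + 1) + 2 ^ (m + 1) + 1; omega
  · show 1 < 2 ^ (2 * m + 1) - 2 ^ (m + 1) + 1; omega

theorem szD : SzD m (Cfsg.Sz F m) := by
  refine ⟨inferInstance, ord_dvd, ord_ex, one_lt_cm hF.hm, ⟨U F m, piGrp_of_isPGroup Nat.prime_two isPGroup_U,
    fun e => ?_, fun y hy => ?_, ?_⟩, ?_⟩
  · have : u m (0 : F) 1 ∈ Z(U F m) := ⟨u_mem_U _ _, mem_C.2 fun g hg => congrArg Subtype.val
      (mem_center_iff.1 ((mem_center_U (x := ⟨_, u_mem_U 0 1⟩)).2 ⟨1, rfl⟩) ⟨g, hg⟩)⟩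
    have o := orderOf_u_zero (F := F) (m := m) one_ne_zero
    rw [e, mem_bot] at this
    rw [this] at o
    simp at o
  · obtain ⟨b, hb⟩ := (mem_center_U (x := ⟨y, hy.1⟩)).1
      (mem_center_iff.2 fun g => Subtype.ext (mem_C.1 hy.2 g g.2))
    obtain rfl : y = u m 0 b := hb
    obtain ⟨a, rfl⟩ := mul_th_surjective (F := F) (m := m) b
    exact ⟨by simp only; rw [mul_comm, ← u_sq a 0, ← pow_mul, u_pow_four], u m a 0, u_mem_U _ _, by rw [u_sq, mul_comm]⟩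
  · obtain ⟨x, hx⟩ := IsCyclic.exists_ofOrder_eq_natCard (α := H F m)
    exact ⟨x, normalizer_U (F := F) (m := m) ▸ H_le_B x.2, by rw [orderOf_coe, hx, card_H, hF.card, cm1]⟩
  · obtain ⟨z, -, hz, -, cz, -⟩ := exists_tori (F := F) (m := m)
    obtain ⟨c, hc, c4, c2⟩ := hz.exists_order_four
    have := hz.tor.isCyclic
    obtain ⟨a, ha⟩ := IsCyclic.exists_ofOrder_eq_natCard (α := C1(z))
    have oa : orderOf (a : Cfsg.Sz F m) = cm m 2 := by rw [orderOf_coe, ha, cz, hF.card, cm2]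
    have ea : zpowers (a : Cfsg.Sz F m) = C1(z) :=
      eq_of_card_eq (zpowers_le.2 a.2) (by rw [card_zpowers', orderOf_coe, ha])
    have c0 := one_lt_cm hF.hm 2
    obtain ⟨t, ht, d⟩ := Nat.exists_prime_and_dvd c0.ne'
    have ob := orderOf_pow_orderOf_div (x := (a : Cfsg.Sz F m)) (n := ordProj[t] (cm m 2)) (orderOf_pos _).ne'
      (by rw [oa]; exact Nat.ordProj_dvd (cm m 2) t)
    have kk : ∀ k, t ^ k ∣ cm m 2 → t ^ k ∣ ordProj[t] (cm m 2) := fun k h =>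
      pow_dvd_pow _ ((ht.pow_dvd_iff_le_factorization (by omega)).1 h)
    have := Fact.mk Nat.prime_two
    refine ⟨t, 2, ht, d, by decide, a.1 ^ (orderOf a.1 / ordProj[t] (cm m 2)), c, fun e => ?_, ?_,
      orderOf_eq_prime_pow (p := 2) (n := 1) (by simpa [sq] using c2) c4, mem_N_of_finite ?_, by rw [ob]; exact kk⟩
    · have := kk 1 (by simpa using d)
      rw [← ob, e, orderOf_one, pow_one, Nat.dvd_one] at this
      exact ht.ne_one this
    · rw [PiElt, ob]; exact piNat_pow_self ht _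
    · rintro _ ⟨k, rfl⟩
      obtain ⟨j, hj⟩ : c * a * c⁻¹ ∈ zpowers (a : Cfsg.Sz F m) := by
        rw [ea]; exact conj_mem_N hc a.2
      refine ⟨j * k, ?_⟩
      simp only at hj ⊢
      rw [← conj_zpow, ← conj_pow, ← hj, ← zpow_natCast, ← zpow_natCast, ← zpow_mul, ← zpow_mul, ← zpow_mul]
      congr 1; ring
end

end H4.Sq
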