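import Cfsg.Agent.H4.Sq3

/-! Direct squares of Suzuki groups, part 4: a solvable kernel below `Sz(q)` meets at most two classes (`pA`). -/
set_option autoImplicit false
set_option linter.unusedSectionVars false
universe u
namespace H4.Sq
open Cfsg H18 H1 H13 Subgroup
open H28.SS (ex_ord ex_p split pie)
open scoped commutatorElement

variable {m : ℕ} {L : Type*} [Group L] [Finite L] {G : Type u} [Group G] [Finite G]

structure K1D (m : ℕ) (φ : G →* L) (M W : Subgroup G) : Prop where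
  hL : SzD m L
  ok : Ok m G
  so : Solv φ.ker
  nM : M.Normal
  nW : W.Normal
  top : M.map φ = ⊤
  mn : ∀ D : Subgroup G, D.Normal → D.map φ = ⊤ → D ≤ M → D = M
  WM : W ≤ M
  WK : W ≤ φ.ker
  pW : PiGrp (RR m) W
  cm : ⁅M, φ.ker⁆ ≤ W

namespace K1D
variable {φ : G →* L} {M W : Subgroup G} (c : K1D m φ M W) {p q r s t : ℕ} {i j l : Fin 4}
include c

theorem cov {k : G} (hk : k ∈ φ.ker) (co : (orderOf k).Coprime (Nat.card W)) : (M ⊓ C1(k)).map φ = ⊤ := by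
  have := c.nW
  have cm : ∀ a ∈ M, a * k * a⁻¹ * k⁻¹ ∈ W := fun a ha => c.cm (commutator_mem_commutator ha hk)
  rw [eq_top_iff, ← c.top]
  rintro _ ⟨a, hm, rfl⟩
  obtain ⟨n, hn, h1⟩ := exists_mul_of_mem_normalizer_sup (A := zpowers k) (N := W) (g := a)
    norm_of_normal (by rwa [card_zpowers']) (.inl abel_zpowers.solv) (by
      rw [mem_N_iff_cj, cj_sup, cj_eq_self (norm_of_normal (mem_top a)), cj_zpowers]
      refine le_antisymm (sup_le le_sup_left (zpowers_le.2 ?_)) (sup_le le_sup_left (zpowers_le.2 ?_))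
      · have := mul_mem_sup' (cm a hm) (mem_zpowers k)
        rwa [inv_mul_cancel_right] at this
      · have := mul_mem_sup' (inv_mem (cm a hm)) (mem_zpowers (a * k * a⁻¹))
        rwa [show (a * k * a⁻¹ * k⁻¹)⁻¹ * (a * k * a⁻¹) = k by group] at this)
  have h2 : n * a ∈ M := M.mul_mem (c.WM hn) hm
  refine ⟨n * a, ⟨h2, mem_C1.2 ?_⟩, by rw [map_mul, c.WK hn, one_mul]⟩
  have := eq_one_of_eq_bot (inf_eq_bot_of_coprime' (A := zpowers k) (B := W) (by rwa [card_zpowers']))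
    ⟨(zpowers k).mul_mem (conj_mem_N h1 (mem_zpowers k)) ((zpowers k).inv_mem (mem_zpowers k)), cm _ h2⟩
  rwa [mul_inv_eq_one, mul_inv_eq_iff_eq_mul] at this

theorem adj {k : G} (hk : k ∈ φ.ker) (hp : p.Prime) (hq : q.Prime) (pi : p ∣ Sq.cm m i) (qj : q ∣ Sq.cm m j)
    (ij : i ≠ j) (ok : orderOf k = p * q) (h1 : ¬ p ∣ Nat.card W) (h2 : ¬ q ∣ Nat.card W) : False := by
  obtain ⟨l, a, b⟩ : ∃ l : Fin 4, l ≠ i ∧ l ≠ j := (by decide : ∀ i j : Fin 4, ∃ l : Fin 4, l ≠ i ∧ l ≠ j) i j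
  obtain ⟨r, hr, d⟩ := Nat.exists_prime_and_dvd (c.hL.one l).ne'
  obtain ⟨u, hu, ou⟩ := ex_ord φ (c.cov hk (ok ▸ Nat.Coprime.mul_left (hp.coprime_iff_not_dvd.2 h1)
    (hq.coprime_iff_not_dvd.2 h2))) hr (c.hL.exp d)
  exact c.ok.tc hr hp hq d pi qj a b ij ou (mem_C1.1 hu.2) (ok ▸ dvd_rfl)

theorem fp {k : G} (hk : k ∈ φ.ker) (hs : s.Prime) (hp : p.Prime) (pi : p ∣ Sq.cm m i) (sj : s ∣ Sq.cm m j)
    (ij : i ≠ j) (ok : orderOf k = s) (h1 : ¬ s ∣ Nat.card W) {u : G} (hu : u ∈ W)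
    (ou : orderOf u = p) (cu : u * k = k * u) : False := by
  have := c.nW
  have t := c.cov hk (ok ▸ hs.coprime_iff_not_dvd.2 h1)
  obtain ⟨i', pi', i0, i1⟩ := rr_cls (c.pW p hp (ou ▸ orderOf_dvd_card hu))
  obtain rfl := cls_eq hp pi pi'
  have d : p ∣ Nat.card ↥(M ⊓ C1(k) ⊓ W) := ou ▸ orderOf_dvd_card ⟨⟨c.WM hu, mem_C1.2 cu⟩, hu⟩
  obtain ⟨l, l1, l2, l3⟩ : ∃ l : Fin 4, (l = 0 ∨ l = 1) ∧ i ≠ l ∧ j ≠ l := by
    by_cases e : j = 0
    · exact ⟨1, .inr rfl, i1, e ▸ by decide⟩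
    · exact ⟨0, .inl rfl, i0, e⟩
  obtain ⟨x, hx, v, hv, px, ox, ov, e⟩ := F3' c.ok c.hL t (nml_inf_of_norm norm_of_normal)
    (inf_le_right.trans c.WK) c.pW.inf_right (le_inf (comm_le_left (inf_le_left.trans le_N))
      ((commutator_mono inf_le_left inf_le_right).trans c.cm)) hp d l1
  exact c.ok.t3 hp hs px pi sj ox ij l2 l3 ov ok rfl (mem_C1.1 hv.2) e (mem_C1.1 hx.2).symm

theorem fin (nE : Nil W) (hp : p.Prime) (hs : s.Prime) (ht : t.Prime) (pi : p ∣ Sq.cm m i) (sj : s ∣ Sq.cm m j)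
    (tl : t ∣ Sq.cm m l) (ij : i ≠ j) (il : i ≠ l) (jl : j ≠ l) (dp : p ∣ Nat.card W)
    (ds : s ∣ Nat.card φ.ker) (dt : t ∣ Nat.card φ.ker) (ns : ¬ s ∣ Nat.card W) (nt : ¬ t ∣ Nat.card W) :
    False := by
  have := c.nW
  have ps := cne hp pi sj ij
  have pt := cne hp pi tl il
  obtain ⟨H, hH⟩ := H2.hall_exists c.so {s, t}
  set V := O[{p}](W)
  have nV : H ≤ N(V) := norm_pcore norm_of_normal
  have VK : V ⊔ H ≤ φ.ker := sup_le (pcore_le.trans c.WK) hH.le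
  have pH : p ∉ ({s, t} : Set ℕ) := by simp [ps, pt]
  have hV : Hall {p} V (V ⊔ H) := hall_of_sup pcore_pi (hH.pi.p' pH) (.inr nV)
  have key : ∀ {r : ℕ} {j : Fin 4}, r.Prime → r ∣ Sq.cm m j → i ≠ j → ¬ r ∣ Nat.card W → ∀ g ∈ V ⊔ H,
      orderOf g = p * r → False := fun hr rj pr nr g hg og => by
    obtain ⟨a, ha, b, hb, oa, ob, e⟩ := split hp hr (cne hp pi rj pr) og
    exact c.fp (VK (zpowers_le.2 hg hb)) hr hp pi rj pr ob nr
      (pcore_le (hV.mem_of_nml (nml_sup_left nV).norm (zpowers_le.2 hg ha) (pie oa hp))) oa e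
  obtain ⟨g, hg, h | h | h⟩ := H28.SS.K1D.three (c.so.of_le VK) hp hs ht ps pt (cne hs sj tl jl)
    ((nE.pcore_hall.dvd_card_p hp dp).trans (card_dvd le_sup_left))
    ((hH.dvd_card hs (by simp) ds).trans (card_dvd le_sup_right))
    ((hH.dvd_card ht (by simp) dt).trans (card_dvd le_sup_right))
  exacts [key hs sj ij ns g hg h, key ht tl il nt g hg h, c.adj (VK hg) hs ht sj tl jl h ns nt]

theorem both (nE : Nil W) (hp : p.Prime) (hq : q.Prime) (pi : p ∣ Sq.cm m i) (qj : q ∣ Sq.cm m j) (ij : i ≠ j)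
    (d1 : p ∣ Nat.card W) (d2 : q ∣ Nat.card W) : False := by
  have := c.nW
  have := c.nM
  obtain ⟨x, hx, ox, x1⟩ := inv_ex c.hL c.top (c.pW.p' (not_rr Nat.prime_two two_cm (.inl rfl)))
    ((commutator_mono le_rfl inf_le_right).trans c.cm)
  have k : ∀ {q : ℕ}, q.Prime → q ∣ Nat.card W → ∃ u ∈ W, orderOf u = q ∧ u * x = x * u := fun {q} hq d => by
    have n : (⊤ : Subgroup G) ≤ N(O[{q}](Z(W))) := norm_pcore (norm_Z norm_of_normal)
    have Z1 := nE.pcore_Z_ne_bot hq d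
    obtain ⟨u, hu, ou⟩ := ex_p (D := C1(x)) pcore_pi fun h0 => Z1 (by
      have := norm_top_iff.1 (norm_C n)
      have := c.mn _ inferInstance (F2 c.hL c.top (abel_Z.mono pcore_le) (le_top.trans n) hx ox x1 h0) inf_le_left
      rwa [inf_eq_left.2 (le_C1_iff.2 (this.ge hx).2)] at h0)
    exact ⟨u, (pcore_le hu.1).1, ou, mem_C1.1 hu.2⟩
  obtain ⟨u, hu, ou, e1⟩ := k hp d1
  obtain ⟨v, hv, ov, e2⟩ := k hq d2
  have z : ∀ {q : ℕ} {j : Fin 4}, q.Prime → q ∣ Sq.cm m j → q ∣ Nat.card W → j ≠ 0 := fun hq a b e =>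
    not_rr hq a (.inl e) (c.pW _ hq b)
  exact c.ok.t3 hp hq Nat.prime_two pi qj two_cm ij (z hp pi d1) (z hq qj d2) ou ov ox
    (comm_of_cent (nE.cent_coprime (zpowers_le.2 hu) (zpowers_le.2 hv) (by
      rw [card_zpowers', card_zpowers', ou, ov]; exact (Nat.coprime_primes hp hq).2 (cne hp pi qj ij)))
      (mem_zpowers u) (mem_zpowers v)) e1 e2

theorem nil (hs : s.Prime) (sj : s ∣ Sq.cm m j) (h : j = 0 ∨ j = 1) (ds : s ∣ Nat.card φ.ker) : Nil W := by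
  have := c.nW
  obtain ⟨k, hk, ok⟩ := cauchy hs ds
  refine H23.thompson_prime (R := zpowers k) norm_of_normal (by rwa [card_zpowers', ok]) ?_
  by_contra h0
  obtain ⟨u, hu, pu⟩ := exists_prime_order h0
  obtain ⟨i, a, b, d⟩ := rr_cls (c.pW _ pu (orderOf_dvd_card hu.1))
  exact c.fp hk hs pu a sj (by omega) ok (c.pW.not_dvd hs (not_rr hs sj h)) hu.1 rfl
    (mem_C1.1 (C_zpowers (x := k) ▸ hu.2))

theorem false (hp : p.Prime) (hq : q.Prime) (hr : r.Prime) (pi : p ∣ Sq.cm m i) (qj : q ∣ Sq.cm m j)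
    (rl : r ∣ Sq.cm m l) (ij : i ≠ j) (il : i ≠ l) (jl : j ≠ l) (dp : p ∣ Nat.card φ.ker)
    (dq : q ∣ Nat.card φ.ker) (dr : r ∣ Nat.card φ.ker) : False := by
  by_cases E1 : W = ⊥
  · have n : ∀ {t : ℕ}, t.Prime → ¬ t ∣ Nat.card W := fun ht => by
      rw [E1, card_bot, Nat.dvd_one]; exact ht.ne_one
    obtain ⟨g, hg, h | h | h⟩ := H28.SS.K1D.three c.so hp hq hr (cne hp pi qj ij) (cne hp pi rl il)
      (cne hq qj rl jl) dp dq dr
    exacts [c.adj hg hp hq pi qj ij h (n hp) (n hq), c.adj hg hp hr pi rl il h (n hp) (n hr),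
      c.adj hg hq hr qj rl jl h (n hq) (n hr)]
  have nE : Nil W := by
    by_cases a : i = 0 ∨ i = 1
    · exact c.nil hp pi a dp
    by_cases b : j = 0 ∨ j = 1
    · exact c.nil hq qj b dq
    exact c.nil hr rl (by omega) dr
  obtain ⟨s, hs, ds⟩ := H18.exists_prime_dvd_card E1
  obtain ⟨a, sa, -⟩ := rr_cls (c.pW s hs ds)
  have n : ∀ {t : ℕ} {b : Fin 4}, t.Prime → t ∣ Sq.cm m b → a ≠ b → ¬ t ∣ Nat.card W := fun ht tb ab d =>
    c.both nE hs ht sa tb ab ds d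
  by_cases e1 : a = i
  · exact c.fin nE hs hq hr sa qj rl (e1 ▸ ij) (e1 ▸ il) jl ds dq dr (n hq qj (e1 ▸ ij)) (n hr rl (e1 ▸ il))
  by_cases e2 : a = j
  · exact c.fin nE hs hp hr sa pi rl e1 (e2 ▸ jl) il ds dp dr (n hp pi e1) (n hr rl (e2 ▸ jl))
  exact c.fin nE hs hp hq sa pi qj e1 e2 ij ds dp dq (n hp pi e1) (n hq qj e2)

end K1D

theorem k1d (hL : SzD m L) (h : Ok m G) (φ : G →* L) (hs : Function.Surjective φ) (so : Solv φ.ker) :
    ∃ M W, K1D m φ M W := by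
  obtain ⟨M, -, ⟨nM, t⟩, mn⟩ := exists_minimal_sub (fun M : Subgroup G => M.Normal ∧ M.map φ = ⊤)
    (A := ⊤) ⟨inferInstance, map_top_of_surjective _ hs⟩
  have pf : ⁅M, M⁆ = M := mn _ ⟨inferInstance, by rw [map_commutator, t, hL.perf]⟩ der_le
  have e : (φ.comp M.subtype).ker.map M.subtype = M ⊓ φ.ker := by
    rw [← MonoidHom.comap_ker, map_comap_eq, range_subtype]
  have e2 : (⊤ : Subgroup M).map M.subtype = M := by rw [← MonoidHom.range_eq_map, range_subtype]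
  obtain ⟨W, nW, a, b, c⟩ := LB hL _ M (φ.comp M.subtype) rfl (h.sub M) (fun x => by
      obtain ⟨y, hy, rfl⟩ : x ∈ M.map φ := t ▸ mem_top x
      exact ⟨⟨y, hy⟩, rfl⟩)
    (map_injective M.subtype_injective (by rw [map_subtype_commutator, pf, e2]))
    (solv_map_subtype.1 (e ▸ so.of_le inf_le_right))
  have c1 : ⁅M, M ⊓ φ.ker⁆ ≤ O[RR m](M ⊓ φ.ker) := by
    have := map_mono (f := M.subtype) c
    rw [map_commutator, e, e2] at this
    refine this.trans (le_pcore ⟨e ▸ map_mono a, inf_le_left.trans (H17.le_normalizer_map_subtype nW)⟩ ?_)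
    rwa [PiGrp, card_map_of_injective M.subtype_injective]
  set V := O[RR m](M ⊓ φ.ker)
  have nV : V.Normal := norm_top_iff.1 (norm_pcore norm_of_normal)
  refine ⟨M, V, hL, h, so, nM, nV, t, fun D a b d => mn D ⟨a, b⟩ d, pcore_le.trans inf_le_left,
    pcore_le.trans inf_le_right, pcore_pi, ?_⟩
  have k : ∀ A : Subgroup G, A ≤ V ↔ A.map (QuotientGroup.mk' V) = ⊥ := fun A => by
    rw [Subgroup.map_eq_bot_iff, QuotientGroup.ker_mk']
  have z : ⁅⁅M, φ.ker⁆, M⁆ ≤ V := by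
    rw [commutator_comm]
    exact (commutator_mono le_rfl (commutator_le_inf _ _)).trans c1
  rw [k, ← pf, map_commutator, map_commutator]
  rw [k, map_commutator, map_commutator] at z
  exact three_subgroup z (by rwa [commutator_comm (φ.ker.map _)])

theorem pA : PA.{u} := by
  intro F _ _ m _ G _ _ ok f hf so p q r i j k hp hq hr a b c ij ik jk d1 d2 d3
  obtain ⟨M, W, h⟩ := k1d szD ok f hf so
  exact h.false hp hq hr a b c ij ik jk d1 d2 d3

end H4.Sq
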