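import Cfsg.Agent.H4.Factor

/-! Stellmacher's characteristic subgroup `W(S)` (`Cfsg.stableNormalClosure`), ambient form `wOf p S`:
basic properties, no quadratic action (`mem_centralizer_wOf`), normality in action-`p`-stable groups of
characteristic `p` (`wOf_normal`), and the normal `p`-complement theorem (`pnil_of_wOf`). -/

namespace H4

open Subgroup H26 Cfsg
open scoped commutatorElement MatrixGroups

universe u

variable {p : ℕ}

theorem exists_frattini_opMod {G : Type*} [Group G] [Finite G] [Fact p.Prime] {H S C : Subgroup G}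
    (hS : IsSyl p S H) (hn : H ≤ 𝐍 C) {g : G} (hg : g ∈ H) :
    ∃ n ∈ 𝐍 (S ⊓ opMod p H C), ∃ c ∈ C, g = n * c := by
  have h := hS.inf_of_normal (le_normalizer_opMod p H C) (opMod_le p H C)
  obtain ⟨d, hd, h1⟩ := h.frattini_mem (le_normalizer_opMod p H C (inv_mem hg))
  rw [← h.pResidualOf_sup, sup_comm] at hd
  obtain ⟨t, ht, c, hc, rfl⟩ := (mem_sup_of_le_normalizer (h.le.trans (le_normalizer_pResidualOf p _))).1 hd
  exact ⟨_, mul_mem (inv_mem h1) (le_normalizer ht), c, pResidualOf_opMod_le hn hc, by group⟩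

section
variable {S S' H : Type u} [Group S] [Group S'] [Group H]

theorem omegaOne_le_snc : omegaOne p (center S) ≤ stableNormalClosure p S := le_sInf fun _ h => h.1

theorem snc_le {W : Subgroup S} (h1 : omegaOne p (center S) ≤ W)
    (h2 : ∀ (H : Type u) [Group H] (τ : S →* H), IsStableEmbedding p τ → (W.map τ).Normal) :
    stableNormalClosure p S ≤ W := sInf_le ⟨h1, h2⟩

theorem omegaCenterThompson_map_normal {τ : S →* H} (h : IsStableEmbedding p τ) :
    ((omegaCenterThompson p S).map τ).Normal := by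
  have := h.2.2.2.2.1
  rw [map_thompsonSubgroup h.1] at this
  rw [map_omegaCenterThompson h.1]
  exact normal_of_top_le_normalizer (le_normalizer_omegaOne ((normalizer_eq_top _).ge.trans
    (normalizer_thompsonOf_le p _)))

theorem snc_le_omegaCenterThompson [Finite S] : stableNormalClosure p S ≤ omegaCenterThompson p S := by
  refine snc_le ?_ fun _ _ _ h => omegaCenterThompson_map_normal h
  rw [omegaCenterThompson_eq, ← centralizer_top', ← top_inf_eq (𝐂 _)]
  exact le_omegaOne (fun a ha => ((mem_omegaOne_iff (center_le_centralizer_center _)).1 ha).2)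
    (omegaOne_center_le_centerThompsonOf p ⊤)

theorem snc_map_normal [Finite S] {τ : S →* H} (h : IsStableEmbedding p τ) :
    ((stableNormalClosure p S).map τ).Normal := by
  refine ⟨?_⟩
  rintro _ ⟨x, hx, rfl⟩ g
  obtain ⟨y, -, e⟩ := (omegaCenterThompson_map_normal h).conj_mem _
    (mem_map_of_mem τ (snc_le_omegaCenterThompson hx)) g
  refine ⟨y, mem_sInf.2 fun W hW => ?_, e⟩
  obtain ⟨z, hz, e'⟩ := (hW.2 H τ h).conj_mem _ (mem_map_of_mem τ (mem_sInf.1 hx W hW)) g
  rwa [← h.1 (e'.trans e.symm)]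

theorem isStableEmbedding_comp {τ : S' →* H} (h : IsStableEmbedding p τ) (η : S ≃* S') :
    IsStableEmbedding p (τ.comp η.toMonoidHom) := by
  have h1 : η.toMonoidHom.range = ⊤ := MonoidHom.range_eq_top.2 η.surjective
  obtain ⟨h2, h3, h4, h5, h6, h7⟩ := h
  refine ⟨h2.comp η.injective, h3, by rwa [MonoidHom.range_comp, h1, ← MonoidHom.range_eq_map], h5, ?_, ?_⟩
  · rwa [← map_map, map_thompsonSubgroup (f := η.toMonoidHom) η.injective, h1, thompsonOf_top]
  · rwa [← map_map, map_omegaCenterThompson (f := η.toMonoidHom) η.injective, h1, ← omegaCenterThompson_eq]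

theorem map_snc [Finite S] (η : S ≃* S') : (stableNormalClosure p S).map η.toMonoidHom = stableNormalClosure p S' := by
  have key : ∀ {S S' : Type u} [Group S] [Group S'] [Finite S] (η : S ≃* S'),
      stableNormalClosure p S' ≤ (stableNormalClosure p S).map η.toMonoidHom := fun {S S'} _ _ _ η => by
    refine snc_le ?_ fun H _ τ h => by rw [map_map]; exact snc_map_normal (isStableEmbedding_comp h η)
    refine le_trans (le_of_eq ?_) (map_mono omegaOne_le_snc)
    rw [map_omegaOne (f := η.toMonoidHom) η.injective, ← centralizer_top', ← centralizer_top', ← top_inf_eq (𝐂 ⊤),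
      ← top_inf_eq (𝐂 (⊤ : Subgroup S)), map_inf_centralizer (f := η.toMonoidHom) η.injective,
      map_top_of_surjective η.toMonoidHom η.surjective]
  have : Finite S' := Finite.of_equiv S η.toEquiv
  refine le_antisymm ((map_mono (key η.symm)).trans (le_of_eq ?_)) (key η)
  rw [map_map, show η.toMonoidHom.comp η.symm.toMonoidHom = MonoidHom.id _ from
    MonoidHom.ext η.apply_symm_apply, Subgroup.map_id]

instance snc_characteristic [Finite S] : (stableNormalClosure p S).Characteristic :=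
  characteristic_iff_map_eq.2 fun η => map_snc η

variable [hp : Fact p.Prime]

theorem snc_ne_bot [Finite S] (hS : IsPGroup p S) [Nontrivial S] : stableNormalClosure p S ≠ ⊥ := by
  refine ne_bot_of_le_ne_bot ?_ omegaOne_le_snc
  rw [← centralizer_top', ← top_inf_eq (𝐂 _)]
  exact omegaOne_center_ne_bot (hS.to_subgroup ⊤) top_ne_bot

theorem isCharPFunctor_snc : IsCharPFunctor.{u} p (stableNormalClosure p) :=
  ⟨fun _ _ _ h _ => snc_ne_bot h, fun _ _ _ _ _ _ φ => map_snc φ⟩

theorem mem_centralizer_snc [Finite S] {x : S}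
    (hq : ⁅⁅stableNormalClosure p S, zpowers x⁆, zpowers x⁆ = ⊥) : x ∈ 𝐂 (stableNormalClosure p S) := by
  set W := stableNormalClosure p S with hW
  let Q : Subgroup S := closure {y | ⁅⁅W, zpowers y⁆, zpowers y⁆ = ⊥}
  suffices h : W ≤ W ⊓ 𝐂 Q from le_centralizer_iff.1 (h.trans inf_le_right) (subset_closure hq)
  refine snc_le (le_inf omegaOne_le_snc ((omegaOne_le p _).trans (center_le_centralizer _))) fun H _ τ h => ?_
  have := snc_map_normal h
  obtain ⟨h1, h2, ⟨P, hP⟩, -, -, h3⟩ := h
  have h4 := isPStableOn_iff.1 (h3 (W.map τ) (map_mono snc_le_omegaCenterThompson))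
  have hn := (normalizer_eq_top (𝐂 (W.map τ))).ge
  have h5 := (isSyl_top P).inf_of_normal (le_normalizer_opMod p ⊤ (𝐂 (W.map τ))) le_top
  set T := (P : Subgroup H) ⊓ opMod p ⊤ (𝐂 (W.map τ)) with hT
  have h6 : Q.map τ = closure {a | a ∈ T ∧ ⁅⁅W.map τ, zpowers a⁆, zpowers a⁆ = ⊥} := by
    have h7 : ∀ y, ⁅⁅W.map τ, zpowers (τ y)⁆, zpowers (τ y)⁆ = ⊥ ↔ ⁅⁅W, zpowers y⁆, zpowers y⁆ = ⊥ := fun y => by
      rw [← MonoidHom.map_zpowers, ← map_commutator, ← map_commutator, map_eq_bot_iff_of_injective _ h1]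
    rw [MonoidHom.map_closure]
    congr 1
    ext a
    refine ⟨?_, fun ⟨h8, h9⟩ => ?_⟩
    · rintro ⟨y, hy, rfl⟩
      exact ⟨⟨hP.ge ⟨y, rfl⟩, h4 _ ((h7 y).2 hy)⟩, (h7 y).2 hy⟩
    · obtain ⟨y, rfl⟩ := hP.le h8.1
      exact ⟨y, (h7 y).1 h9, rfl⟩
  have h7 : 𝐍 T ≤ 𝐍 (Q.map τ) := by
    rw [h6]
    refine le_normalizer_iff_cj.2 fun g hg => ?_
    rw [MonoidHom.map_closure]
    refine closure_mono ?_
    rintro _ ⟨a, ⟨h8, h9⟩, rfl⟩
    refine ⟨conj_mem_of_mem_normalizer hg h8, ?_⟩
    change ⁅⁅_, zpowers (g * a * g⁻¹)⁆, zpowers (g * a * g⁻¹)⁆ = ⊥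
    rw [← cj_zpowers, ← cj_eq_of_normal g (W.map τ), ← cj_commutator, ← cj_commutator, h9, cj_bot]
  rw [map_inf_centralizer h1]
  have h8 := h7.trans (normalizer_le_normalizer_centralizer _)
  refine normal_of_top_le_normalizer ((h5.frattini le_top (le_normalizer_opMod p ⊤ _)).ge.trans (sup_le
    (h5.le_of_pResidualOf_le ((pResidualOf_opMod_le hn).trans ((centralizer_anti inf_le_left).trans
      (centralizer_le_normalizer _))) (le_normalizer_inf le_normalizer_of_normal (le_normalizer.trans h8)))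
    (le_normalizer_inf le_normalizer_of_normal (inf_le_right.trans h8))))

end

section
variable {G G' : Type u} [Group G] [Group G']

/-- `W(S)` inside the ambient group. -/
def wOf (p : ℕ) (S : Subgroup G) : Subgroup G := (stableNormalClosure p S).map S.subtype

theorem wOf_le (p : ℕ) (S : Subgroup G) : wOf p S ≤ S := map_subtype_le _

theorem omegaOne_le_wOf (S : Subgroup G) : omegaOne p (S ⊓ 𝐂 S) ≤ wOf p S := by
  rw [← map_subtype_center, ← map_omegaOne S.subtype_injective]
  exact map_mono omegaOne_le_snc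

theorem wOf_le_omegaOne (S : Subgroup G) [Finite S] : wOf p S ≤ omegaOne p (centerThompsonOf p S) := by
  rw [← map_omegaCenterThompson_subtype]
  exact map_mono snc_le_omegaCenterThompson

theorem elemAb_wOf (S : Subgroup G) [Finite S] : IsElementaryAbelian p (wOf p S) :=
  elemAb_mono (elemAb_omegaOne (comm_le_centralizer (centerThompsonOf_comm p S))) (wOf_le_omegaOne S)

variable [hp : Fact p.Prime]

theorem map_wOf {S : Subgroup G} [Finite S] (hS : IsPGroup p S) (f : G →* G') (h : S ⊓ f.ker = ⊥) :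
    (wOf p S).map f = wOf p (S.map f) := H27.map_inducedFunctor' isCharPFunctor_snc hS f h

theorem normalizer_le_normalizer_wOf {S : Subgroup G} [Finite S] (hS : IsPGroup p S) : 𝐍 S ≤ 𝐍 (wOf p S) :=
  fun g hg => cj_eq_iff.1 ((H27.map_inducedFunctor isCharPFunctor_snc hS (conj_injective' g)).trans
    (by rw [cj_eq_iff.2 hg]; rfl))

theorem mem_centralizer_wOf {S : Subgroup G} [Finite S] {x : G} (hx : x ∈ S)
    (hq : ⁅⁅wOf p S, zpowers x⁆, zpowers x⁆ = ⊥) : x ∈ 𝐂 (wOf p S) := by
  refine (map_mem_centralizer_iff S.subtype_injective (y := ⟨x, hx⟩)).2 (mem_centralizer_snc ?_)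
  rw [← map_eq_bot_iff_of_injective _ S.subtype_injective, map_commutator, map_commutator, MonoidHom.map_zpowers]
  exact hq

variable [Finite G]

omit hp in
theorem le_normalizer_wOf {S H : Subgroup G} (hS : IsSyl p S H) (hc : CharPOf p H)
    (hJ : H ≤ 𝐍 (thompsonSubgroupOf p S))
    (h : ∀ (V : Subgroup H) [V.Normal], V.map H.subtype ≤ omegaOne p (centerThompsonOf p S) → IsPStableOn p V) :
    H ≤ 𝐍 (wOf p S) := by
  have e : H.subtype.comp (inclusion hS.le) = S.subtype := rfl
  have h1 := snc_map_normal (p := p) (τ := inclusion hS.le) ⟨inclusion_injective _, inferInstance,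
    ⟨hS.sylow, (inclusion_range _).symm⟩, charPOf_iff.1 hc, by
      rwa [normal_iff_le_normalizer_map_subtype, map_map, e], fun V _ hV => h V (by
        rw [← map_omegaCenterThompson_subtype, ← e, ← map_map]
        exact map_mono hV)⟩
  rwa [normal_iff_le_normalizer_map_subtype, map_map, e] at h1

theorem omegaOne_centerThompsonOf_le_pCore (hst : IsActionPStable p G) (hc : 𝐂 (pCore p G) ≤ pCore p G)
    {S : Subgroup G} (hS : IsSyl p S ⊤) : omegaOne p (centerThompsonOf p S) ≤ pCore p G := by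
  intro a ha
  have hO := isPGroup_pCore p G
  have h1 := hst.2.1
  have h2 : pCore p G ≤ 𝐍 (centerThompsonOf p S) :=
    (pCoreOf_top p G ▸ hS.pCoreOf_le).trans (le_normalizer_centerThompsonOf p S)
  have h3 := zpowers_le.2 (omegaOne_le p _ ha)
  have h4 := isPStableOn_iff.1 (isPStableOnSection_iff.1 h1) (QuotientGroup.mk' _ a) (by
    rw [← MonoidHom.map_zpowers, ← map_commutator, ← map_commutator, commutator_eq_bot_iff'.2 (h3.trans
      ((comm_le_centralizer (centerThompsonOf_comm p S)).trans (centralizer_anti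
        ((commutator_mono le_rfl h3).trans (commutator_le_of_le_normalizer' h2))))), Subgroup.map_bot])
  have h5 := mem_opMod_of_map_phi (H := ⊤) hO le_normalizer_of_normal
    (QuotientGroup.mk' ((frattini (pCore p G)).map (pCore p G).subtype)) (by
    rw [QuotientGroup.ker_mk', phi_eq_frattini hO]; exact inf_le_right) (mem_top a) (by rwa [map_mk'_top])
  rwa [opMod_eq_pCoreOf le_normalizer_of_normal (hO.to_le (inf_le_right.trans hc)), pCoreOf_top] at h5

/-- Stellmacher's analogue of the ZJ-theorem. -/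
theorem wOf_normal (hst : IsActionPStable p G) (hc : 𝐂 (pCore p G) ≤ pCore p G) {S : Subgroup G}
    (hS : IsSyl p S ⊤) : (wOf p S).Normal := by
  set W := wOf p S with hW
  have hOS : pCore p G ≤ S := pCoreOf_top p G ▸ hS.pCoreOf_le
  have h1 : W ≤ pCore p G := (wOf_le_omegaOne S).trans (omegaOne_centerThompsonOf_le_pCore hst hc hS)
  have h2 : ∀ g, cj g W ≤ pCore p G := fun g => cj_le_of_mem_normalizer h1 (le_normalizer_of_normal (mem_top g))
  have h3 : ∀ g, pCore p G ≤ 𝐍 (cj g W) := fun g => by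
    rw [← cj_normalizer, le_cj_iff, cj_eq_of_normal]
    exact hOS.trans (le_normalizer.trans (normalizer_le_normalizer_wOf hS.isP))
  have h4 : ∀ g, cj g W ≤ 𝐂 W := fun g x hx => mem_centralizer_wOf (hOS (h2 g hx)) (commutator_eq_bot_iff'.2
    ((zpowers_le.2 hx).trans ((elemAb_le_centralizer (elemAb_cj (elemAb_wOf S) g)).trans (centralizer_anti
      ((commutator_mono le_rfl (zpowers_le.2 hx)).trans (commutator_le_of_le_normalizer' (h1.trans (h3 g))))))))
  have hV : IsElementaryAbelian p (ncl W ⊤) := elemAb_iSup (fun g => elemAb_cj (elemAb_wOf S) g) fun g k => by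
    rw [← cj_centralizer, le_cj_iff, ← cj_mul]
    exact h4 _
  have hVS : ncl W ⊤ ≤ S := (ncl_le h1 le_normalizer_of_normal).trans hOS
  have hJW : thompsonSubgroupOf p S ≤ 𝐂 W :=
    le_centralizer_iff.1 ((wOf_le_omegaOne S).trans ((omegaOne_le p _).trans inf_le_right))
  have hn := (normalizer_eq_top (𝐂 (ncl W ⊤))).ge
  have hJ : thompsonSubgroupOf p S ≤ 𝐂 (ncl W ⊤) := thompsonOf_le_iff.2 fun A hA => by_contra fun h => by
    obtain ⟨B, hB, -, h5, h6⟩ := MaxEA.exists_quadratic hA hS.isP hVS hV le_normalizer_of_normal h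
    set T := S ⊓ opMod p ⊤ (𝐂 (ncl W ⊤)) with hT
    have h8 : B ≤ T := le_inf hB.1 (le_opMod_of_isPStableOn (hst.1 _ hV) h5)
    have h9 : W ≤ 𝐂 (thompsonSubgroupOf p T) :=
      le_centralizer_iff.1 ((thompsonOf_mono_of_exists hB h8 inf_le_left).trans hJW)
    refine h6 ((MaxEA.le_thompsonOf (MaxEA.of_le hB h8 inf_le_left)).trans (le_centralizer_iff.1
      (ncl_le_iff.2 fun g _ => ?_)))
    obtain ⟨n, hn, c, hc, rfl⟩ := exists_frattini_opMod hS hn (mem_top g)
    rw [cj_mul, cj_eq_of_mem_centralizer (centralizer_anti (le_ncl W ⊤) hc)]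
    exact cj_le_of_mem_normalizer h9
      (normalizer_le_normalizer_centralizer _ (normalizer_le_normalizer_thompsonOf p _ hn))
  obtain h5 : 𝐍 (thompsonSubgroupOf p S) ≤ 𝐍 W := le_normalizer_wOf (hS.mono (le_normalizer_thompsonOf p S) le_top)
    ((charPOf_top.2 hc).of_le le_top (hS.pCoreOf_le.trans (le_normalizer_thompsonOf p S))) le_rfl fun V hn hV =>
      @hst.2.2 hS.toSylow V hn (by rwa [map_omegaCenterThompson_subtype])
  refine normal_of_top_le_normalizer fun g hg => ?_
  obtain ⟨c, hc, h6⟩ := exists_mul_mem_normalizer_thompsonOf hS hn hJ hg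
  exact (mul_mem_cancel_left (centralizer_le_normalizer _ (centralizer_anti (le_ncl W ⊤) hc.2))).1 (h5 h6)

/-- Action `p`-stability when no subgroup lies properly between a Sylow subgroup and the group. -/
theorem isPStableOn_of_max {G : Type*} [Group G] [Finite G] (hp2 : p ≠ 2) {S P : Subgroup G} [P.Normal]
    (hS : IsSyl p S ⊤) (hM : ∀ H, S < H → H = ⊤) (hP : IsPGroup p P) : IsPStableOn p P := by
  by_cases h : S = ⊤
  · exact isPStableOn_iff.2 fun a _ => pCoreOf_le_opMod _ _ (by rw [pCoreOf_eq_self (h ▸ hS.isP)]; trivial)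
  · exact isPStableOn_of_isCoatom hp2 hS ⟨h, hM⟩ hP

theorem isActionPStable_of_isCoatom {G : Type*} [Group G] [Finite G] (hp2 : p ≠ 2) {S : Subgroup G}
    (hS : IsSyl p S ⊤) (hM : IsCoatom S) : IsActionPStable p G := by
  refine ⟨fun V _ hV => isPStableOn_of_isCoatom hp2 hS hM (elemAb_isPGroup hV), isPStableOnSection_iff.2
    (isPStableOn_of_max hp2 (H27.isSyl_map_mk' hS _) (fun H h => ?_) ((isPGroup_pCore p G).map _)),
      fun T V _ hV => isPStableOn_of_max hp2 (isSyl_top ((isSyl_top T).mono (le_normalizer_thompsonOf p _)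
        le_top).sylow) (fun H h => ?_) ((isPGroup_map_iff (subtype_injective _)).1
          (T.isPGroup'.to_le (hV.trans (map_subtype_le _))))⟩
  · have hs := QuotientGroup.mk'_surjective ((frattini (pCore p G)).map (pCore p G).subtype)
    rw [← map_comap_eq_self_of_surjective hs H, hM.2 (H.comap _) (lt_of_le_of_ne (map_le_iff_le_comap.1 h.le)
      fun e => h.ne (by rw [e, map_comap_eq_self_of_surjective hs])), map_mk'_top]
  · obtain ⟨g, -, e⟩ := hS.exists_cj_eq (isSyl_top T)
    have h1 := (map_lt_map_iff_of_injective (subtype_injective _)).2 h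
    rw [IsSyl.map_sylow, ← cj_lt_cj_iff (g := g⁻¹)] at h1
    exact eq_top_iff.2 ((map_le_map_iff_of_injective (subtype_injective _)).1
      (le_top.trans (cj_eq_top_iff.1 (hM.2 _ ((cj_eq_iff_eq_cj.1 e).trans_lt h1))).ge))

theorem pPrimeCore_sup_normalizer_wOf {S : Subgroup G} (hS : IsSyl p S ⊤) (hc : IsPConstrained p G)
    (hst : IsActionPStable p (G ⧸ pPrimeCore p G)) : pPrimeCore p G ⊔ 𝐍 (wOf p S) = ⊤ := by
  refine sup_normalizer_eq_top_of_map (hS.isP.to_le (wOf_le p S)) (H1.coprime_card_pPrimeCore p G) ?_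
  rw [map_wOf hS.isP _ (by rw [QuotientGroup.ker_mk']; exact inf_pPrimeCore_eq_bot hS.isP)]
  exact wOf_normal hst (charPOf_top.1 (isPConstrained_iff.1 hc)) (H27.isSyl_map_mk' hS _)

theorem pnil_of_wOf (hp2 : p ≠ 2) {S : Subgroup G} (hS : IsSyl p S ⊤) (h : HasNormalPComplement p (𝐍 (wOf p S))) :
    HasNormalPComplement p G :=
  H27.pnil_of_sections isCharPFunctor_snc (fun _ _ _ hC _ T hT =>
    wOf_normal (isActionPStable_of_isCoatom hp2 (isSyl_top T) hT) hC (isSyl_top T)) S hS h

end

end H4
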